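/-
helper38: the centraliser of the root element `x_r(1)` of the highest root `r` in the Chevalley groups of
types E6, E7, E8 (any field): generated by `U` and the root subgroups of the negative fundamental roots
orthogonal to `r`.
-/
import Cfsg.Agent.Helper38.ChevCentTab
import Cfsg.Agent.Helper38.ChevHighTab
import Cfsg.Agent.Helper36.ChevRelAll

set_option autoImplicit false

namespace Cfsg.Agent.Helper38

open Cfsg Cfsg.Lie Cfsg.Agent.Helper36 Cfsg.Agent.Helper17

variable {F : Type*} [Field F]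

theorem chCent_E6 (t : GL chevE6.Idx F)
    (ht : (t : Matrix chevE6.Idx chevE6.Idx F) = chevE6.x F (chevE6.nroots - 1) 1) :
    chevE6.group F ⊓ Subgroup.centralizer {t} =
      chevE6.posUnipotent F ⊔ Subgroup.closure {g : GL chevE6.Idx F | ∃ s ∈ [15, 29, 32, 34, 35],
        ∃ c : F, (g : Matrix chevE6.Idx chevE6.Idx F) = chevE6.x F s c} := by
  have hD7 : chevE6 ∈ [chevG2, chevB2, chevD4, chevF4, chevE6, chevE7, chevE8] := by simp
  exact chCent_main [15, 29, 32, 34, 35] (bRel_of_mem (F := F) hD7)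
    (wtFacts_of_wtOK chainPackOK_E6 wtOK_E6) (by decide) cReflOK_E6 topFn_E6
    (chHigh_good_of_mem (by simp)) (hDiag_of_mem hD7) (torusFacts_of_mem hD7) simpleOK_E6
    chCentJ1_E6 chCentJ2_E6 1 (by decide) chCentJ3_E6 t ht

theorem chCent_E7 (t : GL chevE7.Idx F)
    (ht : (t : Matrix chevE7.Idx chevE7.Idx F) = chevE7.x F (chevE7.nroots - 1) 1) :
    chevE7.group F ⊓ Subgroup.centralizer {t} =
      chevE7.posUnipotent F ⊔ Subgroup.closure {g : GL chevE7.Idx F | ∃ s ∈ [47, 52, 56, 59, 61, 62],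
        ∃ c : F, (g : Matrix chevE7.Idx chevE7.Idx F) = chevE7.x F s c} := by
  have hD7 : chevE7 ∈ [chevG2, chevB2, chevD4, chevF4, chevE6, chevE7, chevE8] := by simp
  exact chCent_main [47, 52, 56, 59, 61, 62] (bRel_of_mem (F := F) hD7)
    (wtFacts_of_wtOK chainPackOK_E7 wtOK_E7) (by decide) cReflOK_E7 topFn_E7
    (chHigh_good_of_mem (by simp)) (hDiag_of_mem hD7) (torusFacts_of_mem hD7) simpleOK_E7
    chCentJ1_E7 chCentJ2_E7 0 (by decide) chCentJ3_E7 t ht

theorem chCent_E8 (t : GL chevE8.Idx F)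
    (ht : (t : Matrix chevE8.Idx chevE8.Idx F) = chevE8.x F (chevE8.nroots - 1) 1) :
    chevE8.group F ⊓ Subgroup.centralizer {t} =
      chevE8.posUnipotent F ⊔ Subgroup.closure {g : GL chevE8.Idx F |
        ∃ s ∈ [77, 98, 104, 109, 113, 116, 118],
        ∃ c : F, (g : Matrix chevE8.Idx chevE8.Idx F) = chevE8.x F s c} := by
  have hD7 : chevE8 ∈ [chevG2, chevB2, chevD4, chevF4, chevE6, chevE7, chevE8] := by simp
  exact chCent_main [77, 98, 104, 109, 113, 116, 118] (bRel_of_mem (F := F) hD7)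
    (wtFacts_of_wtOK chainPackOK_E8 wtOK_E8) (by decide) cReflOK_E8 topFn_E8
    (chHigh_good_of_mem (by simp)) (hDiag_of_mem hD7) (torusFacts_of_mem hD7) simpleOK_E8
    chCentJ1_E8 chCentJ2_E8 7 (by decide) chCentJ3_E8 t ht

end Cfsg.Agent.Helper38
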