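/-
helper38: type F4 in characteristic two, the centraliser of the involution `x_39(1) x_45(1)` (an orthogonal pair
of a short and a long root): it is generated by `X_33`, `X_14`, `X_24`, `X_23` and the root subgroups of the
positive roots other than `27`, `25`, `34`, `26`.
-/
import Cfsg.Agent.Helper38.ChevCentF4c

set_option autoImplicit false

namespace Cfsg.Agent.Helper38

open Cfsg Cfsg.Lie Cfsg.Agent.Helper36 Cfsg.Agent.Helper17

section F4

variable {F : Type*} [Field F] {η : ℕ → ℕ → ℤ}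

theorem chCent_F4_mixed2_aux [CharP F 2] (R : BRel chevF4 F η) (v : GL chevF4.Idx F)
    (hv : (v : Matrix chevF4.Idx chevF4.Idx F) = chevF4.x F 39 1 * chevF4.x F 45 1) :
    chevF4.group F ⊓ Subgroup.centralizer {v} = F4T F := by
  have hD7 : chevF4 ∈ [chevG2, chevB2, chevD4, chevF4, chevE6, chevE7, chevE8] := by simp
  have hW := wtFacts_of_wtOK chainPackOK_F4 wtOK_F4
  have hC := rootCoords_of_OK chainPackOK_F4 coordOK_F4
  have hDiag : HDiag chevF4 F := hDiag_of_mem hD7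
  have hE : RootElts chevF4 F := rootElts_of_mem hD7
  have hvx : v = xGL R.xadd 39 1 * xGL R.xadd 45 1 :=
    Units.ext (by rw [hv, Units.val_mul, xGL_val, xGL_val])
  have hle := chF4_T_le R (1 : F) 1
  rw [← hvx] at hle
  apply le_antisymm _ hle
  rintro g ⟨hgG, hgC⟩
  have hcomm' : v * g = g * v := Subgroup.mem_centralizer_iff.mp hgC v rfl
  obtain ⟨b₁, hb₁, n, hn, b₂, hb₂, rfl⟩ := R.bruhat g hgG
  obtain ⟨L₀, hL₀, h₀, hh₀, rfl⟩ := R.exists_word n hn
  obtain ⟨L, hL, hred, -, h', hh', heq⟩ := R.exists_red L₀ hL₀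
  rw [heq] at hcomm' ⊢
  have hPv : F4P R v := ⟨fun γ => if γ = 39 then 1 else if γ = 45 then 1 else 0, by simp, by simp, by
    rw [hvx, chF4_V_eq]
    simp [xGL_zero]⟩
  have hHB : chevF4.diagonalSubgroup F ≤ chevF4.borelSubgroup F := le_sup_right
  have hb : h' * h₀ * b₂ ∈ chevF4.borelSubgroup F := mul_mem (hHB (mul_mem hh' hh₀)) hb₂
  obtain ⟨c, hc39, hc45, hy⟩ := F4P_conj_B R hb hPv
  obtain ⟨c', hc'39, hc'45, hy'⟩ := F4P_conj_B R (inv_mem hb₁) hPv
  have key : R.nW L * chRootProd R gamF4 c * (R.nW L)⁻¹ = chRootProd R gamF4 c' := by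
    rw [← hy, ← hy']
    have h4 : (b₁ * (R.nW L * h' * h₀) * b₂) * v * (b₁ * (R.nW L * h' * h₀) * b₂)⁻¹ = v := by
      rw [← hcomm']; group
    calc R.nW L * (h' * h₀ * b₂ * v * (h' * h₀ * b₂)⁻¹) * (R.nW L)⁻¹
        = b₁⁻¹ * ((b₁ * (R.nW L * h' * h₀) * b₂) * v * (b₁ * (R.nW L * h' * h₀) * b₂)⁻¹) *
          b₁⁻¹⁻¹ := by group
      _ = b₁⁻¹ * v * b₁⁻¹⁻¹ := by rw [h4]
  have hbw := chLT_bruhat_word R hW hE gamF4 (by decide)
    (fun γ hγ => chPos_F4 γ (gam_sub_pos_F4 γ hγ))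
    (fun γ hγ γ' hγ' a b => chF4_comm R hγ hγ' a b) hL c c' key
  have h39' : ∀ x ∈ gamF4, 39 ≤ x := by decide
  have hrange : ∀ γ ∈ gamF4, c γ ≠ 0 →
      wW chevF4 L γ ∈ [39, 40, 41, 42, 43, 44, 45, 46, 47] := by
    intro γ hγ hcγ
    obtain ⟨hpos, γ', hγ', -, hle'⟩ := hbw γ hγ hcγ
    have h39 : 39 ≤ wW chevF4 L γ := by
      by_contra hlt
      rw [not_le] at hlt
      have h1 := hW.mono _ _ hlt (by decide : 39 < chevF4.nroots)
      have h2 : wt wtPackF4 39 ≤ wt wtPackF4 γ' :=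
        chLT_mono_le hW (h39' γ' hγ') (chPos_F4 γ' (gam_sub_pos_F4 γ' hγ')).1
      omega
    have h48 : wW chevF4 L γ < 48 := hpos.1
    simp only [List.mem_cons, List.not_mem_nil, or_false]
    omega
  have hex : ∀ (A B C E : ℤ) (ρ : ℕ) (S : List ℕ), ExclF4 A B C E ρ S →
      (∀ x ∈ [39, 40, 41, 42, 43, 44, 45, 46, 47], x = ρ ∨ x ∈ S) → (∀ γ ∈ gamF4, γ ∈ S) →
      ∀ γ ∈ gamF4, c γ ≠ 0 → wW chevF4 L γ ≠ ρ := by
    intro A B C E ρ S hS hcov hsub γ hγ hcγ hw
    exact hcγ (chLT_bruhat_excl R hW (fnF4_additive A B C E) hE gamF4 (by decide) (by decide) hL c c'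
      key S hS.1 hS.2.1 hS.2.2 (fun γ hγ hcγ => hcov _ (hrange γ hγ hcγ)) hsub γ hγ hw)
  have h41 := hex _ _ _ _ _ _ chExcl41_F4 (by decide) (by decide)
  have h42 := hex _ _ _ _ _ _ chExcl42_F4 (by decide) (by decide)
  have h43 := hex _ _ _ _ _ _ chExcl43_F4 (by decide) (by decide)
  have hgam : ∀ γ ∈ gamF4, c γ ≠ 0 → wW chevF4 L γ ∈ gamF4 := by
    intro γ hγ hcγ
    have h1 := hrange γ hγ hcγ
    have h2 := h41 γ hγ hcγ
    have h3 := h42 γ hγ hcγ
    have h4 := h43 γ hγ hcγ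
    simp only [List.mem_cons, List.not_mem_nil, or_false] at h1
    unfold gamF4
    simp only [List.mem_cons, List.not_mem_nil, or_false]
    omega
  have hfix := pairGam_F4 _ (hgam 39 (by decide) hc39) _ (hgam 45 (by decide) hc45)
    (orbFn2_F4.mem_wW R.wf (by decide) (by decide) L hL)
  have hlet := chLT_letters2 cReflOK_F4 R.wf orbFn2_F4 (by decide) (by decide) L hL hred hfix.1 hfix.2
  have hL03 : ∀ i ∈ L, i = 0 ∨ i = 3 := fun i hi => pairLet_F4 i (hL i hi) (hlet i hi)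
  -- the Levi decomposition of the parabolic subgroup of `{p_1, p_4}`
  have hP := Cfsg.Agent.Helper18.parabolicSubgroup_eq (F := F) chevF4 hD7 {0, 3}
  have hsup := unipotentRadical_sup_levi (D := chevF4) (F := F) {0, 3} hP
  have hnormP := parabolic_le_normalizer R hW hC {0, 3} hP
  have hxL : ∀ s ∈ [33, 14, 24, 23], ∀ a : F, xGL R.xadd s a ∈ chevF4.leviSubgroup F {0, 3} :=
    fun s hs a => le_sup_right (a := chevF4.diagonalSubgroup F)
      (Subgroup.subset_closure ⟨s, a, (chInRootSub_F4 s).mpr hs, xGL_val R.xadd s a⟩)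
  have hHL : chevF4.diagonalSubgroup F ≤ chevF4.leviSubgroup F {0, 3} := le_sup_left
  have hBle : chevF4.borelSubgroup F ≤
      chevF4.unipotentRadical F {0, 3} ⊔ chevF4.leviSubgroup F {0, 3} := by
    rw [hsup]
    exact le_sup_left
  have hnL : R.nW L ∈ chevF4.leviSubgroup F {0, 3} := chSep_nW_mem R _ L (fun i hi a => by
    rcases hL03 i hi with rfl | rfl
    · rw [chSimple_F4.1, chSimple_F4.2.1]
      exact ⟨hxL 33 (by simp) a, hxL 14 (by simp) a⟩
    · rw [chSimple_F4.2.2.1, chSimple_F4.2.2.2.1]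
      exact ⟨hxL 24 (by simp) a, hxL 23 (by simp) a⟩)
  have hg' : b₁ * (R.nW L * h' * h₀) * b₂ ∈
      chevF4.unipotentRadical F {0, 3} ⊔ chevF4.leviSubgroup F {0, 3} :=
    mul_mem (mul_mem (hBle hb₁) (le_sup_right (a := chevF4.unipotentRadical F {0, 3})
      (mul_mem (mul_mem hnL (hHL hh')) (hHL hh₀)))) (hBle hb₂)
  have hLP : chevF4.leviSubgroup F {0, 3} ≤ chevF4.parabolicSubgroup F {0, 3} := by
    rw [← hsup]
    exact le_sup_right
  obtain ⟨u, hu, l, hl, hgeq⟩ := chCent_sup_decomp _ _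
    (fun l hl p hp => (Subgroup.mem_normalizer_iff.mp (hnormP (hLP hl)) p).mp hp) _ hg'
  rw [hgeq] at hcomm'
  -- the Levi factor
  have hK_T : Subgroup.closure {g : GL chevF4.Idx F | ∃ (r : ℕ) (a : F), chevF4.InRootSub {0, 3} r ∧
      (g : Matrix chevF4.Idx chevF4.Idx F) = chevF4.x F r a} ≤ F4T F := by
    rw [Subgroup.closure_le]
    rintro g ⟨r, a, hr, hg⟩
    rw [SetLike.mem_coe, eq_xGL R.xadd hg]
    exact chF4_T_mem R (Or.inl ((chInRootSub_F4 r).mp hr)) a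
  have hnormK : ∀ h ∈ chevF4.diagonalSubgroup F,
      ∀ k ∈ Subgroup.closure {g : GL chevF4.Idx F | ∃ (r : ℕ) (a : F), chevF4.InRootSub {0, 3} r ∧
        (g : Matrix chevF4.Idx chevF4.Idx F) = chevF4.x F r a},
      h * k * h⁻¹ ∈ Subgroup.closure {g : GL chevF4.Idx F | ∃ (r : ℕ) (a : F),
        chevF4.InRootSub {0, 3} r ∧ (g : Matrix chevF4.Idx chevF4.Idx F) = chevF4.x F r a} := by
    intro h hh k hk
    have h4 : h ∈ Subgroup.normalizer ((Subgroup.closure {g : GL chevF4.Idx F | ∃ (r : ℕ) (a : F),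
        chevF4.InRootSub {0, 3} r ∧ (g : Matrix chevF4.Idx chevF4.Idx F) = chevF4.x F r a} :
        Subgroup (GL chevF4.Idx F)) : Set (GL chevF4.Idx F)) := by
      apply mem_normalizer_closure
      · rintro x ⟨r, a, hr, hx⟩
        obtain ⟨χ', hχ'⟩ := R.hx h hh r hr.1
        rw [eq_xGL R.xadd hx, hχ']
        exact Subgroup.subset_closure ⟨r, χ' * a, hr, xGL_val R.xadd r _⟩
      · rintro x ⟨r, a, hr, hx⟩
        obtain ⟨χ', hχ'⟩ := R.hx h⁻¹ (inv_mem hh) r hr.1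
        have h5 := hχ' a
        rw [inv_inv] at h5
        rw [eq_xGL R.xadd hx, h5]
        exact Subgroup.subset_closure ⟨r, χ' * a, hr, xGL_val R.xadd r _⟩
    exact (Subgroup.mem_normalizer_iff.mp h4 k).mp hk
  have hl' : l ∈ Subgroup.closure {g : GL chevF4.Idx F | ∃ (r : ℕ) (a : F), chevF4.InRootSub {0, 3} r ∧
      (g : Matrix chevF4.Idx chevF4.Idx F) = chevF4.x F r a} ⊔ chevF4.diagonalSubgroup F := by
    unfold ChevalleyDatum.leviSubgroup at hl
    rw [sup_comm] at hl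
    exact hl
  obtain ⟨k, hk, hd, hhd, hleq⟩ := chCent_sup_decomp _ _ hnormK l hl'
  have hkT := hK_T hk
  obtain ⟨χ1, hχ1⟩ := R.hx hd hhd 39 (by decide)
  obtain ⟨χ2, hχ2⟩ := R.hx hd hhd 45 (by decide)
  have hdv : hd * v * hd⁻¹ = xGL R.xadd 39 χ1 * xGL R.xadd 45 χ2 := by
    rw [hvx]
    have e : hd * (xGL R.xadd 39 1 * xGL R.xadd 45 1) * hd⁻¹ =
        (hd * xGL R.xadd 39 1 * hd⁻¹) * (hd * xGL R.xadd 45 1 * hd⁻¹) := by group
    rw [e, hχ1, hχ2, mul_one, mul_one]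
  have hkv : k * (xGL R.xadd 39 χ1 * xGL R.xadd 45 χ2) * k⁻¹ =
      xGL R.xadd 39 χ1 * xGL R.xadd 45 χ2 := by
    have h2 := Subgroup.mem_centralizer_iff.mp (chF4_T_le R χ1 χ2 hkT).2 _ rfl
    rw [← h2]
    group
  have huv : u * (xGL R.xadd 39 χ1 * xGL R.xadd 45 χ2) * u⁻¹ = v := by
    have h4 : (u * l) * v * (u * l)⁻¹ = v := by rw [← hcomm']; group
    rw [hleq] at h4
    calc u * (xGL R.xadd 39 χ1 * xGL R.xadd 45 χ2) * u⁻¹
        = u * (k * (hd * v * hd⁻¹) * k⁻¹) * u⁻¹ := by rw [hdv, hkv]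
      _ = (u * (k * hd)) * v * (u * (k * hd))⁻¹ := by group
      _ = v := h4
  -- the unipotent factor
  have hUJU : chevF4.unipotentRadical F {0, 3} ≤ chevF4.posUnipotent F := by
    unfold ChevalleyDatum.unipotentRadical ChevalleyDatum.posUnipotent
    apply Subgroup.closure_mono
    rintro g ⟨r, a, hr, -, hg⟩
    exact ⟨r, a, hr, hg⟩
  obtain ⟨τ, ⟨-, hτ⟩, -⟩ := (posUnipotent_unique_product_of_mem hD7
    (fun r s hr hs h1 h2 => R.cf r hr s hs h1 h2)).1 u (hUJU hu)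
  have hu_eq : u = wordGL R.xadd (posF4.map fun r => (r, τ r)) := by
    apply Units.ext
    rw [hτ, chPosRoots_F4, wordGL_val]
  have hvχ : xGL R.xadd 39 χ1 * xGL R.xadd 45 χ2 = chRootProd R gamF4 (c6F4 χ1 0 0 χ2 0 0) := by
    rw [chF4_V_eq]
    simp [c6F4, xGL_zero]
  have hv1 : v = chRootProd R gamF4 (c6F4 1 0 0 1 0 0) := by
    rw [hvx, chF4_V_eq]
    simp [c6F4, xGL_zero]
  have hsplit : posF4.map (fun r => (r, τ r)) =
      [(24, τ 24), (25, τ 25), (26, τ 26), (27, τ 27)] ++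
        ([28, 29, 30, 31, 32].map fun r => (r, τ r)) ++ [(33, τ 33), (34, τ 34)] ++
        ([35, 36, 37, 38, 39, 40, 41, 42, 43, 44, 45, 46, 47].map fun r => (r, τ r)) := rfl
  obtain ⟨W₁, hW₁⟩ : ∃ W₁, W₁ = wordGL R.xadd ([28, 29, 30, 31, 32].map fun r => (r, τ r)) :=
    ⟨_, rfl⟩
  obtain ⟨W₂, hW₂⟩ : ∃ W₂, W₂ = wordGL R.xadd
    ([35, 36, 37, 38, 39, 40, 41, 42, 43, 44, 45, 46, 47].map fun r => (r, τ r)) := ⟨_, rfl⟩
  have hu_eq' : u = xGL R.xadd 24 (τ 24) * (xGL R.xadd 25 (τ 25) * (xGL R.xadd 26 (τ 26) *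
      (xGL R.xadd 27 (τ 27) * (W₁ * (xGL R.xadd 33 (τ 33) * (xGL R.xadd 34 (τ 34) * W₂)))))) := by
    rw [hu_eq, hsplit, wordGL_append, wordGL_append, wordGL_append, ← hW₁, ← hW₂]
    simp only [wordGL_cons, wordGL_nil, mul_one, mul_assoc]
  have hfixl : ∀ r ∈ [28, 29, 30, 31, 32] ++ [35, 36, 37, 38, 39, 40, 41, 42, 43, 44, 45, 46, 47],
      r ∈ posF4 ∧ r ∉ [24, 25, 26, 27, 33, 34] := by decide
  have hW₁fix : ∀ c : ℕ → F, W₁ * chRootProd R gamF4 c * W₁⁻¹ = chRootProd R gamF4 c := by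
    intro c
    rw [hW₁]
    apply chLT_word_conj_fix
    intro p hp
    rw [List.mem_map] at hp
    obtain ⟨r, hr, rfl⟩ := hp
    exact chF4_fix_V R (hfixl r (List.mem_append_left _ hr)).1 (hfixl r (List.mem_append_left _ hr)).2 _ c
  have hW₂fix : ∀ c : ℕ → F, W₂ * chRootProd R gamF4 c * W₂⁻¹ = chRootProd R gamF4 c := by
    intro c
    rw [hW₂]
    apply chLT_word_conj_fix
    intro p hp
    rw [List.mem_map] at hp
    obtain ⟨r, hr, rfl⟩ := hp
    exact chF4_fix_V R (hfixl r (List.mem_append_right _ hr)).1 (hfixl r (List.mem_append_right _ hr)).2 _ c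
  have econj : ∀ a b c₁ d W e f W' y : GL chevF4.Idx F,
      (a * (b * (c₁ * (d * (W * (e * (f * W'))))))) * y * (a * (b * (c₁ * (d * (W * (e * (f * W')))))))⁻¹ =
        a * (b * (c₁ * (d * (W * (e * (f * (W' * y * W'⁻¹) * f⁻¹) * e⁻¹) * W⁻¹) * d⁻¹) * c₁⁻¹) * b⁻¹) *
          a⁻¹ := by
    intros
    group
  rw [hvχ, hv1, hu_eq', econj, hW₂fix, chF4_c6_34 R, chF4_c6_33 R, hW₁fix, chF4_c6_27 R, chF4_c6_26 R,
    chF4_c6_25 R, chF4_c6_24 R] at huv
  have huniq := chF4_V_unique R huv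
  have e39 := huniq 39 (by decide)
  have e40 := huniq 40 (by decide)
  have e44 := huniq 44 (by decide)
  have e45 := huniq 45 (by decide)
  have e46 := huniq 46 (by decide)
  have e47 := huniq 47 (by decide)
  rw [c6F4_39, c6F4_39] at e39
  rw [c6F4_40, c6F4_40] at e40
  rw [c6F4_44, c6F4_44] at e44
  rw [c6F4_45, c6F4_45] at e45
  rw [c6F4_46, c6F4_46] at e46
  rw [c6F4_47, c6F4_47] at e47
  have h27 : τ 27 = 0 := by
    rw [e39] at e40
    linear_combination e40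
  have h34 : τ 34 = 0 := by
    rw [e39] at e44
    linear_combination e44
  have h25 : τ 25 = 0 := by
    rw [e45] at e46
    linear_combination e46
  have h26 : τ 26 = 0 := by
    rw [e45, h25] at e47
    linear_combination e47
  have hχ1' : χ1 = 1 := e39
  have hχ2' : χ2 = 1 := e45
  have huT : u ∈ F4T F := by
    rw [hu_eq]
    apply wordGL_mem
    intro p hp
    rw [List.mem_map] at hp
    obtain ⟨r, hr, rfl⟩ := hp
    by_cases hr4 : r ∈ [27, 25, 34, 26]
    · have h0 : τ r = 0 := by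
        simp only [List.mem_cons, List.not_mem_nil, or_false] at hr4
        rcases hr4 with rfl | rfl | rfl | rfl
        · exact h27
        · exact h25
        · exact h34
        · exact h26
      show xGL R.xadd r (τ r) ∈ F4T F
      rw [h0, xGL_zero]
      exact one_mem _
    · exact chF4_T_mem R (Or.inr ⟨hr, hr4⟩) _
  have hdT : hd ∈ F4T F := by
    refine chLT_torus (F4T F) R hDiag (torusFacts_of_mem hD7) simpleOK_F4 [39, 45] (by decide) ?_ hhd ?_
    · intro z hz i hi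
      have h1 := hz 39 (by simp)
      have h2 := hz 45 (by simp)
      rw [chChar39_F4] at h1
      rw [chChar45_F4] at h2
      have h12 : z 1 = z 2 := inv_mul_eq_one.mp h1
      have hz1 : z 1 = 1 := by
        rw [← h12] at h2
        have e : z 1 ^ (2 : ℤ) * (z 1)⁻¹ = z 1 := by
          rw [zpow_two]
          group
        rw [e] at h2
        exact h2
      have hr4 : chevF4.rank = 4 := by decide
      rw [hr4] at hi
      have h4 : i = 0 ∨ i = 1 ∨ i = 2 ∨ i = 3 := by omega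
      rcases h4 with rfl | rfl | rfl | rfl
      · right
        intro a
        rw [chSimple_F4.1, chSimple_F4.2.1]
        exact ⟨chF4_T_mem R (Or.inl (by simp)) a, chF4_T_mem R (Or.inl (by simp)) a⟩
      · left
        exact hz1
      · left
        rw [← h12]
        exact hz1
      · right
        intro a
        rw [chSimple_F4.2.2.1, chSimple_F4.2.2.2.1]
        exact ⟨chF4_T_mem R (Or.inl (by simp)) a, chF4_T_mem R (Or.inl (by simp)) a⟩
    · intro r hr
      simp only [List.mem_cons, List.not_mem_nil, or_false] at hr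
      rcases hr with rfl | rfl
      · rw [hχ1, hχ1', mul_one]
      · rw [hχ2, hχ2', mul_one]
  rw [hgeq, hleq]
  exact mul_mem huT (mul_mem hkT hdT)

/-- The centraliser of `x_39(1) x_45(1)` in the Chevalley group of type F4 in characteristic two. -/
theorem chCent_F4_mixed2 [CharP F 2] (v : GL chevF4.Idx F)
    (hv : (v : Matrix chevF4.Idx chevF4.Idx F) = chevF4.x F 39 1 * chevF4.x F 45 1) :
    chevF4.group F ⊓ Subgroup.centralizer {v} =
      chevF4.rootSubgroup F 33 ⊔ chevF4.rootSubgroup F 14 ⊔ chevF4.rootSubgroup F 24 ⊔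
        chevF4.rootSubgroup F 23 ⊔
        Subgroup.closure {g : GL chevF4.Idx F | ∃ (r : ℕ) (c : F), chevF4.IsPosRoot r ∧
          r ∉ [27, 25, 34, 26] ∧ (g : Matrix chevF4.Idx chevF4.Idx F) = chevF4.x F r c} :=
  chCent_F4_mixed2_aux (bRel_of_mem (F := F) (by simp)) v hv

end F4

end Cfsg.Agent.Helper38
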