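/-
helper38: type G2, the centralisers of root elements.  `chCent_G2_long`: the centraliser of the long root
element `x_11(1)` is `⟨U, X_{-a}⟩` (any field).  `chCent_G2_short`: when `3 ≠ 0`, the centraliser of the short
root element `x_9(1)` is `X_9 X_10 X_11 ⟨X_b, X_{-b}⟩`: Bruhat decomposition, the Borel subgroup acts on
`V = X_9 X_10 X_11` preserving the elements off `X_10 X_11`, separation of the sectors of the Weyl group orbit of
`(2a+b, 3a+b, 3a+2b)` by linear functionals, and the Levi decomposition of the parabolic subgroup of `b`.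
-/
import Cfsg.Agent.Helper38.ChevCentG2
import Cfsg.Agent.Helper17.ChevLevi
import Cfsg.Agent.Helper17.ChevUniMem
import Cfsg.Agent.Helper18.NPara

set_option autoImplicit false

namespace Cfsg.Agent.Helper38

open Cfsg Cfsg.Lie Cfsg.Agent.Helper36 Cfsg.Agent.Helper17

section G2

variable {F : Type*} [Field F] {η : ℕ → ℕ → ℤ}

theorem chG2_fix (R : BRel chevG2 F η) {q s : ℕ}
    (h : (q, s) ∈ [(9, 10), (9, 11), (10, 9), (10, 11), (11, 9), (11, 10), (6, 9), (6, 11), (7, 10),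
      (7, 11), (8, 10), (8, 11), (5, 9), (5, 10), (10, 5)]) (u c : F) :
    xGL R.xadd q u * xGL R.xadd s c * (xGL R.xadd q u)⁻¹ = xGL R.xadd s c := by
  obtain ⟨h1, h2, h3, h4, h5⟩ := chFix_G2 (q, s) h
  exact chSep_conj_fix R h1 h2 (Or.inr ⟨h3, h4, h5⟩) u c

theorem chG2_comm (R : BRel chevG2 F η) {q s : ℕ}
    (h : (q, s) ∈ [(9, 10), (9, 11), (10, 9), (10, 11), (11, 9), (11, 10), (6, 9), (6, 11), (7, 10),
      (7, 11), (8, 10), (8, 11), (5, 9), (5, 10), (10, 5)]) (u c : F) :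
    xGL R.xadd s c * xGL R.xadd q u = xGL R.xadd q u * xGL R.xadd s c :=
  chCent_comm_of_conj (chG2_fix R h u c)

/-- Uniqueness of the expression of the elements of `V = X_9 X_10 X_11`. -/
theorem chG2_V_unique (R : BRel chevG2 F η) {c d1 d2 : F}
    (h : xGL R.xadd 9 c * xGL R.xadd 10 d1 * xGL R.xadd 11 d2 = 1) : c = 0 ∧ d1 = 0 ∧ d2 = 0 := by
  have hW := wtFacts_of_wtOK chainPackOK_G2 wtOK_G2
  have e1 : xGL R.xadd 10 d1 = xGL R.xadd 9 (-c) * xGL R.xadd 11 (-d2) := by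
    rw [← xGL_inv, ← xGL_inv]
    calc xGL R.xadd 10 d1
        = (xGL R.xadd 9 c)⁻¹ * (xGL R.xadd 9 c * xGL R.xadd 10 d1 * xGL R.xadd 11 d2) *
          (xGL R.xadd 11 d2)⁻¹ := by group
      _ = (xGL R.xadd 9 c)⁻¹ * (xGL R.xadd 11 d2)⁻¹ := by rw [h]; group
  have s1 := chSep_main hW (fnG2_additive (-3) 7) R.xadd [(10, d1)] [(9, -c), (11, -d2)]
    sgnG2_e.2 sgnG2_e.1 (by simp only [wordGL_cons, wordGL_nil, mul_one]; exact e1)
  simp only [wordGL_cons, wordGL_nil, mul_one] at s1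
  have hd1 : d1 = 0 := by
    rw [s1] at e1
    have h2 := congrArg Units.val e1
    rw [xGL_val, Units.val_one] at h2
    exact R.xinj 10 (by decide) d1 h2
  have e2 : xGL R.xadd 11 d2 = xGL R.xadd 9 (-c) := by
    calc xGL R.xadd 11 d2 = (xGL R.xadd 9 (-c) * xGL R.xadd 11 (-d2)) * (xGL R.xadd 11 (-d2))⁻¹ := by
          rw [s1, one_mul, xGL_inv, neg_neg]
      _ = xGL R.xadd 9 (-c) := by group
  have s2 := chSep_main hW (fnG2_additive 3 (-5)) R.xadd [(11, d2)] [(9, -c)]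
    sgnG2_f.2 sgnG2_f.1 (by simp only [wordGL_cons, wordGL_nil, mul_one]; exact e2)
  simp only [wordGL_cons, wordGL_nil, mul_one] at s2
  have hc : c = 0 := by
    have h2 := congrArg Units.val s2
    rw [xGL_val, Units.val_one] at h2
    have h3 := R.xinj 9 (by decide) (-c) h2
    linear_combination -h3
  have hd2 : d2 = 0 := by
    rw [s2] at e2
    have h2 := congrArg Units.val e2
    rw [xGL_val, Units.val_one] at h2
    exact R.xinj 11 (by decide) d2 h2
  exact ⟨hc, hd1, hd2⟩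

/-- A product of root elements of negative level is not a non-trivial element of `V` off `X_10 X_11`. -/
theorem chG2_sep3 (R : BRel chevG2 F η) {A B : ℤ} {ns : List ℕ} (hS : SgnG2 A B [9, 10, 11] ns)
    (w : List (ℕ × F)) (hw : w.map Prod.fst = ns) {c d1 d2 : F}
    (h : wordGL R.xadd w = xGL R.xadd 9 c * xGL R.xadd 10 d1 * xGL R.xadd 11 d2) : c = 0 := by
  have hW := wtFacts_of_wtOK chainPackOK_G2 wtOK_G2
  have s1 := chSep_main hW (fnG2_additive A B) R.xadd w [(9, c), (10, d1), (11, d2)]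
    (by rw [hw]; exact hS.2) hS.1
    (by simp only [wordGL_cons, wordGL_nil, mul_one]; rw [h, mul_assoc])
  simp only [wordGL_cons, wordGL_nil, mul_one] at s1
  rw [← mul_assoc] at s1
  exact (chG2_V_unique R s1).1

theorem chG2_adj11 (R : BRel chevG2 F η) {s0 s1 s2 c d1 d2 : F}
    (h : xGL R.xadd 8 s0 * xGL R.xadd 6 s1 * xGL R.xadd 11 s2 =
      xGL R.xadd 9 c * xGL R.xadd 10 d1 * xGL R.xadd 11 d2) : c = 0 := by
  have h' : wordGL R.xadd [(8, s0), (6, s1)] =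
      xGL R.xadd 9 c * xGL R.xadd 10 d1 * xGL R.xadd 11 (d2 + -s2) := by
    simp only [wordGL_cons, wordGL_nil, mul_one]
    calc xGL R.xadd 8 s0 * xGL R.xadd 6 s1
        = (xGL R.xadd 8 s0 * xGL R.xadd 6 s1 * xGL R.xadd 11 s2) * (xGL R.xadd 11 s2)⁻¹ := by group
      _ = xGL R.xadd 9 c * xGL R.xadd 10 d1 * xGL R.xadd 11 d2 * (xGL R.xadd 11 s2)⁻¹ := by rw [h]
      _ = xGL R.xadd 9 c * xGL R.xadd 10 d1 * (xGL R.xadd 11 d2 * xGL R.xadd 11 (-s2)) := by
          rw [xGL_inv]; group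
      _ = _ := by rw [xGL_mul]
  exact chG2_sep3 R sgnG2_c _ rfl h'

theorem chG2_adj10 (R : BRel chevG2 F η) {s0 s1 s2 c d1 d2 : F}
    (h : xGL R.xadd 7 s0 * xGL R.xadd 5 s1 * xGL R.xadd 10 s2 =
      xGL R.xadd 9 c * xGL R.xadd 10 d1 * xGL R.xadd 11 d2) : c = 0 := by
  have hcm : xGL R.xadd 11 d2 * xGL R.xadd 10 (-s2) = xGL R.xadd 10 (-s2) * xGL R.xadd 11 d2 :=
    chG2_comm R (by simp) _ _
  have h' : wordGL R.xadd [(7, s0), (5, s1)] =
      xGL R.xadd 9 c * xGL R.xadd 10 (d1 + -s2) * xGL R.xadd 11 d2 := by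
    simp only [wordGL_cons, wordGL_nil, mul_one]
    calc xGL R.xadd 7 s0 * xGL R.xadd 5 s1
        = (xGL R.xadd 7 s0 * xGL R.xadd 5 s1 * xGL R.xadd 10 s2) * (xGL R.xadd 10 s2)⁻¹ := by group
      _ = xGL R.xadd 9 c * xGL R.xadd 10 d1 * xGL R.xadd 11 d2 * (xGL R.xadd 10 s2)⁻¹ := by rw [h]
      _ = xGL R.xadd 9 c * xGL R.xadd 10 d1 * (xGL R.xadd 11 d2 * xGL R.xadd 10 (-s2)) := by
          rw [xGL_inv]; group
      _ = xGL R.xadd 9 c * xGL R.xadd 10 d1 * (xGL R.xadd 10 (-s2) * xGL R.xadd 11 d2) := by rw [hcm]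
      _ = xGL R.xadd 9 c * (xGL R.xadd 10 d1 * xGL R.xadd 10 (-s2)) * xGL R.xadd 11 d2 := by group
      _ = _ := by rw [xGL_mul]
  exact chG2_sep3 R sgnG2_d _ rfl h'

/-- A triple of the orbit that is not in the sector of `2a+b` gives no non-trivial element of `V` off
`X_10 X_11`. -/
theorem chG2_bad (R : BRel chevG2 F η) (p : ℕ × ℕ × ℕ) (hp : p ∈ triG2) (hne : p.1 ≠ 9)
    {s0 s1 s2 c d1 d2 : F}
    (h : xGL R.xadd p.1 s0 * xGL R.xadd p.2.1 s1 * xGL R.xadd p.2.2 s2 =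
      xGL R.xadd 9 c * xGL R.xadd 10 d1 * xGL R.xadd 11 d2) : c = 0 := by
  unfold triG2 at hp
  simp only [List.mem_cons, List.not_mem_nil, or_false] at hp
  rcases hp with rfl | rfl | rfl | rfl | rfl | rfl | rfl | rfl | rfl | rfl | rfl | rfl
  · exact absurd rfl hne
  · exact absurd rfl hne
  · exact chG2_adj11 R h
  · have hcm : xGL R.xadd 11 s1 * xGL R.xadd 6 s2 = xGL R.xadd 6 s2 * xGL R.xadd 11 s1 :=
      chG2_comm R (by simp) _ _
    apply chG2_adj11 R (s0 := s0) (s1 := s2) (s2 := s1)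
    rw [← h, mul_assoc, ← hcm, ← mul_assoc]
  · exact chG2_adj10 R h
  · have hcm : xGL R.xadd 10 s1 * xGL R.xadd 5 s2 = xGL R.xadd 5 s2 * xGL R.xadd 10 s1 :=
      chG2_comm R (by simp) _ _
    apply chG2_adj10 R (s0 := s0) (s1 := s2) (s2 := s1)
    rw [← h, mul_assoc, ← hcm, ← mul_assoc]
  · exact chG2_sep3 R (A := 1) (B := -1) (ns := [4, 6, 1])
      ⟨sgnG2_a.1, fun r hr => sgnG2_a.2 r (by revert r; decide)⟩ [(4, s0), (6, s1), (1, s2)] rfl
      (by simp only [wordGL_cons, wordGL_nil, mul_one]; rw [← mul_assoc]; exact h)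
  · exact chG2_sep3 R (A := 1) (B := -1) (ns := [4, 1, 6])
      ⟨sgnG2_a.1, fun r hr => sgnG2_a.2 r (by revert r; decide)⟩ [(4, s0), (1, s1), (6, s2)] rfl
      (by simp only [wordGL_cons, wordGL_nil, mul_one]; rw [← mul_assoc]; exact h)
  · exact chG2_sep3 R (A := 1) (B := -1) (ns := [2, 1, 0])
      ⟨sgnG2_a.1, fun r hr => sgnG2_a.2 r (by revert r; decide)⟩ [(2, s0), (1, s1), (0, s2)] rfl
      (by simp only [wordGL_cons, wordGL_nil, mul_one]; rw [← mul_assoc]; exact h)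
  · exact chG2_sep3 R (A := 1) (B := -1) (ns := [2, 0, 1])
      ⟨sgnG2_a.1, fun r hr => sgnG2_a.2 r (by revert r; decide)⟩ [(2, s0), (0, s1), (1, s2)] rfl
      (by simp only [wordGL_cons, wordGL_nil, mul_one]; rw [← mul_assoc]; exact h)
  · exact chG2_sep3 R (A := 1) (B := 1) (ns := [3, 0, 5])
      ⟨sgnG2_b.1, fun r hr => sgnG2_b.2 r (by revert r; decide)⟩ [(3, s0), (0, s1), (5, s2)] rfl
      (by simp only [wordGL_cons, wordGL_nil, mul_one]; rw [← mul_assoc]; exact h)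
  · exact chG2_sep3 R (A := 1) (B := 1) (ns := [3, 5, 0])
      ⟨sgnG2_b.1, fun r hr => sgnG2_b.2 r (by revert r; decide)⟩ [(3, s0), (5, s1), (0, s2)] rfl
      (by simp only [wordGL_cons, wordGL_nil, mul_one]; rw [← mul_assoc]; exact h)

/-- The elements of `V = X_9 X_10 X_11` off `X_10 X_11`. -/
def G2P (R : BRel chevG2 F η) (y : GL chevG2.Idx F) : Prop :=
  ∃ c c1 c2 : F, c ≠ 0 ∧ y = xGL R.xadd 9 c * xGL R.xadd 10 c1 * xGL R.xadd 11 c2

theorem chG2_conj3 {G : Type*} [Group G] (g a b c : G) :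
    g * (a * b * c) * g⁻¹ = (g * a * g⁻¹) * (g * b * g⁻¹) * (g * c * g⁻¹) := by group

theorem G2P_conj_x (R : BRel chevG2 F η) {q : ℕ} (hq : chevG2.IsPosRoot q) (u : F)
    {y : GL chevG2.Idx F} (hy : G2P R y) : G2P R (xGL R.xadd q u * y * (xGL R.xadd q u)⁻¹) := by
  obtain ⟨c, c1, c2, hc, rfl⟩ := hy
  have hq' : q ∈ chevG2.posRoots := mem_posRoots.mpr hq
  rw [chPosRoots_G2] at hq'
  simp only [List.mem_cons, List.not_mem_nil, or_false] at hq'
  rw [chG2_conj3]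
  rcases hq' with rfl | rfl | rfl | rfl | rfl | rfl
  · rw [chG2_fix R (q := 6) (s := 9) (by simp), chG2_fix R (q := 6) (s := 11) (by simp),
      chSep_conj_one R (q := 6) (s := 10) (by decide) (by decide) (by decide) (by decide) chOne610_G2]
    refine ⟨c, c1, ((1 : ℤ) : F) * u * c1 + c2, hc, ?_⟩
    rw [← xGL_mul]
    group
  · rw [chG2_fix R (q := 7) (s := 10) (by simp), chG2_fix R (q := 7) (s := 11) (by simp),
      chSep_conj_one R (q := 7) (s := 9) (by decide) (by decide) (by decide) (by decide) chOne79_G2]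
    refine ⟨c, ((3 : ℤ) : F) * u * c + c1, c2, hc, ?_⟩
    rw [← xGL_mul]
    group
  · rw [chG2_fix R (q := 8) (s := 10) (by simp), chG2_fix R (q := 8) (s := 11) (by simp),
      chSep_conj_one R (q := 8) (s := 9) (by decide) (by decide) (by decide) (by decide) chOne89_G2]
    refine ⟨c, c1, ((3 : ℤ) : F) * u * c + c2, hc, ?_⟩
    have hcm : xGL R.xadd 11 (((3 : ℤ) : F) * u * c) * xGL R.xadd 10 c1 =
        xGL R.xadd 10 c1 * xGL R.xadd 11 (((3 : ℤ) : F) * u * c) := chG2_comm R (by simp) _ _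
    calc xGL R.xadd 9 c * xGL R.xadd 11 (((3 : ℤ) : F) * u * c) * xGL R.xadd 10 c1 * xGL R.xadd 11 c2
        = xGL R.xadd 9 c * (xGL R.xadd 11 (((3 : ℤ) : F) * u * c) * xGL R.xadd 10 c1) *
          xGL R.xadd 11 c2 := by group
      _ = xGL R.xadd 9 c * (xGL R.xadd 10 c1 * xGL R.xadd 11 (((3 : ℤ) : F) * u * c)) *
          xGL R.xadd 11 c2 := by rw [hcm]
      _ = xGL R.xadd 9 c * xGL R.xadd 10 c1 * (xGL R.xadd 11 (((3 : ℤ) : F) * u * c) *
          xGL R.xadd 11 c2) := by group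
      _ = _ := by rw [xGL_mul]
  · rw [chSep_conj_fix R (q := 9) (s := 9) (by decide) (by decide) (Or.inl rfl),
      chG2_fix R (q := 9) (s := 10) (by simp), chG2_fix R (q := 9) (s := 11) (by simp)]
    exact ⟨c, c1, c2, hc, rfl⟩
  · rw [chSep_conj_fix R (q := 10) (s := 10) (by decide) (by decide) (Or.inl rfl),
      chG2_fix R (q := 10) (s := 9) (by simp), chG2_fix R (q := 10) (s := 11) (by simp)]
    exact ⟨c, c1, c2, hc, rfl⟩
  · rw [chSep_conj_fix R (q := 11) (s := 11) (by decide) (by decide) (Or.inl rfl),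
      chG2_fix R (q := 11) (s := 9) (by simp), chG2_fix R (q := 11) (s := 10) (by simp)]
    exact ⟨c, c1, c2, hc, rfl⟩

theorem G2P_conj_h (R : BRel chevG2 F η) {h : GL chevG2.Idx F} (hh : h ∈ chevG2.diagonalSubgroup F)
    {y : GL chevG2.Idx F} (hy : G2P R y) : G2P R (h * y * h⁻¹) := by
  obtain ⟨c, c1, c2, hc, rfl⟩ := hy
  obtain ⟨χ9, h9⟩ := R.hx h hh 9 (by decide)
  obtain ⟨χ10, h10⟩ := R.hx h hh 10 (by decide)
  obtain ⟨χ11, h11⟩ := R.hx h hh 11 (by decide)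
  rw [chG2_conj3, h9, h10, h11]
  refine ⟨χ9 * c, χ10 * c1, χ11 * c2, ?_, rfl⟩
  intro e
  have h1 := h9 c
  rw [e, xGL_zero] at h1
  have h2 : xGL R.xadd 9 c = 1 := by
    calc xGL R.xadd 9 c = h⁻¹ * (h * xGL R.xadd 9 c * h⁻¹) * h := by group
      _ = 1 := by rw [h1]; group
  have h3 := congrArg Units.val h2
  rw [xGL_val, Units.val_one] at h3
  exact hc (R.xinj 9 (by decide) c h3)

theorem G2P_conj_U (R : BRel chevG2 F η) {u : GL chevG2.Idx F} (hu : u ∈ chevG2.posUnipotent F) :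
    (∀ y, G2P R y → G2P R (u * y * u⁻¹)) ∧ (∀ y, G2P R y → G2P R (u⁻¹ * y * u)) := by
  unfold ChevalleyDatum.posUnipotent at hu
  refine Subgroup.closure_induction (p := fun u _ => (∀ y, G2P R y → G2P R (u * y * u⁻¹)) ∧
    (∀ y, G2P R y → G2P R (u⁻¹ * y * u))) ?_ ?_ ?_ ?_ hu
  · rintro g ⟨q, t, hq, hg⟩
    rw [eq_xGL R.xadd hg]
    constructor
    · intro y hy
      exact G2P_conj_x R hq t hy
    · intro y hy
      have h1 := G2P_conj_x R hq (-t) hy
      rw [xGL_inv, neg_neg] at h1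
      rw [xGL_inv]
      exact h1
  · constructor
    · intro y hy
      rw [one_mul, inv_one, mul_one]
      exact hy
    · intro y hy
      rw [inv_one, one_mul, mul_one]
      exact hy
  · rintro a b - - ⟨ha1, ha2⟩ ⟨hb1, hb2⟩
    constructor
    · intro y hy
      have h1 := ha1 _ (hb1 y hy)
      have e : a * b * y * (a * b)⁻¹ = a * (b * y * b⁻¹) * a⁻¹ := by group
      rw [e]
      exact h1
    · intro y hy
      have h1 := hb2 _ (ha2 y hy)
      have e : (a * b)⁻¹ * y * (a * b) = b⁻¹ * (a⁻¹ * y * a) * b := by group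
      rw [e]
      exact h1
  · rintro a - ⟨ha1, ha2⟩
    constructor
    · intro y hy
      rw [inv_inv]
      exact ha2 y hy
    · intro y hy
      rw [inv_inv]
      exact ha1 y hy

theorem G2P_conj_B (R : BRel chevG2 F η) {b : GL chevG2.Idx F} (hb : b ∈ chevG2.borelSubgroup F)
    {y : GL chevG2.Idx F} (hy : G2P R y) : G2P R (b * y * b⁻¹) := by
  unfold ChevalleyDatum.borelSubgroup at hb
  obtain ⟨u, hu, h, hh, rfl⟩ := chCent_sup_decomp (chevG2.posUnipotent F) (chevG2.diagonalSubgroup F)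
    (fun h hh p hp => (Subgroup.mem_normalizer_iff.mp (R.hU hh) p).mp hp) b hb
  have e : u * h * y * (u * h)⁻¹ = u * (h * y * h⁻¹) * u⁻¹ := by group
  rw [e]
  exact (G2P_conj_U R hu).1 _ (G2P_conj_h R hh hy)

theorem chCor0_G2 : ∀ r < chevG2.nroots, (chevG2.coroot.getD r #[]).getD 0 0 = 0 → r = 5 ∨ r = 6 := by
  decide +kernel
theorem chCor0'_G2 : (chevG2.coroot.getD 5 #[]).getD 0 0 = 0 ∧ (chevG2.coroot.getD 6 #[]).getD 0 0 = 0 := by
  decide +kernel
theorem chSimple1_G2 : chevG2.simple 1 = 6 ∧ chevG2.neg 6 = 5 := by decide +kernel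

theorem chInRootSub_G2 (r : ℕ) : chevG2.InRootSub {1} r ↔ r = 5 ∨ r = 6 := by
  unfold ChevalleyDatum.InRootSub
  constructor
  · rintro ⟨hr, h⟩
    exact chCor0_G2 r hr (h 0 (by decide) (by simp))
  · intro h
    have hi : ∀ i < chevG2.rank, i ∉ ({1} : Set ℕ) → i = 0 := by
      intro i hi hiJ
      have h2 : chevG2.rank = 2 := by decide
      rw [h2] at hi
      have h3 : i ≠ 1 := fun e => hiJ (by rw [e]; exact Set.mem_singleton 1)
      omega
    rcases h with rfl | rfl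
    · refine ⟨by decide, fun i hi' hiJ => ?_⟩
      rw [hi i hi' hiJ]
      exact chCor0'_G2.1
    · refine ⟨by decide, fun i hi' hiJ => ?_⟩
      rw [hi i hi' hiJ]
      exact chCor0'_G2.2

theorem chPos_G2 : ∀ r ∈ [6, 7, 8, 9, 10, 11], chevG2.IsPosRoot r := by
  intro r hr
  rw [← chPosRoots_G2] at hr
  exact mem_posRoots.mp hr

theorem chG2_T_mem (R : BRel chevG2 F η) {s : ℕ} (hs : s ∈ [9, 10, 11, 6, 5]) (c : F) :
    xGL R.xadd s c ∈ chevG2.rootSubgroup F 9 ⊔ chevG2.rootSubgroup F 10 ⊔ chevG2.rootSubgroup F 11 ⊔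
      chevG2.rootSubgroup F 6 ⊔ chevG2.rootSubgroup F 5 := by
  have h9 : chevG2.rootSubgroup F 9 ≤ chevG2.rootSubgroup F 9 ⊔ chevG2.rootSubgroup F 10 ⊔
      chevG2.rootSubgroup F 11 ⊔ chevG2.rootSubgroup F 6 ⊔ chevG2.rootSubgroup F 5 :=
    le_trans (le_trans (le_trans le_sup_left le_sup_left) le_sup_left) le_sup_left
  have h10 : chevG2.rootSubgroup F 10 ≤ chevG2.rootSubgroup F 9 ⊔ chevG2.rootSubgroup F 10 ⊔
      chevG2.rootSubgroup F 11 ⊔ chevG2.rootSubgroup F 6 ⊔ chevG2.rootSubgroup F 5 :=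
    le_trans (le_trans (le_trans le_sup_right le_sup_left) le_sup_left) le_sup_left
  have h11 : chevG2.rootSubgroup F 11 ≤ chevG2.rootSubgroup F 9 ⊔ chevG2.rootSubgroup F 10 ⊔
      chevG2.rootSubgroup F 11 ⊔ chevG2.rootSubgroup F 6 ⊔ chevG2.rootSubgroup F 5 :=
    le_trans (le_trans le_sup_right le_sup_left) le_sup_left
  have h6 : chevG2.rootSubgroup F 6 ≤ chevG2.rootSubgroup F 9 ⊔ chevG2.rootSubgroup F 10 ⊔
      chevG2.rootSubgroup F 11 ⊔ chevG2.rootSubgroup F 6 ⊔ chevG2.rootSubgroup F 5 :=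
    le_trans le_sup_right le_sup_left
  have h5 : chevG2.rootSubgroup F 5 ≤ chevG2.rootSubgroup F 9 ⊔ chevG2.rootSubgroup F 10 ⊔
      chevG2.rootSubgroup F 11 ⊔ chevG2.rootSubgroup F 6 ⊔ chevG2.rootSubgroup F 5 := le_sup_right
  simp only [List.mem_cons, List.not_mem_nil, or_false] at hs
  rcases hs with rfl | rfl | rfl | rfl | rfl
  · exact h9 (xGL_mem_rootSubgroup R.xadd _ c)
  · exact h10 (xGL_mem_rootSubgroup R.xadd _ c)
  · exact h11 (xGL_mem_rootSubgroup R.xadd _ c)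
  · exact h6 (xGL_mem_rootSubgroup R.xadd _ c)
  · exact h5 (xGL_mem_rootSubgroup R.xadd _ c)

theorem chG2_fix9 (R : BRel chevG2 F η) {s : ℕ} (hs : s ∈ [9, 10, 11, 6, 5]) (c u : F) :
    xGL R.xadd s c * xGL R.xadd 9 u * (xGL R.xadd s c)⁻¹ = xGL R.xadd 9 u := by
  simp only [List.mem_cons, List.not_mem_nil, or_false] at hs
  rcases hs with rfl | rfl | rfl | rfl | rfl
  · exact chSep_conj_fix R (by decide) (by decide) (Or.inl rfl) c u
  · exact chG2_fix R (by simp) c u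
  · exact chG2_fix R (by simp) c u
  · exact chG2_fix R (by simp) c u
  · exact chG2_fix R (by simp) c u

theorem chG2_T_le (R : BRel chevG2 F η) (t : GL chevG2.Idx F)
    (ht : (t : Matrix chevG2.Idx chevG2.Idx F) = chevG2.x F 9 1) :
    chevG2.rootSubgroup F 9 ⊔ chevG2.rootSubgroup F 10 ⊔ chevG2.rootSubgroup F 11 ⊔
      chevG2.rootSubgroup F 6 ⊔ chevG2.rootSubgroup F 5 ≤ chevG2.group F ⊓ Subgroup.centralizer {t} := by
  have htx : t = xGL R.xadd 9 1 := eq_xGL R.xadd ht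
  have hXle : ∀ s ∈ [9, 10, 11, 6, 5],
      chevG2.rootSubgroup F s ≤ chevG2.group F ⊓ Subgroup.centralizer {t} := by
    intro s hs
    unfold ChevalleyDatum.rootSubgroup
    rw [Subgroup.closure_le]
    rintro g ⟨c, hg⟩
    rw [SetLike.mem_coe, eq_xGL R.xadd hg]
    refine ⟨xGL_mem_group R.xadd s c, ?_⟩
    show _ ∈ Subgroup.centralizer {t}
    rw [Subgroup.mem_centralizer_iff]
    intro y hy
    rw [Set.mem_singleton_iff] at hy
    rw [hy, htx]
    exact chCent_comm_of_conj (chG2_fix9 R hs c 1)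
  exact sup_le (sup_le (sup_le (sup_le (hXle 9 (by simp)) (hXle 10 (by simp))) (hXle 11 (by simp)))
    (hXle 6 (by simp))) (hXle 5 (by simp))

/-- The centraliser of the short root element `x_9(1)` in the Chevalley group of type G2, when `3 ≠ 0`. -/
theorem chCent_G2_short_aux (R : BRel chevG2 F η) (h3 : (3 : F) ≠ 0) (t : GL chevG2.Idx F)
    (ht : (t : Matrix chevG2.Idx chevG2.Idx F) = chevG2.x F 9 1) :
    chevG2.group F ⊓ Subgroup.centralizer {t} =
      chevG2.rootSubgroup F 9 ⊔ chevG2.rootSubgroup F 10 ⊔ chevG2.rootSubgroup F 11 ⊔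
        chevG2.rootSubgroup F 6 ⊔ chevG2.rootSubgroup F 5 := by
  have hD7 : chevG2 ∈ [chevG2, chevB2, chevD4, chevF4, chevE6, chevE7, chevE8] := by simp
  have hW := wtFacts_of_wtOK chainPackOK_G2 wtOK_G2
  have hC := rootCoords_of_OK chainPackOK_G2 coordOK_G2
  have hDiag : HDiag chevG2 F := hDiag_of_mem hD7
  have htx : t = xGL R.xadd 9 1 := eq_xGL R.xadd ht
  have hle := chG2_T_le R t ht
  apply le_antisymm _ hle
  rintro g ⟨hgG, hgC⟩
  have hcomm' : t * g = g * t := Subgroup.mem_centralizer_iff.mp hgC t rfl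
  obtain ⟨b₁, hb₁, n, hn, b₂, hb₂, rfl⟩ := R.bruhat g hgG
  obtain ⟨L₀, hL₀, h₀, hh₀, rfl⟩ := R.exists_word n hn
  obtain ⟨L, hL, hred, -, h', hh', heq⟩ := R.exists_red L₀ hL₀
  rw [heq] at hcomm' ⊢
  have hPt : G2P R t := ⟨1, 0, 0, one_ne_zero, by rw [htx, xGL_zero, xGL_zero, mul_one, mul_one]⟩
  have hHB : chevG2.diagonalSubgroup F ≤ chevG2.borelSubgroup F := le_sup_right
  have hb : h' * h₀ * b₂ ∈ chevG2.borelSubgroup F := mul_mem (hHB (mul_mem hh' hh₀)) hb₂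
  obtain ⟨c, c1, c2, hc, hy⟩ := G2P_conj_B R hb hPt
  obtain ⟨c', d1, d2, hc', hy'⟩ := G2P_conj_B R (inv_mem hb₁) hPt
  have key : xGL R.xadd (wW chevG2 L 9) ((eW chevG2 η L 9 : F) * c) *
      xGL R.xadd (wW chevG2 L 10) ((eW chevG2 η L 10 : F) * c1) *
      xGL R.xadd (wW chevG2 L 11) ((eW chevG2 η L 11 : F) * c2) =
      xGL R.xadd 9 c' * xGL R.xadd 10 d1 * xGL R.xadd 11 d2 := by
    rw [← R.nW_conj_x hL (by decide) c, ← R.nW_conj_x hL (by decide) c1,
      ← R.nW_conj_x hL (by decide) c2, ← hy', ← chG2_conj3, ← hy]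
    have h4 : (b₁ * (R.nW L * h' * h₀) * b₂) * t * (b₁ * (R.nW L * h' * h₀) * b₂)⁻¹ = t := by
      rw [← hcomm']; group
    calc R.nW L * (h' * h₀ * b₂ * t * (h' * h₀ * b₂)⁻¹) * (R.nW L)⁻¹
        = b₁⁻¹ * ((b₁ * (R.nW L * h' * h₀) * b₂) * t * (b₁ * (R.nW L * h' * h₀) * b₂)⁻¹) *
          b₁⁻¹⁻¹ := by group
      _ = b₁⁻¹ * t * b₁⁻¹⁻¹ := by rw [h4]
  have hfix : wW chevG2 L 9 = 9 := by
    by_contra hne
    exact hc' (chG2_bad R _ (tri_mem_G2 L hL) hne key)
  have hlet := chCentG_letters cReflOK_G2 R.wf orbFn_G2 (by decide) L hL hred hfix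
  have hL1 : ∀ i ∈ L, i = 1 := fun i hi => chCentLet_G2 i (hL i hi) (hlet i hi)
  -- the Levi decomposition of the parabolic subgroup of `b`
  have hP := Cfsg.Agent.Helper18.parabolicSubgroup_eq (F := F) chevG2 hD7 {1}
  have hsup := unipotentRadical_sup_levi (D := chevG2) (F := F) {1} hP
  have hnormP := parabolic_le_normalizer R hW hC {1} hP
  have hinf := unipotentRadical_inf_levi R hW hC hDiag {1}
  have hx6L : ∀ a : F, xGL R.xadd 6 a ∈ chevG2.leviSubgroup F {1} := fun a =>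
    le_sup_right (a := chevG2.diagonalSubgroup F)
      (Subgroup.subset_closure ⟨6, a, (chInRootSub_G2 6).mpr (Or.inr rfl), xGL_val R.xadd 6 a⟩)
  have hx5L : ∀ a : F, xGL R.xadd 5 a ∈ chevG2.leviSubgroup F {1} := fun a =>
    le_sup_right (a := chevG2.diagonalSubgroup F)
      (Subgroup.subset_closure ⟨5, a, (chInRootSub_G2 5).mpr (Or.inl rfl), xGL_val R.xadd 5 a⟩)
  have hHL : chevG2.diagonalSubgroup F ≤ chevG2.leviSubgroup F {1} := le_sup_left
  have hUJ : ∀ s ∈ [7, 8, 9, 10, 11], ∀ a : F, xGL R.xadd s a ∈ chevG2.unipotentRadical F {1} := by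
    intro s hs a
    refine Subgroup.subset_closure ⟨s, a, chPos_G2 s (by revert s; decide), ?_, xGL_val R.xadd s a⟩
    rw [chInRootSub_G2]
    revert s
    decide
  have hBle : chevG2.borelSubgroup F ≤ chevG2.unipotentRadical F {1} ⊔ chevG2.leviSubgroup F {1} := by
    rw [hsup]
    exact le_sup_left
  have hnL : R.nW L ∈ chevG2.leviSubgroup F {1} := chSep_nW_mem R _ L (fun i hi a => by
    rw [hL1 i hi, chSimple1_G2.1, chSimple1_G2.2]
    exact ⟨hx6L a, hx5L a⟩)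
  have hg' : b₁ * (R.nW L * h' * h₀) * b₂ ∈
      chevG2.unipotentRadical F {1} ⊔ chevG2.leviSubgroup F {1} :=
    mul_mem (mul_mem (hBle hb₁) (le_sup_right (a := chevG2.unipotentRadical F {1})
      (mul_mem (mul_mem hnL (hHL hh')) (hHL hh₀)))) (hBle hb₂)
  have hLP : chevG2.leviSubgroup F {1} ≤ chevG2.parabolicSubgroup F {1} := by
    rw [← hsup]
    exact le_sup_right
  obtain ⟨u, hu, l, hl, hgeq⟩ := chCent_sup_decomp _ _
    (fun l hl p hp => (Subgroup.mem_normalizer_iff.mp (hnormP (hLP hl)) p).mp hp) _ hg'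
  rw [hgeq] at hcomm'
  -- the Levi factor normalises `X_9`
  have hlN : chevG2.leviSubgroup F {1} ≤
      Subgroup.normalizer (chevG2.rootSubgroup F 9 : Set (GL chevG2.Idx F)) := by
    unfold ChevalleyDatum.leviSubgroup
    apply sup_le
    · intro h hh
      unfold ChevalleyDatum.rootSubgroup
      apply mem_normalizer_closure
      · rintro x ⟨a, hx⟩
        obtain ⟨χ, hχ⟩ := R.hx h hh 9 (by decide)
        rw [eq_xGL R.xadd hx, hχ]
        exact Subgroup.subset_closure ⟨χ * a, xGL_val R.xadd 9 _⟩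
      · rintro x ⟨a, hx⟩
        obtain ⟨χ, hχ⟩ := R.hx h⁻¹ (inv_mem hh) 9 (by decide)
        have h4 := hχ a
        rw [inv_inv] at h4
        rw [eq_xGL R.xadd hx, h4]
        exact Subgroup.subset_closure ⟨χ * a, xGL_val R.xadd 9 _⟩
    · rw [Subgroup.closure_le]
      rintro g ⟨r, a, hr, hg⟩
      rw [SetLike.mem_coe, eq_xGL R.xadd hg]
      have hr' : r ∈ [9, 10, 11, 6, 5] := by
        rcases (chInRootSub_G2 r).mp hr with rfl | rfl <;> simp
      unfold ChevalleyDatum.rootSubgroup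
      apply mem_normalizer_closure
      · rintro x ⟨b, hx⟩
        rw [eq_xGL R.xadd hx, chG2_fix9 R hr']
        exact Subgroup.subset_closure ⟨b, xGL_val R.xadd 9 _⟩
      · rintro x ⟨b, hx⟩
        have e : (xGL R.xadd r a)⁻¹ * xGL R.xadd 9 b * xGL R.xadd r a =
            xGL R.xadd r (-a) * xGL R.xadd 9 b * (xGL R.xadd r (-a))⁻¹ := by
          rw [xGL_inv, xGL_inv, neg_neg]
        rw [eq_xGL R.xadd hx, e, chG2_fix9 R hr']
        exact Subgroup.subset_closure ⟨b, xGL_val R.xadd 9 _⟩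
  have htm : t ∈ chevG2.rootSubgroup F 9 := by
    rw [htx]
    exact xGL_mem_rootSubgroup R.xadd _ _
  obtain ⟨χ, hχ⟩ := (mem_rootSubgroup_iff R.xadd _ _).mp
    ((Subgroup.mem_normalizer_iff.mp (hlN hl) t).mp htm)
  have hu9 : u * xGL R.xadd 9 χ * u⁻¹ = xGL R.xadd 9 1 := by
    rw [← hχ, ← htx]
    have h4 : (u * l) * t * (u * l)⁻¹ = t := by rw [← hcomm']; group
    calc u * (l * t * l⁻¹) * u⁻¹ = (u * l) * t * (u * l)⁻¹ := by group
      _ = t := h4
  -- the unipotent factor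
  have hUJU : chevG2.unipotentRadical F {1} ≤ chevG2.posUnipotent F := by
    unfold ChevalleyDatum.unipotentRadical ChevalleyDatum.posUnipotent
    apply Subgroup.closure_mono
    rintro g ⟨r, a, hr, -, hg⟩
    exact ⟨r, a, hr, hg⟩
  obtain ⟨τ, ⟨-, hτ⟩, -⟩ := (posUnipotent_unique_product_of_mem hD7
    (fun r s hr hs h1 h2 => R.cf r hr s hs h1 h2)).1 u (hUJU hu)
  obtain ⟨v, hv⟩ : ∃ v : GL chevG2.Idx F, v = xGL R.xadd 9 (τ 9) * (xGL R.xadd 10 (τ 10) *
    xGL R.xadd 11 (τ 11)) := ⟨_, rfl⟩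
  have hu_eq : u = xGL R.xadd 6 (τ 6) * (xGL R.xadd 7 (τ 7) * (xGL R.xadd 8 (τ 8) * v)) := by
    apply Units.ext
    rw [hτ, chPosRoots_G2, ← wordGL_val R.xadd, hv]
    simp only [List.map_cons, List.map_nil, wordGL_cons, wordGL_nil, mul_one]
  have hvU : v ∈ chevG2.unipotentRadical F {1} := by
    rw [hv]
    exact mul_mem (hUJ 9 (by simp) _) (mul_mem (hUJ 10 (by simp) _) (hUJ 11 (by simp) _))
  have h6 : τ 6 = 0 := by
    have hrest : xGL R.xadd 7 (τ 7) * (xGL R.xadd 8 (τ 8) * v) ∈ chevG2.unipotentRadical F {1} :=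
      mul_mem (hUJ 7 (by simp) _) (mul_mem (hUJ 8 (by simp) _) hvU)
    have hx6 : xGL R.xadd 6 (τ 6) ∈ chevG2.unipotentRadical F {1} := by
      have e : xGL R.xadd 6 (τ 6) = u * (xGL R.xadd 7 (τ 7) * (xGL R.xadd 8 (τ 8) * v))⁻¹ := by
        rw [hu_eq]; group
      rw [e]
      exact mul_mem hu (inv_mem hrest)
    have h7 : xGL R.xadd 6 (τ 6) ∈ chevG2.unipotentRadical F {1} ⊓ chevG2.leviSubgroup F {1} :=
      ⟨hx6, hx6L _⟩
    rw [hinf, Subgroup.mem_bot] at h7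
    have h8 := congrArg Units.val h7
    rw [xGL_val, Units.val_one] at h8
    exact R.xinj 6 (by decide) _ h8
  have econj : ∀ a b c z : GL chevG2.Idx F,
      (a * (b * c)) * z * (a * (b * c))⁻¹ = a * (b * (c * z * c⁻¹) * b⁻¹) * a⁻¹ := by
    intros; group
  have hv9 : v * xGL R.xadd 9 χ * v⁻¹ = xGL R.xadd 9 χ := by
    rw [hv, econj, chG2_fix R (q := 11) (s := 9) (by simp), chG2_fix R (q := 10) (s := 9) (by simp),
      chSep_conj_fix R (q := 9) (s := 9) (by decide) (by decide) (Or.inl rfl)]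
  have hconj : u * xGL R.xadd 9 χ * u⁻¹ = xGL R.xadd 9 χ * xGL R.xadd 10 (((3 : ℤ) : F) * τ 7 * χ) *
      xGL R.xadd 11 (((3 : ℤ) : F) * τ 8 * χ) := by
    have e2 : ∀ a y z : GL chevG2.Idx F, a * (y * z) * a⁻¹ = (a * y * a⁻¹) * (a * z * a⁻¹) := by
      intros; group
    rw [hu_eq, h6, xGL_zero, one_mul, econj, hv9,
      chSep_conj_one R (q := 8) (s := 9) (by decide) (by decide) (by decide) (by decide) chOne89_G2,
      e2, chSep_conj_one R (q := 7) (s := 9) (by decide) (by decide) (by decide) (by decide) chOne79_G2,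
      chG2_fix R (q := 7) (s := 11) (by simp)]
  have hone : xGL R.xadd 9 (-1 + χ) * xGL R.xadd 10 (((3 : ℤ) : F) * τ 7 * χ) *
      xGL R.xadd 11 (((3 : ℤ) : F) * τ 8 * χ) = 1 := by
    rw [← xGL_mul]
    calc xGL R.xadd 9 (-1) * xGL R.xadd 9 χ * xGL R.xadd 10 (((3 : ℤ) : F) * τ 7 * χ) *
          xGL R.xadd 11 (((3 : ℤ) : F) * τ 8 * χ)
        = xGL R.xadd 9 (-1) * (xGL R.xadd 9 χ * xGL R.xadd 10 (((3 : ℤ) : F) * τ 7 * χ) *
          xGL R.xadd 11 (((3 : ℤ) : F) * τ 8 * χ)) := by group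
      _ = xGL R.xadd 9 (-1) * xGL R.xadd 9 1 := by rw [← hconj, hu9]
      _ = 1 := by rw [xGL_mul, neg_add_cancel, xGL_zero]
  obtain ⟨e1, e2, e3⟩ := chG2_V_unique R hone
  have hχ1 : χ = 1 := by linear_combination e1
  have h3F : ((3 : ℤ) : F) ≠ 0 := by
    push_cast
    exact h3
  have h7 : τ 7 = 0 := by
    rw [hχ1, mul_one] at e2
    rcases mul_eq_zero.mp e2 with h | h
    · exact absurd h h3F
    · exact h
  have h8 : τ 8 = 0 := by
    rw [hχ1, mul_one] at e3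
    rcases mul_eq_zero.mp e3 with h | h
    · exact absurd h h3F
    · exact h
  have huT : u ∈ chevG2.rootSubgroup F 9 ⊔ chevG2.rootSubgroup F 10 ⊔ chevG2.rootSubgroup F 11 ⊔
      chevG2.rootSubgroup F 6 ⊔ chevG2.rootSubgroup F 5 := by
    rw [hu_eq, h6, h7, h8, xGL_zero, xGL_zero, xGL_zero, one_mul, one_mul, one_mul, hv]
    exact mul_mem (chG2_T_mem R (by simp) _) (mul_mem (chG2_T_mem R (by simp) _)
      (chG2_T_mem R (by simp) _))
  -- the Levi factor
  have hlt : l * t * l⁻¹ = t := by rw [hχ, hχ1, htx]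
  have hK_T : Subgroup.closure {g : GL chevG2.Idx F | ∃ (r : ℕ) (a : F), chevG2.InRootSub {1} r ∧
      (g : Matrix chevG2.Idx chevG2.Idx F) = chevG2.x F r a} ≤
      chevG2.rootSubgroup F 9 ⊔ chevG2.rootSubgroup F 10 ⊔ chevG2.rootSubgroup F 11 ⊔
        chevG2.rootSubgroup F 6 ⊔ chevG2.rootSubgroup F 5 := by
    rw [Subgroup.closure_le]
    rintro g ⟨r, a, hr, hg⟩
    rw [SetLike.mem_coe, eq_xGL R.xadd hg]
    rcases (chInRootSub_G2 r).mp hr with rfl | rfl
    · exact chG2_T_mem R (by simp) a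
    · exact chG2_T_mem R (by simp) a
  have hnormK : ∀ h ∈ chevG2.diagonalSubgroup F,
      ∀ k ∈ Subgroup.closure {g : GL chevG2.Idx F | ∃ (r : ℕ) (a : F), chevG2.InRootSub {1} r ∧
        (g : Matrix chevG2.Idx chevG2.Idx F) = chevG2.x F r a},
      h * k * h⁻¹ ∈ Subgroup.closure {g : GL chevG2.Idx F | ∃ (r : ℕ) (a : F),
        chevG2.InRootSub {1} r ∧ (g : Matrix chevG2.Idx chevG2.Idx F) = chevG2.x F r a} := by
    intro h hh k hk
    have h4 : h ∈ Subgroup.normalizer ((Subgroup.closure {g : GL chevG2.Idx F | ∃ (r : ℕ) (a : F),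
        chevG2.InRootSub {1} r ∧ (g : Matrix chevG2.Idx chevG2.Idx F) = chevG2.x F r a} :
        Subgroup (GL chevG2.Idx F)) : Set (GL chevG2.Idx F)) := by
      apply mem_normalizer_closure
      · rintro x ⟨r, a, hr, hx⟩
        obtain ⟨χ', hχ'⟩ := R.hx h hh r hr.1
        rw [eq_xGL R.xadd hx, hχ']
        exact Subgroup.subset_closure ⟨r, χ' * a, hr, xGL_val R.xadd r _⟩
      · rintro x ⟨r, a, hr, hx⟩
        obtain ⟨χ', hχ'⟩ := R.hx h⁻¹ (inv_mem hh) r hr.1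
        have h5 := hχ' a
        rw [inv_inv] at h5
        rw [eq_xGL R.xadd hx, h5]
        exact Subgroup.subset_closure ⟨r, χ' * a, hr, xGL_val R.xadd r _⟩
    exact (Subgroup.mem_normalizer_iff.mp h4 k).mp hk
  have hl' : l ∈ Subgroup.closure {g : GL chevG2.Idx F | ∃ (r : ℕ) (a : F), chevG2.InRootSub {1} r ∧
      (g : Matrix chevG2.Idx chevG2.Idx F) = chevG2.x F r a} ⊔ chevG2.diagonalSubgroup F := by
    unfold ChevalleyDatum.leviSubgroup at hl
    rw [sup_comm] at hl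
    exact hl
  obtain ⟨k, hk, hd, hhd, hleq⟩ := chCent_sup_decomp _ _ hnormK l hl'
  have hkT := hK_T hk
  have hkc : t * k = k * t := Subgroup.mem_centralizer_iff.mp (hle hkT).2 t rfl
  have hdc : t * hd = hd * t := by
    have hlc : t * l = l * t := by
      calc t * l = (l * t * l⁻¹) * l := by rw [hlt]
        _ = l * t := by group
    have h4 : k * (t * hd) = k * (hd * t) := by
      calc k * (t * hd) = (k * t) * hd := by group
        _ = (t * k) * hd := by rw [hkc]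
        _ = t * (k * hd) := by group
        _ = (k * hd) * t := by rw [← hleq]; exact hlc
        _ = k * (hd * t) := by group
    exact mul_left_cancel h4
  have hdT := chSep_torus (chevG2.rootSubgroup F 9 ⊔ chevG2.rootSubgroup F 10 ⊔
    chevG2.rootSubgroup F 11 ⊔ chevG2.rootSubgroup F 6 ⊔ chevG2.rootSubgroup F 5) R
    (r0 := 9) (by decide) hDiag (torusFacts_of_mem hD7) simpleOK_G2
    (fun i hi hc a => by
      rw [chCentLet_G2 i hi hc, chSimple1_G2.1, chSimple1_G2.2]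
      exact ⟨chG2_T_mem R (by simp) a, chG2_T_mem R (by simp) a⟩)
    0 (by decide) chCentJ3s_G2 t ht hhd hdc
  rw [hgeq, hleq]
  exact mul_mem huT (mul_mem hkT hdT)

theorem chCent_G2_short (h3 : (3 : F) ≠ 0) (t : GL chevG2.Idx F)
    (ht : (t : Matrix chevG2.Idx chevG2.Idx F) = chevG2.x F 9 1) :
    chevG2.group F ⊓ Subgroup.centralizer {t} =
      chevG2.rootSubgroup F 9 ⊔ chevG2.rootSubgroup F 10 ⊔ chevG2.rootSubgroup F 11 ⊔
        chevG2.rootSubgroup F 6 ⊔ chevG2.rootSubgroup F 5 :=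
  chCent_G2_short_aux (bRel_of_mem (F := F) (by simp)) h3 t ht

theorem chCent_G2_long (z : GL chevG2.Idx F)
    (hz : (z : Matrix chevG2.Idx chevG2.Idx F) = chevG2.x F 11 1) :
    chevG2.group F ⊓ Subgroup.centralizer {z} = chevG2.posUnipotent F ⊔ chevG2.rootSubgroup F 4 := by
  have hD7 : chevG2 ∈ [chevG2, chevB2, chevD4, chevF4, chevE6, chevE7, chevE8] := by simp
  have h := chCent_main [4] (bRel_of_mem (F := F) hD7)
    (wtFacts_of_wtOK chainPackOK_G2 wtOK_G2) (by decide) cReflOK_G2 topFn_G2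
    (chHigh_good_of_OK chainPackOK_G2 coordOK_G2 chHighOK_G2) (hDiag_of_mem hD7)
    (torusFacts_of_mem hD7) simpleOK_G2 chCentJ1_G2 chCentJ2_G2 1 (by decide) chCentJ3_G2 z hz
  rw [h]
  congr 1
  unfold ChevalleyDatum.rootSubgroup
  congr 1
  ext g
  simp

end G2

end Cfsg.Agent.Helper38
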