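/-
helper38: type D4 in characteristic two: the collection calculus in `U` for the twisted words of `³D₄`
(swap rules for the twelve positive root subgroups, the twisted product law `tw_mul`), towards the
classification of the involutions of `³D₄(q)`, `q` even (S2183).
-/
import Cfsg.Agent.Helper18.TwD4e
import Cfsg.Agent.Helper38.ChevCentG2

set_option autoImplicit false
set_option linter.unusedSimpArgs false
set_option linter.unusedTactic false
set_option linter.unreachableTactic false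
set_option linter.unusedSectionVars false
set_option linter.unnecessarySeqFocus false
set_option linter.unusedVariables false

namespace Cfsg.Agent.Helper38

open Cfsg Cfsg.Lie Cfsg.Agent.Helper36 Cfsg.Agent.Helper17 Cfsg.Agent.Helper18

section D4Inv

variable {K : Type*} [Field K] {η : ℕ → ℕ → ℤ}

/-- The commutator terms of the pairs of positive roots of `D₄` whose sum is a root (later root first, in the
block order `18 13 12 | 14 | 19 16 15 | 17 20 21 | 22 | 23`). -/
theorem d4iCT : ∀ x ∈ ([(14, 18, 19, (1 : ℤ)), (14, 13, 16, (-1 : ℤ)), (14, 12, 15, (-1 : ℤ)), (19, 13, 21, (-1 : ℤ)), (19, 12, 20, (-1 : ℤ)), (16, 18, 21, (1 : ℤ)), (16, 12, 17, (-1 : ℤ)), (15, 18, 20, (1 : ℤ)), (15, 13, 17, (-1 : ℤ)), (17, 18, 22, (1 : ℤ)), (20, 13, 22, (-1 : ℤ)), (21, 12, 22, (-1 : ℤ)), (17, 19, 23, (1 : ℤ)), (20, 16, 23, (1 : ℤ)), (21, 15, 23, (1 : ℤ)), (22, 14, 23, (-1 : ℤ))] : List (ℕ × ℕ × ℕ × ℤ)),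
    x.1 < chevD4.nroots ∧ x.2.1 < chevD4.nroots ∧ x.2.1 ≠ x.1 ∧ x.2.1 ≠ chevD4.neg x.1 ∧
      chevD4.commTerms x.1 x.2.1 = [(x.2.2.1, x.2.2.2, 1, 1)] ∧ (x.2.2.2 = 1 ∨ x.2.2.2 = -1) := by
  decide +kernel

/-- The pairs of positive roots with trivial commutator formula (later root first in the block order). -/
theorem d4iFix : ∀ p ∈ ([(13, 18), (12, 18), (12, 13), (19, 18), (19, 14), (16, 13), (16, 14), (16, 19), (15, 12), (15, 14), (15, 19), (15, 16), (17, 13), (17, 12), (17, 14), (17, 16), (17, 15), (20, 18), (20, 12), (20, 14), (20, 19), (20, 15), (20, 17), (21, 18), (21, 13), (21, 14), (21, 19), (21, 16), (21, 17), (21, 20), (22, 18), (22, 13), (22, 12), (22, 19), (22, 16), (22, 15), (22, 17), (22, 20), (22, 21), (23, 18), (23, 13), (23, 12), (23, 14), (23, 19), (23, 16), (23, 15), (23, 17), (23, 20), (23, 21), (23, 22)] : List (ℕ × ℕ)),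
    p.1 < chevD4.nroots ∧ p.2 < chevD4.nroots ∧ p.2 ≠ p.1 ∧ p.2 ≠ chevD4.neg p.1 ∧
      chevD4.commTerms p.1 p.2 = [] := by decide +kernel

theorem d4i_swap (hX : XAdd chevD4 K) {q p : ℕ} {u c : K} {W : GL chevD4.Idx K}
    (h : xGL hX q u * xGL hX p c * (xGL hX q u)⁻¹ = xGL hX p c * W) (z : GL chevD4.Idx K) :
    xGL hX q u * (xGL hX p c * z) = xGL hX p c * (W * (xGL hX q u * z)) := by
  have h1 : xGL hX q u * xGL hX p c = xGL hX p c * W * xGL hX q u := by rw [← h]; group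
  calc xGL hX q u * (xGL hX p c * z) = (xGL hX q u * xGL hX p c) * z := by group
    _ = xGL hX p c * (W * (xGL hX q u * z)) := by rw [h1]; group

theorem d4i_sw0 (R : BRel chevD4 K η) {q p : ℕ}
    (h : (q, p) ∈ ([(13, 18), (12, 18), (12, 13), (19, 18), (19, 14), (16, 13), (16, 14), (16, 19), (15, 12), (15, 14), (15, 19), (15, 16), (17, 13), (17, 12), (17, 14), (17, 16), (17, 15), (20, 18), (20, 12), (20, 14), (20, 19), (20, 15), (20, 17), (21, 18), (21, 13), (21, 14), (21, 19), (21, 16), (21, 17), (21, 20), (22, 18), (22, 13), (22, 12), (22, 19), (22, 16), (22, 15), (22, 17), (22, 20), (22, 21), (23, 18), (23, 13), (23, 12), (23, 14), (23, 19), (23, 16), (23, 15), (23, 17), (23, 20), (23, 21), (23, 22)] : List (ℕ × ℕ)))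
    (u c : K) (z : GL chevD4.Idx K) :
    xGL R.xadd q u * (xGL R.xadd p c * z) = xGL R.xadd p c * (xGL R.xadd q u * z) := by
  obtain ⟨h1, h2, h3, h4, h5⟩ := d4iFix (q, p) h
  have h6 := d4i_swap R.xadd (W := 1)
    (by rw [mul_one]; exact chSep_conj_fix R h1 h2 (Or.inr ⟨h3, h4, h5⟩) u c) z
  rw [h6, one_mul]

theorem d4i_merge (hX : XAdd chevD4 K) (p : ℕ) (a b : K) (z : GL chevD4.Idx K) :
    xGL hX p a * (xGL hX p b * z) = xGL hX p (a + b) * z := by
  rw [← mul_assoc, xGL_mul]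

variable [CharP K 2]

theorem d4i_sw (R : BRel chevD4 K η) {q p r : ℕ} {ε : ℤ}
    (h : (q, p, r, ε) ∈ ([(14, 18, 19, (1 : ℤ)), (14, 13, 16, (-1 : ℤ)), (14, 12, 15, (-1 : ℤ)), (19, 13, 21, (-1 : ℤ)), (19, 12, 20, (-1 : ℤ)), (16, 18, 21, (1 : ℤ)), (16, 12, 17, (-1 : ℤ)), (15, 18, 20, (1 : ℤ)), (15, 13, 17, (-1 : ℤ)), (17, 18, 22, (1 : ℤ)), (20, 13, 22, (-1 : ℤ)), (21, 12, 22, (-1 : ℤ)), (17, 19, 23, (1 : ℤ)), (20, 16, 23, (1 : ℤ)), (21, 15, 23, (1 : ℤ)), (22, 14, 23, (-1 : ℤ))] : List (ℕ × ℕ × ℕ × ℤ)))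
    (u c : K) (z : GL chevD4.Idx K) :
    xGL R.xadd q u * (xGL R.xadd p c * z) =
      xGL R.xadd p c * (xGL R.xadd r (u * c) * (xGL R.xadd q u * z)) := by
  obtain ⟨h1, h2, h3, h4, h5, h6⟩ := d4iCT (q, p, r, ε) h
  have hc := xGL_conj R.xadd (R.cf q h1 p h2 h3 h4) u c
  unfold ChevalleyDatum.commWord at hc
  rw [h5] at hc
  simp only [List.map_cons, List.map_nil, wordGL_cons, wordGL_nil, mul_one, neg_neg] at hc
  have e1 : ((ε : ℤ) : K) * u ^ 1 * c ^ 1 = u * c := by
    rcases h6 with rfl | rfl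
    · push_cast; ring
    · push_cast; grind
  rw [e1] at hc
  have h7 := d4i_swap R.xadd hc z
  rw [h7]

/-- The ordered product of twelve root elements of the positive roots of `D₄`, in the block order. -/
noncomputable def bw (R : BRel chevD4 K η) (a1 a2 a3 b c1 c2 c3 d1 d2 d3 e z : K) : GL chevD4.Idx K :=
  xGL R.xadd 18 a1 * (xGL R.xadd 13 a2 * (xGL R.xadd 12 a3 * (xGL R.xadd 14 b * (xGL R.xadd 19 c1 *
    (xGL R.xadd 16 c2 * (xGL R.xadd 15 c3 * (xGL R.xadd 17 d1 * (xGL R.xadd 20 d2 * (xGL R.xadd 21 d3 *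
      (xGL R.xadd 22 e * (xGL R.xadd 23 z * 1)))))))))))

theorem bw_congr (R : BRel chevD4 K η) {a1 a2 a3 b c1 c2 c3 d1 d2 d3 e z A1 A2 A3 B C1 C2 C3 D1 D2 D3 E Z : K}
    (h1 : a1 = A1) (h2 : a2 = A2) (h3 : a3 = A3) (h4 : b = B) (h5 : c1 = C1) (h6 : c2 = C2) (h7 : c3 = C3)
    (h8 : d1 = D1) (h9 : d2 = D2) (h10 : d3 = D3) (h11 : e = E) (h12 : z = Z) :
    bw R a1 a2 a3 b c1 c2 c3 d1 d2 d3 e z = bw R A1 A2 A3 B C1 C2 C3 D1 D2 D3 E Z := by
  rw [h1, h2, h3, h4, h5, h6, h7, h8, h9, h10, h11, h12]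

/-- The multiplication law of `U` (type `D₄`, characteristic two) in the block order. -/
theorem bw_mul (R : BRel chevD4 K η) (a1 a2 a3 b c1 c2 c3 d1 d2 d3 e z A1 A2 A3 B C1 C2 C3 D1 D2 D3 E Z : K) :
    bw R a1 a2 a3 b c1 c2 c3 d1 d2 d3 e z * bw R A1 A2 A3 B C1 C2 C3 D1 D2 D3 E Z =
      bw R (a1 + A1) (a2 + A2) (a3 + A3) (b + B) (c1 + C1 + A1 * b) (c2 + C2 + A2 * b) (c3 + C3 + A3 * b)
        (d1 + D1 + A2 * A3 * b + A2 * c3 + A3 * c2) (d2 + D2 + A1 * A3 * b + A1 * c3 + A3 * c1)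
        (d3 + D3 + A1 * A2 * b + A1 * c2 + A2 * c1)
        (e + E + A1 * A2 * A3 * b + A1 * A2 * c3 + A1 * A3 * c2 + A1 * d1 + A2 * A3 * c1 + A2 * d2 + A3 * d3)
        (z + Z + A1 * A2 * A3 * B * b + A1 * A2 * A3 * b ^ 2 + A1 * A2 * B * c3 + A1 * A2 * C3 * b +
          A1 * A2 * b * c3 + A1 * A3 * B * c2 + A1 * A3 * C2 * b + A1 * A3 * b * c2 + A1 * B * d1 +
          A1 * C2 * c3 + A1 * C3 * c2 + A1 * c2 * c3 + A2 * A3 * B * c1 + A2 * A3 * C1 * b + A2 * A3 * b * c1 +
          A2 * B * d2 + A2 * C1 * c3 + A2 * C3 * c1 + A2 * c1 * c3 + A3 * B * d3 + A3 * C1 * c2 + A3 * C2 * c1 +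
          A3 * c1 * c2 + B * e + C1 * d1 + C2 * d2 + C3 * d3) := by
  unfold bw
  simp only [mul_assoc, one_mul, d4i_merge R.xadd,
    d4i_sw R (q := 14) (p := 18) (r := 19) (ε := 1) (by simp),
    d4i_sw R (q := 14) (p := 13) (r := 16) (ε := -1) (by simp),
    d4i_sw R (q := 14) (p := 12) (r := 15) (ε := -1) (by simp),
    d4i_sw R (q := 19) (p := 13) (r := 21) (ε := -1) (by simp),
    d4i_sw R (q := 19) (p := 12) (r := 20) (ε := -1) (by simp),
    d4i_sw R (q := 16) (p := 18) (r := 21) (ε := 1) (by simp),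
    d4i_sw R (q := 16) (p := 12) (r := 17) (ε := -1) (by simp),
    d4i_sw R (q := 15) (p := 18) (r := 20) (ε := 1) (by simp),
    d4i_sw R (q := 15) (p := 13) (r := 17) (ε := -1) (by simp),
    d4i_sw R (q := 17) (p := 18) (r := 22) (ε := 1) (by simp),
    d4i_sw R (q := 20) (p := 13) (r := 22) (ε := -1) (by simp),
    d4i_sw R (q := 21) (p := 12) (r := 22) (ε := -1) (by simp),
    d4i_sw R (q := 17) (p := 19) (r := 23) (ε := 1) (by simp),
    d4i_sw R (q := 20) (p := 16) (r := 23) (ε := 1) (by simp),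
    d4i_sw R (q := 21) (p := 15) (r := 23) (ε := 1) (by simp),
    d4i_sw R (q := 22) (p := 14) (r := 23) (ε := -1) (by simp),
    d4i_sw0 R (q := 13) (p := 18) (by simp),
    d4i_sw0 R (q := 12) (p := 18) (by simp),
    d4i_sw0 R (q := 12) (p := 13) (by simp),
    d4i_sw0 R (q := 19) (p := 18) (by simp),
    d4i_sw0 R (q := 19) (p := 14) (by simp),
    d4i_sw0 R (q := 16) (p := 13) (by simp),
    d4i_sw0 R (q := 16) (p := 14) (by simp),
    d4i_sw0 R (q := 16) (p := 19) (by simp),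
    d4i_sw0 R (q := 15) (p := 12) (by simp),
    d4i_sw0 R (q := 15) (p := 14) (by simp),
    d4i_sw0 R (q := 15) (p := 19) (by simp),
    d4i_sw0 R (q := 15) (p := 16) (by simp),
    d4i_sw0 R (q := 17) (p := 13) (by simp),
    d4i_sw0 R (q := 17) (p := 12) (by simp),
    d4i_sw0 R (q := 17) (p := 14) (by simp),
    d4i_sw0 R (q := 17) (p := 16) (by simp),
    d4i_sw0 R (q := 17) (p := 15) (by simp),
    d4i_sw0 R (q := 20) (p := 18) (by simp),
    d4i_sw0 R (q := 20) (p := 12) (by simp),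
    d4i_sw0 R (q := 20) (p := 14) (by simp),
    d4i_sw0 R (q := 20) (p := 19) (by simp),
    d4i_sw0 R (q := 20) (p := 15) (by simp),
    d4i_sw0 R (q := 20) (p := 17) (by simp),
    d4i_sw0 R (q := 21) (p := 18) (by simp),
    d4i_sw0 R (q := 21) (p := 13) (by simp),
    d4i_sw0 R (q := 21) (p := 14) (by simp),
    d4i_sw0 R (q := 21) (p := 19) (by simp),
    d4i_sw0 R (q := 21) (p := 16) (by simp),
    d4i_sw0 R (q := 21) (p := 17) (by simp),
    d4i_sw0 R (q := 21) (p := 20) (by simp),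
    d4i_sw0 R (q := 22) (p := 18) (by simp),
    d4i_sw0 R (q := 22) (p := 13) (by simp),
    d4i_sw0 R (q := 22) (p := 12) (by simp),
    d4i_sw0 R (q := 22) (p := 19) (by simp),
    d4i_sw0 R (q := 22) (p := 16) (by simp),
    d4i_sw0 R (q := 22) (p := 15) (by simp),
    d4i_sw0 R (q := 22) (p := 17) (by simp),
    d4i_sw0 R (q := 22) (p := 20) (by simp),
    d4i_sw0 R (q := 22) (p := 21) (by simp),
    d4i_sw0 R (q := 23) (p := 18) (by simp),
    d4i_sw0 R (q := 23) (p := 13) (by simp),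
    d4i_sw0 R (q := 23) (p := 12) (by simp),
    d4i_sw0 R (q := 23) (p := 14) (by simp),
    d4i_sw0 R (q := 23) (p := 19) (by simp),
    d4i_sw0 R (q := 23) (p := 16) (by simp),
    d4i_sw0 R (q := 23) (p := 15) (by simp),
    d4i_sw0 R (q := 23) (p := 17) (by simp),
    d4i_sw0 R (q := 23) (p := 20) (by simp),
    d4i_sw0 R (q := 23) (p := 21) (by simp),
    d4i_sw0 R (q := 23) (p := 22) (by simp)]
  refine congrArg₂ _ (congrArg _ ?_) (congrArg₂ _ (congrArg _ ?_) (congrArg₂ _ (congrArg _ ?_)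
    (congrArg₂ _ (congrArg _ ?_) (congrArg₂ _ (congrArg _ ?_) (congrArg₂ _ (congrArg _ ?_)
    (congrArg₂ _ (congrArg _ ?_) (congrArg₂ _ (congrArg _ ?_) (congrArg₂ _ (congrArg _ ?_)
    (congrArg₂ _ (congrArg _ ?_) (congrArg₂ _ (congrArg _ ?_) (congrArg₂ _ (congrArg _ ?_) rfl)))))))))))
    <;> grind

/-- The twisted words: the elements of `U` fixed by `σ` (see `tw_exists` in `D4Inv2`). -/
noncomputable def tw (R : BRel chevD4 K η) (f : K →+* K) (t u c d e z : K) : GL chevD4.Idx K :=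
  bw R t (f t) (f (f t)) u c (f c) (f (f c)) d (f d) (f (f d)) e z

theorem tw_congr (R : BRel chevD4 K η) (f : K →+* K) {t u c d e z t' u' c' d' e' z' : K}
    (h1 : t = t') (h2 : u = u') (h3 : c = c') (h4 : d = d') (h5 : e = e') (h6 : z = z') :
    tw R f t u c d e z = tw R f t' u' c' d' e' z' := by
  rw [h1, h2, h3, h4, h5, h6]

omit [CharP K 2] in
theorem tw_zero (R : BRel chevD4 K η) (f : K →+* K) : tw R f 0 0 0 0 0 0 = 1 := by
  unfold tw bw
  simp only [map_zero, xGL_zero, mul_one]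

/-- The multiplication law of the twisted words. -/
theorem tw_mul (R : BRel chevD4 K η) (f : K →+* K) (hf3 : ∀ x : K, f (f (f x)) = x)
    (t u c d e z t' u' c' d' e' z' : K) (hu : f u = u) :
    tw R f t u c d e z * tw R f t' u' c' d' e' z' =
      tw R f (t + t') (u + u') (c + c' + t' * u)
        (d + d' + f (f c) * f t' + f c * f (f t') + f t' * f (f t') * u)
        (c * f t' * f (f t') + d * t' + e + e' + f (f c) * t' * f t' + f (f d) * f (f t') + f c * t' * f (f t') + f d * f t' + t' * f t' * f (f t') * u)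
        (c * f (f c') * f t' + c * f (f c) * f t' + c * f c * f (f t') + c * f c' * f (f t') + c * f t' * f (f t') * u + c * f t' * f (f t') * u' + c' * d + c' * f t' * f (f t') * u + d * t' * u' + e * u' + f (f c') * f (f d) + f (f c') * t' * f t' * u + f (f c) * c' * f t' + f (f c) * f c' * t' + f (f c) * t' * f t' * u + f (f c) * t' * f t' * u' + f (f d) * f (f t') * u' + f c * c' * f (f t') + f c * f (f c') * t' + f c * f (f c) * t' + f c * t' * f (f t') * u + f c * t' * f (f t') * u' + f c' * f d + f c' * t' * f (f t') * u + f d * f t' * u' + t' * f t' * f (f t') * u * u' + t' * f t' * f (f t') * u ^ 2 + z + z') := by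
  unfold tw
  rw [bw_mul]
  apply bw_congr <;> (try simp only [map_add, map_mul, map_pow, hf3, hu]) <;> grind

/-- Conjugation of a twisted word by a twisted root element (type A). -/
theorem tw_conjA (R : BRel chevD4 K η) (f : K →+* K) (hf3 : ∀ x : K, f (f (f x)) = x)
    (s : K) (t u c d e z : K) (hu : f u = u) :
    tw R f s 0 0 0 0 0 * tw R f t u c d e z * (tw R f s 0 0 0 0 0)⁻¹ =
      tw R f (t) (u) (c + s * u)
        (d + f (f c) * f s + f c * f (f s) + f s * f (f s) * u)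
        (c * f s * f (f s) + d * s + e + f (f c) * s * f s + f (f d) * f (f s) + f c * s * f (f s) + f d * f s + s * f s * f (f s) * u)
        (c * f (f c) * f s + c * f c * f (f s) + c * f s * f (f s) * u + f (f c) * s * f s * u + f c * f (f c) * s + f c * s * f (f s) * u + s * f s * f (f s) * u ^ 2 + z) := by
  have hinv : (tw R f s 0 0 0 0 0)⁻¹ = tw R f s 0 0 0 0 0 := by
    rw [inv_eq_iff_mul_eq_one, tw_mul R f hf3 _ _ _ _ _ _ _ _ _ _ _ _ (map_zero f), ← tw_zero R f]
    apply tw_congr <;> (try simp only [map_zero, map_add, map_mul, hf3]) <;> grind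
  rw [hinv, tw_mul R f hf3 _ _ _ _ _ _ _ _ _ _ _ _ (map_zero f),
    tw_mul R f hf3 _ _ _ _ _ _ _ _ _ _ _ _ (by simp only [map_add, map_zero, hu])]
  apply tw_congr <;> (try simp only [map_zero, map_add, map_mul, hf3, hu]) <;> grind

/-- Conjugation of a twisted word by a twisted root element (type B). -/
theorem tw_conjB (R : BRel chevD4 K η) (f : K →+* K) (hf3 : ∀ x : K, f (f (f x)) = x)
    (v : K) (hv : f v = v) (t u c d e z : K) (hu : f u = u) :
    tw R f 0 v 0 0 0 0 * tw R f t u c d e z * (tw R f 0 v 0 0 0 0)⁻¹ =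
      tw R f (t) (u) (c + t * v)
        (d + f t * f (f t) * v)
        (e + t * f t * f (f t) * v)
        (c * f t * f (f t) * v + e * v + f (f c) * t * f t * v + f c * t * f (f t) * v + t * f t * f (f t) * u * v + z) := by
  have hinv : (tw R f 0 v 0 0 0 0)⁻¹ = tw R f 0 v 0 0 0 0 := by
    rw [inv_eq_iff_mul_eq_one, tw_mul R f hf3 _ _ _ _ _ _ _ _ _ _ _ _ hv, ← tw_zero R f]
    apply tw_congr <;> (try simp only [map_zero, map_add, map_mul, hf3, hv]) <;> grind
  rw [hinv, tw_mul R f hf3 _ _ _ _ _ _ _ _ _ _ _ _ hv,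
    tw_mul R f hf3 _ _ _ _ _ _ _ _ _ _ _ _ (by simp only [map_add, map_zero, hu, hv])]
  apply tw_congr <;> (try simp only [map_zero, map_add, map_mul, hf3, hu, hv]) <;> grind

/-- Conjugation of a twisted word by a twisted root element (type C). -/
theorem tw_conjC (R : BRel chevD4 K η) (f : K →+* K) (hf3 : ∀ x : K, f (f (f x)) = x)
    (s : K) (t u c d e z : K) (hu : f u = u) :
    tw R f 0 0 s 0 0 0 * tw R f t u c d e z * (tw R f 0 0 s 0 0 0)⁻¹ =
      tw R f (t) (u) (c)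
        (d + f (f s) * f t + f s * f (f t))
        (e + f (f s) * t * f t + f s * t * f (f t) + s * f t * f (f t))
        (c * f (f s) * f t + c * f s * f (f t) + d * s + f (f c) * f s * t + f (f c) * s * f t + f (f d) * f (f s) + f (f s) * t * f t * u + f c * f (f s) * t + f c * s * f (f t) + f d * f s + f s * f (f s) * t + f s * t * f (f t) * u + s * f (f s) * f t + s * f s * f (f t) + s * f t * f (f t) * u + z) := by
  have hinv : (tw R f 0 0 s 0 0 0)⁻¹ = tw R f 0 0 s 0 0 0 := by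
    rw [inv_eq_iff_mul_eq_one, tw_mul R f hf3 _ _ _ _ _ _ _ _ _ _ _ _ (map_zero f), ← tw_zero R f]
    apply tw_congr <;> (try simp only [map_zero, map_add, map_mul, hf3]) <;> grind
  rw [hinv, tw_mul R f hf3 _ _ _ _ _ _ _ _ _ _ _ _ (map_zero f),
    tw_mul R f hf3 _ _ _ _ _ _ _ _ _ _ _ _ (by simp only [map_add, map_zero, hu])]
  apply tw_congr <;> (try simp only [map_zero, map_add, map_mul, hf3, hu]) <;> grind

/-- Conjugation of a twisted word by a twisted root element (type D). -/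
theorem tw_conjD (R : BRel chevD4 K η) (f : K →+* K) (hf3 : ∀ x : K, f (f (f x)) = x)
    (s : K) (t u c d e z : K) (hu : f u = u) :
    tw R f 0 0 0 s 0 0 * tw R f t u c d e z * (tw R f 0 0 0 s 0 0)⁻¹ =
      tw R f (t) (u) (c)
        (d)
        (e + f (f s) * f (f t) + f s * f t + s * t)
        (c * s + f (f c) * f (f s) + f (f s) * f (f t) * u + f c * f s + f s * f t * u + s * t * u + z) := by
  have hinv : (tw R f 0 0 0 s 0 0)⁻¹ = tw R f 0 0 0 s 0 0 := by
    rw [inv_eq_iff_mul_eq_one, tw_mul R f hf3 _ _ _ _ _ _ _ _ _ _ _ _ (map_zero f), ← tw_zero R f]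
    apply tw_congr <;> (try simp only [map_zero, map_add, map_mul, hf3]) <;> grind
  rw [hinv, tw_mul R f hf3 _ _ _ _ _ _ _ _ _ _ _ _ (map_zero f),
    tw_mul R f hf3 _ _ _ _ _ _ _ _ _ _ _ _ (by simp only [map_add, map_zero, hu])]
  apply tw_congr <;> (try simp only [map_zero, map_add, map_mul, hf3, hu]) <;> grind

/-- Conjugation of a twisted word by a twisted root element (type E). -/
theorem tw_conjE (R : BRel chevD4 K η) (f : K →+* K) (hf3 : ∀ x : K, f (f (f x)) = x)
    (v : K) (hv : f v = v) (t u c d e z : K) (hu : f u = u) :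
    tw R f 0 0 0 0 v 0 * tw R f t u c d e z * (tw R f 0 0 0 0 v 0)⁻¹ =
      tw R f (t) (u) (c)
        (d)
        (e)
        (u * v + z) := by
  have hinv : (tw R f 0 0 0 0 v 0)⁻¹ = tw R f 0 0 0 0 v 0 := by
    rw [inv_eq_iff_mul_eq_one, tw_mul R f hf3 _ _ _ _ _ _ _ _ _ _ _ _ (map_zero f), ← tw_zero R f]
    apply tw_congr <;> (try simp only [map_zero, map_add, map_mul, hf3, hv]) <;> grind
  rw [hinv, tw_mul R f hf3 _ _ _ _ _ _ _ _ _ _ _ _ (map_zero f),
    tw_mul R f hf3 _ _ _ _ _ _ _ _ _ _ _ _ (by simp only [map_add, map_zero, hu, hv])]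
  apply tw_congr <;> (try simp only [map_zero, map_add, map_mul, hf3, hu, hv]) <;> grind

/-- The square of a twisted word. -/
theorem tw_sq (R : BRel chevD4 K η) (f : K →+* K) (hf3 : ∀ x : K, f (f (f x)) = x)
    (t u c d e z : K) (hu : f u = u) :
    tw R f t u c d e z * tw R f t u c d e z =
      tw R f 0 0 (t * u)
        (f (f c) * f t + f c * f (f t) + f t * f (f t) * u)
        (c * f t * f (f t) + d * t + f (f c) * t * f t + f (f d) * f (f t) + f c * t * f (f t) + f d * f t + t * f t * f (f t) * u)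
        (c * d + c * f (f c) * f t + c * f c * f (f t) + c * f t * f (f t) * u + d * t * u + e * u + f (f c) * f (f d) + f (f c) * t * f t * u + f (f d) * f (f t) * u + f c * f (f c) * t + f c * f d + f c * t * f (f t) * u + f d * f t * u) := by
  rw [tw_mul R f hf3 _ _ _ _ _ _ _ _ _ _ _ _ hu]
  apply tw_congr <;> (try simp only [map_zero, map_add, map_mul, hf3, hu]) <;> grind

end D4Inv

end Cfsg.Agent.Helper38
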