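/-
helper38: interface statements for the pieces of CALL S2183 (existence and uniqueness of the block-ordered
words of `U` in type `D₄`).
-/
import Cfsg.Agent.Helper38.D4Inv

set_option autoImplicit false

namespace Cfsg.Agent.Helper38

open Cfsg Cfsg.Lie Cfsg.Agent.Helper36 Cfsg.Agent.Helper17 Cfsg.Agent.Helper18

section D4InvDefs

variable {K : Type*} [Field K] {η : ℕ → ℕ → ℤ}

/-- Every element of `U` is a block-ordered word. -/
def BwEx (R : BRel chevD4 K η) : Prop :=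
  ∀ u ∈ chevD4.posUnipotent K, ∃ a1 a2 a3 b c1 c2 c3 d1 d2 d3 e z : K,
    u = bw R a1 a2 a3 b c1 c2 c3 d1 d2 d3 e z

/-- The coordinates of a block-ordered word are unique. -/
def BwInj (R : BRel chevD4 K η) : Prop :=
  ∀ a1 a2 a3 b c1 c2 c3 d1 d2 d3 e z A1 A2 A3 B C1 C2 C3 D1 D2 D3 E Z : K,
    bw R a1 a2 a3 b c1 c2 c3 d1 d2 d3 e z = bw R A1 A2 A3 B C1 C2 C3 D1 D2 D3 E Z →
      a1 = A1 ∧ a2 = A2 ∧ a3 = A3 ∧ b = B ∧ c1 = C1 ∧ c2 = C2 ∧ c3 = C3 ∧ d1 = D1 ∧ d2 = D2 ∧ d3 = D3 ∧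
        e = E ∧ z = Z

end D4InvDefs

end Cfsg.Agent.Helper38
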