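/-
helper38: piece NC of CALL S2183 - in `D₄(K)`, characteristic two, a product of three nontrivial root elements
of the simple roots `p₁ p₃ p₄` is not conjugate to a root element of the highest root.
-/
import Cfsg.Agent.Helper38.D4InvDefs

set_option autoImplicit false
set_option linter.unusedSimpArgs false
set_option linter.unusedVariables false
set_option linter.unusedSectionVars false

namespace Cfsg.Agent.Helper38

open Cfsg Cfsg.Lie Cfsg.Agent.Helper36 Cfsg.Agent.Helper17 Cfsg.Agent.Helper18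

section D4NC

variable {K : Type*} [Field K] [CharP K 2] {η : ℕ → ℕ → ℤ}

omit [CharP K 2] in
/-- A root element of a positive root as a block-ordered word. -/
theorem d4n_x (R : BRel chevD4 K η) (s : K) :
    xGL R.xadd 18 s = bw R s 0 0 0 0 0 0 0 0 0 0 0 ∧
    xGL R.xadd 13 s = bw R 0 s 0 0 0 0 0 0 0 0 0 0 ∧
    xGL R.xadd 12 s = bw R 0 0 s 0 0 0 0 0 0 0 0 0 ∧
    xGL R.xadd 14 s = bw R 0 0 0 s 0 0 0 0 0 0 0 0 ∧
    xGL R.xadd 19 s = bw R 0 0 0 0 s 0 0 0 0 0 0 0 ∧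
    xGL R.xadd 16 s = bw R 0 0 0 0 0 s 0 0 0 0 0 0 ∧
    xGL R.xadd 15 s = bw R 0 0 0 0 0 0 s 0 0 0 0 0 ∧
    xGL R.xadd 17 s = bw R 0 0 0 0 0 0 0 s 0 0 0 0 ∧
    xGL R.xadd 20 s = bw R 0 0 0 0 0 0 0 0 s 0 0 0 ∧
    xGL R.xadd 21 s = bw R 0 0 0 0 0 0 0 0 0 s 0 0 ∧
    xGL R.xadd 22 s = bw R 0 0 0 0 0 0 0 0 0 0 s 0 ∧
    xGL R.xadd 23 s = bw R 0 0 0 0 0 0 0 0 0 0 0 s := by
  unfold bw
  simp only [xGL_zero, one_mul, mul_one, and_self]

omit [CharP K 2] in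
theorem d4n_one (R : BRel chevD4 K η) : (1 : GL chevD4.Idx K) = bw R 0 0 0 0 0 0 0 0 0 0 0 0 := by
  unfold bw
  simp only [xGL_zero, one_mul, mul_one]

/-- The elements of `U` whose coordinates at the simple roots `p₁ p₃ p₄` are all nonzero. -/
def D4P (R : BRel chevD4 K η) (y : GL chevD4.Idx K) : Prop :=
  ∃ a1 a2 a3 b c1 c2 c3 d1 d2 d3 e z : K, a1 ≠ 0 ∧ a2 ≠ 0 ∧ a3 ≠ 0 ∧
    y = bw R a1 a2 a3 b c1 c2 c3 d1 d2 d3 e z

theorem D4P_conj_bw (R : BRel chevD4 K η) (A1 A2 A3 B C1 C2 C3 D1 D2 D3 E Z A1' A2' A3' B' C1' C2' C3' D1' D2'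
    D3' E' Z' : K) (hA1 : A1 + A1' = 0) (hA2 : A2 + A2' = 0) (hA3 : A3 + A3' = 0) {y : GL chevD4.Idx K}
    (hy : D4P R y) :
    D4P R (bw R A1 A2 A3 B C1 C2 C3 D1 D2 D3 E Z * y * bw R A1' A2' A3' B' C1' C2' C3' D1' D2' D3' E' Z') := by
  obtain ⟨a1, a2, a3, b, c1, c2, c3, d1, d2, d3, e, z, h1, h2, h3, rfl⟩ := hy
  rw [bw_mul, bw_mul]
  refine ⟨_, _, _, _, _, _, _, _, _, _, _, _, ?_, ?_, ?_, rfl⟩
  · rw [show A1 + a1 + A1' = a1 by linear_combination hA1]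
    exact h1
  · rw [show A2 + a2 + A2' = a2 by linear_combination hA2]
    exact h2
  · rw [show A3 + a3 + A3' = a3 by linear_combination hA3]
    exact h3

theorem D4P_conj_x (R : BRel chevD4 K η) {q : ℕ} (hq : chevD4.IsPosRoot q) (u : K)
    {y : GL chevD4.Idx K} (hy : D4P R y) : D4P R (xGL R.xadd q u * y * (xGL R.xadd q u)⁻¹) := by
  have hq' : q ∈ chevD4.posRoots := mem_posRoots.mpr hq
  rw [d4_posRoots] at hq'
  simp only [List.mem_cons, List.not_mem_nil, or_false] at hq'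
  rw [xGL_inv]
  obtain ⟨x18, x13, x12, x14, x19, x16, x15, x17, x20, x21, x22, x23⟩ := d4n_x R u
  obtain ⟨y18, y13, y12, y14, y19, y16, y15, y17, y20, y21, y22, y23⟩ := d4n_x R (-u)
  rcases hq' with rfl | rfl | rfl | rfl | rfl | rfl | rfl | rfl | rfl | rfl | rfl | rfl
  · rw [x12, y12]
    exact D4P_conj_bw R _ _ _ _ _ _ _ _ _ _ _ _ _ _ _ _ _ _ _ _ _ _ _ _ (by ring) (by ring) (by ring) hy
  · rw [x13, y13]
    exact D4P_conj_bw R _ _ _ _ _ _ _ _ _ _ _ _ _ _ _ _ _ _ _ _ _ _ _ _ (by ring) (by ring) (by ring) hy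
  · rw [x14, y14]
    exact D4P_conj_bw R _ _ _ _ _ _ _ _ _ _ _ _ _ _ _ _ _ _ _ _ _ _ _ _ (by ring) (by ring) (by ring) hy
  · rw [x15, y15]
    exact D4P_conj_bw R _ _ _ _ _ _ _ _ _ _ _ _ _ _ _ _ _ _ _ _ _ _ _ _ (by ring) (by ring) (by ring) hy
  · rw [x16, y16]
    exact D4P_conj_bw R _ _ _ _ _ _ _ _ _ _ _ _ _ _ _ _ _ _ _ _ _ _ _ _ (by ring) (by ring) (by ring) hy
  · rw [x17, y17]
    exact D4P_conj_bw R _ _ _ _ _ _ _ _ _ _ _ _ _ _ _ _ _ _ _ _ _ _ _ _ (by ring) (by ring) (by ring) hy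
  · rw [x18, y18]
    exact D4P_conj_bw R _ _ _ _ _ _ _ _ _ _ _ _ _ _ _ _ _ _ _ _ _ _ _ _ (by ring) (by ring) (by ring) hy
  · rw [x19, y19]
    exact D4P_conj_bw R _ _ _ _ _ _ _ _ _ _ _ _ _ _ _ _ _ _ _ _ _ _ _ _ (by ring) (by ring) (by ring) hy
  · rw [x20, y20]
    exact D4P_conj_bw R _ _ _ _ _ _ _ _ _ _ _ _ _ _ _ _ _ _ _ _ _ _ _ _ (by ring) (by ring) (by ring) hy
  · rw [x21, y21]
    exact D4P_conj_bw R _ _ _ _ _ _ _ _ _ _ _ _ _ _ _ _ _ _ _ _ _ _ _ _ (by ring) (by ring) (by ring) hy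
  · rw [x22, y22]
    exact D4P_conj_bw R _ _ _ _ _ _ _ _ _ _ _ _ _ _ _ _ _ _ _ _ _ _ _ _ (by ring) (by ring) (by ring) hy
  · rw [x23, y23]
    exact D4P_conj_bw R _ _ _ _ _ _ _ _ _ _ _ _ _ _ _ _ _ _ _ _ _ _ _ _ (by ring) (by ring) (by ring) hy

omit [CharP K 2] in
theorem d4n_conj_mul {G : Type*} [Group G] (h a w : G) : h * (a * w) * h⁻¹ = (h * a * h⁻¹) * (h * w * h⁻¹) := by
  group

omit [CharP K 2] in
theorem d4n_hx_ne (R : BRel chevD4 K η) {h : GL chevD4.Idx K} {r : ℕ} (hr : r < chevD4.nroots) {χ : K}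
    (hχ : ∀ t : K, h * xGL R.xadd r t * h⁻¹ = xGL R.xadd r (χ * t)) {c : K} (hc : c ≠ 0) : χ * c ≠ 0 := by
  intro e
  have h1 := hχ c
  rw [e, xGL_zero] at h1
  have h2 : xGL R.xadd r c = 1 := by
    calc xGL R.xadd r c = h⁻¹ * (h * xGL R.xadd r c * h⁻¹) * h := by group
      _ = 1 := by rw [h1]; group
  have h3 := congrArg Units.val h2
  rw [xGL_val, Units.val_one] at h3
  exact hc (R.xinj r hr c h3)

omit [CharP K 2] in
theorem D4P_conj_h (R : BRel chevD4 K η) {h : GL chevD4.Idx K} (hh : h ∈ chevD4.diagonalSubgroup K)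
    {y : GL chevD4.Idx K} (hy : D4P R y) : D4P R (h * y * h⁻¹) := by
  obtain ⟨a1, a2, a3, b, c1, c2, c3, d1, d2, d3, e, z, h1, h2, h3, rfl⟩ := hy
  obtain ⟨χ18, h18⟩ := R.hx h hh 18 (by decide)
  obtain ⟨χ13, h13⟩ := R.hx h hh 13 (by decide)
  obtain ⟨χ12, h12⟩ := R.hx h hh 12 (by decide)
  obtain ⟨χ14, h14⟩ := R.hx h hh 14 (by decide)
  obtain ⟨χ19, h19⟩ := R.hx h hh 19 (by decide)
  obtain ⟨χ16, h16⟩ := R.hx h hh 16 (by decide)
  obtain ⟨χ15, h15⟩ := R.hx h hh 15 (by decide)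
  obtain ⟨χ17, h17⟩ := R.hx h hh 17 (by decide)
  obtain ⟨χ20, h20⟩ := R.hx h hh 20 (by decide)
  obtain ⟨χ21, h21⟩ := R.hx h hh 21 (by decide)
  obtain ⟨χ22, h22⟩ := R.hx h hh 22 (by decide)
  obtain ⟨χ23, h23⟩ := R.hx h hh 23 (by decide)
  refine ⟨χ18 * a1, χ13 * a2, χ12 * a3, χ14 * b, χ19 * c1, χ16 * c2, χ15 * c3, χ17 * d1, χ20 * d2, χ21 * d3, χ22 * e, χ23 * z,
    d4n_hx_ne R (by decide) h18 h1, d4n_hx_ne R (by decide) h13 h2, d4n_hx_ne R (by decide) h12 h3, ?_⟩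
  unfold bw
  simp only [d4n_conj_mul, h18, h13, h12, h14, h19, h16, h15, h17, h20, h21, h22, h23, mul_one, mul_inv_cancel]

theorem D4P_conj_U (R : BRel chevD4 K η) {u : GL chevD4.Idx K} (hu : u ∈ chevD4.posUnipotent K) :
    (∀ y, D4P R y → D4P R (u * y * u⁻¹)) ∧ (∀ y, D4P R y → D4P R (u⁻¹ * y * u)) := by
  unfold ChevalleyDatum.posUnipotent at hu
  refine Subgroup.closure_induction (p := fun u _ => (∀ y, D4P R y → D4P R (u * y * u⁻¹)) ∧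
    (∀ y, D4P R y → D4P R (u⁻¹ * y * u))) ?_ ?_ ?_ ?_ hu
  · rintro g ⟨q, t, hq, hg⟩
    rw [eq_xGL R.xadd hg]
    constructor
    · intro y hy
      exact D4P_conj_x R hq t hy
    · intro y hy
      have h1 := D4P_conj_x R hq (-t) hy
      rw [xGL_inv, neg_neg] at h1
      rw [xGL_inv]
      exact h1
  · constructor
    · intro y hy
      rw [one_mul, inv_one, mul_one]
      exact hy
    · intro y hy
      rw [inv_one, one_mul, mul_one]
      exact hy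
  · rintro a b - - ⟨ha1, ha2⟩ ⟨hb1, hb2⟩
    constructor
    · intro y hy
      have h1 := ha1 _ (hb1 y hy)
      have e : a * b * y * (a * b)⁻¹ = a * (b * y * b⁻¹) * a⁻¹ := by group
      rw [e]
      exact h1
    · intro y hy
      have h1 := hb2 _ (ha2 y hy)
      have e : (a * b)⁻¹ * y * (a * b) = b⁻¹ * (a⁻¹ * y * a) * b := by group
      rw [e]
      exact h1
  · rintro a - ⟨ha1, ha2⟩
    constructor
    · intro y hy
      rw [inv_inv]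
      exact ha2 y hy
    · intro y hy
      rw [inv_inv]
      exact ha1 y hy

theorem D4P_conj_B (R : BRel chevD4 K η) {b : GL chevD4.Idx K} (hb : b ∈ chevD4.borelSubgroup K)
    {y : GL chevD4.Idx K} (hy : D4P R y) : D4P R (b * y * b⁻¹) := by
  unfold ChevalleyDatum.borelSubgroup at hb
  obtain ⟨u, hu, h, hh, rfl⟩ := chCent_sup_decomp (chevD4.posUnipotent K) (chevD4.diagonalSubgroup K)
    (fun h hh p hp => (Subgroup.mem_normalizer_iff.mp (R.hU hh) p).mp hp) b hb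
  have e : u * h * y * (u * h)⁻¹ = u * (h * y * h⁻¹) * u⁻¹ := by group
  rw [e]
  exact (D4P_conj_U R hu).1 _ (D4P_conj_h R hh hy)

omit [CharP K 2] in
theorem D4P_mem_U (R : BRel chevD4 K η) (a1 a2 a3 b c1 c2 c3 d1 d2 d3 e z : K) :
    bw R a1 a2 a3 b c1 c2 c3 d1 d2 d3 e z ∈ chevD4.posUnipotent K := by
  have hx : ∀ r, chevD4.IsPosRoot r → ∀ t : K, xGL R.xadd r t ∈ chevD4.posUnipotent K := by
    intro r hr t
    exact Subgroup.subset_closure ⟨r, t, hr, xGL_val R.xadd r t⟩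
  unfold bw
  exact mul_mem (hx 18 (by decide) _) (mul_mem (hx 13 (by decide) _) (mul_mem (hx 12 (by decide) _)
    (mul_mem (hx 14 (by decide) _) (mul_mem (hx 19 (by decide) _) (mul_mem (hx 16 (by decide) _)
    (mul_mem (hx 15 (by decide) _) (mul_mem (hx 17 (by decide) _) (mul_mem (hx 20 (by decide) _)
    (mul_mem (hx 21 (by decide) _) (mul_mem (hx 22 (by decide) _) (mul_mem (hx 23 (by decide) _)
    (one_mem _))))))))))))

theorem d4n_negRoots : ∀ r < 12, chevD4.IsNegRoot r := by decide +kernel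

/-- PIECE NC of CALL S2183: a product of three nontrivial root elements of the simple roots `p₁ p₃ p₄` is not
conjugate in `D₄(K)` to the element `x_23(1)` of the highest root. -/
theorem d4s_noconj (R : BRel chevD4 K η) (hinj : BwInj R)
    {h : GL chevD4.Idx K} (hh : h ∈ chevD4.group K) {a1 a2 a3 : K} (h1 : a1 ≠ 0) (h2 : a2 ≠ 0) (h3 : a3 ≠ 0) :
    h * (xGL R.xadd 18 a1 * xGL R.xadd 13 a2 * xGL R.xadd 12 a3) * h⁻¹ ≠ xGL R.xadd 23 1 := by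
  intro heq
  obtain ⟨b₁, hb₁, n, hn, b₂, hb₂, rfl⟩ := R.bruhat h hh
  obtain ⟨L, hL, h', hh', hn'⟩ := R.exists_word n⁻¹ (inv_mem hn)
  have hBN := chCentG_borel_normalizes R (r0 := 23) (by decide) (fun q hq u t => by
    have hq' : q ∈ chevD4.posRoots := mem_posRoots.mpr hq
    rw [d4_posRoots] at hq'
    simp only [List.mem_cons, List.not_mem_nil, or_false] at hq'
    rcases hq' with rfl | rfl | rfl | rfl | rfl | rfl | rfl | rfl | rfl | rfl | rfl | rfl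
    · exact chSep_conj_fix R (by decide) (by decide) (Or.inr (by decide +kernel)) u t
    · exact chSep_conj_fix R (by decide) (by decide) (Or.inr (by decide +kernel)) u t
    · exact chSep_conj_fix R (by decide) (by decide) (Or.inr (by decide +kernel)) u t
    · exact chSep_conj_fix R (by decide) (by decide) (Or.inr (by decide +kernel)) u t
    · exact chSep_conj_fix R (by decide) (by decide) (Or.inr (by decide +kernel)) u t
    · exact chSep_conj_fix R (by decide) (by decide) (Or.inr (by decide +kernel)) u t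
    · exact chSep_conj_fix R (by decide) (by decide) (Or.inr (by decide +kernel)) u t
    · exact chSep_conj_fix R (by decide) (by decide) (Or.inr (by decide +kernel)) u t
    · exact chSep_conj_fix R (by decide) (by decide) (Or.inr (by decide +kernel)) u t
    · exact chSep_conj_fix R (by decide) (by decide) (Or.inr (by decide +kernel)) u t
    · exact chSep_conj_fix R (by decide) (by decide) (Or.inr (by decide +kernel)) u t
    · exact chSep_conj_fix R (by decide) (by decide) (Or.inl rfl) u t)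
  have hPt : D4P R (xGL R.xadd 18 a1 * xGL R.xadd 13 a2 * xGL R.xadd 12 a3) :=
    ⟨a1, a2, a3, 0, 0, 0, 0, 0, 0, 0, 0, 0, h1, h2, h3, by
      unfold bw
      simp only [xGL_zero, one_mul, mul_one, mul_assoc]⟩
  obtain ⟨A1, A2, A3, B, C1, C2, C3, D1, D2, D3, E, Z, hA1, hA2, hA3, hy⟩ := D4P_conj_B R hb₂ hPt
  obtain ⟨c₀, hc₀⟩ := (mem_rootSubgroup_iff R.xadd _ _).mp
    ((Subgroup.mem_normalizer_iff.mp (hBN (inv_mem hb₁)) _).mp (xGL_mem_rootSubgroup R.xadd 23 1))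
  obtain ⟨χ, hχ⟩ := R.hx h' hh' 23 (by decide)
  have e1 : b₂ * (xGL R.xadd 18 a1 * xGL R.xadd 13 a2 * xGL R.xadd 12 a3) * b₂⁻¹ =
      xGL R.xadd (wW chevD4 L 23) ((eW chevD4 η L 23 : K) * (χ * c₀)) := by
    rw [← R.nW_conj_x hL (by decide), ← hχ, ← hc₀, ← heq]
    have e2 : R.nW L * h' = n⁻¹ := hn'.symm
    calc b₂ * (xGL R.xadd 18 a1 * xGL R.xadd 13 a2 * xGL R.xadd 12 a3) * b₂⁻¹
        = n⁻¹ * (b₁⁻¹ * (b₁ * n * b₂ * (xGL R.xadd 18 a1 * xGL R.xadd 13 a2 * xGL R.xadd 12 a3) *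
            (b₁ * n * b₂)⁻¹) * b₁⁻¹⁻¹) * n⁻¹⁻¹ := by group
      _ = (R.nW L * h') * (b₁⁻¹ * (b₁ * n * b₂ * (xGL R.xadd 18 a1 * xGL R.xadd 13 a2 * xGL R.xadd 12 a3) *
            (b₁ * n * b₂)⁻¹) * b₁⁻¹⁻¹) * (R.nW L * h')⁻¹ := by rw [e2]
      _ = _ := by group
  rw [hy] at e1
  have hlt : wW chevD4 L 23 < chevD4.nroots := R.wf.wW_lt hL (by decide)
  generalize wW chevD4 L 23 = ρ at e1 hlt
  generalize (eW chevD4 η L 23 : K) * (χ * c₀) = d at e1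
  obtain ⟨x18, x13, x12, x14, x19, x16, x15, x17, x20, x21, x22, x23⟩ := d4n_x R d
  have hn24 : chevD4.nroots = 24 := by decide
  rw [hn24] at hlt
  by_cases hρ : ρ < 12
  · -- a negative root: the element lies in `B ∩ V = 1`
    have hmem : xGL R.xadd ρ d ∈ chevD4.borelSubgroup K ⊓ chevD4.negUnipotent K := by
      refine Subgroup.mem_inf.mpr ⟨?_, ?_⟩
      · rw [← e1]
        exact BRel.U_le_B chevD4 K (D4P_mem_U R _ _ _ _ _ _ _ _ _ _ _ _)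
      · exact Subgroup.subset_closure ⟨ρ, d, d4n_negRoots ρ hρ, xGL_val R.xadd ρ d⟩
    rw [R.bv, Subgroup.mem_bot] at hmem
    rw [hmem, d4n_one R] at e1
    exact hA1 (hinj _ _ _ _ _ _ _ _ _ _ _ _ _ _ _ _ _ _ _ _ _ _ _ _ e1).1
  · have hρ' : ρ = 12 ∨ ρ = 13 ∨ ρ = 14 ∨ ρ = 15 ∨ ρ = 16 ∨ ρ = 17 ∨ ρ = 18 ∨ ρ = 19 ∨ ρ = 20 ∨ ρ = 21 ∨
        ρ = 22 ∨ ρ = 23 := by omega
    rcases hρ' with rfl | rfl | rfl | rfl | rfl | rfl | rfl | rfl | rfl | rfl | rfl | rfl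
    · rw [x12] at e1
      exact hA1 (hinj _ _ _ _ _ _ _ _ _ _ _ _ _ _ _ _ _ _ _ _ _ _ _ _ e1).1
    · rw [x13] at e1
      exact hA1 (hinj _ _ _ _ _ _ _ _ _ _ _ _ _ _ _ _ _ _ _ _ _ _ _ _ e1).1
    · rw [x14] at e1
      exact hA1 (hinj _ _ _ _ _ _ _ _ _ _ _ _ _ _ _ _ _ _ _ _ _ _ _ _ e1).1
    · rw [x15] at e1
      exact hA1 (hinj _ _ _ _ _ _ _ _ _ _ _ _ _ _ _ _ _ _ _ _ _ _ _ _ e1).1
    · rw [x16] at e1
      exact hA1 (hinj _ _ _ _ _ _ _ _ _ _ _ _ _ _ _ _ _ _ _ _ _ _ _ _ e1).1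
    · rw [x17] at e1
      exact hA1 (hinj _ _ _ _ _ _ _ _ _ _ _ _ _ _ _ _ _ _ _ _ _ _ _ _ e1).1
    · rw [x18] at e1
      exact hA2 (hinj _ _ _ _ _ _ _ _ _ _ _ _ _ _ _ _ _ _ _ _ _ _ _ _ e1).2.1
    · rw [x19] at e1
      exact hA1 (hinj _ _ _ _ _ _ _ _ _ _ _ _ _ _ _ _ _ _ _ _ _ _ _ _ e1).1
    · rw [x20] at e1
      exact hA1 (hinj _ _ _ _ _ _ _ _ _ _ _ _ _ _ _ _ _ _ _ _ _ _ _ _ e1).1
    · rw [x21] at e1
      exact hA1 (hinj _ _ _ _ _ _ _ _ _ _ _ _ _ _ _ _ _ _ _ _ _ _ _ _ e1).1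
    · rw [x22] at e1
      exact hA1 (hinj _ _ _ _ _ _ _ _ _ _ _ _ _ _ _ _ _ _ _ _ _ _ _ _ e1).1
    · rw [x23] at e1
      exact hA1 (hinj _ _ _ _ _ _ _ _ _ _ _ _ _ _ _ _ _ _ _ _ _ _ _ _ e1).1

end D4NC

end Cfsg.Agent.Helper38
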