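/-
helper38: piece BWX of CALL S2183 - existence and uniqueness of the block-ordered words of `U` (type `D₄`,
characteristic two).
-/
import Cfsg.Agent.Helper38.D4NC

set_option autoImplicit false
set_option linter.unusedSimpArgs false
set_option linter.unusedVariables false
set_option linter.unusedSectionVars false

namespace Cfsg.Agent.Helper38

open Cfsg Cfsg.Lie Cfsg.Agent.Helper36 Cfsg.Agent.Helper17 Cfsg.Agent.Helper18

section D4BWX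

variable {K : Type*} [Field K] [CharP K 2] {η : ℕ → ℕ → ℤ}

/-- Being a block-ordered word. -/
def D4Bw (R : BRel chevD4 K η) (u : GL chevD4.Idx K) : Prop :=
  ∃ a1 a2 a3 b c1 c2 c3 d1 d2 d3 e z : K, u = bw R a1 a2 a3 b c1 c2 c3 d1 d2 d3 e z

theorem D4Bw.mul (R : BRel chevD4 K η) {u v : GL chevD4.Idx K} (hu : D4Bw R u) (hv : D4Bw R v) :
    D4Bw R (u * v) := by
  obtain ⟨a1, a2, a3, b, c1, c2, c3, d1, d2, d3, e, z, rfl⟩ := hu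
  obtain ⟨A1, A2, A3, B, C1, C2, C3, D1, D2, D3, E, Z, rfl⟩ := hv
  exact ⟨_, _, _, _, _, _, _, _, _, _, _, _, bw_mul R _ _ _ _ _ _ _ _ _ _ _ _ _ _ _ _ _ _ _ _ _ _ _ _⟩

omit [CharP K 2] in
theorem D4Bw.one (R : BRel chevD4 K η) : D4Bw R 1 :=
  ⟨0, 0, 0, 0, 0, 0, 0, 0, 0, 0, 0, 0, d4n_one R⟩

omit [CharP K 2] in
theorem D4Bw.x (R : BRel chevD4 K η) (s : K) :
    D4Bw R (xGL R.xadd 12 s) ∧ D4Bw R (xGL R.xadd 13 s) ∧ D4Bw R (xGL R.xadd 14 s) ∧ D4Bw R (xGL R.xadd 15 s) ∧ D4Bw R (xGL R.xadd 16 s) ∧ D4Bw R (xGL R.xadd 17 s) ∧ D4Bw R (xGL R.xadd 18 s) ∧ D4Bw R (xGL R.xadd 19 s) ∧ D4Bw R (xGL R.xadd 20 s) ∧ D4Bw R (xGL R.xadd 21 s) ∧ D4Bw R (xGL R.xadd 22 s) ∧ D4Bw R (xGL R.xadd 23 s) := by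
  obtain ⟨x18, x13, x12, x14, x19, x16, x15, x17, x20, x21, x22, x23⟩ := d4n_x R s
  exact ⟨⟨_, _, _, _, _, _, _, _, _, _, _, _, x12⟩, ⟨_, _, _, _, _, _, _, _, _, _, _, _, x13⟩, ⟨_, _, _, _, _, _, _, _, _, _, _, _, x14⟩, ⟨_, _, _, _, _, _, _, _, _, _, _, _, x15⟩, ⟨_, _, _, _, _, _, _, _, _, _, _, _, x16⟩, ⟨_, _, _, _, _, _, _, _, _, _, _, _, x17⟩, ⟨_, _, _, _, _, _, _, _, _, _, _, _, x18⟩, ⟨_, _, _, _, _, _, _, _, _, _, _, _, x19⟩, ⟨_, _, _, _, _, _, _, _, _, _, _, _, x20⟩, ⟨_, _, _, _, _, _, _, _, _, _, _, _, x21⟩, ⟨_, _, _, _, _, _, _, _, _, _, _, _, x22⟩, ⟨_, _, _, _, _, _, _, _, _, _, _, _, x23⟩⟩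

/-- PIECE BWX of CALL S2183, existence: every element of `U` is a block-ordered word. -/
theorem d4s_bw_exists (R : BRel chevD4 K η) : BwEx R := by
  intro u hu
  obtain ⟨t, ⟨-, ht⟩, -⟩ := (posUnipotent_unique_product_of_mem (F := K) (D := chevD4) (by simp)
    (fun r s hr hs h1 h2 => R.cf r hr s hs h1 h2)).1 u hu
  rw [d4_posRoots] at ht
  have hu' : u = xGL R.xadd 12 (t 12) * (xGL R.xadd 13 (t 13) * (xGL R.xadd 14 (t 14) *
      (xGL R.xadd 15 (t 15) * (xGL R.xadd 16 (t 16) * (xGL R.xadd 17 (t 17) * (xGL R.xadd 18 (t 18) *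
      (xGL R.xadd 19 (t 19) * (xGL R.xadd 20 (t 20) * (xGL R.xadd 21 (t 21) * (xGL R.xadd 22 (t 22) *
      (xGL R.xadd 23 (t 23) * 1))))))))))) := by
    apply Units.ext
    rw [ht, ← wordGL_val R.xadd]
    simp only [List.map_cons, List.map_nil, wordGL_cons, wordGL_nil]
  have key : D4Bw R u := by
    rw [hu']
    exact D4Bw.mul R (D4Bw.x R (t 12)).1 (D4Bw.mul R (D4Bw.x R (t 13)).2.1 (D4Bw.mul R (D4Bw.x R (t 14)).2.2.1 (D4Bw.mul R (D4Bw.x R (t 15)).2.2.2.1 (D4Bw.mul R (D4Bw.x R (t 16)).2.2.2.2.1 (D4Bw.mul R (D4Bw.x R (t 17)).2.2.2.2.2.1 (D4Bw.mul R (D4Bw.x R (t 18)).2.2.2.2.2.2.1 (D4Bw.mul R (D4Bw.x R (t 19)).2.2.2.2.2.2.2.1 (D4Bw.mul R (D4Bw.x R (t 20)).2.2.2.2.2.2.2.2.1 (D4Bw.mul R (D4Bw.x R (t 21)).2.2.2.2.2.2.2.2.2.1 (D4Bw.mul R (D4Bw.x R (t 22)).2.2.2.2.2.2.2.2.2.2.1 (D4Bw.mul R (D4Bw.x R (t 23)).2.2.2.2.2.2.2.2.2.2.2 (D4Bw.one R))))))))))))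
  exact key

/-- PIECE BWX of CALL S2183, uniqueness: the coordinates of a block-ordered word are unique (by counting). -/
theorem d4s_bw_inj [Finite K] (R : BRel chevD4 K η) : BwInj R := by
  classical
  haveI : Fintype K := Fintype.ofFinite K
  let g : (Fin 12 → K) → ↥(chevD4.posUnipotent K) := fun v =>
    ⟨bw R (v 0) (v 1) (v 2) (v 3) (v 4) (v 5) (v 6) (v 7) (v 8) (v 9) (v 10) (v 11), D4P_mem_U R _ _ _ _ _ _ _ _ _ _ _ _⟩
  have hsurj : Function.Surjective g := by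
    rintro ⟨u, hu⟩
    obtain ⟨a1, a2, a3, b, c1, c2, c3, d1, d2, d3, e, z, rfl⟩ := d4s_bw_exists R u hu
    exact ⟨![a1, a2, a3, b, c1, c2, c3, d1, d2, d3, e, z], rfl⟩
  have hcard : Nat.card (Fin 12 → K) ≤ Nat.card ↥(chevD4.posUnipotent K) := by
    rw [card_posUnipotent_of_mem (F := K) (D := chevD4) (by simp)
      (fun r s hr hs h1 h2 => R.cf r hr s hs h1 h2), Nat.card_fun, Nat.card_eq_fintype_card,
      Nat.card_eq_fintype_card, Fintype.card_fin]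
    exact le_of_eq (by congr 1)
  have hinj : Function.Injective g := (hsurj.bijective_of_nat_card_le hcard).1
  intro a1 a2 a3 b c1 c2 c3 d1 d2 d3 e z A1 A2 A3 B C1 C2 C3 D1 D2 D3 E Z heq
  have h := @hinj ![a1, a2, a3, b, c1, c2, c3, d1, d2, d3, e, z] ![A1, A2, A3, B, C1, C2, C3, D1, D2, D3, E, Z]
    (Subtype.ext heq)
  exact ⟨congrFun h 0, congrFun h 1, congrFun h 2, congrFun h 3, congrFun h 4, congrFun h 5, congrFun h 6,
    congrFun h 7, congrFun h 8, congrFun h 9, congrFun h 10, congrFun h 11⟩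

end D4BWX

end Cfsg.Agent.Helper38
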