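/-
helper38: piece FIX of CALL S2183 - the elements of `U` (type `D₄`, characteristic two) fixed by `σ` are the
twisted words.
-/
import Cfsg.Agent.Helper38.D4InvDefs

set_option autoImplicit false

namespace Cfsg.Agent.Helper38

open Cfsg Cfsg.Lie Cfsg.Agent.Helper36 Cfsg.Agent.Helper17 Cfsg.Agent.Helper18

theorem d4f_rho : rhoP chevD4 gautP_D4a 18 = 13 ∧ rhoP chevD4 gautP_D4a 13 = 12 ∧
    rhoP chevD4 gautP_D4a 12 = 18 ∧ rhoP chevD4 gautP_D4a 14 = 14 ∧ rhoP chevD4 gautP_D4a 19 = 16 ∧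
    rhoP chevD4 gautP_D4a 16 = 15 ∧ rhoP chevD4 gautP_D4a 15 = 19 ∧ rhoP chevD4 gautP_D4a 17 = 20 ∧
    rhoP chevD4 gautP_D4a 20 = 21 ∧ rhoP chevD4 gautP_D4a 21 = 17 ∧ rhoP chevD4 gautP_D4a 22 = 22 ∧
    rhoP chevD4 gautP_D4a 23 = 23 := by
  decide +kernel

section D4Fix

variable {K : Type*} [Field K] [CharP K 2] {η : ℕ → ℕ → ℤ}

theorem d4f_sig_x (R : BRel chevD4 K η) (f : K →+* K) {r : ℕ} (hr : r < chevD4.nroots) (t : K) :
    d4Sig f (xGL R.xadd r t) = xGL R.xadd (rhoP chevD4 gautP_D4a r) (f t) := by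
  rw [twSig_xGL d4_hinv gaut_roots_D4a f _ hr]
  congr 1
  rcases epsP_eq chevD4 gautP_D4a r with h | h
  · rw [h, Int.cast_one, one_mul]
  · rw [h, Int.cast_neg, Int.cast_one, CharTwo.neg_eq, one_mul]

/-- The action of `σ` on the block-ordered words. -/
theorem d4f_sig_bw (R : BRel chevD4 K η) (f : K →+* K) (a1 a2 a3 b c1 c2 c3 d1 d2 d3 e z : K) :
    d4Sig f (bw R a1 a2 a3 b c1 c2 c3 d1 d2 d3 e z) =
      bw R (f a3) (f a1) (f a2) (f b) (f c3) (f c1) (f c2) (f d3) (f d1) (f d2) (f e) (f z) := by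
  obtain ⟨r18, r13, r12, r14, r19, r16, r15, r17, r20, r21, r22, r23⟩ := d4f_rho
  unfold bw
  simp only [map_mul, map_one]
  rw [d4f_sig_x R f (by decide), d4f_sig_x R f (by decide), d4f_sig_x R f (by decide),
    d4f_sig_x R f (by decide), d4f_sig_x R f (by decide), d4f_sig_x R f (by decide),
    d4f_sig_x R f (by decide), d4f_sig_x R f (by decide), d4f_sig_x R f (by decide),
    d4f_sig_x R f (by decide), d4f_sig_x R f (by decide), d4f_sig_x R f (by decide),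
    r18, r13, r12, r14, r19, r16, r15, r17, r20, r21, r22, r23]
  rw [d4i_sw0 R (q := 12) (p := 18) (by decide), d4i_sw0 R (q := 13) (p := 18) (by decide),
    d4i_sw0 R (q := 15) (p := 19) (by decide), d4i_sw0 R (q := 16) (p := 19) (by decide),
    d4i_sw0 R (q := 21) (p := 17) (by decide), d4i_sw0 R (q := 20) (p := 17) (by decide)]

/-- PIECE FIX of CALL S2183: the elements of `U` fixed by `σ` are the twisted words. -/
theorem d4s_tw_exists (R : BRel chevD4 K η) (f : K →+* K)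
    (hf3 : ∀ x : K, f (f (f x)) = x) (hex : BwEx R) (hinj : BwInj R)
    {u : GL chevD4.Idx K} (hu : u ∈ chevD4.posUnipotent K) (hfix : d4Sig f u = u) :
    ∃ t u2 c d e z : K, f u2 = u2 ∧ f e = e ∧ f z = z ∧ u = tw R f t u2 c d e z := by
  obtain ⟨a1, a2, a3, b, c1, c2, c3, d1, d2, d3, e, z, rfl⟩ := hex u hu
  rw [d4f_sig_bw] at hfix
  obtain ⟨h1, h2, h3, h4, h5, h6, h7, h8, h9, h10, h11, h12⟩ :=
    hinj _ _ _ _ _ _ _ _ _ _ _ _ _ _ _ _ _ _ _ _ _ _ _ _ hfix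
  refine ⟨a1, b, c1, d1, e, z, h4, h11, h12, ?_⟩
  unfold tw
  exact bw_congr R rfl h2.symm (by rw [h2, h3]) rfl rfl h6.symm (by rw [h6, h7]) rfl h9.symm
    (by rw [h9, h10]) rfl rfl

end D4Fix

end Cfsg.Agent.Helper38
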