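/-
helper38: `³D₄(q)`, `q` even: the twisted root elements, their conjugates under the Weyl elements and the
torus, and the classification of the involutions of `U¹` up to conjugacy (`d4i_class`), towards S2183.
-/
import Cfsg.Agent.Helper38.D4InvDefs

set_option autoImplicit false
set_option linter.unusedSimpArgs false
set_option linter.unusedTactic false
set_option linter.unreachableTactic false
set_option linter.unusedSectionVars false
set_option linter.unnecessarySeqFocus false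
set_option linter.unusedVariables false

namespace Cfsg.Agent.Helper38

open Cfsg Cfsg.Lie Cfsg.Agent.Helper36 Cfsg.Agent.Helper17 Cfsg.Agent.Helper18

section D4Inv2

variable {K : Type*} [Field K] [CharP K 2]

/-- In characteristic two the signs of the Weyl conjugation disappear. -/
theorem d4i_nW {η : ℕ → ℕ → ℤ} (R : BRel chevD4 K η) {L : List ℕ} (hL : ValidW chevD4 L) {s : ℕ}
    (hs : s < chevD4.nroots) (t : K) :
    R.nW L * xGL R.xadd s t * (R.nW L)⁻¹ = xGL R.xadd (wW chevD4 L s) t := by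
  rw [R.nW_conj_x hL hs]
  have h := R.toNRel.eW_mul_self (F := K) hL hs
  have h2 : ((eW chevD4 η L s : ℤ) : K) + 1 = 0 := by
    have h3 : (((eW chevD4 η L s : ℤ) : K) + 1) * (((eW chevD4 η L s : ℤ) : K) + 1) = 0 := by grind
    exact mul_self_eq_zero.mp h3
  have h4 : ((eW chevD4 η L s : ℤ) : K) = 1 := by grind
  rw [h4, one_mul]

theorem d4iValid : ValidW chevD4 [1] ∧ ValidW chevD4 [0, 2, 3] := by
  constructor <;> unfold ValidW <;> decide

theorem d4iW : wW chevD4 [1] 18 = 19 ∧ wW chevD4 [1] 13 = 16 ∧ wW chevD4 [1] 12 = 15 ∧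
    wW chevD4 [1] 19 = 18 ∧ wW chevD4 [1] 16 = 13 ∧ wW chevD4 [1] 15 = 12 ∧ wW chevD4 [1] 22 = 23 ∧
    wW chevD4 [0, 2, 3] 14 = 22 ∧ wW chevD4 [0, 2, 3] 17 = 19 ∧ wW chevD4 [0, 2, 3] 20 = 16 ∧
    wW chevD4 [0, 2, 3] 21 = 15 ∧ wW chevD4 [0, 2, 3] 19 = 17 ∧ wW chevD4 [0, 2, 3] 16 = 20 ∧
    wW chevD4 [0, 2, 3] 15 = 21 := by decide +kernel

omit [CharP K 2] in
theorem d4i_cm {G : Type*} [Group G] (g a b : G) : g * (a * b) * g⁻¹ = g * a * g⁻¹ * (g * b * g⁻¹) := by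
  group

omit [CharP K 2] in
theorem d4i_c1 {G : Type*} [Group G] (g : G) : g * 1 * g⁻¹ = 1 := by group

variable (f : K →+* K)

theorem d4i_n1_A (s : K) : (d4R K).nW [1] * tw (d4R K) f s 0 0 0 0 0 * ((d4R K).nW [1])⁻¹ =
    tw (d4R K) f 0 0 s 0 0 0 := by
  obtain ⟨w1, w2, w3, w4, w5, w6, w7, w8, w9, w10, w11, w12, w13, w14⟩ := d4iW
  unfold tw bw
  simp only [map_zero, xGL_zero, one_mul, d4i_cm, d4i_c1,
    d4i_nW (d4R K) d4iValid.1 (s := 18) (by decide), d4i_nW (d4R K) d4iValid.1 (s := 13) (by decide),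
    d4i_nW (d4R K) d4iValid.1 (s := 12) (by decide), w1, w2, w3]

theorem d4i_n1_C (s : K) : (d4R K).nW [1] * tw (d4R K) f 0 0 s 0 0 0 * ((d4R K).nW [1])⁻¹ =
    tw (d4R K) f s 0 0 0 0 0 := by
  obtain ⟨w1, w2, w3, w4, w5, w6, w7, w8, w9, w10, w11, w12, w13, w14⟩ := d4iW
  unfold tw bw
  simp only [map_zero, xGL_zero, one_mul, d4i_cm, d4i_c1,
    d4i_nW (d4R K) d4iValid.1 (s := 19) (by decide), d4i_nW (d4R K) d4iValid.1 (s := 16) (by decide),
    d4i_nW (d4R K) d4iValid.1 (s := 15) (by decide), w4, w5, w6]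

theorem d4i_n1_E (v : K) : (d4R K).nW [1] * tw (d4R K) f 0 0 0 0 v 0 * ((d4R K).nW [1])⁻¹ =
    tw (d4R K) f 0 0 0 0 0 v := by
  obtain ⟨w1, w2, w3, w4, w5, w6, w7, w8, w9, w10, w11, w12, w13, w14⟩ := d4iW
  unfold tw bw
  simp only [map_zero, xGL_zero, one_mul, d4i_cm, d4i_c1,
    d4i_nW (d4R K) d4iValid.1 (s := 22) (by decide), w7]

theorem d4i_n023_BD (u d : K) :
    (d4R K).nW [0, 2, 3] * tw (d4R K) f 0 u 0 d 0 0 * ((d4R K).nW [0, 2, 3])⁻¹ =
      tw (d4R K) f 0 0 d 0 u 0 := by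
  obtain ⟨w1, w2, w3, w4, w5, w6, w7, w8, w9, w10, w11, w12, w13, w14⟩ := d4iW
  unfold tw bw
  simp only [map_zero, xGL_zero, one_mul, d4i_cm, d4i_c1,
    d4i_nW (d4R K) d4iValid.2 (s := 14) (by decide), d4i_nW (d4R K) d4iValid.2 (s := 17) (by decide),
    d4i_nW (d4R K) d4iValid.2 (s := 20) (by decide), d4i_nW (d4R K) d4iValid.2 (s := 21) (by decide),
    w8, w9, w10, w11, d4i_sw0 (d4R K) (q := 22) (p := 19) (by simp),
    d4i_sw0 (d4R K) (q := 22) (p := 16) (by simp), d4i_sw0 (d4R K) (q := 22) (p := 15) (by simp)]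

theorem d4i_n023_C (s : K) :
    (d4R K).nW [0, 2, 3] * tw (d4R K) f 0 0 s 0 0 0 * ((d4R K).nW [0, 2, 3])⁻¹ =
      tw (d4R K) f 0 0 0 s 0 0 := by
  obtain ⟨w1, w2, w3, w4, w5, w6, w7, w8, w9, w10, w11, w12, w13, w14⟩ := d4iW
  unfold tw bw
  simp only [map_zero, xGL_zero, one_mul, d4i_cm, d4i_c1,
    d4i_nW (d4R K) d4iValid.2 (s := 19) (by decide), d4i_nW (d4R K) d4iValid.2 (s := 16) (by decide),
    d4i_nW (d4R K) d4iValid.2 (s := 15) (by decide), w12, w13, w14]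


theorem tw_A_eq (s : K) : tw (d4R K) f s 0 0 0 0 0 = triX (d4R K).xadd f 18 13 12 s := by
  unfold tw bw triX
  simp only [map_zero, xGL_zero, mul_one, mul_assoc]

theorem tw_B_eq (v : K) : tw (d4R K) f 0 v 0 0 0 0 = xGL (d4R K).xadd 14 v := by
  unfold tw bw
  simp only [map_zero, xGL_zero, mul_one, one_mul]

theorem tw_Z_eq (v : K) : tw (d4R K) f 0 0 0 0 0 v = xGL (d4R K).xadd 23 v := by
  unfold tw bw
  simp only [map_zero, xGL_zero, mul_one, one_mul]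

omit [CharP K 2] in
theorem d4i_c3 {G : Type*} [Group G] (a b c x : G) :
    (a * b * c) * x * (a * b * c)⁻¹ = a * (b * (c * x * c⁻¹) * b⁻¹) * a⁻¹ := by group

omit [CharP K 2] in
theorem d4i_torus {η : ℕ → ℕ → ℤ} (R : BRel chevD4 K η) {r s : ℕ} (hr : r < chevD4.nroots)
    (hs : s < chevD4.nroots) {c : K} (hc : c ≠ 0) (t : K) :
    hGL R.xadd r c * xGL R.xadd s t * (hGL R.xadd r c)⁻¹ = xGL R.xadd s (c ^ (chevD4.pairing r s) * t) := by
  have hD7 : chevD4 ∈ [chevG2, chevB2, chevD4, chevF4, chevE6, chevE7, chevE8] := by simp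
  have hTF := torusFacts_of_mem hD7
  have hz := hMat_eq_charDiag (hDiag_of_mem (F := K) hD7) hr hc
  have h1 := torus_conj_x hTF.chain hTF.cartan (g := hGL R.xadd r c) (by rw [hGL_val]; exact hz) s hs t
  rw [torusChar_pow_coroot, Units.val_zpow_eq_zpow_val, Units.val_mk0] at h1
  apply Units.ext
  rw [Units.val_mul, Units.val_mul, xGL_val, xGL_val]
  exact h1

theorem d4iPair : chevD4.pairing 14 23 = 1 ∧ chevD4.pairing 18 18 = 2 ∧ chevD4.pairing 13 18 = 0 ∧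
    chevD4.pairing 12 18 = 0 ∧ chevD4.pairing 18 13 = 0 ∧ chevD4.pairing 13 13 = 2 ∧
    chevD4.pairing 12 13 = 0 ∧ chevD4.pairing 18 12 = 0 ∧ chevD4.pairing 13 12 = 0 ∧
    chevD4.pairing 12 12 = 2 := by decide +kernel

omit [CharP K 2] in
theorem d4i_ha_conj {c : K} (hc : c ≠ 0) {s : ℕ} (hs : s < chevD4.nroots) (t : K) :
    (hGL (d4R K).xadd 18 c * hGL (d4R K).xadd 13 (f c) * hGL (d4R K).xadd 12 (f (f c))) *
      xGL (d4R K).xadd s t *
      (hGL (d4R K).xadd 18 c * hGL (d4R K).xadd 13 (f c) * hGL (d4R K).xadd 12 (f (f c)))⁻¹ =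
      xGL (d4R K).xadd s (c ^ (chevD4.pairing 18 s) * (f c ^ (chevD4.pairing 13 s) *
        (f (f c) ^ (chevD4.pairing 12 s) * t))) := by
  have hc1 : f c ≠ 0 := (map_ne_zero f).mpr hc
  have hc2 : f (f c) ≠ 0 := (map_ne_zero f).mpr hc1
  rw [d4i_c3, d4i_torus (d4R K) (by decide) hs hc2, d4i_torus (d4R K) (by decide) hs hc1,
    d4i_torus (d4R K) (by decide) hs hc]

section Mem

variable (G1 : Subgroup (GL chevD4.Idx K))
  (hp : ∀ c : K, triX (d4R K).xadd f 18 13 12 c ∈ G1)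
  (hm : ∀ c : K, triX (d4R K).xadd f 5 10 11 c ∈ G1)
  (h14 : ∀ t : K, f t = t → xGL (d4R K).xadd 14 t ∈ G1)
  (h9 : ∀ t : K, f t = t → xGL (d4R K).xadd 9 t ∈ G1)

include hp in
theorem tw_A_mem (s : K) : tw (d4R K) f s 0 0 0 0 0 ∈ G1 := by
  rw [tw_A_eq]
  exact hp s

include h14 in
theorem tw_B_mem {v : K} (hv : f v = v) : tw (d4R K) f 0 v 0 0 0 0 ∈ G1 := by
  rw [tw_B_eq]
  exact h14 v hv

include hp h14 h9 in
theorem tw_C_mem (s : K) : tw (d4R K) f 0 0 s 0 0 0 ∈ G1 := by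
  have hn := d4_n1_mem f G1 h14 h9
  rw [← d4i_n1_A]
  exact mul_mem (mul_mem hn (tw_A_mem f G1 hp s)) (inv_mem hn)

include hp hm h14 h9 in
theorem tw_D_mem (s : K) : tw (d4R K) f 0 0 0 s 0 0 ∈ G1 := by
  have hn := d4_n023_mem f G1 hp hm
  rw [← d4i_n023_C]
  exact mul_mem (mul_mem hn (tw_C_mem f G1 hp h14 h9 s)) (inv_mem hn)

include hp hm h14 in
theorem tw_E_mem {v : K} (hv : f v = v) : tw (d4R K) f 0 0 0 0 v 0 ∈ G1 := by
  have hn := d4_n023_mem f G1 hp hm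
  have h := d4i_n023_BD f v 0
  rw [← h]
  exact mul_mem (mul_mem hn (tw_B_mem f G1 h14 hv)) (inv_mem hn)

include hp hm h14 h9 in
theorem tw_Z_mem {v : K} (hv : f v = v) : tw (d4R K) f 0 0 0 0 0 v ∈ G1 := by
  have hn := d4_n1_mem f G1 h14 h9
  rw [← d4i_n1_E]
  exact mul_mem (mul_mem hn (tw_E_mem f G1 hp hm h14 hv)) (inv_mem hn)

include h14 h9 in
theorem d4i_hb_mem {c : K} (hc : f c = c) : hGL (d4R K).xadd 14 c ∈ G1 := by
  have e : chevD4.neg 14 = 9 := by decide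
  rw [hGL_eq, nGL_eq, nGL_eq, e]
  exact mul_mem (mul_mem (mul_mem (h14 c hc) (h9 _ (by rw [map_neg, map_inv₀, hc]))) (h14 c hc))
    (mul_mem (mul_mem (h14 _ (by rw [map_neg, map_one]))
      (h9 _ (by rw [map_neg, map_inv₀, map_neg, map_one]))) (h14 _ (by rw [map_neg, map_one])))

/-- Conjugate in `G1` to `x_23(1)` or to `x_18(1) x_13(1) x_12(1)`. -/
def D4Cl (y : GL chevD4.Idx K) : Prop :=
  ∃ h ∈ G1, h * y * h⁻¹ = xGL (d4R K).xadd 23 1 ∨ h * y * h⁻¹ = tw (d4R K) f 1 0 0 0 0 0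

omit [CharP K 2] in
theorem D4Cl.of_conj {g y : GL chevD4.Idx K} (hg : g ∈ G1) (h : D4Cl f G1 (g * y * g⁻¹)) :
    D4Cl f G1 y := by
  obtain ⟨k, hk, H⟩ := h
  refine ⟨k * g, mul_mem hk hg, ?_⟩
  have e : k * g * y * (k * g)⁻¹ = k * (g * y * g⁻¹) * k⁻¹ := by group
  rw [e]
  exact H

omit [CharP K 2] in
theorem D4Cl.congr {t u c d e z t' u' c' d' e' z' : K}
    (h : D4Cl f G1 (tw (d4R K) f t' u' c' d' e' z')) (h1 : t = t') (h2 : u = u') (h3 : c = c')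
    (h4 : d = d') (h5 : e = e') (h6 : z = z') : D4Cl f G1 (tw (d4R K) f t u c d e z) := by
  rw [h1, h2, h3, h4, h5, h6]
  exact h

include h14 h9 in
theorem D4Cl_Z {z : K} (hz : z ≠ 0) (hfz : f z = z) : D4Cl f G1 (tw (d4R K) f 0 0 0 0 0 z) := by
  apply D4Cl.of_conj f G1 (d4i_hb_mem f G1 h14 h9 (c := z⁻¹) (by rw [map_inv₀, hfz]))
  rw [tw_Z_eq, d4i_torus (d4R K) (by decide) (by decide) (inv_ne_zero hz), d4iPair.1, zpow_one,
    inv_mul_cancel₀ hz]
  exact ⟨1, one_mem _, Or.inl (by rw [one_mul, inv_one, mul_one])⟩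

include h14 h9 in
theorem D4Cl_E {e : K} (he : e ≠ 0) (hfe : f e = e) : D4Cl f G1 (tw (d4R K) f 0 0 0 0 e 0) := by
  apply D4Cl.of_conj f G1 (d4_n1_mem f G1 h14 h9)
  rw [d4i_n1_E]
  exact D4Cl_Z f G1 h14 h9 he hfe

include hp hm h14 h9 in
theorem D4Cl_B {u : K} (hu : u ≠ 0) (hfu : f u = u) : D4Cl f G1 (tw (d4R K) f 0 u 0 0 0 0) := by
  apply D4Cl.of_conj f G1 (d4_n023_mem f G1 hp hm)
  have h := d4i_n023_BD f u 0
  rw [h]
  exact D4Cl_E f G1 h14 h9 hu hfu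

omit [CharP K 2] in
theorem d4i_sqrt [Finite K] [CharP K 2] (x : K) : ∃ s : K, s ^ 2 = x := by
  obtain ⟨r, hr⟩ := FiniteField.isSquare_of_char_two (ringChar.eq K 2) x
  exact ⟨r, by rw [hr, sq]⟩

include hp hm in
theorem D4Cl_A [Finite K] {t : K} (ht : t ≠ 0) : D4Cl f G1 (tw (d4R K) f t 0 0 0 0 0) := by
  obtain ⟨c, hc⟩ := d4i_sqrt (t⁻¹)
  have hc0 : c ≠ 0 := by
    rintro rfl
    rw [zero_pow (by norm_num)] at hc
    exact inv_ne_zero ht hc.symm
  apply D4Cl.of_conj f G1 (d4_hJ_mem f G1 hp hm c)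
  refine ⟨1, one_mem _, Or.inr ?_⟩
  rw [one_mul, inv_one, mul_one]
  obtain ⟨-, p1, p2, p3, p4, p5, p6, p7, p8, p9⟩ := d4iPair
  have e1 : c ^ (2 : ℤ) * t = 1 := by
    have : c ^ (2 : ℤ) = c ^ 2 := by norm_cast
    rw [this, hc, inv_mul_cancel₀ ht]
  have e2 : f c ^ (2 : ℤ) * f t = 1 := by
    have h := congrArg f e1
    rw [map_mul, map_zpow₀, map_one] at h
    exact h
  have e3 : f (f c) ^ (2 : ℤ) * f (f t) = 1 := by
    have h := congrArg f e2
    rw [map_mul, map_zpow₀, map_one] at h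
    exact h
  unfold tw bw
  simp only [map_zero, map_one, xGL_zero, one_mul, d4i_cm, d4i_c1, d4i_ha_conj f hc0 (s := 18) (by decide),
    d4i_ha_conj f hc0 (s := 13) (by decide), d4i_ha_conj f hc0 (s := 12) (by decide),
    p1, p2, p3, p4, p5, p6, p7, p8, p9, zpow_zero, e1, e2, e3]

include hp hm h14 h9 in
theorem D4Cl_C [Finite K] {t : K} (ht : t ≠ 0) : D4Cl f G1 (tw (d4R K) f 0 0 t 0 0 0) := by
  apply D4Cl.of_conj f G1 (d4_n1_mem f G1 h14 h9)
  rw [d4i_n1_C]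
  exact D4Cl_A f G1 hp hm ht

include hp hm h14 h9 in
theorem D4Cl_D [Finite K] {t : K} (ht : t ≠ 0) : D4Cl f G1 (tw (d4R K) f 0 0 0 t 0 0) := by
  apply D4Cl.of_conj f G1 (d4_n023_mem f G1 hp hm)
  have h := d4i_n023_BD f 0 t
  rw [h]
  exact D4Cl_C f G1 hp hm h14 h9 ht

end Mem


section Tree

variable (hf3 : ∀ x : K, f (f (f x)) = x) (G1 : Subgroup (GL chevD4.Idx K))
  (hp : ∀ c : K, triX (d4R K).xadd f 18 13 12 c ∈ G1)
  (hm : ∀ c : K, triX (d4R K).xadd f 5 10 11 c ∈ G1)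
  (h14 : ∀ t : K, f t = t → xGL (d4R K).xadd 14 t ∈ G1)
  (h9 : ∀ t : K, f t = t → xGL (d4R K).xadd 9 t ∈ G1)

omit [CharP K 2] in
/-- Uniqueness of the coordinates of the trivial twisted word. -/
theorem tw_eq_one (hinj : BwInj (d4R K)) {t u c d e z : K} (h : tw (d4R K) f t u c d e z = 1) :
    t = 0 ∧ u = 0 ∧ c = 0 ∧ d = 0 ∧ e = 0 ∧ z = 0 := by
  rw [← tw_zero (d4R K) f] at h
  unfold tw at h
  obtain ⟨h1, -, -, h4, h5, -, -, h8, -, -, h11, h12⟩ := hinj _ _ _ _ _ _ _ _ _ _ _ _ _ _ _ _ _ _ _ _ _ _ _ _ h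
  exact ⟨h1, h4, h5, h8, h11, h12⟩

omit [CharP K 2] in
theorem d4i_conj_sq {G : Type*} [Group G] (g : G) {y : G} (h : y * y = 1) :
    (g * y * g⁻¹) * (g * y * g⁻¹) = 1 := by
  have e : (g * y * g⁻¹) * (g * y * g⁻¹) = g * (y * y) * g⁻¹ := by group
  rw [e, h]
  group

/-- A fixed square root of a fixed element. -/
theorem d4i_sqrt_fix [Finite K] {x : K} (hx : f x = x) : ∃ s : K, f s = s ∧ s ^ 2 = x := by
  obtain ⟨s, hs⟩ := d4i_sqrt x
  refine ⟨s, ?_, hs⟩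
  have h1 : f s ^ 2 = s ^ 2 := by rw [← map_pow, hs, hx]
  have h2 : (f s + s) * (f s + s) = 0 := by grind
  have h3 := mul_self_eq_zero.mp h2
  grind

include hf3 h14 h9 in
theorem d4i_L2 {e : K} (he : e ≠ 0) (hfe : f e = e) {z : K} (hfz : f z = z) :
    D4Cl f G1 (tw (d4R K) f 0 0 0 0 e z) := by
  have hv : f (z / e) = z / e := by rw [map_div₀, hfz, hfe]
  apply D4Cl.of_conj f G1 (tw_B_mem f G1 h14 hv)
  rw [tw_conjB (d4R K) f hf3 (z / e) hv _ _ _ _ _ _ (map_zero f)]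
  refine D4Cl.congr f G1 (D4Cl_E f G1 h14 h9 he hfe) ?_ ?_ ?_ ?_ ?_ ?_ <;>
    (try simp only [map_zero]) <;> grind

include hf3 hp hm h14 h9 in
theorem d4i_L3 [Finite K] {d : K} (hd : d ≠ 0) {e : K} (hfe : f e = e) {z : K} (hfz : f z = z) :
    D4Cl f G1 (tw (d4R K) f 0 0 0 d e z) := by
  have hd1 : f d ≠ 0 := (map_ne_zero f).mpr hd
  have hd2 : f (f d) ≠ 0 := (map_ne_zero f).mpr hd1
  apply D4Cl.of_conj f G1 (tw_A_mem f G1 hp (e / d))
  rw [tw_conjA (d4R K) f hf3 (e / d) _ _ _ _ _ _ (map_zero f)]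
  refine D4Cl.congr f G1 (t' := 0) (u' := 0) (c' := 0) (d' := d) (e' := 0) (z' := z) ?_ ?_ ?_ ?_ ?_ ?_ ?_
  · apply D4Cl.of_conj f G1 (tw_C_mem f G1 hp h14 h9 (z / d))
    rw [tw_conjC (d4R K) f hf3 (z / d) _ _ _ _ _ _ (map_zero f)]
    refine D4Cl.congr f G1 (D4Cl_D f G1 hp hm h14 h9 hd) ?_ ?_ ?_ ?_ ?_ ?_ <;>
      (try simp only [map_zero, map_div₀, hfz]) <;> grind
  all_goals (try simp only [map_zero, map_div₀, hfe]) <;> grind

include hf3 hp hm h14 h9 in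
theorem d4i_L4 [Finite K] {c : K} (hc : c ≠ 0) {e : K} (hfe : f e = e) {z : K} (hfz : f z = z) :
    D4Cl f G1 (tw (d4R K) f 0 0 c 0 e z) := by
  have hc1 : f c ≠ 0 := (map_ne_zero f).mpr hc
  have hc2 : f (f c) ≠ 0 := (map_ne_zero f).mpr hc1
  have hN : f (c * f c * f (f c)) = c * f c * f (f c) := by
    simp only [map_mul, hf3]; ring
  obtain ⟨l, hl, hl2⟩ := d4i_sqrt_fix f (x := e / (c * f c * f (f c))) (by rw [map_div₀, hfe, hN])
  have hl3 : l ^ 2 * (c * f c * f (f c)) = e := by rw [hl2]; field_simp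
  apply D4Cl.of_conj f G1 (tw_A_mem f G1 hp (l * c))
  rw [tw_conjA (d4R K) f hf3 (l * c) _ _ _ _ _ _ (map_zero f)]
  have hz' : f (z + l * (c * f c * f (f c))) = z + l * (c * f c * f (f c)) := by
    rw [map_add, map_mul, hN, hfz, hl]
  obtain ⟨s, hs⟩ : ∃ s : K, c * s = z + l * (c * f c * f (f c)) :=
    ⟨(z + l * (c * f c * f (f c))) / c, by field_simp⟩
  have hs1 : f c * f s = z + l * (c * f c * f (f c)) := by rw [← map_mul, hs, hz']
  have hs2 : f (f c) * f (f s) = z + l * (c * f c * f (f c)) := by rw [← map_mul, hs1, hz']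
  refine D4Cl.congr f G1 (t' := 0) (u' := 0) (c' := c) (d' := 0) (e' := 0)
    (z' := z + l * (c * f c * f (f c))) ?_ ?_ ?_ ?_ ?_ ?_ ?_
  · apply D4Cl.of_conj f G1 (tw_D_mem f G1 hp hm h14 h9 s)
    rw [tw_conjD (d4R K) f hf3 s _ _ _ _ _ _ (map_zero f)]
    refine D4Cl.congr f G1 (D4Cl_C f G1 hp hm h14 h9 hc) ?_ ?_ ?_ ?_ ?_ ?_ <;>
      (try simp only [map_zero]) <;> grind
  all_goals (try simp only [map_zero, map_mul, hl]) <;> grind

include hf3 hp hm h14 h9 in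
theorem d4i_L5 [Finite K] {u : K} (hu : u ≠ 0) (hfu : f u = u) (d : K) {z : K} (hfz : f z = z) :
    D4Cl f G1 (tw (d4R K) f 0 u 0 d 0 z) := by
  have hv : f (z / u) = z / u := by rw [map_div₀, hfz, hfu]
  apply D4Cl.of_conj f G1 (tw_E_mem f G1 hp hm h14 hv)
  rw [tw_conjE (d4R K) f hf3 (z / u) hv _ _ _ _ _ _ hfu]
  refine D4Cl.congr f G1 (t' := 0) (u' := u) (c' := 0) (d' := d) (e' := 0) (z' := 0) ?_ rfl rfl rfl rfl rfl
    (by grind)
  by_cases hd : d = 0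
  · rw [hd]
    exact D4Cl_B f G1 hp hm h14 h9 hu hfu
  · apply D4Cl.of_conj f G1 (d4_n023_mem f G1 hp hm)
    rw [d4i_n023_BD]
    exact d4i_L4 f hf3 G1 hp hm h14 h9 hd hfu (map_zero f)

include hf3 hp hm h14 h9 in
theorem d4i_L6 [Finite K] {t : K} (ht : t ≠ 0) {e : K} (hfe : f e = e) {z : K} (hfz : f z = z) :
    D4Cl f G1 (tw (d4R K) f t 0 0 0 e z) := by
  have ht1 : f t ≠ 0 := (map_ne_zero f).mpr ht
  have ht2 : f (f t) ≠ 0 := (map_ne_zero f).mpr ht1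
  have hN : f (t * f t * f (f t)) = t * f t * f (f t) := by
    simp only [map_mul, hf3]; ring
  obtain ⟨l, hl, hl2⟩ := d4i_sqrt_fix f (x := z / (t * f t * f (f t))) (by rw [map_div₀, hfz, hN])
  have hl3 : l ^ 2 * (t * f t * f (f t)) = z := by rw [hl2]; field_simp
  apply D4Cl.of_conj f G1 (tw_C_mem f G1 hp h14 h9 (l * t))
  rw [tw_conjC (d4R K) f hf3 (l * t) _ _ _ _ _ _ (map_zero f)]
  have he' : f (e + l * (t * f t * f (f t))) = e + l * (t * f t * f (f t)) := by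
    rw [map_add, map_mul, hN, hfe, hl]
  obtain ⟨s, hs⟩ : ∃ s : K, t * s = e + l * (t * f t * f (f t)) :=
    ⟨(e + l * (t * f t * f (f t))) / t, by field_simp⟩
  have hs1 : f t * f s = e + l * (t * f t * f (f t)) := by rw [← map_mul, hs, he']
  have hs2 : f (f t) * f (f s) = e + l * (t * f t * f (f t)) := by rw [← map_mul, hs1, he']
  refine D4Cl.congr f G1 (t' := t) (u' := 0) (c' := 0) (d' := 0)
    (e' := e + l * (t * f t * f (f t))) (z' := 0) ?_ ?_ ?_ ?_ ?_ ?_ ?_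
  · apply D4Cl.of_conj f G1 (tw_D_mem f G1 hp hm h14 h9 s)
    rw [tw_conjD (d4R K) f hf3 s _ _ _ _ _ _ (map_zero f)]
    refine D4Cl.congr f G1 (D4Cl_A f G1 hp hm ht) ?_ ?_ ?_ ?_ ?_ ?_ <;>
      (try simp only [map_zero]) <;> grind
  all_goals (try simp only [map_zero, map_mul, hl]) <;> grind


include hf3 hp hm h14 h9 in
theorem d4i_LU [Finite K] (hinj : BwInj (d4R K)) {u : K} (hu : u ≠ 0) (hfu : f u = u) (d : K) {e : K}
    {z : K} (hfz : f z = z)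
    (hsq : tw (d4R K) f 0 u 0 d e z * tw (d4R K) f 0 u 0 d e z = 1) :
    D4Cl f G1 (tw (d4R K) f 0 u 0 d e z) := by
  rw [tw_sq (d4R K) f hf3 _ _ _ _ _ _ hfu] at hsq
  obtain ⟨-, -, -, -, -, h6⟩ := tw_eq_one f hinj hsq
  simp only [map_zero] at h6
  have he : e = 0 := by grind
  rw [he]
  exact d4i_L5 f hf3 G1 hp hm h14 h9 hu hfu d hfz

include hf3 hp hm h14 h9 in
theorem d4i_LT [Finite K] (hinj : BwInj (d4R K)) {t : K} (ht : t ≠ 0) (d : K) {e : K} (hfe : f e = e)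
    {z : K} (hfz : f z = z)
    (hsq : tw (d4R K) f t 0 0 d e z * tw (d4R K) f t 0 0 d e z = 1) :
    D4Cl f G1 (tw (d4R K) f t 0 0 d e z) := by
  have ht1 : f t ≠ 0 := (map_ne_zero f).mpr ht
  have ht2 : f (f t) ≠ 0 := (map_ne_zero f).mpr ht1
  rw [tw_sq (d4R K) f hf3 _ _ _ _ _ _ (map_zero f)] at hsq
  obtain ⟨-, -, -, -, h5, -⟩ := tw_eq_one f hinj hsq
  simp only [map_zero] at h5
  have hTr : d * t + f d * f t + f (f d) * f (f t) = 0 := by linear_combination h5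
  clear hsq h5
  obtain ⟨s, hs⟩ : ∃ s : K, d + f (f s) * f t + f s * f (f t) = 0 := by
    refine ⟨t * d / (f t * f (f t)), ?_⟩
    simp only [map_mul, map_div₀, hf3]
    clear hp hm h14 h9 hinj
    grind
  apply D4Cl.of_conj f G1 (tw_C_mem f G1 hp h14 h9 s)
  rw [tw_conjC (d4R K) f hf3 s _ _ _ _ _ _ (map_zero f)]
  refine D4Cl.congr f G1 (d4i_L6 f hf3 G1 hp hm h14 h9 ht
    (e := e + f (f s) * t * f t + f s * t * f (f t) + s * f t * f (f t))
    (z := d * s + f (f d) * f (f s) + f d * f s + f s * f (f s) * t + s * f (f s) * f t +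
      s * f s * f (f t) + z) ?_ ?_) rfl rfl rfl ?_ ?_ ?_
  · simp only [map_add, map_mul, hf3, hfe]; ring
  · simp only [map_add, map_mul, hf3, hfz]; ring
  all_goals (try simp only [map_zero]) <;> grind

include hf3 hp hm h14 h9 in
theorem d4i_LC [Finite K] (hinj : BwInj (d4R K)) {c : K} (hc : c ≠ 0) (d : K) {e : K} (hfe : f e = e)
    {z : K} (hfz : f z = z)
    (hsq : tw (d4R K) f 0 0 c d e z * tw (d4R K) f 0 0 c d e z = 1) :
    D4Cl f G1 (tw (d4R K) f 0 0 c d e z) := by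
  have hc1 : f c ≠ 0 := (map_ne_zero f).mpr hc
  have hc2 : f (f c) ≠ 0 := (map_ne_zero f).mpr hc1
  rw [tw_sq (d4R K) f hf3 _ _ _ _ _ _ (map_zero f)] at hsq
  obtain ⟨-, -, -, -, -, h6⟩ := tw_eq_one f hinj hsq
  simp only [map_zero] at h6
  have hTr : d * c + f d * f c + f (f d) * f (f c) = 0 := by linear_combination h6
  clear hsq h6
  obtain ⟨s, hs⟩ : ∃ s : K, d + f (f c) * f s + f c * f (f s) = 0 := by
    refine ⟨c * d / (f c * f (f c)), ?_⟩
    simp only [map_mul, map_div₀, hf3]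
    clear hp hm h14 h9 hinj
    grind
  apply D4Cl.of_conj f G1 (tw_A_mem f G1 hp s)
  rw [tw_conjA (d4R K) f hf3 s _ _ _ _ _ _ (map_zero f)]
  refine D4Cl.congr f G1 (d4i_L4 f hf3 G1 hp hm h14 h9 hc
    (e := c * f s * f (f s) + d * s + e + f (f c) * s * f s + f (f d) * f (f s) + f c * s * f (f s) +
      f d * f s)
    (z := c * f (f c) * f s + c * f c * f (f s) + f c * f (f c) * s + z) ?_ ?_) rfl rfl ?_ ?_ ?_ ?_
  · simp only [map_add, map_mul, hf3, hfe]; ring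
  · simp only [map_add, map_mul, hf3, hfz]; ring
  all_goals (try simp only [map_zero]) <;> grind

include hf3 hp hm h14 h9 in
/-- Every involution of `U¹` is conjugate in `G1` to `x_23(1)` or to `x_18(1) x_13(1) x_12(1)`. -/
theorem d4i_class [Finite K] (hinj : BwInj (d4R K)) {t u c d e z : K} (hfu : f u = u) (hfe : f e = e)
    (hfz : f z = z) (hsq : tw (d4R K) f t u c d e z * tw (d4R K) f t u c d e z = 1)
    (hne : tw (d4R K) f t u c d e z ≠ 1) : D4Cl f G1 (tw (d4R K) f t u c d e z) := by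
  have hsq0 := hsq
  rw [tw_sq (d4R K) f hf3 _ _ _ _ _ _ hfu] at hsq0
  obtain ⟨-, -, h3, h4, -, -⟩ := tw_eq_one f hinj hsq0
  by_cases hu : u = 0
  · subst hu
    by_cases ht : t = 0
    · subst ht
      by_cases hc : c = 0
      · subst hc
        by_cases hd : d = 0
        · subst hd
          by_cases he : e = 0
          · subst he
            have hz : z ≠ 0 := by
              rintro rfl
              exact hne (tw_zero (d4R K) f)
            exact D4Cl_Z f G1 h14 h9 hz hfz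
          · exact d4i_L2 f hf3 G1 h14 h9 he hfe hfz
        · exact d4i_L3 f hf3 G1 hp hm h14 h9 hd hfe hfz
      · exact d4i_LC f hf3 G1 hp hm h14 h9 hinj hc d hfe hfz hsq
    · have ht1 : f t ≠ 0 := (map_ne_zero f).mpr ht
      have ht2 : f (f t) ≠ 0 := (map_ne_zero f).mpr ht1
      have hl1 : f (f (c / t)) = f (c / t) := by
        simp only [map_div₀]
        grind
      have hl : f (c / t) = c / t := by
        have h := congrArg f hl1
        rw [hf3] at h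
        rw [← hl1, ← h]
      have hconj := tw_conjB (d4R K) f hf3 (c / t) hl t 0 c d e z (map_zero f)
      apply D4Cl.of_conj f G1 (tw_B_mem f G1 h14 hl)
      have hsq1 := d4i_conj_sq (tw (d4R K) f 0 (c / t) 0 0 0 0) hsq
      rw [hconj] at hsq1 ⊢
      have e3 : c + t * (c / t) = 0 := by grind
      rw [e3] at hsq1 ⊢
      refine d4i_LT f hf3 G1 hp hm h14 h9 hinj ht _ ?_ ?_ hsq1
      · simp only [map_add, map_mul, hf3, hfe, hl]; ring
      · simp only [map_add, map_mul, map_zero, hf3, hfe, hfz, hl]; ring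
  · have ht : t = 0 := by
      rcases mul_eq_zero.mp h3 with h | h
      · exact h
      · exact absurd h hu
    subst ht
    have hconj := tw_conjA (d4R K) f hf3 (c / u) 0 u c d e z hfu
    apply D4Cl.of_conj f G1 (tw_A_mem f G1 hp (c / u))
    have hsq1 := d4i_conj_sq (tw (d4R K) f (c / u) 0 0 0 0 0) hsq
    rw [hconj] at hsq1 ⊢
    have e3 : c + c / u * u = 0 := by grind
    rw [e3] at hsq1 ⊢
    refine d4i_LU f hf3 G1 hp hm h14 h9 hinj hu hfu _ ?_ hsq1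
    simp only [map_add, map_mul, map_div₀, map_pow, hf3, hfu, hfe, hfz]; ring

end Tree

end D4Inv2

end Cfsg.Agent.Helper38
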