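/-
helper38: `³D₄(q)`, `q` even, has exactly two classes of involutions (`d4i_main`), assembled from the
classification of the involutions of `U¹` (`d4i_class`) and the four inputs of CALL S2183: uniqueness of the
block-ordered words, the Sylow step, the twisted normal form, and the non-conjugacy of the two representatives.
-/
import Cfsg.Agent.Helper38.D4Inv2

set_option autoImplicit false
set_option linter.unusedSectionVars false
set_option linter.unusedVariables false

namespace Cfsg.Agent.Helper38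

open Cfsg Cfsg.Lie Cfsg.Agent.Helper36 Cfsg.Agent.Helper17 Cfsg.Agent.Helper18

section D4Inv3

variable {K : Type*} [Field K] [Fintype K] [CharP K 2]

theorem d4i_main (q : ℕ) (hK : Fintype.card K = q ^ 3) (hinj : BwInj (d4R K))
    (hsyl : ∀ g ∈ twistedD4 K q, g * g = 1 → ∃ x ∈ twistedD4 K q, x⁻¹ * g * x ∈ chevD4.posUnipotent K)
    (hnc : ∀ h ∈ chevD4.group K, ∀ a1 a2 a3 : K, a1 ≠ 0 → a2 ≠ 0 → a3 ≠ 0 →
      h * (xGL (d4R K).xadd 18 a1 * xGL (d4R K).xadd 13 a2 * xGL (d4R K).xadd 12 a3) * h⁻¹ ≠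
        xGL (d4R K).xadd 23 1)
    (hfix : ∀ f : K →+* K, (∀ x : K, f (f (f x)) = x) → ∀ u ∈ chevD4.posUnipotent K, d4Sig f u = u →
      ∃ t u2 c d e z : K, f u2 = u2 ∧ f e = e ∧ f z = z ∧ u = tw (d4R K) f t u2 c d e z) :
    (ConjClasses.mk '' {g : ↥(twistedD4 K q) | orderOf g = 2}).ncard = 2 := by
  classical
  obtain ⟨f, hf, hfM, hq1⟩ := exists_frob3 hK
  have hf3 : ∀ x : K, f (f (f x)) = x := fun x => hfM x
  have hp : ∀ c : K, triX (d4R K).xadd f 18 13 12 c ∈ twistedD4 K q := by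
    intro c
    refine Subgroup.subset_closure ⟨[(18, c), (13, c ^ q), (12, c ^ (q ^ 2))], ?_, d4_tri_val f hf _ _ _ c⟩
    exact Or.inr ⟨c, (d4p1, d4p3, d4p4), by simp, rfl⟩
  have hm : ∀ c : K, triX (d4R K).xadd f 5 10 11 c ∈ twistedD4 K q := by
    intro c
    refine Subgroup.subset_closure ⟨[(5, c), (10, c ^ q), (11, c ^ (q ^ 2))], ?_, d4_tri_val f hf _ _ _ c⟩
    exact Or.inr ⟨c, (d4m1, d4m3, d4m4), by simp, rfl⟩
  have h14 : ∀ t : K, f t = t → xGL (d4R K).xadd 14 t ∈ twistedD4 K q := by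
    intro t ht
    refine Subgroup.subset_closure ⟨[(14, t)], ?_, ?_⟩
    · exact Or.inl ⟨t, by rw [← hf]; exact ht, d4p2, by simp, rfl⟩
    · rw [xGL_val, wordMat_cons', wordMat_nil', mul_one]
  have h9 : ∀ t : K, f t = t → xGL (d4R K).xadd 9 t ∈ twistedD4 K q := by
    intro t ht
    refine Subgroup.subset_closure ⟨[(9, t)], ?_, ?_⟩
    · exact Or.inl ⟨t, by rw [← hf]; exact ht, d4m2, by simp, rfl⟩
    · rw [xGL_val, wordMat_cons', wordMat_nil', mul_one]
  have hG := twistedD4_eq f hfM hf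
  have hle : twistedD4 K q ≤ chevD4.group K := by rw [hG]; exact inf_le_left
  have hfixed : ∀ g ∈ twistedD4 K q, d4Sig f g = g := by
    intro g hg
    rw [hG] at hg
    exact (Subgroup.mem_inf.mp hg).2
  -- the two representatives
  have hy1 : xGL (d4R K).xadd 23 1 ∈ twistedD4 K q := by
    rw [← tw_Z_eq f]
    exact tw_Z_mem f _ hp hm h14 h9 (map_one f)
  have hy2 : tw (d4R K) f 1 0 0 0 0 0 ∈ twistedD4 K q := tw_A_mem f _ hp 1
  have hy1sq : xGL (d4R K).xadd 23 (1 : K) * xGL (d4R K).xadd 23 1 = 1 := by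
    rw [xGL_mul, CharTwo.add_self_eq_zero, xGL_zero]
  have hy1ne : xGL (d4R K).xadd 23 (1 : K) ≠ 1 := by
    intro h
    have h1 := congrArg Units.val h
    rw [xGL_val, Units.val_one] at h1
    exact one_ne_zero ((d4R K).xinj 23 (by decide) 1 h1)
  have hy2sq : tw (d4R K) f 1 0 0 0 0 0 * tw (d4R K) f 1 0 0 0 0 0 = 1 := by
    rw [tw_sq (d4R K) f hf3 _ _ _ _ _ _ (map_zero f), ← tw_zero (d4R K) f]
    apply tw_congr <;> (try simp only [map_zero, map_one]) <;> grind
  have hy2ne : tw (d4R K) f 1 0 0 0 0 0 ≠ 1 := by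
    intro h
    exact one_ne_zero (tw_eq_one f hinj h).1
  have : Fact (Nat.Prime 2) := ⟨Nat.prime_two⟩
  have hord : ∀ y : ↥(twistedD4 K q), (y : GL chevD4.Idx K) * y = 1 → (y : GL chevD4.Idx K) ≠ 1 →
      orderOf y = 2 := by
    intro y h1 h2
    apply orderOf_eq_prime
    · apply Subtype.ext
      rw [pow_two]
      exact h1
    · intro h
      exact h2 (congrArg Subtype.val h)
  set y1 : ↥(twistedD4 K q) := ⟨xGL (d4R K).xadd 23 1, hy1⟩ with hy1def
  set y2 : ↥(twistedD4 K q) := ⟨tw (d4R K) f 1 0 0 0 0 0, hy2⟩ with hy2def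
  have ho1 : orderOf y1 = 2 := hord y1 hy1sq hy1ne
  have ho2 : orderOf y2 = 2 := hord y2 hy2sq hy2ne
  -- every involution is conjugate to one of them
  have key : ∀ g : ↥(twistedD4 K q), orderOf g = 2 →
      ConjClasses.mk g = ConjClasses.mk y1 ∨ ConjClasses.mk g = ConjClasses.mk y2 := by
    intro g hg
    have hsq : (g : GL chevD4.Idx K) * g = 1 := by
      have h : g ^ 2 = 1 := by rw [← hg]; exact pow_orderOf_eq_one g
      have h' := congrArg Subtype.val h
      rw [pow_two] at h'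
      exact h'
    have hne : (g : GL chevD4.Idx K) ≠ 1 := by
      intro h
      have h1 : g = 1 := Subtype.ext h
      rw [h1, orderOf_one] at hg
      omega
    obtain ⟨x, hx, hxU⟩ := hsyl g g.2 hsq
    have hu : x⁻¹ * (g : GL chevD4.Idx K) * x ∈ twistedD4 K q :=
      mul_mem (mul_mem (inv_mem hx) g.2) hx
    obtain ⟨t, u2, c, d, e, z, hfu, hfe, hfz, htw⟩ := hfix f hf3 _ hxU (hfixed _ hu)
    have hsq' : tw (d4R K) f t u2 c d e z * tw (d4R K) f t u2 c d e z = 1 := by
      rw [← htw]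
      have e1 : x⁻¹ * (g : GL chevD4.Idx K) * x * (x⁻¹ * g * x) = x⁻¹ * (g * g) * x := by group
      rw [e1, hsq]
      group
    have hne' : tw (d4R K) f t u2 c d e z ≠ 1 := by
      rw [← htw]
      intro h
      apply hne
      have e1 : (g : GL chevD4.Idx K) = x * (x⁻¹ * g * x) * x⁻¹ := by group
      rw [e1, h]
      group
    obtain ⟨h, hh, H⟩ := d4i_class f hf3 (twistedD4 K q) hp hm h14 h9 hinj hfu hfe hfz hsq' hne'
    rw [← htw] at H
    have hc : h * x⁻¹ ∈ twistedD4 K q := mul_mem hh (inv_mem hx)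
    have e2 : h * (x⁻¹ * (g : GL chevD4.Idx K) * x) * h⁻¹ = (h * x⁻¹) * g * (h * x⁻¹)⁻¹ := by group
    rw [e2] at H
    rcases H with H | H
    · left
      rw [ConjClasses.mk_eq_mk_iff_isConj, isConj_iff]
      exact ⟨⟨h * x⁻¹, hc⟩, Subtype.ext H⟩
    · right
      rw [ConjClasses.mk_eq_mk_iff_isConj, isConj_iff]
      exact ⟨⟨h * x⁻¹, hc⟩, Subtype.ext H⟩
  -- the two classes are different
  have hne12 : ConjClasses.mk y1 ≠ ConjClasses.mk y2 := by
    intro h
    rw [ConjClasses.mk_eq_mk_iff_isConj, isConj_comm, isConj_iff] at h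
    obtain ⟨k, hk⟩ := h
    have hk' := congrArg Subtype.val hk
    have hk2 : (k : GL chevD4.Idx K) * tw (d4R K) f 1 0 0 0 0 0 * (k : GL chevD4.Idx K)⁻¹ =
        xGL (d4R K).xadd 23 1 := hk'
    rw [tw_A_eq] at hk2
    unfold triX at hk2
    exact hnc _ (hle k.2) 1 (f 1) (f (f 1)) one_ne_zero (by rw [map_one]; exact one_ne_zero)
      (by rw [map_one, map_one]; exact one_ne_zero) hk2
  have hset : ConjClasses.mk '' {g : ↥(twistedD4 K q) | orderOf g = 2} =
      {ConjClasses.mk y1, ConjClasses.mk y2} := by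
    ext cl
    constructor
    · rintro ⟨g, hg, rfl⟩
      rcases key g hg with h | h
      · rw [h]; exact Set.mem_insert _ _
      · rw [h]; exact Set.mem_insert_of_mem _ rfl
    · intro h
      rcases h with rfl | rfl
      · exact ⟨y1, ho1, rfl⟩
      · exact ⟨y2, ho2, rfl⟩
  rw [hset, Set.ncard_pair hne12]

end D4Inv3

end Cfsg.Agent.Helper38
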