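/-
helper38: piece SYL of CALL S2183 - an involution of `³D₄(q)`, `q` even, is conjugate into `U` (the index of
`U ∩ ³D₄(q)` is odd, by the order formulas of Helper18).
-/
import Cfsg.Agent.Helper38.D4InvDefs

set_option autoImplicit false

namespace Cfsg.Agent.Helper38

open Cfsg Cfsg.Lie Cfsg.Agent.Helper36 Cfsg.Agent.Helper17 Cfsg.Agent.Helper18

section D4SYL

variable {K : Type*} [Field K] [Fintype K] [CharP K 2]

theorem d4y_even {q : ℕ} (hK : Fintype.card K = q ^ 3) : 2 ∣ q := by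
  have h2 : (2 : ℕ) ∣ Fintype.card K := by
    have h := CharP.cast_eq_zero_iff K 2 (Fintype.card K)
    exact h.mp (Nat.cast_card_eq_zero K)
  rw [hK] at h2
  exact Nat.Prime.dvd_of_dvd_pow Nat.prime_two h2

theorem d4y_index_odd {q : ℕ} (hK : Fintype.card K = q ^ 3) :
    ¬ 2 ∣ ((chevD4.posUnipotent K).subgroupOf (twistedD4 K q)).index := by
  have hq := d4y_even hK
  have hG := card_twistedD4 hK
  have hU := card_unip_twistedD4 hK
  have e1 : (chevD4.posUnipotent K).subgroupOf (twistedD4 K q) =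
      (chevD4.posUnipotent K ⊓ twistedD4 K q).subgroupOf (twistedD4 K q) :=
    (Subgroup.inf_subgroupOf_right _ _).symm
  have e2 : Nat.card ↥((chevD4.posUnipotent K).subgroupOf (twistedD4 K q)) = q ^ 12 := by
    rw [e1, ← hU]
    exact Nat.card_congr (Subgroup.subgroupOfEquivOfLe inf_le_right).toEquiv
  have h3 := Subgroup.index_mul_card ((chevD4.posUnipotent K).subgroupOf (twistedD4 K q))
  rw [e2, hG] at h3
  have hq0 : 0 < q := by
    rcases Nat.eq_zero_or_pos q with h | h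
    · exfalso
      rw [h] at hK
      have : 0 < Fintype.card K := Fintype.card_pos
      omega
    · exact h
  have h4 : ((chevD4.posUnipotent K).subgroupOf (twistedD4 K q)).index =
      (q ^ 2 - 1) * (q ^ 6 - 1) * (q ^ 8 + q ^ 4 + 1) := by
    have h5 : ((chevD4.posUnipotent K).subgroupOf (twistedD4 K q)).index * q ^ 12 =
        ((q ^ 2 - 1) * (q ^ 6 - 1) * (q ^ 8 + q ^ 4 + 1)) * q ^ 12 := by
      rw [h3]
      ring
    exact Nat.eq_of_mul_eq_mul_right (pow_pos hq0 12) h5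
  rw [h4]
  obtain ⟨m, rfl⟩ := hq
  have hm : 0 < m := by omega
  have o1 : ¬ 2 ∣ (2 * m) ^ 2 - 1 := by
    have : 1 ≤ (2 * m) ^ 2 := Nat.one_le_pow _ _ (by omega)
    have h2 : 2 ∣ (2 * m) ^ 2 := dvd_pow (dvd_mul_right 2 m) (by norm_num)
    omega
  have o2 : ¬ 2 ∣ (2 * m) ^ 6 - 1 := by
    have : 1 ≤ (2 * m) ^ 6 := Nat.one_le_pow _ _ (by omega)
    have h2 : 2 ∣ (2 * m) ^ 6 := dvd_pow (dvd_mul_right 2 m) (by norm_num)
    omega
  have o3 : ¬ 2 ∣ (2 * m) ^ 8 + (2 * m) ^ 4 + 1 := by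
    have h2 : 2 ∣ (2 * m) ^ 8 := dvd_pow (dvd_mul_right 2 m) (by norm_num)
    have h3 : 2 ∣ (2 * m) ^ 4 := dvd_pow (dvd_mul_right 2 m) (by norm_num)
    omega
  intro h
  rcases (Nat.Prime.dvd_mul Nat.prime_two).mp h with h | h
  · rcases (Nat.Prime.dvd_mul Nat.prime_two).mp h with h | h
    · exact o1 h
    · exact o2 h
  · exact o3 h

/-- PIECE SYL of CALL S2183: an involution of `³D₄(q)`, `q` even, is conjugate into `U`. -/
theorem d4s_sylow {q : ℕ} (hK : Fintype.card K = q ^ 3)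
    {g : GL chevD4.Idx K} (hg : g ∈ twistedD4 K q) (hg2 : g * g = 1) :
    ∃ x ∈ twistedD4 K q, x⁻¹ * g * x ∈ chevD4.posUnipotent K := by
  classical
  have hodd := d4y_index_odd hK
  let g' : ↥(twistedD4 K q) := ⟨g, hg⟩
  have hg'2 : g' ^ 2 = 1 := Subtype.ext (by rw [pow_two]; exact hg2)
  haveI : Fintype (↥(twistedD4 K q) ⧸ (chevD4.posUnipotent K).subgroupOf (twistedD4 K q)) :=
    Fintype.ofFinite _
  have hc : ¬ 2 ∣ Fintype.card
      (↥(twistedD4 K q) ⧸ (chevD4.posUnipotent K).subgroupOf (twistedD4 K q)) := by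
    rw [← Nat.card_eq_fintype_card, ← Subgroup.index_eq_card]
    exact hodd
  haveI : Fact (Nat.Prime 2) := ⟨Nat.prime_two⟩
  obtain ⟨c, hc'⟩ := Equiv.Perm.exists_fixed_point_of_prime (p := 2) (n := 1) hc
    (σ := MulAction.toPermHom ↥(twistedD4 K q)
      (↥(twistedD4 K q) ⧸ (chevD4.posUnipotent K).subgroupOf (twistedD4 K q)) g')
    (by rw [pow_one, ← map_pow, hg'2, map_one])
  induction c using Quotient.inductionOn' with
  | h x =>
    have hq' : (QuotientGroup.mk (g' * x) :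
        ↥(twistedD4 K q) ⧸ (chevD4.posUnipotent K).subgroupOf (twistedD4 K q)) =
        QuotientGroup.mk x := hc'
    rw [QuotientGroup.eq] at hq'
    refine ⟨x, x.2, ?_⟩
    have h1 := inv_mem hq'
    have e : ((g' * x)⁻¹ * x)⁻¹ = x⁻¹ * g' * x := by group
    rw [e] at h1
    exact h1

end D4SYL

end Cfsg.Agent.Helper38
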