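/-
helper38: S2174 (`F₄(q)`, `q` even, four classes of involutions) - definitions, general lemmas on the
subgroups generated by root elements, and the reduction step of the Levi recursion (`f4i_step`).
-/
import Cfsg.Agent.Helper38.ChevCentF4e
import Cfsg.Agent.Helper36.SbH

set_option autoImplicit false
set_option linter.unusedSectionVars false
set_option linter.unusedVariables false

namespace Cfsg.Agent.Helper38

open Cfsg Cfsg.Lie Cfsg.Agent.Helper36 Cfsg.Agent.Helper17 Cfsg.Agent.Helper18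

section F4IDefs

variable {F : Type*} [Field F] {η : ℕ → ℕ → ℤ}

/-- Lowering: a nontrivial element of the subgroup of `P` is conjugate, by a word in the `n_i` (`i ∈ J`), to
`x_{p_j}(a) u₁` with `a ≠ 0`. -/
def F4LowerStmt (R : BRel chevF4 F η) (P J : List ℕ) : Prop :=
  ∀ u ∈ rootsSubgroup chevF4 F P, u ≠ 1 →
    ∃ L : List ℕ, (∀ i ∈ L, i ∈ J) ∧ ∃ j ∈ J, ∃ a : F, a ≠ 0 ∧
      ∃ u1 ∈ rootsSubgroup chevF4 F (P.erase (chevF4.simple j)),
        R.nW L * u * (R.nW L)⁻¹ = xGL R.xadd (chevF4.simple j) a * u1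

/-- The cocycle statement for the conjugation by `n_j`. -/
def F4CocStmt (R : BRel chevF4 F η) (P : List ℕ) (j : ℕ) (Fix : List ℕ) : Prop :=
  ∀ u1 ∈ rootsSubgroup chevF4 F (P.erase (chevF4.simple j)), (u1 * R.n j) * (u1 * R.n j) = 1 →
    ∃ v ∈ rootsSubgroup chevF4 F (P.erase (chevF4.simple j)), ∃ u2 ∈ rootsSubgroup chevF4 F Fix,
      v * (u1 * R.n j) * v⁻¹ = u2 * R.n j

/-- The subgroup generated by the root elements of the roots of `P` and of their negatives. -/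
def f4G (F : Type*) [Field F] (P : List ℕ) : Subgroup (GL chevF4.Idx F) :=
  rootsSubgroup chevF4 F (P ++ P.map chevF4.neg)

theorem f4i_x_mem (R : BRel chevF4 F η) {L : List ℕ} {r : ℕ} (hr : r ∈ L) (t : F) :
    xGL R.xadd r t ∈ rootsSubgroup chevF4 F L :=
  Subgroup.subset_closure ⟨r, hr, t, rfl⟩

theorem f4i_rs_mono {L L' : List ℕ} (h : ∀ r ∈ L, r ∈ L') :
    rootsSubgroup chevF4 F L ≤ rootsSubgroup chevF4 F L' := by
  unfold rootsSubgroup
  apply Subgroup.closure_mono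
  rintro g ⟨r, hr, t, hg⟩
  exact ⟨r, h r hr, t, hg⟩

theorem f4i_word_mem (R : BRel chevF4 F η) {L : List ℕ} (w : List (ℕ × F)) (hw : ∀ p ∈ w, p.1 ∈ L) :
    wordGL R.xadd w ∈ rootsSubgroup chevF4 F L :=
  wordGL_mem R.xadd _ w (fun p hp => f4i_x_mem R (hw p hp) p.2)

/-- Conjugation by a root element preserves the subgroup of a list closed under the commutator formula. -/
theorem f4i_nrm (R : BRel chevF4 F η) {q : ℕ} {L : List ℕ} (hq : q < chevF4.nroots)
    (h : ∀ s ∈ L, s < chevF4.nroots ∧ s ≠ q ∧ s ≠ chevF4.neg q ∧ ∀ c ∈ chevF4.commTerms q s, c.1 ∈ L)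
    (t : F) : ∀ u ∈ rootsSubgroup chevF4 F L,
      xGL R.xadd q t * u * (xGL R.xadd q t)⁻¹ ∈ rootsSubgroup chevF4 F L := by
  apply conj_mem_closure
  rintro g ⟨s, hs, u, hg⟩
  obtain ⟨h1, h2, h3, h4⟩ := h s hs
  rw [eq_xGL R.xadd hg, xGL_conj R.xadd (R.cf q hq s h1 h2 h3)]
  refine mul_mem (f4i_x_mem R hs u) (f4i_word_mem R _ ?_)
  intro p hp
  unfold ChevalleyDatum.commWord at hp
  rw [List.mem_map] at hp
  obtain ⟨c, hc, rfl⟩ := hp
  exact h4 c hc

theorem f4i_mem7 : chevF4 ∈ [chevG2, chevB2, chevD4, chevF4, chevE6, chevE7, chevE8] := by simp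

/-- `h_r(c) x_s(t) h_r(c)⁻¹ = x_s(c^⟨s,r⟩ t)`. -/
theorem f4i_h_conj (R : BRel chevF4 F η) {r s : ℕ} (hr : r < chevF4.nroots) (hs : s < chevF4.nroots)
    {c : F} (hc : c ≠ 0) (t : F) :
    hGL R.xadd r c * xGL R.xadd s t * (hGL R.xadd r c)⁻¹ = xGL R.xadd s (c ^ chevF4.pairing r s * t) :=
  sb_hGL_conj_x R.xadd (hDiag_of_mem f4i_mem7) (chainOK_of_mem chevF4 f4i_mem7)
    (cartanFacts_of_mem f4i_mem7) hr hs hc t

/-- The elements `h_r(c)` normalise the subgroup of any list of roots. -/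
theorem f4i_hnrm (R : BRel chevF4 F η) {r : ℕ} (hr : r < chevF4.nroots) {c : F} (hc : c ≠ 0)
    {L : List ℕ} (hL : ∀ s ∈ L, s < chevF4.nroots) : ∀ u ∈ rootsSubgroup chevF4 F L,
      hGL R.xadd r c * u * (hGL R.xadd r c)⁻¹ ∈ rootsSubgroup chevF4 F L := by
  apply conj_mem_closure
  rintro g ⟨s, hs, u, hg⟩
  rw [eq_xGL R.xadd hg, f4i_h_conj R hr (hL s hs) hc]
  exact f4i_x_mem R hs _

/-- A word in the `n_i` maps the subgroup of `L` into the subgroup of `L'` if it maps `L` into `L'`. -/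
theorem f4i_wnrm (R : BRel chevF4 F η) {W : List ℕ} (hW : ValidW chevF4 W) {L L' : List ℕ}
    (hL : ∀ s ∈ L, s < chevF4.nroots ∧ wW chevF4 W s ∈ L') : ∀ u ∈ rootsSubgroup chevF4 F L,
      R.nW W * u * (R.nW W)⁻¹ ∈ rootsSubgroup chevF4 F L' := by
  apply conj_mem_closure
  rintro g ⟨s, hs, u, hg⟩
  rw [eq_xGL R.xadd hg, R.nW_conj_x hW (hL s hs).1]
  exact f4i_x_mem R (hL s hs).2 _

/-- An element commuting with the root elements of `L` commutes with their subgroup. -/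
theorem f4i_commute_rs (R : BRel chevF4 F η) {g : GL chevF4.Idx F} {L : List ℕ}
    (h : ∀ s ∈ L, ∀ t : F, Commute g (xGL R.xadd s t)) :
    ∀ u ∈ rootsSubgroup chevF4 F L, Commute g u := by
  intro u hu
  unfold rootsSubgroup at hu
  induction hu using Subgroup.closure_induction with
  | mem x hx =>
    obtain ⟨s, hs, t, hx⟩ := hx
    rw [eq_xGL R.xadd hx]
    exact h s hs t
  | one => exact Commute.one_right g
  | mul a b _ _ ha hb => exact ha.mul_right hb
  | inv a _ ha => exact ha.inv_right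

theorem f4i_sqrt [Finite F] [CharP F 2] (x : F) : ∃ s : F, s ^ 2 = x := by
  obtain ⟨r, hr⟩ := FiniteField.isSquare_of_char_two (ringChar.eq F 2) x
  exact ⟨r, by rw [hr, sq]⟩

theorem f4i_n_mem (R : BRel chevF4 F η) {P : List ℕ} {i : ℕ} (hi : chevF4.simple i ∈ P) :
    R.n i ∈ f4G F P := by
  unfold NRel.n f4G
  rw [nGL_eq]
  have h1 : chevF4.simple i ∈ P ++ P.map chevF4.neg := List.mem_append_left _ hi
  have h2 : chevF4.neg (chevF4.simple i) ∈ P ++ P.map chevF4.neg :=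
    List.mem_append_right _ (List.mem_map_of_mem hi)
  exact mul_mem (mul_mem (f4i_x_mem R h1 _) (f4i_x_mem R h2 _)) (f4i_x_mem R h1 _)

theorem f4i_nW_mem (R : BRel chevF4 F η) {P : List ℕ} {W : List ℕ}
    (hW : ∀ i ∈ W, chevF4.simple i ∈ P) : R.nW W ∈ f4G F P := by
  induction W with
  | nil => rw [NRel.nW_nil]; exact one_mem _
  | cons i W ih =>
    rw [NRel.nW_cons]
    exact mul_mem (f4i_n_mem R (hW i List.mem_cons_self)) (ih fun k hk => hW k (List.mem_cons_of_mem _ hk))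

theorem f4i_h_mem (R : BRel chevF4 F η) {P : List ℕ} {r : ℕ} (hr : r ∈ P) (c : F) :
    hGL R.xadd r c ∈ f4G F P := by
  unfold f4G
  rw [hGL_eq, nGL_eq, nGL_eq]
  have h1 : r ∈ P ++ P.map chevF4.neg := List.mem_append_left _ hr
  have h2 : chevF4.neg r ∈ P ++ P.map chevF4.neg := List.mem_append_right _ (List.mem_map_of_mem hr)
  exact mul_mem (mul_mem (mul_mem (f4i_x_mem R h1 _) (f4i_x_mem R h2 _)) (f4i_x_mem R h1 _))
    (mul_mem (mul_mem (f4i_x_mem R h1 _) (f4i_x_mem R h2 _)) (f4i_x_mem R h1 _))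

theorem f4i_rs_le_G (P : List ℕ) : rootsSubgroup chevF4 F P ≤ f4G F P :=
  f4i_rs_mono fun r hr => List.mem_append_left _ hr

theorem f4i_G_mono {P P' : List ℕ} (h : ∀ r ∈ P', r ∈ P) : f4G F P' ≤ f4G F P := by
  apply f4i_rs_mono
  intro r hr
  rcases List.mem_append.mp hr with hr | hr
  · exact List.mem_append_left _ (h r hr)
  · rw [List.mem_map] at hr
    obtain ⟨s, hs, rfl⟩ := hr
    exact List.mem_append_right _ (List.mem_map_of_mem (h s hs))

theorem f4i_G_le_group (R : BRel chevF4 F η) (P : List ℕ) : f4G F P ≤ chevF4.group F := by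
  unfold f4G rootsSubgroup
  rw [Subgroup.closure_le]
  rintro g ⟨r, hr, t, hg⟩
  rw [SetLike.mem_coe, eq_xGL R.xadd hg]
  exact xGL_mem_group R.xadd r t

end F4IDefs

end Cfsg.Agent.Helper38
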