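/-
helper38: S2174 (`F₄(q)`, `q` even, four classes of involutions) - the fusion statement and its proof from
the characteristic-two word check.
-/
import Cfsg.Agent.Helper38.F4IFck
import Cfsg.Agent.Helper38.F4IDefs

set_option autoImplicit false
set_option linter.unusedSectionVars false
set_option linter.unusedVariables false

namespace Cfsg.Agent.Helper38

open Cfsg Cfsg.Lie Cfsg.Agent.Helper36 Cfsg.Agent.Helper17 Cfsg.Agent.Helper18

section

variable {F : Type*} [Field F] {η : ℕ → ℕ → ℤ}

/-- The word of `l` is conjugate in the group to the word of `y` (all parameters `1`). -/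
def F4Fus (R : BRel chevF4 F η) (l y : List ℕ) : Prop :=
  ∃ g ∈ chevF4.group F, g * wordGL R.xadd (l.map fun r => (r, (1 : F))) * g⁻¹ =
    wordGL R.xadd (y.map fun r => (r, (1 : F)))

theorem f4i_fus_refl (R : BRel chevF4 F η) (l : List ℕ) : F4Fus R l l :=
  ⟨1, one_mem _, by simp⟩

/-- Fusion from the word check: `W l = y W`. -/
theorem f4i_fus [CharP F 2] (R : BRel chevF4 F η) (W l y : List ℕ)
    (h : (goodWord chevF4 (oneW (W ++ l)) && goodWord chevF4 (oneW (y ++ W)) &&
      Cfsg.Agent.Helper18.allBelow (chevF4.rank + chevF4.nroots)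
        (fun k => allEvenF (fsub (fapplyW chevF4 (oneW (W ++ l)) [(k, 1, 0)])
          (fapplyW chevF4 (oneW (y ++ W)) [(k, 1, 0)])))) = true) :
    F4Fus R l y := by
  have e : wordGL R.xadd ((W ++ l).map fun r => (r, (1 : F))) =
      wordGL R.xadd ((y ++ W).map fun r => (r, (1 : F))) := by
    apply Units.ext
    rw [wordGL_val, wordGL_val]
    exact wordMat_one_eq chevF4 (W ++ l) (y ++ W) h
  rw [List.map_append, List.map_append, wordGL_append, wordGL_append] at e
  refine ⟨_, wordGL_mem_group R.xadd (W.map fun r => (r, (1 : F))), ?_⟩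
  rw [e]; group

end

end Cfsg.Agent.Helper38
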