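/-
helper38: S2174 (`F₄(q)`, `q` even, four classes of involutions) - fusion of the standard words, part A
(conjugating words found by machine over the field of two elements, checked by the characteristic-two
word checker).
-/
import Cfsg.Agent.Helper38.F4IFusDefs

set_option autoImplicit false
set_option linter.unusedSectionVars false
set_option linter.unusedVariables false
set_option maxRecDepth 100000

namespace Cfsg.Agent.Helper38

open Cfsg Cfsg.Lie Cfsg.Agent.Helper36 Cfsg.Agent.Helper17 Cfsg.Agent.Helper18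

section

variable {F : Type*} [Field F] {η : ℕ → ℕ → ℤ}

theorem f4i_fus_47_41 [CharP F 2] (R : BRel chevF4 F η) :
    F4Fus R [47, 41] [47, 44] :=
  f4i_fus R [18] [47, 41] [47, 44] (by decide +kernel)

theorem f4i_fus_47_41_30 [CharP F 2] (R : BRel chevF4 F η) :
    F4Fus R [47, 41, 30] [39, 45] :=
  f4i_fus R [21, 26, 36, 21, 18, 14] [47, 41, 30] [39, 45] (by decide +kernel)

theorem f4i_fus_44_32_27 [CharP F 2] (R : BRel chevF4 F η) :
    F4Fus R [44, 32, 27] [39, 45] :=
  f4i_fus R [27, 33, 13, 4] [44, 32, 27] [39, 45] (by decide +kernel)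

theorem f4i_fus_47_41_30_25 [CharP F 2] (R : BRel chevF4 F η) :
    F4Fus R [47, 41, 30, 25] [39, 45] :=
  f4i_fus R [13, 27, 16, 38, 23, 21, 5] [47, 41, 30, 25] [39, 45] (by decide +kernel)

theorem f4i_fus_44_29_30_25 [CharP F 2] (R : BRel chevF4 F η) :
    F4Fus R [44, 29, 30, 25] [39, 45] :=
  f4i_fus R [26, 11, 42, 23, 20, 14, 6] [44, 29, 30, 25] [39, 45] (by decide +kernel)

end

end Cfsg.Agent.Helper38
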