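/-
helper38: S2174 (`F₄(q)`, `q` even, four classes of involutions) - the reduction step of the Levi recursion
and the induction over the Levi subsystems.
-/
import Cfsg.Agent.Helper38.F4IDefs
import Cfsg.Agent.Helper18.RSubDefs

set_option autoImplicit false
set_option linter.unusedSectionVars false
set_option linter.unusedVariables false

namespace Cfsg.Agent.Helper38

open Cfsg Cfsg.Lie Cfsg.Agent.Helper36 Cfsg.Agent.Helper17 Cfsg.Agent.Helper18 Cfsg.Agent.Helper18.RSub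

section F4IStep

variable {F : Type*} [Field F] {η : ℕ → ℕ → ℤ}

/-- The lowering lemma, as a hypothesis. -/
def F4LowS (R : BRel chevF4 F η) : Prop :=
  ∀ (A J : List ℕ), LowOK chevF4 A J → ∀ u ∈ rootsSubgroup chevF4 F A, u ≠ 1 →
    ∃ (w : List ℕ) (j : ℕ) (a : F) (u1 : GL chevF4.Idx F), (∀ i ∈ w, i ∈ J) ∧ j ∈ J ∧ a ≠ 0 ∧
      u1 ∈ rootsSubgroup chevF4 F (A.filter fun r => decide (r ≠ chevF4.simple j)) ∧
      R.nW w * u * (R.nW w)⁻¹ = xGL R.xadd (chevF4.simple j) a * u1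

/-- The cocycle lemma, as a hypothesis. -/
def F4CocS (R : BRel chevF4 F η) : Prop :=
  ∀ (p : ℕ) (Fix : List ℕ) (S : List (ℕ × ℕ)), chevF4.IsPosRoot p → StrOK chevF4 p Fix S →
    ∀ a : F, a ≠ 0 → ∀ u1 ∈ rootsSubgroup chevF4 F (Fix ++ strRoots S),
      (xGL R.xadd p a * u1) * (xGL R.xadd p a * u1) = 1 →
      ∃ v ∈ rootsSubgroup chevF4 F (Fix ++ strRoots S), ∃ u2 ∈ rootsSubgroup chevF4 F Fix,
        v * (xGL R.xadd p a * u1) * v⁻¹ = xGL R.xadd p a * u2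

/-- Every involution of the subgroup of `P` is conjugate, under the group of `P`, to a standard word. -/
def F4Claim (R : BRel chevF4 F η) (P : List ℕ) (Ls : List (List ℕ)) : Prop :=
  ∀ u ∈ rootsSubgroup chevF4 F P, u * u = 1 →
    ∃ g ∈ f4G F P, ∃ l ∈ Ls, g * u * g⁻¹ = wordGL R.xadd (l.map fun r => (r, (1 : F)))

/-- The table conditions of one reduction step. -/
def F4StepOK (P : List ℕ) (j θ : ℕ) (W Fix : List ℕ) (S : List (ℕ × ℕ)) (P' : List ℕ)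
    (Ls' Ls : List (List ℕ)) : Prop :=
  chevF4.simple j ∈ P ∧ chevF4.pairing (chevF4.simple j) (chevF4.simple j) = 2 ∧
  chevF4.IsPosRoot (chevF4.simple j) ∧ chevF4.simple j < chevF4.nroots ∧
  (∀ s ∈ P, s < chevF4.nroots) ∧
  StrOK chevF4 (chevF4.simple j) Fix S ∧
  (∀ r ∈ P.filter (fun r => decide (r ≠ chevF4.simple j)), r ∈ Fix ++ strRoots S) ∧
  (∀ r ∈ Fix ++ strRoots S, r ∈ P.filter (fun r => decide (r ≠ chevF4.simple j))) ∧
  (∀ i ∈ W, i < chevF4.rank) ∧ (∀ i ∈ W, chevF4.simple i ∈ P) ∧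
  wW chevF4 W (chevF4.simple j) = θ ∧ θ < chevF4.nroots ∧
  (∀ s ∈ Fix, s < chevF4.nroots ∧ wW chevF4 W s ∈ P') ∧
  (∀ r ∈ P', r ∈ P) ∧
  (∀ s ∈ P' ++ P'.map chevF4.neg, s < chevF4.nroots ∧ s ≠ θ ∧ s ≠ chevF4.neg θ ∧
      ∀ c ∈ chevF4.commTerms θ s, c.2.1 % 2 = 0) ∧
  ∀ l ∈ Ls', θ :: l ∈ Ls

instance (P : List ℕ) (j θ : ℕ) (W Fix : List ℕ) (S : List (ℕ × ℕ)) (P' : List ℕ)
    (Ls' Ls : List (List ℕ)) : Decidable (F4StepOK P j θ W Fix S P' Ls' Ls) := by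
  unfold F4StepOK; infer_instance

theorem f4i_conj_sq {G : Type*} [Group G] {g x : G} (h : x * x = 1) :
    (g * x * g⁻¹) * (g * x * g⁻¹) = 1 := by
  have e : (g * x * g⁻¹) * (g * x * g⁻¹) = g * (x * x) * g⁻¹ := by group
  rw [e, h]; group

theorem f4i_x_sq [CharP F 2] (R : BRel chevF4 F η) (r : ℕ) (t : F) :
    xGL R.xadd r t * xGL R.xadd r t = 1 := by
  rw [xGL_mul, CharTwo.add_self_eq_zero, xGL_zero]

/-- The reduction step. -/
theorem f4i_step [Finite F] [CharP F 2] (R : BRel chevF4 F η) (hC : F4CocS R)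
    {P : List ℕ} {j θ : ℕ} {W Fix : List ℕ} {S : List (ℕ × ℕ)} {P' : List ℕ}
    {Ls' Ls : List (List ℕ)} (hok : F4StepOK P j θ W Fix S P' Ls' Ls) (hcl : F4Claim R P' Ls')
    (a : F) (ha : a ≠ 0) (u1 : GL chevF4.Idx F)
    (hu1 : u1 ∈ rootsSubgroup chevF4 F (P.filter fun r => decide (r ≠ chevF4.simple j)))
    (hinv : (xGL R.xadd (chevF4.simple j) a * u1) * (xGL R.xadd (chevF4.simple j) a * u1) = 1) :
    ∃ g ∈ f4G F P, ∃ l ∈ Ls, g * (xGL R.xadd (chevF4.simple j) a * u1) * g⁻¹ =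
      wordGL R.xadd (l.map fun r => (r, (1 : F))) := by
  obtain ⟨hpP, hpair, hpos, hplt, hPlt, hStr, hsub1, hsub2, hWv, hWP, hWθ, hθlt, hFix, hP'P, hcent, hLs⟩ := hok
  set p := chevF4.simple j with hp
  have hcongr : rootsSubgroup chevF4 F (P.filter fun r => decide (r ≠ p)) =
      rootsSubgroup chevF4 F (Fix ++ strRoots S) :=
    rootsSubgroup_congr fun r => ⟨hsub1 r, hsub2 r⟩
  have hfl : ∀ s ∈ P.filter (fun r => decide (r ≠ p)), s < chevF4.nroots :=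
    fun s hs => hPlt s (List.mem_of_mem_filter hs)
  -- scaling
  obtain ⟨c, hc⟩ := f4i_sqrt a⁻¹
  have hc0 : c ≠ 0 := by
    rintro rfl
    rw [zero_pow (by norm_num)] at hc
    exact inv_ne_zero ha hc.symm
  set h := hGL R.xadd p c with hh
  have hhm : h ∈ f4G F P := f4i_h_mem R hpP c
  have e1 : h * xGL R.xadd p a * h⁻¹ = xGL R.xadd p 1 := by
    rw [hh, f4i_h_conj R hplt hplt hc0, hpair]
    congr 1
    have : (c : F) ^ (2 : ℤ) = c ^ 2 := by norm_cast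
    rw [this, hc, inv_mul_cancel₀ ha]
  set u1' := h * u1 * h⁻¹ with hu1'
  have hu1'm : u1' ∈ rootsSubgroup chevF4 F (Fix ++ strRoots S) := by
    rw [← hcongr]
    exact f4i_hnrm R hplt hc0 hfl u1 hu1
  have e2 : h * (xGL R.xadd p a * u1) * h⁻¹ = xGL R.xadd p 1 * u1' := by
    rw [← e1, hu1']; group
  have hinv2 : (xGL R.xadd p 1 * u1') * (xGL R.xadd p 1 * u1') = 1 := by
    rw [← e2]; exact f4i_conj_sq hinv
  -- cocycle
  obtain ⟨v, hv, u2, hu2, e3⟩ := hC p Fix S hpos hStr 1 one_ne_zero u1' hu1'm hinv2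
  have hvm : v ∈ f4G F P := by
    rw [← hcongr] at hv
    exact f4i_rs_le_G P (f4i_rs_mono (fun r hr => List.mem_of_mem_filter hr) hv)
  -- the Weyl word
  have hWV : ValidW chevF4 W := hWv
  set n := R.nW W with hn
  have hnm : n ∈ f4G F P := f4i_nW_mem R hWP
  have hsgn : ((eW chevF4 η W p : ℤ) : F) = 1 := by
    rcases R.eW_sgn hWV hplt with h1 | h1
    · rw [h1]; simp
    · rw [h1]; simp [CharTwo.neg_eq]
  have e4 : n * xGL R.xadd p 1 * n⁻¹ = xGL R.xadd θ 1 := by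
    rw [hn, R.nW_conj_x hWV hplt, hWθ, hsgn, mul_one]
  set u3 := n * u2 * n⁻¹ with hu3
  have hu3m : u3 ∈ rootsSubgroup chevF4 F P' := f4i_wnrm R hWV hFix u2 hu2
  have e5 : n * (xGL R.xadd p 1 * u2) * n⁻¹ = xGL R.xadd θ 1 * u3 := by
    rw [← e4, hu3]; group
  have hinv3 : (xGL R.xadd θ 1 * u3) * (xGL R.xadd θ 1 * u3) = 1 := by
    rw [← e5, ← e3]; exact f4i_conj_sq (f4i_conj_sq hinv2)
  -- `x_θ(1)` commutes with the group of `P'`
  have hcomm : ∀ g ∈ f4G F P', Commute (xGL R.xadd θ 1) g := by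
    apply f4i_commute_rs R
    intro s hs t
    obtain ⟨h1, h2, h3, h4⟩ := hcent s hs
    have := chCentG_comm_even R hθlt h1 h2 h3
      (fun c hc => Int.dvd_of_emod_eq_zero (h4 c hc)) (1 : F) t
    show xGL R.xadd θ 1 * xGL R.xadd s t = xGL R.xadd s t * xGL R.xadd θ 1
    calc xGL R.xadd θ 1 * xGL R.xadd s t
        = (xGL R.xadd θ 1 * xGL R.xadd s t * (xGL R.xadd θ 1)⁻¹) * xGL R.xadd θ 1 := by group
      _ = xGL R.xadd s t * xGL R.xadd θ 1 := by rw [this]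
  have hc3 : Commute (xGL R.xadd θ 1) u3 := hcomm u3 (f4i_rs_le_G P' hu3m)
  have hu3sq : u3 * u3 = 1 := by
    have e : (xGL R.xadd θ 1 * u3) * (xGL R.xadd θ 1 * u3) =
        (xGL R.xadd θ 1 * xGL R.xadd θ 1) * (u3 * u3) := by
      rw [mul_assoc, ← mul_assoc u3, ← hc3.eq]; group
    rw [e, f4i_x_sq R, one_mul] at hinv3
    exact hinv3
  -- the recursion
  obtain ⟨g', hg', l, hl, e6⟩ := hcl u3 hu3m hu3sq
  have hcg : Commute (xGL R.xadd θ 1) g' := hcomm g' hg'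
  refine ⟨g' * n * v * h, mul_mem (mul_mem (mul_mem (f4i_G_mono hP'P hg') hnm) hvm) hhm,
    θ :: l, hLs l hl, ?_⟩
  have e7 : g' * n * v * h * (xGL R.xadd p a * u1) * (g' * n * v * h)⁻¹ =
      g' * (n * (v * (h * (xGL R.xadd p a * u1) * h⁻¹) * v⁻¹) * n⁻¹) * g'⁻¹ := by group
  rw [e7, e2, e3, e5, List.map_cons, wordGL_cons, ← e6]
  calc g' * (xGL R.xadd θ 1 * u3) * g'⁻¹ = (g' * xGL R.xadd θ 1) * u3 * g'⁻¹ := by group
    _ = (xGL R.xadd θ 1 * g') * u3 * g'⁻¹ := by rw [hcg.eq]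
    _ = xGL R.xadd θ 1 * (g' * u3 * g'⁻¹) := by group

/-- The induction step over a Levi subsystem. -/
theorem f4i_claim [Finite F] [CharP F 2] (R : BRel chevF4 F η) (hL : F4LowS R) (hC : F4CocS R)
    (P J : List ℕ) (Ls : List (List ℕ)) (hLow : LowOK chevF4 P J) (hnil : [] ∈ Ls)
    (hJ : ∀ i ∈ J, chevF4.simple i ∈ P)
    (hstep : ∀ j ∈ J, ∃ (θ : ℕ) (W Fix : List ℕ) (S : List (ℕ × ℕ)) (P' : List ℕ)
      (Ls' : List (List ℕ)), F4StepOK P j θ W Fix S P' Ls' Ls ∧ F4Claim R P' Ls') :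
    F4Claim R P Ls := by
  intro u hu husq
  by_cases hu1 : u = 1
  · refine ⟨1, one_mem _, [], hnil, ?_⟩
    rw [hu1]; simp [wordGL_nil]
  · obtain ⟨w, j, a, u1, hw, hj, ha, hu1m, e⟩ := hL P J hLow u hu hu1
    obtain ⟨θ, W, Fix, S, P', Ls', hok, hcl⟩ := hstep j hj
    have hinv : (xGL R.xadd (chevF4.simple j) a * u1) * (xGL R.xadd (chevF4.simple j) a * u1) = 1 := by
      rw [← e]; exact f4i_conj_sq husq
    obtain ⟨g, hg, l, hl, e2⟩ := f4i_step R hC hok hcl a ha u1 hu1m hinv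
    refine ⟨g * R.nW w, mul_mem hg (f4i_nW_mem R fun i hi => hJ i (hw i hi)), l, hl, ?_⟩
    rw [← e2, ← e]; group

/-- The base of the recursion: the empty subsystem. -/
theorem f4i_claim_nil (R : BRel chevF4 F η) : F4Claim R [] [[]] := by
  intro u hu _
  have h1 : u = 1 := by
    unfold rootsSubgroup at hu
    have hb : Subgroup.closure {g : GL chevF4.Idx F | ∃ r ∈ ([] : List ℕ), ∃ t : F,
        (g : Matrix chevF4.Idx chevF4.Idx F) = chevF4.x F r t} = ⊥ := by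
      rw [Subgroup.closure_eq_bot_iff]
      rintro g ⟨r, hr, _⟩
      exact absurd hr List.not_mem_nil
    rw [hb, Subgroup.mem_bot] at hu
    exact hu
  refine ⟨1, one_mem _, [], List.mem_singleton.mpr rfl, ?_⟩
  rw [h1]; simp [wordGL_nil]

end F4IStep

end Cfsg.Agent.Helper38
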