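/-
helper38: S2174 (`F₄(q)`, `q` even, four classes of involutions) - the Levi recursion: every involution of
the subgroup of the positive roots is conjugate to one of 23 standard words.
-/
import Cfsg.Agent.Helper38.F4IStep

set_option autoImplicit false
set_option linter.unusedSectionVars false
set_option linter.unusedVariables false
set_option maxRecDepth 100000

namespace Cfsg.Agent.Helper38

open Cfsg Cfsg.Lie Cfsg.Agent.Helper36 Cfsg.Agent.Helper17 Cfsg.Agent.Helper18 Cfsg.Agent.Helper18.RSub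

section F4IRec

variable {F : Type*} [Field F] {η : ℕ → ℕ → ℤ}

/-- The subsystem of the fundamental roots `1`. -/
def f4iP1 : List ℕ := [33]

/-- The standard words of the subsystem `1`. -/
def f4iL1 : List (List ℕ) := [[], [33]]

/-- The subsystem of the fundamental roots `2`. -/
def f4iP2 : List ℕ := [27]

/-- The standard words of the subsystem `2`. -/
def f4iL2 : List (List ℕ) := [[], [27]]

/-- The subsystem of the fundamental roots `3`. -/
def f4iP3 : List ℕ := [25]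

/-- The standard words of the subsystem `3`. -/
def f4iL3 : List (List ℕ) := [[], [25]]

/-- The subsystem of the fundamental roots `4`. -/
def f4iP4 : List ℕ := [24]

/-- The standard words of the subsystem `4`. -/
def f4iL4 : List (List ℕ) := [[], [24]]

/-- The subsystem of the fundamental roots `23`. -/
def f4iP23 : List ℕ := [25, 27, 28, 30]

/-- The standard words of the subsystem `23`. -/
def f4iL23 : List (List ℕ) := [[], [28], [28, 27], [30], [30, 25]]

/-- The subsystem of the fundamental roots `13`. -/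
def f4iP13 : List ℕ := [25, 33]

/-- The standard words of the subsystem `13`. -/
def f4iL13 : List (List ℕ) := [[], [33], [33, 25], [25], [25, 33]]

/-- The subsystem of the fundamental roots `24`. -/
def f4iP24 : List ℕ := [24, 27]

/-- The standard words of the subsystem `24`. -/
def f4iL24 : List (List ℕ) := [[], [27], [27, 24], [24], [24, 27]]

/-- The subsystem of the fundamental roots `123`. -/
def f4iP123 : List ℕ := [25, 27, 28, 30, 33, 34, 35, 37, 41]

/-- The standard words of the subsystem `123`. -/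
def f4iL123 : List (List ℕ) := [[], [37], [37, 33], [37, 33, 25], [37, 25], [37, 25, 33], [41], [41, 28], [41, 28, 27], [41, 30], [41, 30, 25]]

/-- The subsystem of the fundamental roots `234`. -/
def f4iP234 : List ℕ := [24, 25, 26, 27, 28, 29, 30, 31, 32]

/-- The standard words of the subsystem `234`. -/
def f4iL234 : List (List ℕ) := [[], [29], [29, 28], [29, 28, 27], [29, 30], [29, 30, 25], [32], [32, 27], [32, 27, 24], [32, 24], [32, 24, 27]]

/-- The subsystem of the fundamental roots `1234`. -/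
def f4iP1234 : List ℕ := [24, 25, 26, 27, 28, 29, 30, 31, 32, 33, 34, 35, 36, 37, 38, 39, 40, 41, 42, 43, 44, 45, 46, 47]

/-- The standard words of the subsystem `1234`. -/
def f4iL1234 : List (List ℕ) := [[], [44], [44, 29], [44, 29, 28], [44, 29, 28, 27], [44, 29, 30], [44, 29, 30, 25], [44, 32], [44, 32, 27], [44, 32, 27, 24], [44, 32, 24], [44, 32, 24, 27], [47], [47, 37], [47, 37, 33], [47, 37, 33, 25], [47, 37, 25], [47, 37, 25, 33], [47, 41], [47, 41, 28], [47, 41, 28, 27], [47, 41, 30], [47, 41, 30, 25]]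

theorem f4i_ok_1_0 : F4StepOK f4iP1 0 33 [] [] [] [] [[]] f4iL1 := by
  decide +kernel

theorem f4i_low_1 : LowOK chevF4 f4iP1 [0] := by
  decide +kernel

theorem f4i_claim_1 [Finite F] [CharP F 2] (R : BRel chevF4 F η) (hL : F4LowS R) (hC : F4CocS R) :
    F4Claim R f4iP1 f4iL1 := by
  refine f4i_claim R hL hC f4iP1 [0] f4iL1 f4i_low_1 (by decide) (by decide +kernel) ?_
  intro j hj
  simp only [List.mem_cons, List.not_mem_nil, or_false] at hj
  subst hj
  · exact ⟨33, [], [], [], [], [[]], f4i_ok_1_0, f4i_claim_nil R⟩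

theorem f4i_ok_2_1 : F4StepOK f4iP2 1 27 [] [] [] [] [[]] f4iL2 := by
  decide +kernel

theorem f4i_low_2 : LowOK chevF4 f4iP2 [1] := by
  decide +kernel

theorem f4i_claim_2 [Finite F] [CharP F 2] (R : BRel chevF4 F η) (hL : F4LowS R) (hC : F4CocS R) :
    F4Claim R f4iP2 f4iL2 := by
  refine f4i_claim R hL hC f4iP2 [1] f4iL2 f4i_low_2 (by decide) (by decide +kernel) ?_
  intro j hj
  simp only [List.mem_cons, List.not_mem_nil, or_false] at hj
  subst hj
  · exact ⟨27, [], [], [], [], [[]], f4i_ok_2_1, f4i_claim_nil R⟩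

theorem f4i_ok_3_2 : F4StepOK f4iP3 2 25 [] [] [] [] [[]] f4iL3 := by
  decide +kernel

theorem f4i_low_3 : LowOK chevF4 f4iP3 [2] := by
  decide +kernel

theorem f4i_claim_3 [Finite F] [CharP F 2] (R : BRel chevF4 F η) (hL : F4LowS R) (hC : F4CocS R) :
    F4Claim R f4iP3 f4iL3 := by
  refine f4i_claim R hL hC f4iP3 [2] f4iL3 f4i_low_3 (by decide) (by decide +kernel) ?_
  intro j hj
  simp only [List.mem_cons, List.not_mem_nil, or_false] at hj
  subst hj
  · exact ⟨25, [], [], [], [], [[]], f4i_ok_3_2, f4i_claim_nil R⟩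

theorem f4i_ok_4_3 : F4StepOK f4iP4 3 24 [] [] [] [] [[]] f4iL4 := by
  decide +kernel

theorem f4i_low_4 : LowOK chevF4 f4iP4 [3] := by
  decide +kernel

theorem f4i_claim_4 [Finite F] [CharP F 2] (R : BRel chevF4 F η) (hL : F4LowS R) (hC : F4CocS R) :
    F4Claim R f4iP4 f4iL4 := by
  refine f4i_claim R hL hC f4iP4 [3] f4iL4 f4i_low_4 (by decide) (by decide +kernel) ?_
  intro j hj
  simp only [List.mem_cons, List.not_mem_nil, or_false] at hj
  subst hj
  · exact ⟨24, [], [], [], [], [[]], f4i_ok_4_3, f4i_claim_nil R⟩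

theorem f4i_ok_23_1 : F4StepOK f4iP23 1 28 [2] [28] [(25, 30)] f4iP2 f4iL2 f4iL23 := by
  decide +kernel

theorem f4i_ok_23_2 : F4StepOK f4iP23 2 30 [1] [30] [(27, 28)] f4iP3 f4iL3 f4iL23 := by
  decide +kernel

theorem f4i_low_23 : LowOK chevF4 f4iP23 [1, 2] := by
  decide +kernel

theorem f4i_claim_23 [Finite F] [CharP F 2] (R : BRel chevF4 F η) (hL : F4LowS R) (hC : F4CocS R) :
    F4Claim R f4iP23 f4iL23 := by
  refine f4i_claim R hL hC f4iP23 [1, 2] f4iL23 f4i_low_23 (by decide) (by decide +kernel) ?_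
  intro j hj
  simp only [List.mem_cons, List.not_mem_nil, or_false] at hj
  rcases hj with rfl | rfl
  · exact ⟨28, [2], [28], [(25, 30)], f4iP2, f4iL2, f4i_ok_23_1, f4i_claim_2 R hL hC⟩
  · exact ⟨30, [1], [30], [(27, 28)], f4iP3, f4iL3, f4i_ok_23_2, f4i_claim_3 R hL hC⟩

theorem f4i_ok_13_0 : F4StepOK f4iP13 0 33 [] [25] [] f4iP3 f4iL3 f4iL13 := by
  decide +kernel

theorem f4i_ok_13_2 : F4StepOK f4iP13 2 25 [] [33] [] f4iP1 f4iL1 f4iL13 := by
  decide +kernel

theorem f4i_low_13 : LowOK chevF4 f4iP13 [0, 2] := by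
  decide +kernel

theorem f4i_claim_13 [Finite F] [CharP F 2] (R : BRel chevF4 F η) (hL : F4LowS R) (hC : F4CocS R) :
    F4Claim R f4iP13 f4iL13 := by
  refine f4i_claim R hL hC f4iP13 [0, 2] f4iL13 f4i_low_13 (by decide) (by decide +kernel) ?_
  intro j hj
  simp only [List.mem_cons, List.not_mem_nil, or_false] at hj
  rcases hj with rfl | rfl
  · exact ⟨33, [], [25], [], f4iP3, f4iL3, f4i_ok_13_0, f4i_claim_3 R hL hC⟩
  · exact ⟨25, [], [33], [], f4iP1, f4iL1, f4i_ok_13_2, f4i_claim_1 R hL hC⟩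

theorem f4i_ok_24_1 : F4StepOK f4iP24 1 27 [] [24] [] f4iP4 f4iL4 f4iL24 := by
  decide +kernel

theorem f4i_ok_24_3 : F4StepOK f4iP24 3 24 [] [27] [] f4iP2 f4iL2 f4iL24 := by
  decide +kernel

theorem f4i_low_24 : LowOK chevF4 f4iP24 [1, 3] := by
  decide +kernel

theorem f4i_claim_24 [Finite F] [CharP F 2] (R : BRel chevF4 F η) (hL : F4LowS R) (hC : F4CocS R) :
    F4Claim R f4iP24 f4iL24 := by
  refine f4i_claim R hL hC f4iP24 [1, 3] f4iL24 f4i_low_24 (by decide) (by decide +kernel) ?_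
  intro j hj
  simp only [List.mem_cons, List.not_mem_nil, or_false] at hj
  rcases hj with rfl | rfl
  · exact ⟨27, [], [24], [], f4iP4, f4iL4, f4i_ok_24_1, f4i_claim_4 R hL hC⟩
  · exact ⟨24, [], [27], [], f4iP2, f4iL2, f4i_ok_24_3, f4i_claim_2 R hL hC⟩

theorem f4i_ok_123_0 : F4StepOK f4iP123 0 37 [1, 2, 1] [25, 37] [(27, 34), (28, 35), (30, 41)] f4iP13 f4iL13 f4iL123 := by
  decide +kernel

theorem f4i_ok_123_1 : F4StepOK f4iP123 1 37 [1, 2, 0] [28, 41] [(25, 30), (33, 34), (35, 37)] f4iP13 f4iL13 f4iL123 := by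
  decide +kernel

theorem f4i_ok_123_2 : F4StepOK f4iP123 2 41 [0, 1] [30, 33, 37, 41] [(27, 28), (34, 35)] f4iP23 f4iL23 f4iL123 := by
  decide +kernel

theorem f4i_low_123 : LowOK chevF4 f4iP123 [0, 1, 2] := by
  decide +kernel

theorem f4i_claim_123 [Finite F] [CharP F 2] (R : BRel chevF4 F η) (hL : F4LowS R) (hC : F4CocS R) :
    F4Claim R f4iP123 f4iL123 := by
  refine f4i_claim R hL hC f4iP123 [0, 1, 2] f4iL123 f4i_low_123 (by decide) (by decide +kernel) ?_
  intro j hj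
  simp only [List.mem_cons, List.not_mem_nil, or_false] at hj
  rcases hj with rfl | rfl | rfl
  · exact ⟨37, [1, 2, 1], [25, 37], [(27, 34), (28, 35), (30, 41)], f4iP13, f4iL13, f4i_ok_123_0, f4i_claim_13 R hL hC⟩
  · exact ⟨37, [1, 2, 0], [28, 41], [(25, 30), (33, 34), (35, 37)], f4iP13, f4iL13, f4i_ok_123_1, f4i_claim_13 R hL hC⟩
  · exact ⟨41, [0, 1], [30, 33, 37, 41], [(27, 28), (34, 35)], f4iP23, f4iL23, f4i_ok_123_2, f4i_claim_23 R hL hC⟩

theorem f4i_ok_234_1 : F4StepOK f4iP234 1 29 [3, 2] [24, 28, 29, 32] [(25, 30), (26, 31)] f4iP23 f4iL23 f4iL234 := by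
  decide +kernel

theorem f4i_ok_234_2 : F4StepOK f4iP234 2 32 [2, 3, 1] [29, 30] [(24, 26), (27, 28), (31, 32)] f4iP24 f4iL24 f4iL234 := by
  decide +kernel

theorem f4i_ok_234_3 : F4StepOK f4iP234 3 32 [2, 1, 2] [27, 32] [(25, 26), (28, 29), (30, 31)] f4iP24 f4iL24 f4iL234 := by
  decide +kernel

theorem f4i_low_234 : LowOK chevF4 f4iP234 [1, 2, 3] := by
  decide +kernel

theorem f4i_claim_234 [Finite F] [CharP F 2] (R : BRel chevF4 F η) (hL : F4LowS R) (hC : F4CocS R) :
    F4Claim R f4iP234 f4iL234 := by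
  refine f4i_claim R hL hC f4iP234 [1, 2, 3] f4iL234 f4i_low_234 (by decide) (by decide +kernel) ?_
  intro j hj
  simp only [List.mem_cons, List.not_mem_nil, or_false] at hj
  rcases hj with rfl | rfl | rfl
  · exact ⟨29, [3, 2], [24, 28, 29, 32], [(25, 30), (26, 31)], f4iP23, f4iL23, f4i_ok_234_1, f4i_claim_23 R hL hC⟩
  · exact ⟨32, [2, 3, 1], [29, 30], [(24, 26), (27, 28), (31, 32)], f4iP24, f4iL24, f4i_ok_234_2, f4i_claim_24 R hL hC⟩
  · exact ⟨32, [2, 1, 2], [27, 32], [(25, 26), (28, 29), (30, 31)], f4iP24, f4iL24, f4i_ok_234_3, f4i_claim_24 R hL hC⟩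

theorem f4i_ok_1234_0 : F4StepOK f4iP1234 0 44 [0, 1, 2, 3, 1, 2, 1] [24, 25, 26, 37, 38, 39, 45, 46, 47] [(27, 34), (28, 35), (29, 36), (30, 41), (31, 42), (32, 43), (40, 44)] f4iP234 f4iL234 f4iL1234 := by
  decide +kernel

theorem f4i_ok_1234_1 : F4StepOK f4iP1234 1 44 [0, 1, 2, 3, 1, 2, 0] [24, 28, 29, 32, 41, 42, 44, 46, 47] [(25, 30), (26, 31), (33, 34), (35, 37), (36, 38), (39, 40), (43, 45)] f4iP234 f4iL234 f4iL1234 := by
  decide +kernel

theorem f4i_ok_1234_2 : F4StepOK f4iP1234 2 47 [3, 2, 1, 2, 3, 0, 1] [29, 30, 33, 36, 37, 40, 41, 44, 47] [(24, 26), (27, 28), (31, 32), (34, 35), (38, 39), (42, 43), (45, 46)] f4iP123 f4iL123 f4iL1234 := by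
  decide +kernel

theorem f4i_ok_1234_3 : F4StepOK f4iP1234 3 47 [3, 2, 1, 2, 0, 1, 2] [27, 32, 33, 34, 39, 40, 43, 44, 45] [(25, 26), (28, 29), (30, 31), (35, 36), (37, 38), (41, 42), (46, 47)] f4iP123 f4iL123 f4iL1234 := by
  decide +kernel

theorem f4i_low_1234 : LowOK chevF4 f4iP1234 [0, 1, 2, 3] := by
  decide +kernel

theorem f4i_claim_1234 [Finite F] [CharP F 2] (R : BRel chevF4 F η) (hL : F4LowS R) (hC : F4CocS R) :
    F4Claim R f4iP1234 f4iL1234 := by
  refine f4i_claim R hL hC f4iP1234 [0, 1, 2, 3] f4iL1234 f4i_low_1234 (by decide) (by decide +kernel) ?_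
  intro j hj
  simp only [List.mem_cons, List.not_mem_nil, or_false] at hj
  rcases hj with rfl | rfl | rfl | rfl
  · exact ⟨44, [0, 1, 2, 3, 1, 2, 1], [24, 25, 26, 37, 38, 39, 45, 46, 47], [(27, 34), (28, 35), (29, 36), (30, 41), (31, 42), (32, 43), (40, 44)], f4iP234, f4iL234, f4i_ok_1234_0, f4i_claim_234 R hL hC⟩
  · exact ⟨44, [0, 1, 2, 3, 1, 2, 0], [24, 28, 29, 32, 41, 42, 44, 46, 47], [(25, 30), (26, 31), (33, 34), (35, 37), (36, 38), (39, 40), (43, 45)], f4iP234, f4iL234, f4i_ok_1234_1, f4i_claim_234 R hL hC⟩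
  · exact ⟨47, [3, 2, 1, 2, 3, 0, 1], [29, 30, 33, 36, 37, 40, 41, 44, 47], [(24, 26), (27, 28), (31, 32), (34, 35), (38, 39), (42, 43), (45, 46)], f4iP123, f4iL123, f4i_ok_1234_2, f4i_claim_123 R hL hC⟩
  · exact ⟨47, [3, 2, 1, 2, 0, 1, 2], [27, 32, 33, 34, 39, 40, 43, 44, 45], [(25, 26), (28, 29), (30, 31), (35, 36), (37, 38), (41, 42), (46, 47)], f4iP123, f4iL123, f4i_ok_1234_3, f4i_claim_123 R hL hC⟩

end F4IRec

end Cfsg.Agent.Helper38
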