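/-
helper38: S2174 (`F₄(q)`, `q` even, four classes of involutions) - every nontrivial standard word is
conjugate to one of the four representatives.
-/
import Cfsg.Agent.Helper38.F4IFusA
import Cfsg.Agent.Helper38.F4IFusB
import Cfsg.Agent.Helper38.F4IFusC
import Cfsg.Agent.Helper38.F4IFusD
import Cfsg.Agent.Helper38.F4IRec

set_option autoImplicit false
set_option linter.unusedSectionVars false
set_option linter.unusedVariables false

namespace Cfsg.Agent.Helper38

open Cfsg Cfsg.Lie Cfsg.Agent.Helper36 Cfsg.Agent.Helper17 Cfsg.Agent.Helper18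

section

variable {F : Type*} [Field F] {η : ℕ → ℕ → ℤ}

/-- Every nontrivial standard word is conjugate to one of the four representatives. -/
theorem f4i_fusion [CharP F 2] (R : BRel chevF4 F η) : ∀ l ∈ f4iL1234, l ≠ [] →
    ∃ y ∈ [[47], [44], [47, 44], [39, 45]], F4Fus R l y := by
  intro l hl hne
  unfold f4iL1234 at hl
  simp only [List.mem_cons, List.not_mem_nil, or_false] at hl
  rcases hl with rfl | rfl | rfl | rfl | rfl | rfl | rfl | rfl | rfl | rfl | rfl | rfl | rfl | rfl | rfl | rfl | rfl | rfl | rfl | rfl | rfl | rfl | rfl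
  · exact absurd rfl hne
  · exact ⟨[44], by decide, f4i_fus_refl R _⟩
  · exact ⟨[47, 44], by decide, f4i_fus_44_29 R⟩
  · exact ⟨[39, 45], by decide, f4i_fus_44_29_28 R⟩
  · exact ⟨[39, 45], by decide, f4i_fus_44_29_28_27 R⟩
  · exact ⟨[39, 45], by decide, f4i_fus_44_29_30 R⟩
  · exact ⟨[39, 45], by decide, f4i_fus_44_29_30_25 R⟩
  · exact ⟨[39, 45], by decide, f4i_fus_44_32 R⟩
  · exact ⟨[39, 45], by decide, f4i_fus_44_32_27 R⟩
  · exact ⟨[39, 45], by decide, f4i_fus_44_32_27_24 R⟩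
  · exact ⟨[39, 45], by decide, f4i_fus_44_32_24 R⟩
  · exact ⟨[39, 45], by decide, f4i_fus_44_32_24_27 R⟩
  · exact ⟨[47], by decide, f4i_fus_refl R _⟩
  · exact ⟨[39, 45], by decide, f4i_fus_47_37 R⟩
  · exact ⟨[39, 45], by decide, f4i_fus_47_37_33 R⟩
  · exact ⟨[39, 45], by decide, f4i_fus_47_37_33_25 R⟩
  · exact ⟨[39, 45], by decide, f4i_fus_47_37_25 R⟩
  · exact ⟨[39, 45], by decide, f4i_fus_47_37_25_33 R⟩
  · exact ⟨[47, 44], by decide, f4i_fus_47_41 R⟩
  · exact ⟨[39, 45], by decide, f4i_fus_47_41_28 R⟩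
  · exact ⟨[39, 45], by decide, f4i_fus_47_41_28_27 R⟩
  · exact ⟨[39, 45], by decide, f4i_fus_47_41_30 R⟩
  · exact ⟨[39, 45], by decide, f4i_fus_47_41_30_25 R⟩

end

end Cfsg.Agent.Helper38
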