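/-
helper38: S2174 (`F₄(q)`, `q` even, four classes of involutions) - the assembly, from the lowering and
cocycle lemmas, the Sylow step, the orders and the non-conjugacy, all taken as hypotheses.
-/
import Cfsg.Agent.Helper38.F4IFus

set_option autoImplicit false
set_option linter.unusedSectionVars false
set_option linter.unusedVariables false

namespace Cfsg.Agent.Helper38

open Cfsg Cfsg.Lie Cfsg.Agent.Helper36 Cfsg.Agent.Helper17 Cfsg.Agent.Helper18 Cfsg.Agent.Helper18.RSub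

section F4IMain

variable {F : Type*} [Field F] {η : ℕ → ℕ → ℤ}

/-- The four representatives. -/
def F4IRep (R : BRel chevF4 F η) (y : GL chevF4.Idx F) : Prop :=
  y = xGL R.xadd 47 1 ∨ y = xGL R.xadd 44 1 ∨ y = xGL R.xadd 47 1 * xGL R.xadd 44 1 ∨
    y = xGL R.xadd 39 1 * xGL R.xadd 45 1

theorem f4i_rep_of_mem (R : BRel chevF4 F η) {y : GL chevF4.Idx F}
    (hy : ((y : GL chevF4.Idx F) : Matrix chevF4.Idx chevF4.Idx F) ∈
      [chevF4.x F 47 1, chevF4.x F 44 1, chevF4.x F 47 1 * chevF4.x F 44 1,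
        chevF4.x F 39 1 * chevF4.x F 45 1]) : F4IRep R y := by
  simp only [List.mem_cons, List.not_mem_nil, or_false] at hy
  rcases hy with hy | hy | hy | hy
  · exact Or.inl (eq_xGL R.xadd hy)
  · exact Or.inr (Or.inl (eq_xGL R.xadd hy))
  · exact Or.inr (Or.inr (Or.inl (Units.ext (by rw [hy]; rfl))))
  · exact Or.inr (Or.inr (Or.inr (Units.ext (by rw [hy]; rfl))))

theorem f4i_mem_of_rep (R : BRel chevF4 F η) {y : GL chevF4.Idx F} (hy : F4IRep R y) :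
    y ∈ chevF4.group F ∧ ((y : GL chevF4.Idx F) : Matrix chevF4.Idx chevF4.Idx F) ∈
      [chevF4.x F 47 1, chevF4.x F 44 1, chevF4.x F 47 1 * chevF4.x F 44 1,
        chevF4.x F 39 1 * chevF4.x F 45 1] := by
  rcases hy with rfl | rfl | rfl | rfl
  · exact ⟨xGL_mem_group R.xadd 47 1, by simp⟩
  · exact ⟨xGL_mem_group R.xadd 44 1, by simp⟩
  · exact ⟨mul_mem (xGL_mem_group R.xadd 47 1) (xGL_mem_group R.xadd 44 1), by simp⟩
  · exact ⟨mul_mem (xGL_mem_group R.xadd 39 1) (xGL_mem_group R.xadd 45 1), by simp⟩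

theorem f4i_rep_of_word (R : BRel chevF4 F η) {y : List ℕ}
    (hy : y ∈ [[47], [44], [47, 44], [39, 45]]) :
    F4IRep R (wordGL R.xadd (y.map fun r => (r, (1 : F)))) := by
  simp only [List.mem_cons, List.not_mem_nil, or_false] at hy
  rcases hy with rfl | rfl | rfl | rfl
  · exact Or.inl (by simp [wordGL_cons, wordGL_nil])
  · exact Or.inr (Or.inl (by simp [wordGL_cons, wordGL_nil]))
  · exact Or.inr (Or.inr (Or.inl (by simp [wordGL_cons, wordGL_nil])))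
  · exact Or.inr (Or.inr (Or.inr (by simp [wordGL_cons, wordGL_nil])))

/-- Every involution of the group is conjugate to one of the four representatives. -/
theorem f4i_invol [Finite F] [CharP F 2] (R : BRel chevF4 F η) (hL : F4LowS R) (hC : F4CocS R)
    (hsyl : ∀ g ∈ chevF4.group F, g * g = 1 →
      ∃ x ∈ chevF4.group F, x⁻¹ * g * x ∈ chevF4.posUnipotent F)
    {g : GL chevF4.Idx F} (hg : g ∈ chevF4.group F) (hord : orderOf g = 2) :
    ∃ h ∈ chevF4.group F, F4IRep R (h * g * h⁻¹) := by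
  have hsq : g * g = 1 := by rw [← pow_two, ← hord, pow_orderOf_eq_one]
  have hne : g ≠ 1 := by
    rintro rfl
    rw [orderOf_one] at hord
    omega
  obtain ⟨x, hx, hxU⟩ := hsyl g hg hsq
  rw [posUnipotent_eq, chPosRoots_F4] at hxU
  have hu2 : (x⁻¹ * g * x) * (x⁻¹ * g * x) = 1 := by
    have e : (x⁻¹ * g * x) * (x⁻¹ * g * x) = x⁻¹ * (g * g) * x := by group
    rw [e, hsq]; group
  obtain ⟨g1, hg1, l, hl, e1⟩ := f4i_claim_1234 R hL hC (x⁻¹ * g * x) hxU hu2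
  have hlne : l ≠ [] := by
    rintro rfl
    apply hne
    rw [List.map_nil, wordGL_nil] at e1
    have e2 : x⁻¹ * g * x = 1 := by
      have : x⁻¹ * g * x = g1⁻¹ * (g1 * (x⁻¹ * g * x) * g1⁻¹) * g1 := by group
      rw [this, e1]; group
    have : g = x * (x⁻¹ * g * x) * x⁻¹ := by group
    rw [this, e2]; group
  obtain ⟨y, hy, g2, hg2, e2⟩ := f4i_fusion R l hl hlne
  refine ⟨g2 * g1 * x⁻¹, mul_mem (mul_mem hg2 (f4i_G_le_group R _ hg1)) (inv_mem hx), ?_⟩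
  have e3 : g2 * g1 * x⁻¹ * g * (g2 * g1 * x⁻¹)⁻¹ = g2 * (g1 * (x⁻¹ * g * x) * g1⁻¹) * g2⁻¹ := by group
  rw [e3, e1, e2]
  exact f4i_rep_of_word R hy

/-- The four representatives are pairwise non-conjugate. -/
theorem f4i_distinct [CharP F 2] (R : BRel chevF4 F η)
    (hnc : ∀ h ∈ chevF4.group F, ∀ a b a' b' : F,
      (h * (xGL R.xadd 47 a * xGL R.xadd 44 b) * h⁻¹ = xGL R.xadd 47 a' * xGL R.xadd 44 b' →
        (a = 0 ↔ a' = 0) ∧ (b = 0 ↔ b' = 0)) ∧
      h * (xGL R.xadd 39 (1 : F) * xGL R.xadd 45 1) * h⁻¹ ≠ xGL R.xadd 47 a' * xGL R.xadd 44 b')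
    {y₁ y₂ : GL chevF4.Idx F} (h₁ : F4IRep R y₁) (h₂ : F4IRep R y₂)
    (hc : ∃ h ∈ chevF4.group F, h * y₁ * h⁻¹ = y₂) : y₁ = y₂ := by
  obtain ⟨h, hh, hconj⟩ := hc
  have z1 : xGL R.xadd 47 (1 : F) = xGL R.xadd 47 1 * xGL R.xadd 44 0 := by rw [xGL_zero, mul_one]
  have z2 : xGL R.xadd 44 (1 : F) = xGL R.xadd 47 0 * xGL R.xadd 44 1 := by rw [xGL_zero, one_mul]
  have key : ∀ a b a' b' : F,
      h * (xGL R.xadd 47 a * xGL R.xadd 44 b) * h⁻¹ = xGL R.xadd 47 a' * xGL R.xadd 44 b' →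
        (a = 0 ↔ a' = 0) ∧ (b = 0 ↔ b' = 0) := fun a b a' b' => (hnc h hh a b a' b').1
  have key2 : ∀ a' b' : F, h * (xGL R.xadd 39 (1 : F) * xGL R.xadd 45 1) * h⁻¹ ≠
      xGL R.xadd 47 a' * xGL R.xadd 44 b' := fun a' b' => (hnc h hh 0 0 a' b').2
  have key3 : ∀ a' b' : F, h * (xGL R.xadd 47 a' * xGL R.xadd 44 b') * h⁻¹ ≠
      xGL R.xadd 39 (1 : F) * xGL R.xadd 45 1 := by
    intro a' b' e
    apply (hnc h⁻¹ (inv_mem hh) 0 0 a' b').2
    rw [← e]; group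
  have h10 : (1 : F) ≠ 0 := one_ne_zero
  rcases h₁ with rfl | rfl | rfl | rfl <;> rcases h₂ with rfl | rfl | rfl | rfl
  · rfl
  · exfalso
    rw [z1, z2] at hconj
    exact h10 ((key 1 0 0 1 hconj).1.mpr rfl)
  · exfalso
    have e : h * (xGL R.xadd 47 1 * xGL R.xadd 44 0) * h⁻¹ = xGL R.xadd 47 1 * xGL R.xadd 44 1 := by
      rw [← z1]; exact hconj
    exact h10 ((key 1 0 1 1 e).2.mp rfl)
  · exfalso
    rw [z1] at hconj
    exact key3 1 0 hconj
  · exfalso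
    rw [z1, z2] at hconj
    exact h10 ((key 0 1 1 0 hconj).1.mp rfl)
  · rfl
  · exfalso
    have e : h * (xGL R.xadd 47 0 * xGL R.xadd 44 1) * h⁻¹ = xGL R.xadd 47 1 * xGL R.xadd 44 1 := by
      rw [← z2]; exact hconj
    exact h10 ((key 0 1 1 1 e).1.mp rfl)
  · exfalso
    rw [z2] at hconj
    exact key3 0 1 hconj
  · exfalso
    have e : h * (xGL R.xadd 47 1 * xGL R.xadd 44 1) * h⁻¹ = xGL R.xadd 47 1 * xGL R.xadd 44 0 := by
      rw [← z1]; exact hconj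
    exact h10 ((key 1 1 1 0 e).2.mpr rfl)
  · exfalso
    have e : h * (xGL R.xadd 47 1 * xGL R.xadd 44 1) * h⁻¹ = xGL R.xadd 47 0 * xGL R.xadd 44 1 := by
      rw [← z2]; exact hconj
    exact h10 ((key 1 1 0 1 e).1.mpr rfl)
  · rfl
  · exfalso
    exact key3 1 1 hconj
  · exfalso
    rw [z1] at hconj
    exact key2 1 0 hconj
  · exfalso
    rw [z2] at hconj
    exact key2 0 1 hconj
  · exfalso
    exact key2 1 1 hconj
  · rfl

end F4IMain

end Cfsg.Agent.Helper38
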