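/-
helper38: S2174 (`F₄(q)`, `q` even, four classes of involutions) - the non-conjugacy of the four types
(Bruhat decomposition and the calculus in the abelian group `V = X_39 X_40 X_44 X_45 X_46 X_47`).
-/
import Cfsg.Agent.Helper38.ChevCentF4e

set_option autoImplicit false
set_option linter.unusedSectionVars false
set_option linter.unusedVariables false
set_option linter.unusedSimpArgs false

namespace Cfsg.Agent.Helper38

open Cfsg Cfsg.Lie Cfsg.Agent.Helper36 Cfsg.Agent.Helper17 Cfsg.Agent.Helper18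

/-- The long roots. -/
def f4ncLongF4 : List ℕ :=
  [0, 1, 2, 4, 5, 6, 15, 16, 17, 21, 22, 23, 24, 25, 26, 30, 31, 32, 41, 42, 43, 45, 46, 47]

theorem f4ncLongRefl_F4 : ∀ i < chevF4.rank, ∀ x ∈ f4ncLongF4, chevF4.reflectRoot i x ∈ f4ncLongF4 := by
  decide +kernel

theorem f4nc_short_top : ∀ x ∈ shortF4, 44 ≤ x → x = 44 := by decide

theorem f4nc_long_top : ∀ x ∈ f4ncLongF4, 44 ≤ x → x ∈ [45, 46, 47] := by decide

theorem f4nc_wW_mem {S : List ℕ} (hS : ∀ i < chevF4.rank, ∀ x ∈ S, chevF4.reflectRoot i x ∈ S) :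
    ∀ L : List ℕ, ValidW chevF4 L → ∀ x ∈ S, wW chevF4 L x ∈ S := by
  intro L
  induction L with
  | nil => intro _ x hx; exact hx
  | cons i L ih =>
    intro hL x hx
    rw [wW_cons]
    exact hS i hL.head _ (ih hL.tail x hx)

section F4INC

variable {F : Type*} [Field F] {η : ℕ → ℕ → ℤ}

/-- The elements of `X_44 X_47` whose coordinates at the roots of `A` are nonzero. -/
def F4Q (R : BRel chevF4 F η) (A : List ℕ) (y : GL chevF4.Idx F) : Prop :=
  ∃ c : ℕ → F, (∀ γ ∈ A, c γ ≠ 0) ∧ y = chRootProd R [44, 47] c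

theorem F4Q_conj_B [CharP F 2] (R : BRel chevF4 F η) {A : List ℕ} (hA : ∀ γ ∈ A, γ ∈ [44, 47])
    {b : GL chevF4.Idx F} (hb : b ∈ chevF4.borelSubgroup F) {y : GL chevF4.Idx F} (hy : F4Q R A y) :
    F4Q R A (b * y * b⁻¹) := by
  apply chLT_conj_B R (F4Q R A) _ _ hb hy
  · rintro q hq u y ⟨c, h1, rfl⟩
    have hq' : q ∈ posF4 := by
      rw [← chPosRoots_F4]
      exact mem_posRoots.mpr hq
    refine ⟨c, h1, ?_⟩
    unfold chRootProd
    apply chLT_conj_fix_word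
    intro p hp
    rw [List.mem_map] at hp
    obtain ⟨γ, hγ, rfl⟩ := hp
    exact chF4_K_fix R (Or.inl hq') hγ u (c γ)
  · rintro h hh y ⟨c, h1, rfl⟩
    obtain ⟨c', hc', e⟩ := chLT_h_conj_word R hh [44, 47] (by decide) c
    exact ⟨c', fun γ hγ => hc' γ (hA γ hγ) (h1 γ hγ), e⟩

/-- The Bruhat decomposition of a conjugation. -/
theorem f4nc_transport (R : BRel chevF4 F η) {h : GL chevF4.Idx F} (hh : h ∈ chevF4.group F)
    (y : GL chevF4.Idx F) :
    ∃ b ∈ chevF4.borelSubgroup F, ∃ b' ∈ chevF4.borelSubgroup F, ∃ L : List ℕ, ValidW chevF4 L ∧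
      R.nW L * (b * y * b⁻¹) * (R.nW L)⁻¹ = b' * (h * y * h⁻¹) * b'⁻¹ := by
  obtain ⟨b₁, hb₁, n, hn, b₂, hb₂, rfl⟩ := R.bruhat h hh
  obtain ⟨L, hL, h₀, hh₀, rfl⟩ := R.exists_word n hn
  have hHB : chevF4.diagonalSubgroup F ≤ chevF4.borelSubgroup F := le_sup_right
  refine ⟨h₀ * b₂, mul_mem (hHB hh₀) hb₂, b₁⁻¹, inv_mem hb₁, L, hL, ?_⟩
  group

theorem f4nc_V1_as_V (R : BRel chevF4 F η) (c : ℕ → F) :
    chRootProd R [44, 47] c = chRootProd R gamF4 (c6F4 0 0 (c 44) 0 0 (c 47)) := by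
  rw [chF4_V_eq, chF4_V1_eq]
  simp [c6F4, xGL_zero]

/-- Coordinates of `x_44(d) x_ρ(e)`, `ρ ∈ {45, 46, 47}`, in `X_44 X_47`. -/
theorem f4nc_V2 (R : BRel chevF4 F η) (d e : F) {ρ : ℕ} (hρ : ρ ∈ [45, 46, 47]) (c' : ℕ → F)
    (h : xGL R.xadd 44 d * xGL R.xadd ρ e = chRootProd R [44, 47] c') :
    c' 44 = d ∧ (e ≠ 0 → ρ = 47 ∧ c' 47 = e) := by
  rw [f4nc_V1_as_V] at h
  simp only [List.mem_cons, List.not_mem_nil, or_false] at hρ
  rcases hρ with rfl | rfl | rfl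
  · have e1 : xGL R.xadd 44 d * xGL R.xadd 45 e = chRootProd R gamF4 (c6F4 0 0 d e 0 0) := by
      rw [chF4_V_eq]; simp [c6F4, xGL_zero]
    rw [e1] at h
    have h44 := chF4_V_unique R h 44 (by decide)
    have h45 := chF4_V_unique R h 45 (by decide)
    rw [c6F4_44, c6F4_44] at h44
    rw [c6F4_45, c6F4_45] at h45
    exact ⟨h44.symm, fun he => absurd h45 he⟩
  · have e1 : xGL R.xadd 44 d * xGL R.xadd 46 e = chRootProd R gamF4 (c6F4 0 0 d 0 e 0) := by
      rw [chF4_V_eq]; simp [c6F4, xGL_zero]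
    rw [e1] at h
    have h44 := chF4_V_unique R h 44 (by decide)
    have h46 := chF4_V_unique R h 46 (by decide)
    rw [c6F4_44, c6F4_44] at h44
    rw [c6F4_46, c6F4_46] at h46
    exact ⟨h44.symm, fun he => absurd h46 he⟩
  · have e1 : xGL R.xadd 44 d * xGL R.xadd 47 e = chRootProd R gamF4 (c6F4 0 0 d 0 0 e) := by
      rw [chF4_V_eq]; simp [c6F4, xGL_zero]
    rw [e1] at h
    have h44 := chF4_V_unique R h 44 (by decide)
    have h47 := chF4_V_unique R h 47 (by decide)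
    rw [c6F4_44, c6F4_44] at h44
    rw [c6F4_47, c6F4_47] at h47
    exact ⟨h44.symm, fun _ => ⟨rfl, h47.symm⟩⟩

/-- A conjugation by a Weyl word inside `X_44 X_47` keeps the nonzero coordinates nonzero. -/
theorem f4nc_weyl [CharP F 2] (R : BRel chevF4 F η) {L : List ℕ} (hL : ValidW chevF4 L)
    (c c' : ℕ → F)
    (key : R.nW L * chRootProd R [44, 47] c * (R.nW L)⁻¹ = chRootProd R [44, 47] c') :
    (c 44 ≠ 0 → c' 44 ≠ 0) ∧ (c 47 ≠ 0 → c' 47 ≠ 0) := by
  have hD7 : chevF4 ∈ [chevG2, chevB2, chevD4, chevF4, chevE6, chevE7, chevE8] := by simp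
  have hW := wtFacts_of_wtOK chainPackOK_F4 wtOK_F4
  have hE : RootElts chevF4 F := rootElts_of_mem hD7
  have hbw := chLT_bruhat_word R hW hE [44, 47] (by decide)
    (fun γ hγ => chPos_F4 γ (chK1pos_F4 γ hγ).1)
    (fun γ hγ γ' hγ' a b => chF4_comm R (chK1pos_F4 γ hγ).2.1 (chK1pos_F4 γ' hγ').2.1 a b) hL c c' key
  have hge : ∀ γ ∈ [44, 47], c γ ≠ 0 → 44 ≤ wW chevF4 L γ ∧ wW chevF4 L γ < 48 := by
    intro γ hγ hcγ
    obtain ⟨hpos, γ', hγ', -, hle'⟩ := hbw γ hγ hcγ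
    refine ⟨?_, hpos.1⟩
    by_contra hlt
    rw [not_le] at hlt
    have h1 := hW.mono _ _ hlt (by decide : 44 < chevF4.nroots)
    have h2 : wt wtPackF4 44 ≤ wt wtPackF4 γ' :=
      chLT_mono_le hW (chK1pos_F4 γ' hγ').2.2 (chPos_F4 γ' (chK1pos_F4 γ' hγ').1).1
    omega
  have h44 : c 44 ≠ 0 → wW chevF4 L 44 = 44 := by
    intro hc
    exact f4nc_short_top _ (f4nc_wW_mem shortRefl_F4 L hL 44 (by decide)) (hge 44 (by decide) hc).1
  have h47 : c 47 ≠ 0 → wW chevF4 L 47 ∈ [45, 46, 47] := by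
    intro hc
    exact f4nc_long_top _ (f4nc_wW_mem f4ncLongRefl_F4 L hL 47 (by decide)) (hge 47 (by decide) hc).1
  have hconj := chLT_nW_conj_word R hL [44, 47] (by decide) c
  unfold chRootProd at key
  rw [hconj] at key
  simp only [List.map_cons, List.map_nil, wordGL_cons, wordGL_nil, mul_one] at key
  have he44 := R.eW_ne_zero (F := F) hL (by decide : 44 < chevF4.nroots)
  have he47 := R.eW_ne_zero (F := F) hL (by decide : 47 < chevF4.nroots)
  have key' : ∀ c'' : ℕ → F, wordGL R.xadd [(44, c'' 44), (47, c'' 47)] = chRootProd R [44, 47] c'' := by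
    intro c''
    unfold chRootProd
    rfl
  by_cases hc44 : c 44 = 0
  · by_cases hc47 : c 47 = 0
    · exact ⟨fun h => absurd hc44 h, fun h => absurd hc47 h⟩
    · refine ⟨fun h => absurd hc44 h, fun _ => ?_⟩
      rw [hc44, mul_zero, xGL_zero, ← xGL_zero R.xadd 44] at key
      have h2 := f4nc_V2 R 0 _ (h47 hc47) c' (by rw [key]; unfold chRootProd; simp [wordGL_cons, wordGL_nil])
      obtain ⟨-, h3⟩ := h2.2 (mul_ne_zero he47 hc47)
      rw [h3]
      exact mul_ne_zero he47 hc47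
  · have hw44 := h44 hc44
    rw [hw44] at key
    by_cases hc47 : c 47 = 0
    · refine ⟨fun _ => ?_, fun h => absurd hc47 h⟩
      rw [hc47, mul_zero, xGL_zero, ← xGL_zero R.xadd 47] at key
      have h2 := f4nc_V2 R _ 0 (by decide : 47 ∈ [45, 46, 47]) c'
        (by rw [key]; unfold chRootProd; simp [wordGL_cons, wordGL_nil])
      rw [h2.1]
      exact mul_ne_zero he44 hc44
    · have h2 := f4nc_V2 R _ _ (h47 hc47) c' (by rw [key]; unfold chRootProd; simp [wordGL_cons, wordGL_nil])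
      refine ⟨fun _ => ?_, fun _ => ?_⟩
      · rw [h2.1]
        exact mul_ne_zero he44 hc44
      · obtain ⟨-, h3⟩ := h2.2 (mul_ne_zero he47 hc47)
        rw [h3]
        exact mul_ne_zero he47 hc47

/-- Conjugation in the group keeps the nonzero coordinates of the elements of `X_44 X_47` nonzero. -/
theorem f4nc_K1 [CharP F 2] (R : BRel chevF4 F η) {h : GL chevF4.Idx F} (hh : h ∈ chevF4.group F)
    (c d : ℕ → F) (hconj : h * chRootProd R [44, 47] c * h⁻¹ = chRootProd R [44, 47] d) :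
    (c 44 ≠ 0 → d 44 ≠ 0) ∧ (c 47 ≠ 0 → d 47 ≠ 0) := by
  obtain ⟨b, hb, b', hb', L, hL, e⟩ := f4nc_transport R hh (chRootProd R [44, 47] c)
  rw [hconj] at e
  obtain ⟨c1, -, hc1⟩ := F4Q_conj_B R (A := []) (by simp) hb (y := chRootProd R [44, 47] c)
    ⟨c, by simp, rfl⟩
  obtain ⟨d1, -, hd1⟩ := F4Q_conj_B R (A := []) (by simp) hb' (y := chRootProd R [44, 47] d)
    ⟨d, by simp, rfl⟩
  rw [hc1, hd1] at e
  have hw := f4nc_weyl R hL c1 d1 e
  have aux : ∀ γ ∈ [44, 47], c γ ≠ 0 → c1 γ ≠ 0 := by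
    intro γ hγ hc
    obtain ⟨c2, hc2, e2⟩ := F4Q_conj_B R (A := [γ]) (by simpa using hγ) hb
      (y := chRootProd R [44, 47] c) ⟨c, by simpa using hc, rfl⟩
    rw [hc1] at e2
    rw [chF4_V1_unique R e2 γ hγ]
    exact hc2 γ (by simp)
  have aux2 : ∀ γ ∈ [44, 47], d1 γ ≠ 0 → d γ ≠ 0 := by
    intro γ hγ hc
    obtain ⟨d2, hd2, e2⟩ := F4Q_conj_B R (A := [γ]) (by simpa using hγ) (inv_mem hb')
      (y := chRootProd R [44, 47] d1) ⟨d1, by simpa using hc, rfl⟩
    rw [← hd1] at e2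
    have e3 : b'⁻¹ * (b' * chRootProd R [44, 47] d * b'⁻¹) * b'⁻¹⁻¹ = chRootProd R [44, 47] d := by
      group
    rw [e3] at e2
    rw [chF4_V1_unique R e2 γ hγ]
    exact hd2 γ (by simp)
  exact ⟨fun h1 => aux2 44 (by decide) (hw.1 (aux 44 (by decide) h1)),
    fun h1 => aux2 47 (by decide) (hw.2 (aux 47 (by decide) h1))⟩

/-- An element of `V` with nonzero coordinates at `39` and `45` is not conjugate into `X_44 X_47`. -/
theorem f4nc_P [CharP F 2] (R : BRel chevF4 F η) {h : GL chevF4.Idx F} (hh : h ∈ chevF4.group F)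
    {y : GL chevF4.Idx F} (hy : F4P R y) (d : ℕ → F) :
    h * y * h⁻¹ ≠ chRootProd R [44, 47] d := by
  intro hconj
  have hD7 : chevF4 ∈ [chevG2, chevB2, chevD4, chevF4, chevE6, chevE7, chevE8] := by simp
  have hW := wtFacts_of_wtOK chainPackOK_F4 wtOK_F4
  have hE : RootElts chevF4 F := rootElts_of_mem hD7
  obtain ⟨b, hb, b', hb', L, hL, e⟩ := f4nc_transport R hh y
  rw [hconj] at e
  obtain ⟨c, hc39, hc45, hc⟩ := F4P_conj_B R hb hy
  obtain ⟨d1, -, hd1⟩ := F4Q_conj_B R (A := []) (by simp) hb' (y := chRootProd R [44, 47] d)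
    ⟨d, by simp, rfl⟩
  rw [hc, hd1, f4nc_V1_as_V] at e
  have hbw := chLT_bruhat_word R hW hE gamF4 (by decide)
    (fun γ hγ => chPos_F4 γ (gam_sub_pos_F4 γ hγ))
    (fun γ hγ γ' hγ' a b => chF4_comm R hγ hγ' a b) hL c _ e
  have hsupp : ∀ γ' ∈ gamF4, c6F4 0 0 (d1 44) 0 0 (d1 47) γ' ≠ 0 → 44 ≤ γ' := by
    intro γ' hγ' hne
    unfold gamF4 at hγ'
    simp only [List.mem_cons, List.not_mem_nil, or_false] at hγ'
    rcases hγ' with rfl | rfl | rfl | rfl | rfl | rfl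
    · exact absurd (c6F4_39 _ _ _ _ _ _) hne
    · exact absurd (c6F4_40 _ _ _ _ _ _) hne
    · norm_num
    · exact absurd (c6F4_45 _ _ _ _ _ _) hne
    · exact absurd (c6F4_46 _ _ _ _ _ _) hne
    · norm_num
  have hrange : ∀ γ ∈ gamF4, c γ ≠ 0 → wW chevF4 L γ ∈ gamF4 ∧ 44 ≤ wW chevF4 L γ := by
    intro γ hγ hcγ
    obtain ⟨hpos, γ', hγ', hne, hle'⟩ := hbw γ hγ hcγ
    have h44 : 44 ≤ wW chevF4 L γ := by
      by_contra hlt
      rw [not_le] at hlt
      have h1 := hW.mono _ _ hlt (by decide : 44 < chevF4.nroots)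
      have h2 : wt wtPackF4 44 ≤ wt wtPackF4 γ' :=
        chLT_mono_le hW (hsupp γ' hγ' hne) (chPos_F4 γ' (gam_sub_pos_F4 γ' hγ')).1
      omega
    have h48 : wW chevF4 L γ < 48 := hpos.1
    refine ⟨?_, h44⟩
    unfold gamF4
    simp only [List.mem_cons, List.not_mem_nil, or_false]
    omega
  have h39 := hrange 39 (by decide) hc39
  have h45 := hrange 45 (by decide) hc45
  have hfix := pairGam_F4 _ h39.1 _ h45.1 (orbFn2_F4.mem_wW R.wf (by decide) (by decide) L hL)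
  have := h39.2
  omega

/-- PIECE NC of S2174: the four types are pairwise non-conjugate. -/
theorem f4nc_main [CharP F 2] (R : BRel chevF4 F η) {h : GL chevF4.Idx F} (hh : h ∈ chevF4.group F)
    (a b a' b' : F) :
    (h * (xGL R.xadd 47 a * xGL R.xadd 44 b) * h⁻¹ = xGL R.xadd 47 a' * xGL R.xadd 44 b' →
      (a = 0 ↔ a' = 0) ∧ (b = 0 ↔ b' = 0)) ∧
    h * (xGL R.xadd 39 (1 : F) * xGL R.xadd 45 1) * h⁻¹ ≠ xGL R.xadd 47 a' * xGL R.xadd 44 b' := by
  have hK : ∀ s t : F, xGL R.xadd 47 s * xGL R.xadd 44 t = chRootProd R [44, 47] (c6F4 0 0 t 0 0 s) := by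
    intro s t
    rw [chF4_V1_eq, c6F4_44, c6F4_47]
    exact chF4_comm R (by decide) (by decide) s t
  constructor
  · intro hconj
    rw [hK, hK] at hconj
    have h1 := f4nc_K1 R hh _ _ hconj
    have hconj' : h⁻¹ * chRootProd R [44, 47] (c6F4 0 0 b' 0 0 a') * h⁻¹⁻¹ =
        chRootProd R [44, 47] (c6F4 0 0 b 0 0 a) := by
      rw [← hconj]; group
    have h2 := f4nc_K1 R (inv_mem hh) _ _ hconj'
    rw [c6F4_44, c6F4_44, c6F4_47, c6F4_47] at h1 h2
    constructor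
    · constructor
      · intro ha
        by_contra ha'
        exact h2.2 ha' ha
      · intro ha'
        by_contra ha
        exact h1.2 ha ha'
    · constructor
      · intro hb
        by_contra hb'
        exact h2.1 hb' hb
      · intro hb'
        by_contra hb
        exact h1.1 hb hb'
  · rw [hK]
    apply f4nc_P R hh
    refine ⟨c6F4 1 0 0 1 0 0, by rw [c6F4_39]; exact one_ne_zero, by rw [c6F4_45]; exact one_ne_zero, ?_⟩
    rw [chF4_V_eq]
    simp [c6F4, xGL_zero]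

end F4INC

end Cfsg.Agent.Helper38
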