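/-
helper38: S2174 (`F₄(q)`, `q` even, four classes of involutions) - the orders of the four representatives and
the Sylow step (an involution is conjugate into `U`, whose index is odd by the order formula of Helper18).
-/
import Cfsg.Agent.Helper38.ChevCentF4e
import Cfsg.Agent.Helper18.FAut5

set_option autoImplicit false
set_option linter.unusedSectionVars false
set_option linter.unusedVariables false
set_option linter.unusedSimpArgs false

namespace Cfsg.Agent.Helper38

open Cfsg Cfsg.Lie Cfsg.Agent.Helper36 Cfsg.Agent.Helper17 Cfsg.Agent.Helper18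

section F4IOS

variable {F : Type*} [Field F] {η : ℕ → ℕ → ℤ}

theorem f4os_order_x [CharP F 2] (R : BRel chevF4 F η) {r : ℕ} (hr : r < chevF4.nroots) :
    orderOf (xGL R.xadd r (1 : F)) = 2 := by
  haveI : Fact (Nat.Prime 2) := ⟨Nat.prime_two⟩
  apply orderOf_eq_prime
  · rw [pow_two, xGL_mul, CharTwo.add_self_eq_zero, xGL_zero]
  · intro h
    have h1 := congrArg Units.val h
    rw [xGL_val, Units.val_one] at h1
    exact one_ne_zero (R.xinj r hr 1 h1)

theorem f4os_order_mul [CharP F 2] (R : BRel chevF4 F η) {r s : ℕ} (hr : r ∈ gamF4) (hs : s ∈ gamF4)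
    (c : ℕ → F) (hc : c r ≠ 0)
    (he : xGL R.xadd r (1 : F) * xGL R.xadd s 1 = chRootProd R gamF4 c) :
    orderOf (xGL R.xadd r (1 : F) * xGL R.xadd s 1) = 2 := by
  haveI : Fact (Nat.Prime 2) := ⟨Nat.prime_two⟩
  apply orderOf_eq_prime
  · rw [pow_two]
    have e : xGL R.xadd r (1 : F) * xGL R.xadd s 1 * (xGL R.xadd r 1 * xGL R.xadd s 1) =
        xGL R.xadd r 1 * (xGL R.xadd s 1 * xGL R.xadd r 1) * xGL R.xadd s 1 := by group
    rw [e, ← chF4_comm R hr hs (1 : F) 1]
    have e2 : xGL R.xadd r (1 : F) * (xGL R.xadd r 1 * xGL R.xadd s 1) * xGL R.xadd s 1 =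
        (xGL R.xadd r 1 * xGL R.xadd r 1) * (xGL R.xadd s 1 * xGL R.xadd s 1) := by group
    rw [e2, xGL_mul, xGL_mul, CharTwo.add_self_eq_zero, xGL_zero, xGL_zero, mul_one]
  · intro h
    rw [he] at h
    have h0 : (1 : GL chevF4.Idx F) = chRootProd R gamF4 (fun _ => 0) := by
      rw [chF4_V_eq]
      simp [xGL_zero]
    rw [h0] at h
    exact hc (chF4_V_unique R h r hr)

/-- The four representatives have order two. -/
theorem f4os_order [CharP F 2] (R : BRel chevF4 F η) :
    orderOf (xGL R.xadd 47 (1 : F)) = 2 ∧ orderOf (xGL R.xadd 44 (1 : F)) = 2 ∧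
    orderOf (xGL R.xadd 47 (1 : F) * xGL R.xadd 44 1) = 2 ∧
    orderOf (xGL R.xadd 39 (1 : F) * xGL R.xadd 45 1) = 2 := by
  refine ⟨f4os_order_x R (by decide), f4os_order_x R (by decide), ?_, ?_⟩
  · apply f4os_order_mul R (by decide) (by decide) (c6F4 0 0 1 0 0 1)
      (by rw [c6F4_47]; exact one_ne_zero)
    rw [chF4_comm R (by decide : 47 ∈ gamF4) (by decide : 44 ∈ gamF4), chF4_V_eq]
    simp [c6F4, xGL_zero]
  · apply f4os_order_mul R (by decide) (by decide) (c6F4 1 0 0 1 0 0)
      (by rw [c6F4_39]; exact one_ne_zero)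
    rw [chF4_V_eq]
    simp [c6F4, xGL_zero]

/-- An involution of the group is conjugate into `U`. -/
theorem f4os_sylow [Fintype F] [CharP F 2] {g : GL chevF4.Idx F} (hg : g ∈ chevF4.group F)
    (hg2 : g * g = 1) : ∃ x ∈ chevF4.group F, x⁻¹ * g * x ∈ chevF4.posUnipotent F := by
  classical
  have hodd := (Cfsg.Agent.Helper18.char_two_data (F := F) (D := chevF4) (by simp)).2.2.1
  let g' : ↥(chevF4.group F) := ⟨g, hg⟩
  have hg'2 : g' ^ 2 = 1 := Subtype.ext (by rw [pow_two]; exact hg2)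
  haveI : Fintype (↥(chevF4.group F) ⧸ (chevF4.posUnipotent F).subgroupOf (chevF4.group F)) :=
    Fintype.ofFinite _
  have hc : ¬ 2 ∣ Fintype.card
      (↥(chevF4.group F) ⧸ (chevF4.posUnipotent F).subgroupOf (chevF4.group F)) := by
    rw [← Nat.card_eq_fintype_card, ← Subgroup.index_eq_card]
    exact hodd
  haveI : Fact (Nat.Prime 2) := ⟨Nat.prime_two⟩
  obtain ⟨q, hq⟩ := Equiv.Perm.exists_fixed_point_of_prime (p := 2) (n := 1) hc
    (σ := MulAction.toPermHom ↥(chevF4.group F)
      (↥(chevF4.group F) ⧸ (chevF4.posUnipotent F).subgroupOf (chevF4.group F)) g')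
    (by rw [pow_one, ← map_pow, hg'2, map_one])
  induction q using Quotient.inductionOn' with
  | h x =>
    have hq' : (QuotientGroup.mk (g' * x) :
        ↥(chevF4.group F) ⧸ (chevF4.posUnipotent F).subgroupOf (chevF4.group F)) =
        QuotientGroup.mk x := hq
    rw [QuotientGroup.eq] at hq'
    refine ⟨x, x.2, ?_⟩
    have h1 := inv_mem hq'
    have e : ((g' * x)⁻¹ * x)⁻¹ = x⁻¹ * g' * x := by group
    rw [e] at h1
    exact h1

end F4IOS

end Cfsg.Agent.Helper38
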