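/-
helper38: type G2 in characteristic two: the collection calculus in `U` (swap rules for the six positive root
subgroups), towards the classification of the involutions (S2177).
-/
import Cfsg.Agent.Helper38.ChevCentG2b

set_option autoImplicit false
set_option linter.unusedSimpArgs false
set_option linter.unusedTactic false
set_option linter.unreachableTactic false
set_option linter.unusedSectionVars false
set_option linter.unnecessarySeqFocus false

namespace Cfsg.Agent.Helper38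

open Cfsg Cfsg.Lie Cfsg.Agent.Helper36 Cfsg.Agent.Helper17

section G2Inv

variable {F : Type*} [Field F] {η : ℕ → ℕ → ℤ}

theorem g2iCT : chevG2.commTerms 7 6 = [(8, -1, 1, 1), (9, 1, 2, 1), (10, 1, 3, 1), (11, 1, 3, 2)] ∧
    chevG2.commTerms 8 7 = [(9, 2, 1, 1), (11, 3, 2, 1), (10, -3, 1, 2)] ∧
    chevG2.commTerms 9 7 = [(10, -3, 1, 1)] ∧ chevG2.commTerms 9 8 = [(11, -3, 1, 1)] ∧
    chevG2.commTerms 10 6 = [(11, -1, 1, 1)] := by decide +kernel

/-- The pairs of positive roots with trivial commutator formula. -/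
theorem g2iFix : ∀ p ∈ [(8, 6), (9, 6), (11, 6), (10, 7), (11, 7), (10, 8), (11, 8), (10, 9), (11, 9), (11, 10)],
    p.1 < chevG2.nroots ∧ p.2 < chevG2.nroots ∧ p.2 ≠ p.1 ∧ p.2 ≠ chevG2.neg p.1 ∧
      chevG2.commTerms p.1 p.2 = [] := by decide +kernel

theorem g2i_swap (hX : XAdd chevG2 F) {q p : ℕ} {u c : F} {W : GL chevG2.Idx F}
    (h : xGL hX q u * xGL hX p c * (xGL hX q u)⁻¹ = xGL hX p c * W) (z : GL chevG2.Idx F) :
    xGL hX q u * (xGL hX p c * z) = xGL hX p c * (W * (xGL hX q u * z)) := by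
  have h1 : xGL hX q u * xGL hX p c = xGL hX p c * W * xGL hX q u := by rw [← h]; group
  calc xGL hX q u * (xGL hX p c * z) = (xGL hX q u * xGL hX p c) * z := by group
    _ = xGL hX p c * (W * (xGL hX q u * z)) := by rw [h1]; group

theorem g2i_sw0 (R : BRel chevG2 F η) {q p : ℕ}
    (h : (q, p) ∈ [(8, 6), (9, 6), (11, 6), (10, 7), (11, 7), (10, 8), (11, 8), (10, 9), (11, 9), (11, 10)])
    (u c : F) (z : GL chevG2.Idx F) :
    xGL R.xadd q u * (xGL R.xadd p c * z) = xGL R.xadd p c * (xGL R.xadd q u * z) := by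
  obtain ⟨h1, h2, h3, h4, h5⟩ := g2iFix (q, p) h
  have h6 := g2i_swap R.xadd (W := 1) (by rw [mul_one]; exact chSep_conj_fix R h1 h2 (Or.inr ⟨h3, h4, h5⟩) u c) z
  rw [h6, one_mul]

theorem g2i_merge (hX : XAdd chevG2 F) (p : ℕ) (a b : F) (z : GL chevG2.Idx F) :
    xGL hX p a * (xGL hX p b * z) = xGL hX p (a + b) * z := by
  rw [← mul_assoc, xGL_mul]

variable [CharP F 2]

theorem g2i_two : (2 : F) = 0 := by
  have h := CharP.cast_eq_zero F 2
  exact_mod_cast h

theorem g2i_sw76 (R : BRel chevG2 F η) (u c : F) (z : GL chevG2.Idx F) :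
    xGL R.xadd 7 u * (xGL R.xadd 6 c * z) = xGL R.xadd 6 c * (xGL R.xadd 8 (u * c) *
      (xGL R.xadd 9 (u ^ 2 * c) * (xGL R.xadd 10 (u ^ 3 * c) * (xGL R.xadd 11 (u ^ 3 * c ^ 2) *
        (xGL R.xadd 7 u * z))))) := by
  have h2 : (2 : F) = 0 := g2i_two
  have h := xGL_conj R.xadd (R.cf 7 (by decide) 6 (by decide) (by decide) (by decide)) u c
  unfold ChevalleyDatum.commWord at h
  rw [g2iCT.1] at h
  simp only [List.map_cons, List.map_nil, wordGL_cons, wordGL_nil, mul_one, neg_neg] at h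
  have e1 : ((-1 : ℤ) : F) * u ^ 1 * c ^ 1 = u * c := by push_cast; linear_combination (-(u * c)) * h2
  have e2 : ((1 : ℤ) : F) * u ^ 2 * c ^ 1 = u ^ 2 * c := by push_cast; ring
  have e3 : ((1 : ℤ) : F) * u ^ 3 * c ^ 1 = u ^ 3 * c := by push_cast; ring
  have e4 : ((1 : ℤ) : F) * u ^ 3 * c ^ 2 = u ^ 3 * c ^ 2 := by push_cast; ring
  rw [e1, e2, e3, e4] at h
  have h6 := g2i_swap R.xadd h z
  rw [h6]
  simp only [mul_assoc]

theorem g2i_sw87 (R : BRel chevG2 F η) (u c : F) (z : GL chevG2.Idx F) :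
    xGL R.xadd 8 u * (xGL R.xadd 7 c * z) = xGL R.xadd 7 c * (xGL R.xadd 11 (u ^ 2 * c) *
      (xGL R.xadd 10 (u * c ^ 2) * (xGL R.xadd 8 u * z))) := by
  have h2 : (2 : F) = 0 := g2i_two
  have h := xGL_conj R.xadd (R.cf 8 (by decide) 7 (by decide) (by decide) (by decide)) u c
  unfold ChevalleyDatum.commWord at h
  rw [g2iCT.2.1] at h
  simp only [List.map_cons, List.map_nil, wordGL_cons, wordGL_nil, mul_one, neg_neg] at h
  have e1 : ((2 : ℤ) : F) * u ^ 1 * c ^ 1 = 0 := by push_cast; linear_combination (u * c) * h2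
  have e2 : ((3 : ℤ) : F) * u ^ 2 * c ^ 1 = u ^ 2 * c := by push_cast; linear_combination (u ^ 2 * c) * h2
  have e3 : ((-3 : ℤ) : F) * u ^ 1 * c ^ 2 = u * c ^ 2 := by
    push_cast; linear_combination (-2 * (u * c ^ 2)) * h2
  rw [e1, e2, e3, xGL_zero, one_mul] at h
  have h6 := g2i_swap R.xadd h z
  rw [h6]
  simp only [mul_assoc]

theorem g2i_sw97 (R : BRel chevG2 F η) (u c : F) (z : GL chevG2.Idx F) :
    xGL R.xadd 9 u * (xGL R.xadd 7 c * z) = xGL R.xadd 7 c * (xGL R.xadd 10 (u * c) *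
      (xGL R.xadd 9 u * z)) := by
  have h2 : (2 : F) = 0 := g2i_two
  have h := xGL_conj R.xadd (R.cf 9 (by decide) 7 (by decide) (by decide) (by decide)) u c
  unfold ChevalleyDatum.commWord at h
  rw [g2iCT.2.2.1] at h
  simp only [List.map_cons, List.map_nil, wordGL_cons, wordGL_nil, mul_one, neg_neg] at h
  have e1 : ((-3 : ℤ) : F) * u ^ 1 * c ^ 1 = u * c := by
    push_cast; linear_combination (-2 * (u * c)) * h2
  rw [e1] at h
  exact g2i_swap R.xadd h z

theorem g2i_sw98 (R : BRel chevG2 F η) (u c : F) (z : GL chevG2.Idx F) :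
    xGL R.xadd 9 u * (xGL R.xadd 8 c * z) = xGL R.xadd 8 c * (xGL R.xadd 11 (u * c) *
      (xGL R.xadd 9 u * z)) := by
  have h2 : (2 : F) = 0 := g2i_two
  have h := xGL_conj R.xadd (R.cf 9 (by decide) 8 (by decide) (by decide) (by decide)) u c
  unfold ChevalleyDatum.commWord at h
  rw [g2iCT.2.2.2.1] at h
  simp only [List.map_cons, List.map_nil, wordGL_cons, wordGL_nil, mul_one, neg_neg] at h
  have e1 : ((-3 : ℤ) : F) * u ^ 1 * c ^ 1 = u * c := by
    push_cast; linear_combination (-2 * (u * c)) * h2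
  rw [e1] at h
  exact g2i_swap R.xadd h z

theorem g2i_sw106 (R : BRel chevG2 F η) (u c : F) (z : GL chevG2.Idx F) :
    xGL R.xadd 10 u * (xGL R.xadd 6 c * z) = xGL R.xadd 6 c * (xGL R.xadd 11 (u * c) *
      (xGL R.xadd 10 u * z)) := by
  have h2 : (2 : F) = 0 := g2i_two
  have h := xGL_conj R.xadd (R.cf 10 (by decide) 6 (by decide) (by decide) (by decide)) u c
  unfold ChevalleyDatum.commWord at h
  rw [g2iCT.2.2.2.2] at h
  simp only [List.map_cons, List.map_nil, wordGL_cons, wordGL_nil, mul_one, neg_neg] at h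
  have e1 : ((-1 : ℤ) : F) * u ^ 1 * c ^ 1 = u * c := by
    push_cast; linear_combination (-(u * c)) * h2
  rw [e1] at h
  exact g2i_swap R.xadd h z

/-- The ordered product of six root elements of the positive roots. -/
noncomputable def g2w (R : BRel chevG2 F η) (a b c d e f : F) : GL chevG2.Idx F :=
  xGL R.xadd 6 a * (xGL R.xadd 7 b * (xGL R.xadd 8 c * (xGL R.xadd 9 d * (xGL R.xadd 10 e *
    (xGL R.xadd 11 f * 1)))))

/-- The multiplication law of `U` in characteristic two. -/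
theorem g2w_mul (R : BRel chevG2 F η) (a b c d e f a' b' c' d' e' f' : F) :
    g2w R a b c d e f * g2w R a' b' c' d' e' f' =
      g2w R (a + a') (b + b') (b * a' + (c + c')) (b ^ 2 * a' + (d + d'))
        (b * (a' * (b + b') ^ 2) +
          (b ^ 2 * (a' * (b + b')) + (b ^ 3 * a' + (c * b' ^ 2 + (d * b' + (e + e'))))))
        ((b * a') ^ 2 * (b + b') +
          (b ^ 2 * (a' * (c + c')) + (b ^ 3 * a' ^ 2 + (c ^ 2 * b' + (d * c' + (e * a' + (f + f'))))))) := by
  unfold g2w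
  simp only [mul_assoc, one_mul, g2i_sw76 R, g2i_sw87 R, g2i_sw97 R, g2i_sw98 R, g2i_sw106 R,
    g2i_sw0 R (q := 8) (p := 6) (by simp), g2i_sw0 R (q := 9) (p := 6) (by simp),
    g2i_sw0 R (q := 11) (p := 6) (by simp), g2i_sw0 R (q := 10) (p := 7) (by simp),
    g2i_sw0 R (q := 11) (p := 7) (by simp), g2i_sw0 R (q := 10) (p := 8) (by simp),
    g2i_sw0 R (q := 11) (p := 8) (by simp), g2i_sw0 R (q := 10) (p := 9) (by simp),
    g2i_sw0 R (q := 11) (p := 9) (by simp), g2i_sw0 R (q := 11) (p := 10) (by simp),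
    g2i_merge R.xadd]

theorem g2w_congr (R : BRel chevG2 F η) {a b c d e f a' b' c' d' e' f' : F} (h1 : a = a') (h2 : b = b')
    (h3 : c = c') (h4 : d = d') (h5 : e = e') (h6 : f = f') :
    g2w R a b c d e f = g2w R a' b' c' d' e' f' := by
  rw [h1, h2, h3, h4, h5, h6]

theorem g2w_zero (R : BRel chevG2 F η) : g2w R 0 0 0 0 0 0 = 1 := by
  unfold g2w
  simp only [xGL_zero, mul_one]

theorem g2w_x6 (R : BRel chevG2 F η) (s : F) : xGL R.xadd 6 s = g2w R s 0 0 0 0 0 := by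
  unfold g2w; simp only [xGL_zero, mul_one]
theorem g2w_x7 (R : BRel chevG2 F η) (s : F) : xGL R.xadd 7 s = g2w R 0 s 0 0 0 0 := by
  unfold g2w; simp only [xGL_zero, mul_one, one_mul]
theorem g2w_x8 (R : BRel chevG2 F η) (s : F) : xGL R.xadd 8 s = g2w R 0 0 s 0 0 0 := by
  unfold g2w; simp only [xGL_zero, mul_one, one_mul]
theorem g2w_x9 (R : BRel chevG2 F η) (s : F) : xGL R.xadd 9 s = g2w R 0 0 0 s 0 0 := by
  unfold g2w; simp only [xGL_zero, mul_one, one_mul]
theorem g2w_x10 (R : BRel chevG2 F η) (s : F) : xGL R.xadd 10 s = g2w R 0 0 0 0 s 0 := by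
  unfold g2w; simp only [xGL_zero, mul_one, one_mul]
theorem g2w_x11 (R : BRel chevG2 F η) (s : F) : xGL R.xadd 11 s = g2w R 0 0 0 0 0 s := by
  unfold g2w; simp only [xGL_zero, mul_one, one_mul]

theorem g2w_conj6 (R : BRel chevG2 F η) (a b c d e f s : F) :
    xGL R.xadd 6 s * g2w R a b c d e f * (xGL R.xadd 6 s)⁻¹ =
      g2w R a b (c + b * s) (d + b ^ 2 * s) (e + b ^ 3 * s) (f + e * s + b ^ 2 * c * s) := by
  have h2 : (2 : F) = 0 := g2i_two
  have h3 : (3 : F) = 1 := by linear_combination h2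
  have h4 : (4 : F) = 0 := by linear_combination 2 * h2
  have h5 : (5 : F) = 1 := by linear_combination 2 * h2
  have h6 : (6 : F) = 0 := by linear_combination 3 * h2
  have h7 : (7 : F) = 1 := by linear_combination 3 * h2
  rw [xGL_inv, CharTwo.neg_eq, g2w_x6 R s, g2w_mul, g2w_mul]
  apply g2w_congr <;> ring_nf <;>
    simp only [h2, h3, h4, h5, h6, h7, mul_zero, mul_one, add_zero, zero_add] <;> try ring

theorem g2w_conj7 (R : BRel chevG2 F η) (a b c d e f s : F) :
    xGL R.xadd 7 s * g2w R a b c d e f * (xGL R.xadd 7 s)⁻¹ =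
      g2w R a b (c + a * s) (d + a * s ^ 2)
        (e + d * s + c * s ^ 2 + a * s ^ 3 + a * b * s ^ 2 + a * b ^ 2 * s)
        (f + c ^ 2 * s + a * c * s ^ 2 + a ^ 2 * s ^ 3 + a ^ 2 * b * s ^ 2) := by
  have h2 : (2 : F) = 0 := g2i_two
  have h3 : (3 : F) = 1 := by linear_combination h2
  have h4 : (4 : F) = 0 := by linear_combination 2 * h2
  have h5 : (5 : F) = 1 := by linear_combination 2 * h2
  have h6 : (6 : F) = 0 := by linear_combination 3 * h2
  have h7 : (7 : F) = 1 := by linear_combination 3 * h2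
  rw [xGL_inv, CharTwo.neg_eq, g2w_x7 R s, g2w_mul, g2w_mul]
  apply g2w_congr <;> ring_nf <;>
    simp only [h2, h3, h4, h5, h6, h7, mul_zero, mul_one, add_zero, zero_add] <;> try ring

theorem g2w_conj8 (R : BRel chevG2 F η) (a b c d e f s : F) :
    xGL R.xadd 8 s * g2w R a b c d e f * (xGL R.xadd 8 s)⁻¹ =
      g2w R a b c d (e + b ^ 2 * s) (f + d * s + b * s ^ 2) := by
  have h2 : (2 : F) = 0 := g2i_two
  have h3 : (3 : F) = 1 := by linear_combination h2
  have h4 : (4 : F) = 0 := by linear_combination 2 * h2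
  have h5 : (5 : F) = 1 := by linear_combination 2 * h2
  have h6 : (6 : F) = 0 := by linear_combination 3 * h2
  have h7 : (7 : F) = 1 := by linear_combination 3 * h2
  rw [xGL_inv, CharTwo.neg_eq, g2w_x8 R s, g2w_mul, g2w_mul]
  apply g2w_congr <;> ring_nf <;>
    simp only [h2, h3, h4, h5, h6, h7, mul_zero, mul_one, add_zero, zero_add] <;> try ring

theorem g2w_conj9 (R : BRel chevG2 F η) (a b c d e f s : F) :
    xGL R.xadd 9 s * g2w R a b c d e f * (xGL R.xadd 9 s)⁻¹ =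
      g2w R a b c d (e + b * s) (f + c * s) := by
  have h2 : (2 : F) = 0 := g2i_two
  have h3 : (3 : F) = 1 := by linear_combination h2
  have h4 : (4 : F) = 0 := by linear_combination 2 * h2
  have h5 : (5 : F) = 1 := by linear_combination 2 * h2
  have h6 : (6 : F) = 0 := by linear_combination 3 * h2
  have h7 : (7 : F) = 1 := by linear_combination 3 * h2
  rw [xGL_inv, CharTwo.neg_eq, g2w_x9 R s, g2w_mul, g2w_mul]
  apply g2w_congr <;> ring_nf <;>
    simp only [h2, h3, h4, h5, h6, h7, mul_zero, mul_one, add_zero, zero_add] <;> try ring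

theorem g2w_conj10 (R : BRel chevG2 F η) (a b c d e f s : F) :
    xGL R.xadd 10 s * g2w R a b c d e f * (xGL R.xadd 10 s)⁻¹ =
      g2w R a b c d e (f + a * s) := by
  have h2 : (2 : F) = 0 := g2i_two
  have h3 : (3 : F) = 1 := by linear_combination h2
  have h4 : (4 : F) = 0 := by linear_combination 2 * h2
  have h5 : (5 : F) = 1 := by linear_combination 2 * h2
  have h6 : (6 : F) = 0 := by linear_combination 3 * h2
  have h7 : (7 : F) = 1 := by linear_combination 3 * h2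
  rw [xGL_inv, CharTwo.neg_eq, g2w_x10 R s, g2w_mul, g2w_mul]
  apply g2w_congr <;> ring_nf <;>
    simp only [h2, h3, h4, h5, h6, h7, mul_zero, mul_one, add_zero, zero_add] <;> try ring

/-- The square of an element of `U` in characteristic two. -/
theorem g2w_sq (R : BRel chevG2 F η) (a b c d e f : F) :
    g2w R a b c d e f * g2w R a b c d e f =
      g2w R 0 0 (a * b) (a * b ^ 2) (b * d + b ^ 2 * c + a * b ^ 3)
        (c * d + b * c ^ 2 + a * e + a ^ 2 * b ^ 3) := by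
  have h2 : (2 : F) = 0 := g2i_two
  have h3 : (3 : F) = 1 := by linear_combination h2
  have h4 : (4 : F) = 0 := by linear_combination 2 * h2
  have h5 : (5 : F) = 1 := by linear_combination 2 * h2
  have h6 : (6 : F) = 0 := by linear_combination 3 * h2
  have h7 : (7 : F) = 1 := by linear_combination 3 * h2
  rw [g2w_mul]
  apply g2w_congr <;> ring_nf <;>
    simp only [h2, h3, h4, h5, h6, h7, mul_zero, mul_one, add_zero, zero_add] <;> try ring

/-- Uniqueness of the coordinates. -/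
theorem g2w_eq_one (R : BRel chevG2 F η) {a b c d e f : F} (h : g2w R a b c d e f = 1) :
    a = 0 ∧ b = 0 ∧ c = 0 ∧ d = 0 ∧ e = 0 ∧ f = 0 := by
  have hW := wtFacts_of_wtOK chainPackOK_G2 wtOK_G2
  have hE : RootElts chevG2 F := rootElts_of_mem (by simp)
  have e1 : ∀ t : ℕ → F, g2w R (t 6) (t 7) (t 8) (t 9) (t 10) (t 11) =
      wordGL R.xadd ([6, 7, 8, 9, 10, 11].map fun r => (r, t r)) := by
    intro t
    unfold g2w
    simp only [List.map_cons, List.map_nil, wordGL_cons, wordGL_nil]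
  set t : ℕ → F := fun r => if r = 6 then a else if r = 7 then b else if r = 8 then c else
    if r = 9 then d else if r = 10 then e else if r = 11 then f else 0 with ht
  have h6 : t 6 = a := by simp [ht]
  have h7 : t 7 = b := by simp [ht]
  have h8 : t 8 = c := by simp [ht]
  have h9 : t 9 = d := by simp [ht]
  have h10 : t 10 = e := by simp [ht]
  have h11 : t 11 = f := by simp [ht]
  have key := coeff_unique hW hE [6, 7, 8, 9, 10, 11] (by decide)
    (fun r hr => ⟨(chPos_G2 r hr).1, (hW.pos r (chPos_G2 r hr).1).mp (chPos_G2 r hr)⟩) t (fun _ => 0) (by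
      rw [← wordGL_val R.xadd, ← wordGL_val R.xadd, ← e1 t, ← e1 (fun _ => 0), h6, h7, h8, h9, h10, h11, h,
        g2w_zero])
  exact ⟨h6 ▸ key 6 (by simp), h7 ▸ key 7 (by simp), h8 ▸ key 8 (by simp), h9 ▸ key 9 (by simp),
    h10 ▸ key 10 (by simp), h11 ▸ key 11 (by simp)⟩

/-- Every element of `U` has coordinates. -/
theorem g2w_exists (R : BRel chevG2 F η) {u : GL chevG2.Idx F} (hu : u ∈ chevG2.posUnipotent F) :
    ∃ a b c d e f : F, u = g2w R a b c d e f := by
  obtain ⟨t, ⟨-, ht⟩, -⟩ := (posUnipotent_unique_product_of_mem (F := F) (D := chevG2) (by simp)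
    (fun r s hr hs h1 h2 => R.cf r hr s hs h1 h2)).1 u hu
  rw [chPosRoots_G2] at ht
  refine ⟨t 6, t 7, t 8, t 9, t 10, t 11, Units.ext ?_⟩
  rw [ht, ← wordGL_val R.xadd]
  unfold g2w
  simp only [List.map_cons, List.map_nil, wordGL_cons, wordGL_nil]

/-- Conjugate in the Chevalley group to `x_11(1)` or to `x_9(1)`. -/
def G2Cl (R : BRel chevG2 F η) (y : GL chevG2.Idx F) : Prop :=
  ∃ h ∈ chevG2.group F, h * y * h⁻¹ = xGL R.xadd 11 1 ∨ h * y * h⁻¹ = xGL R.xadd 9 1

theorem G2Cl.of_conj (R : BRel chevG2 F η) {g y : GL chevG2.Idx F} (hg : g ∈ chevG2.group F)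
    (h : G2Cl R (g * y * g⁻¹)) : G2Cl R y := by
  obtain ⟨k, hk, H⟩ := h
  refine ⟨k * g, mul_mem hk hg, ?_⟩
  have e : k * g * y * (k * g)⁻¹ = k * (g * y * g⁻¹) * k⁻¹ := by group
  rw [e]
  exact H

theorem g2i_torus (R : BRel chevG2 F η) {r s : ℕ} (hr : r < chevG2.nroots) (hs : s < chevG2.nroots)
    (hp : chevG2.pairing r s = 1) {c : F} (hc : c ≠ 0) (t : F) :
    hGL R.xadd r c * xGL R.xadd s t * (hGL R.xadd r c)⁻¹ = xGL R.xadd s (c * t) := by
  have hD7 : chevG2 ∈ [chevG2, chevB2, chevD4, chevF4, chevE6, chevE7, chevE8] := by simp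
  have hTF := torusFacts_of_mem hD7
  have hz := hMat_eq_charDiag (hDiag_of_mem (F := F) hD7) hr hc
  have h1 := torus_conj_x hTF.chain hTF.cartan (g := hGL R.xadd r c) (by rw [hGL_val]; exact hz) s hs t
  rw [torusChar_pow_coroot, hp, zpow_one, Units.val_mk0] at h1
  apply Units.ext
  rw [Units.val_mul, Units.val_mul, xGL_val, xGL_val]
  exact h1

theorem g2iPair : chevG2.pairing 6 11 = 1 ∧ chevG2.pairing 7 9 = 1 := by decide +kernel

theorem g2iW : wW chevG2 [1] 10 = 11 ∧ wW chevG2 [0] 6 = 10 ∧ wW chevG2 [0] 8 = 9 ∧ wW chevG2 [1] 7 = 8 ∧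
    wW chevG2 [0] 9 = 8 := by decide +kernel

theorem G2Cl_x11 (R : BRel chevG2 F η) {t : F} (ht : t ≠ 0) : G2Cl R (xGL R.xadd 11 t) := by
  apply G2Cl.of_conj R (diagonalSubgroup_le_group R.xadd (hGL_mem R.xadd (r := 6) (by decide) (inv_ne_zero ht)))
  rw [g2i_torus R (by decide) (by decide) g2iPair.1 (inv_ne_zero ht), inv_mul_cancel₀ ht]
  exact ⟨1, one_mem _, Or.inl (by rw [one_mul, inv_one, mul_one])⟩

theorem G2Cl_x9 (R : BRel chevG2 F η) {t : F} (ht : t ≠ 0) : G2Cl R (xGL R.xadd 9 t) := by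
  apply G2Cl.of_conj R (diagonalSubgroup_le_group R.xadd (hGL_mem R.xadd (r := 7) (by decide) (inv_ne_zero ht)))
  rw [g2i_torus R (by decide) (by decide) g2iPair.2 (inv_ne_zero ht), inv_mul_cancel₀ ht]
  exact ⟨1, one_mem _, Or.inr (by rw [one_mul, inv_one, mul_one])⟩

theorem G2Cl_nW (R : BRel chevG2 F η) {L : List ℕ} (hL : ValidW chevG2 L) {s : ℕ} (hs : s < chevG2.nroots)
    (t : F) (h : G2Cl R (xGL R.xadd (wW chevG2 L s) ((eW chevG2 η L s : F) * t))) :
    G2Cl R (xGL R.xadd s t) := by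
  apply G2Cl.of_conj R (monomialSubgroup_le_group R.xadd (R.nW_mem_monomial hL))
  rw [R.nW_conj_x hL hs]
  exact h

theorem g2iValid : ValidW chevG2 [0] ∧ ValidW chevG2 [1] := by
  constructor <;> intro i hi <;> simp only [List.mem_cons, List.not_mem_nil, or_false] at hi <;>
    rw [hi] <;> decide

theorem G2Cl_x10 (R : BRel chevG2 F η) {t : F} (ht : t ≠ 0) : G2Cl R (xGL R.xadd 10 t) := by
  apply G2Cl_nW R g2iValid.2 (by decide)
  rw [g2iW.1]
  exact G2Cl_x11 R (mul_ne_zero (R.eW_ne_zero g2iValid.2 (by decide)) ht)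

theorem G2Cl_x6 (R : BRel chevG2 F η) {t : F} (ht : t ≠ 0) : G2Cl R (xGL R.xadd 6 t) := by
  apply G2Cl_nW R g2iValid.1 (by decide)
  rw [g2iW.2.1]
  exact G2Cl_x10 R (mul_ne_zero (R.eW_ne_zero g2iValid.1 (by decide)) ht)

theorem G2Cl_x8 (R : BRel chevG2 F η) {t : F} (ht : t ≠ 0) : G2Cl R (xGL R.xadd 8 t) := by
  apply G2Cl_nW R g2iValid.1 (by decide)
  rw [g2iW.2.2.1]
  exact G2Cl_x9 R (mul_ne_zero (R.eW_ne_zero g2iValid.1 (by decide)) ht)

theorem G2Cl_x7 (R : BRel chevG2 F η) {t : F} (ht : t ≠ 0) : G2Cl R (xGL R.xadd 7 t) := by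
  apply G2Cl_nW R g2iValid.2 (by decide)
  rw [g2iW.2.2.2.1]
  exact G2Cl_x8 R (mul_ne_zero (R.eW_ne_zero g2iValid.2 (by decide)) ht)

end G2Inv

end Cfsg.Agent.Helper38
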