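/-
helper38: type G2 in characteristic two over a finite field: every involution of `U` is conjugate in the
Chevalley group to `x_11(1)` or to `x_9(1)` (`g2i_class`), and these two are not conjugate (`g2i_noconj`).
-/
import Cfsg.Agent.Helper38.G2Inv

set_option autoImplicit false
set_option linter.unusedSectionVars false

namespace Cfsg.Agent.Helper38

open Cfsg Cfsg.Lie Cfsg.Agent.Helper36 Cfsg.Agent.Helper17

section G2Inv2

variable {F : Type*} [Field F] {η : ℕ → ℕ → ℤ} [CharP F 2]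

theorem G2Cl.congr (R : BRel chevG2 F η) {a b c d e f a' b' c' d' e' f' : F}
    (h : G2Cl R (g2w R a' b' c' d' e' f')) (h1 : a = a') (h2 : b = b') (h3 : c = c') (h4 : d = d')
    (h5 : e = e') (h6 : f = f') : G2Cl R (g2w R a b c d e f) := by
  rw [h1, h2, h3, h4, h5, h6]
  exact h

theorem g2i_L1 (R : BRel chevG2 F η) {f : F} (hf : f ≠ 0) : G2Cl R (g2w R 0 0 0 0 0 f) := by
  rw [← g2w_x11]
  exact G2Cl_x11 R hf

theorem g2i_L2 (R : BRel chevG2 F η) {e : F} (he : e ≠ 0) (f : F) : G2Cl R (g2w R 0 0 0 0 e f) := by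
  have h2 : (2 : F) = 0 := g2i_two
  obtain ⟨s, hs⟩ : ∃ s : F, e * s = f := ⟨f / e, by field_simp⟩
  apply G2Cl.of_conj R (xGL_mem_group R.xadd 6 s)
  rw [g2w_conj6]
  refine G2Cl.congr R (a' := 0) (b' := 0) (c' := 0) (d' := 0) (e' := e) (f' := 0) ?_ rfl rfl (by ring)
    (by ring) (by ring) (by linear_combination hs + f * h2)
  rw [← g2w_x10]
  exact G2Cl_x10 R he

theorem g2i_L3 (R : BRel chevG2 F η) {d : F} (hd : d ≠ 0) (e f : F) : G2Cl R (g2w R 0 0 0 d e f) := by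
  have h2 : (2 : F) = 0 := g2i_two
  obtain ⟨s, hs⟩ : ∃ s : F, d * s = e := ⟨e / d, by field_simp⟩
  obtain ⟨r, hr⟩ : ∃ r : F, d * r = f := ⟨f / d, by field_simp⟩
  apply G2Cl.of_conj R (xGL_mem_group R.xadd 7 s)
  rw [g2w_conj7]
  refine G2Cl.congr R (a' := 0) (b' := 0) (c' := 0) (d' := d) (e' := 0) (f' := f) ?_ rfl rfl (by ring)
    (by ring) (by linear_combination hs + e * h2) (by ring)
  apply G2Cl.of_conj R (xGL_mem_group R.xadd 8 r)
  rw [g2w_conj8]
  refine G2Cl.congr R (a' := 0) (b' := 0) (c' := 0) (d' := d) (e' := 0) (f' := 0) ?_ rfl rfl rfl rfl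
    (by ring) (by linear_combination hr + f * h2)
  rw [← g2w_x9]
  exact G2Cl_x9 R hd

theorem g2i_sqrt [Finite F] (x : F) : ∃ s : F, s ^ 2 = x := by
  obtain ⟨r, hr⟩ := FiniteField.isSquare_of_char_two (ringChar.eq F 2) x
  exact ⟨r, by rw [hr, sq]⟩

theorem g2i_L4 [Finite F] (R : BRel chevG2 F η) {c : F} (hc : c ≠ 0) (e f : F) :
    G2Cl R (g2w R 0 0 c 0 e f) := by
  have h2 : (2 : F) = 0 := g2i_two
  obtain ⟨s, hs0⟩ := g2i_sqrt (e / c)
  have hs : c * s ^ 2 = e := by rw [hs0]; field_simp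
  obtain ⟨r, hr⟩ : ∃ r : F, c * r = f + c ^ 2 * s := ⟨(f + c ^ 2 * s) / c, by field_simp⟩
  apply G2Cl.of_conj R (xGL_mem_group R.xadd 7 s)
  rw [g2w_conj7]
  refine G2Cl.congr R (a' := 0) (b' := 0) (c' := c) (d' := 0) (e' := 0) (f' := f + c ^ 2 * s) ?_ rfl rfl
    (by ring) (by ring) (by linear_combination hs + e * h2) (by ring)
  apply G2Cl.of_conj R (xGL_mem_group R.xadd 9 r)
  rw [g2w_conj9]
  refine G2Cl.congr R (a' := 0) (b' := 0) (c' := c) (d' := 0) (e' := 0) (f' := 0) ?_ rfl rfl rfl rfl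
    (by ring) (by linear_combination hr + (f + c ^ 2 * s) * h2)
  rw [← g2w_x8]
  exact G2Cl_x8 R hc

theorem g2i_L6 [Finite F] (R : BRel chevG2 F η) {b : F} (hb : b ≠ 0) (e f : F) :
    G2Cl R (g2w R 0 b 0 0 e f) := by
  have h2 : (2 : F) = 0 := g2i_two
  obtain ⟨r, hr⟩ : ∃ r : F, b * r = e := ⟨e / b, by field_simp⟩
  obtain ⟨s, hs0⟩ := g2i_sqrt (f / b)
  have hs : b * s ^ 2 = f := by rw [hs0]; field_simp
  apply G2Cl.of_conj R (xGL_mem_group R.xadd 9 r)
  rw [g2w_conj9]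
  refine G2Cl.congr R (a' := 0) (b' := b) (c' := 0) (d' := 0) (e' := 0) (f' := f) ?_ rfl rfl rfl rfl
    (by linear_combination hr + e * h2) (by ring)
  apply G2Cl.of_conj R (xGL_mem_group R.xadd 8 s)
  rw [g2w_conj8]
  refine G2Cl.congr R (a' := 0) (b' := b) (c' := 0) (d' := 0) (e' := b ^ 2 * s) (f' := 0) ?_ rfl rfl rfl rfl
    (by ring) (by linear_combination hs + f * h2)
  apply G2Cl.of_conj R (xGL_mem_group R.xadd 9 (b * s))
  rw [g2w_conj9]
  refine G2Cl.congr R (a' := 0) (b' := b) (c' := 0) (d' := 0) (e' := 0) (f' := 0) ?_ rfl rfl rfl rfl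
    (by linear_combination (b ^ 2 * s) * h2) (by ring)
  rw [← g2w_x7]
  exact G2Cl_x7 R hb

theorem g2i_L5 [Finite F] (R : BRel chevG2 F η) {a : F} (ha : a ≠ 0) (d f : F) :
    G2Cl R (g2w R a 0 0 d 0 f) := by
  have h2 : (2 : F) = 0 := g2i_two
  obtain ⟨r, hr⟩ : ∃ r : F, a * r = f := ⟨f / a, by field_simp⟩
  apply G2Cl.of_conj R (xGL_mem_group R.xadd 10 r)
  rw [g2w_conj10]
  refine G2Cl.congr R (a' := a) (b' := 0) (c' := 0) (d' := d) (e' := 0) (f' := 0) ?_ rfl rfl rfl rfl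
    rfl (by linear_combination hr + f * h2)
  by_cases hd : d = 0
  · rw [hd, ← g2w_x6]
    exact G2Cl_x6 R ha
  · have e1 : g2w R a 0 0 d 0 0 = xGL R.xadd 6 a * xGL R.xadd 9 d := by
      unfold g2w
      simp only [xGL_zero, mul_one, one_mul]
    apply G2Cl.of_conj R (monomialSubgroup_le_group R.xadd (R.nW_mem_monomial g2iValid.1))
    have e2 : R.nW [0] * g2w R a 0 0 d 0 0 * (R.nW [0])⁻¹ =
        (R.nW [0] * xGL R.xadd 6 a * (R.nW [0])⁻¹) * (R.nW [0] * xGL R.xadd 9 d * (R.nW [0])⁻¹) := by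
      rw [e1]; group
    rw [e2, R.nW_conj_x g2iValid.1 (by decide), R.nW_conj_x g2iValid.1 (by decide), g2iW.2.1,
      g2iW.2.2.2.2]
    have e3 : ∀ u v : F, xGL R.xadd 10 u * xGL R.xadd 8 v = g2w R 0 0 v 0 u 0 := by
      intro u v
      have h3 := g2i_sw0 R (q := 10) (p := 8) (by simp) u v 1
      unfold g2w
      simp only [xGL_zero, mul_one, one_mul] at h3 ⊢
      exact h3
    rw [e3]
    exact g2i_L4 R (mul_ne_zero (R.eW_ne_zero g2iValid.1 (by decide)) hd) _ _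

/-- Every involution of `U` is conjugate to `x_11(1)` or to `x_9(1)`. -/
theorem g2i_class [Finite F] (R : BRel chevG2 F η) {u : GL chevG2.Idx F} (hu : u ∈ chevG2.posUnipotent F)
    (hsq : u * u = 1) (hne : u ≠ 1) : G2Cl R u := by
  have h2 : (2 : F) = 0 := g2i_two
  obtain ⟨a, b, c, d, e, f, rfl⟩ := g2w_exists R hu
  rw [g2w_sq] at hsq
  obtain ⟨-, -, h3, -, h5, h6⟩ := g2w_eq_one R hsq
  by_cases hb : b = 0
  · subst hb
    by_cases ha : a = 0
    · subst ha
      have hcd : c * d = 0 := by linear_combination h6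
      by_cases hc : c = 0
      · subst hc
        by_cases hd : d = 0
        · subst hd
          by_cases he : e = 0
          · subst he
            have hf : f ≠ 0 := by
              rintro rfl
              exact hne (g2w_zero R)
            exact g2i_L1 R hf
          · exact g2i_L2 R he f
        · exact g2i_L3 R hd e f
      · have hd : d = 0 := by
          rcases mul_eq_zero.mp hcd with h | h
          · exact absurd h hc
          · exact h
        subst hd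
        exact g2i_L4 R hc e f
    · have h6' : c * d + a * e = 0 := by linear_combination h6
      obtain ⟨s, hs⟩ : ∃ s : F, a * s = c := ⟨c / a, by field_simp⟩
      apply G2Cl.of_conj R (xGL_mem_group R.xadd 7 s)
      rw [g2w_conj7]
      refine G2Cl.congr R (a' := a) (b' := 0) (c' := 0) (d' := d + a * s ^ 2) (e' := 0)
        (f' := f + c ^ 2 * s + a * c * s ^ 2 + a ^ 2 * s ^ 3) (g2i_L5 R ha _ _) rfl rfl
        (by linear_combination hs + c * h2) rfl ?_ (by ring)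
      apply mul_left_cancel₀ ha
      linear_combination h6' + d * hs + a * s ^ 2 * hs + (a * c * s ^ 2) * h2
  · have ha : a = 0 := by
      rcases mul_eq_zero.mp h3 with h | h
      · exact h
      · exact absurd h hb
    subst ha
    have hd : d = b * c := by
      have h7 : b * (d + b * c) = 0 := by linear_combination h5
      rcases mul_eq_zero.mp h7 with h | h
      · exact absurd h hb
      · linear_combination h - (b * c) * h2
    subst hd
    obtain ⟨s, hs⟩ : ∃ s : F, b * s = c := ⟨c / b, by field_simp⟩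
    apply G2Cl.of_conj R (xGL_mem_group R.xadd 6 s)
    rw [g2w_conj6]
    exact G2Cl.congr R (a' := 0) (b' := b) (c' := 0) (d' := 0) (e' := e + b ^ 3 * s)
      (f' := f + e * s + b ^ 2 * c * s) (g2i_L6 R hb _ _) rfl rfl
      (by linear_combination hs + c * h2) (by linear_combination b * hs + (b * c) * h2) rfl rfl

omit [CharP F 2] in
/-- A long root element is not an element of `X_9 X_10 X_11` off `X_10 X_11`. -/
theorem g2i_long_ne (R : BRel chevG2 F η) {ρ : ℕ} (hρ : ρ ∈ [11, 10, 6, 5, 1, 0]) {d c c1 c2 : F}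
    (h : xGL R.xadd ρ d = xGL R.xadd 9 c * xGL R.xadd 10 c1 * xGL R.xadd 11 c2) : c = 0 := by
  simp only [List.mem_cons, List.not_mem_nil, or_false] at hρ
  rcases hρ with rfl | rfl | rfl | rfl | rfl | rfl
  · refine (chG2_V_unique R (c := c) (d1 := c1) (d2 := c2 + -d) ?_).1
    rw [← xGL_mul, ← mul_assoc, ← h, ← xGL_inv, mul_inv_cancel]
  · refine (chG2_V_unique R (c := c) (d1 := c1 + -d) (d2 := c2) ?_).1
    have hcm : xGL R.xadd 11 c2 * xGL R.xadd 10 (-d) = xGL R.xadd 10 (-d) * xGL R.xadd 11 c2 :=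
      chG2_comm R (by simp) _ _
    calc xGL R.xadd 9 c * xGL R.xadd 10 (c1 + -d) * xGL R.xadd 11 c2
        = xGL R.xadd 9 c * xGL R.xadd 10 c1 * (xGL R.xadd 10 (-d) * xGL R.xadd 11 c2) := by
          rw [← xGL_mul]; group
      _ = xGL R.xadd 9 c * xGL R.xadd 10 c1 * (xGL R.xadd 11 c2 * xGL R.xadd 10 (-d)) := by rw [hcm]
      _ = (xGL R.xadd 9 c * xGL R.xadd 10 c1 * xGL R.xadd 11 c2) * xGL R.xadd 10 (-d) := by group
      _ = 1 := by rw [← h, ← xGL_inv, mul_inv_cancel]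
  · exact chG2_sep3 R (A := 1) (B := -1) (ns := [6])
      ⟨sgnG2_a.1, fun r hr => sgnG2_a.2 r (by revert r; decide)⟩ [(6, d)] rfl
      (by simp only [wordGL_cons, wordGL_nil, mul_one]; exact h)
  · exact chG2_sep3 R (A := 1) (B := 1) (ns := [5])
      ⟨sgnG2_b.1, fun r hr => sgnG2_b.2 r (by revert r; decide)⟩ [(5, d)] rfl
      (by simp only [wordGL_cons, wordGL_nil, mul_one]; exact h)
  · exact chG2_sep3 R (A := 1) (B := -1) (ns := [1])
      ⟨sgnG2_a.1, fun r hr => sgnG2_a.2 r (by revert r; decide)⟩ [(1, d)] rfl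
      (by simp only [wordGL_cons, wordGL_nil, mul_one]; exact h)
  · exact chG2_sep3 R (A := 1) (B := -1) (ns := [0])
      ⟨sgnG2_a.1, fun r hr => sgnG2_a.2 r (by revert r; decide)⟩ [(0, d)] rfl
      (by simp only [wordGL_cons, wordGL_nil, mul_one]; exact h)

omit [CharP F 2] in
/-- The short root element `x_9(1)` is not conjugate to the long root element `x_11(1)`. -/
theorem g2i_noconj (R : BRel chevG2 F η) {h : GL chevG2.Idx F} (hh : h ∈ chevG2.group F) :
    h * xGL R.xadd 9 1 * h⁻¹ ≠ xGL R.xadd 11 1 := by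
  intro heq
  obtain ⟨b₁, hb₁, n, hn, b₂, hb₂, rfl⟩ := R.bruhat h hh
  obtain ⟨L, hL, h', hh', hn'⟩ := R.exists_word n⁻¹ (inv_mem hn)
  have hBN := chCentG_borel_normalizes R (r0 := 11) (by decide) (fun q hq u t => by
    have hq' : q ∈ chevG2.posRoots := mem_posRoots.mpr hq
    rw [chPosRoots_G2] at hq'
    simp only [List.mem_cons, List.not_mem_nil, or_false] at hq'
    rcases hq' with rfl | rfl | rfl | rfl | rfl | rfl
    · exact chG2_fix R (by simp) u t
    · exact chG2_fix R (by simp) u t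
    · exact chG2_fix R (by simp) u t
    · exact chG2_fix R (by simp) u t
    · exact chG2_fix R (by simp) u t
    · exact chSep_conj_fix R (by decide) (by decide) (Or.inl rfl) u t)
  have hPt : G2P R (xGL R.xadd 9 1) :=
    ⟨1, 0, 0, one_ne_zero, by rw [xGL_zero, xGL_zero, mul_one, mul_one]⟩
  obtain ⟨c, c1, c2, hc, hy⟩ := G2P_conj_B R hb₂ hPt
  obtain ⟨c₀, hc₀⟩ := (mem_rootSubgroup_iff R.xadd _ _).mp
    ((Subgroup.mem_normalizer_iff.mp (hBN (inv_mem hb₁)) _).mp (xGL_mem_rootSubgroup R.xadd 11 1))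
  obtain ⟨χ, hχ⟩ := R.hx h' hh' 11 (by decide)
  have e1 : b₂ * xGL R.xadd 9 1 * b₂⁻¹ =
      xGL R.xadd (wW chevG2 L 11) ((eW chevG2 η L 11 : F) * (χ * c₀)) := by
    rw [← R.nW_conj_x hL (by decide), ← hχ, ← hc₀, ← heq]
    have e2 : R.nW L * h' = n⁻¹ := hn'.symm
    calc b₂ * xGL R.xadd 9 1 * b₂⁻¹
        = n⁻¹ * (b₁⁻¹ * (b₁ * n * b₂ * xGL R.xadd 9 1 * (b₁ * n * b₂)⁻¹) * b₁⁻¹⁻¹) * n⁻¹⁻¹ := by group
      _ = (R.nW L * h') * (b₁⁻¹ * (b₁ * n * b₂ * xGL R.xadd 9 1 * (b₁ * n * b₂)⁻¹) * b₁⁻¹⁻¹) *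
          (R.nW L * h')⁻¹ := by rw [e2]
      _ = _ := by group
  rw [hy] at e1
  have hρ : wW chevG2 L 11 ∈ [11, 10, 6, 5, 1, 0] := by
    have h3 := tri_mem_G2 L hL
    unfold triG2 at h3
    simp only [List.mem_cons, List.not_mem_nil, or_false, Prod.mk.injEq] at h3
    rcases h3 with ⟨-, -, h⟩ | ⟨-, -, h⟩ | ⟨-, -, h⟩ | ⟨-, -, h⟩ | ⟨-, -, h⟩ | ⟨-, -, h⟩ | ⟨-, -, h⟩ |
      ⟨-, -, h⟩ | ⟨-, -, h⟩ | ⟨-, -, h⟩ | ⟨-, -, h⟩ | ⟨-, -, h⟩ <;> rw [h] <;> simp
  exact hc (g2i_long_ne R hρ e1.symm)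

/-- The root elements `x_r(1)` have order two. -/
theorem g2i_order (R : BRel chevG2 F η) {r : ℕ} (hr : r < chevG2.nroots) :
    orderOf (xGL R.xadd r 1) = 2 := by
  haveI : Fact (Nat.Prime 2) := ⟨Nat.prime_two⟩
  apply orderOf_eq_prime
  · rw [pow_two, xGL_mul, CharTwo.add_self_eq_zero, xGL_zero]
  · intro h
    have h1 := congrArg Units.val h
    rw [xGL_val, Units.val_one] at h1
    exact one_ne_zero (R.xinj r hr 1 h1)

end G2Inv2

end Cfsg.Agent.Helper38
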