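/-
helper38: type G2 in characteristic two over a finite field: every involution of the Chevalley group is
conjugate into `U` (the index of `U` is odd, by the order formula of Helper18), hence is conjugate to `x_11(1)` or
to `x_9(1)`.
-/
import Cfsg.Agent.Helper38.G2Inv2
import Cfsg.Agent.Helper18.WOrd2
import Cfsg.Agent.Helper18.FAut4

set_option autoImplicit false

namespace Cfsg.Agent.Helper38

open Cfsg Cfsg.Lie Cfsg.Agent.Helper36 Cfsg.Agent.Helper17

section G2Inv3

variable {F : Type*} [Field F] [Fintype F] [CharP F 2] {η : ℕ → ℕ → ℤ}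

/-- An involution of the group is conjugate into `U`. -/
theorem g2i_sylow {g : GL chevG2.Idx F} (hg : g ∈ chevG2.group F) (hg2 : g * g = 1) :
    ∃ x ∈ chevG2.group F, x⁻¹ * g * x ∈ chevG2.posUnipotent F := by
  classical
  have hD : chevG2 ∈ [chevG2, chevB2, chevD4, chevF4, chevE6, chevE7, chevE8] := by simp
  have hcard := Cfsg.Agent.Helper18.card_group_of_weylOK hD (F := F) rfl
    (Cfsg.Agent.Helper18.weylOK_G2 (Cfsg.Agent.Helper18.wFacts_light hD) (by decide)) 1 rfl (by simp)
  have hodd := Cfsg.Agent.Helper18.index_odd_of_card hD hcard (by decide)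
  let g' : ↥(chevG2.group F) := ⟨g, hg⟩
  have hg'2 : g' ^ 2 = 1 := Subtype.ext (by rw [pow_two]; exact hg2)
  haveI : Fintype (↥(chevG2.group F) ⧸ (chevG2.posUnipotent F).subgroupOf (chevG2.group F)) :=
    Fintype.ofFinite _
  have hc : ¬ 2 ∣ Fintype.card
      (↥(chevG2.group F) ⧸ (chevG2.posUnipotent F).subgroupOf (chevG2.group F)) := by
    rw [← Nat.card_eq_fintype_card, ← Subgroup.index_eq_card]
    exact hodd
  haveI : Fact (Nat.Prime 2) := ⟨Nat.prime_two⟩
  obtain ⟨q, hq⟩ := Equiv.Perm.exists_fixed_point_of_prime (p := 2) (n := 1) hc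
    (σ := MulAction.toPermHom ↥(chevG2.group F)
      (↥(chevG2.group F) ⧸ (chevG2.posUnipotent F).subgroupOf (chevG2.group F)) g')
    (by rw [pow_one, ← map_pow, hg'2, map_one])
  induction q using Quotient.inductionOn' with
  | h x =>
    have hq' : (QuotientGroup.mk (g' * x) :
        ↥(chevG2.group F) ⧸ (chevG2.posUnipotent F).subgroupOf (chevG2.group F)) =
        QuotientGroup.mk x := hq
    rw [QuotientGroup.eq] at hq'
    refine ⟨x, x.2, ?_⟩
    have h1 := inv_mem hq'
    have e : ((g' * x)⁻¹ * x)⁻¹ = x⁻¹ * g' * x := by group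
    rw [e] at h1
    exact h1

/-- Every involution of the Chevalley group of type G2 over a finite field of characteristic two is conjugate
to `x_11(1)` or to `x_9(1)`. -/
theorem g2i_invol (R : BRel chevG2 F η) {g : GL chevG2.Idx F} (hg : g ∈ chevG2.group F)
    (hord : orderOf g = 2) : G2Cl R g := by
  have hsq : g * g = 1 := by rw [← pow_two, ← hord, pow_orderOf_eq_one]
  have hne : g ≠ 1 := by
    rintro rfl
    rw [orderOf_one] at hord
    omega
  obtain ⟨x, hx, hxU⟩ := g2i_sylow hg hsq
  have hcl : G2Cl R (x⁻¹ * g * x) := by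
    apply g2i_class R hxU
    · have e : x⁻¹ * g * x * (x⁻¹ * g * x) = x⁻¹ * (g * g) * x := by group
      rw [e, hsq]
      group
    · intro h
      apply hne
      have e : g = x * (x⁻¹ * g * x) * x⁻¹ := by group
      rw [e, h]
      group
  apply G2Cl.of_conj R (inv_mem hx)
  rw [inv_inv]
  exact hcl

end G2Inv3

end Cfsg.Agent.Helper38
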