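import Mathlib
import Cfsg.Agent.Helper5.SLCard
import Cfsg.Agent.Helper44.PSL2E

set_option autoImplicit false
set_option linter.unusedSectionVars false
set_option linter.unusedSimpArgs false
set_option linter.unusedVariables false

/-!
Helper library (helper38): `GL_5(2)` has order `9999360` and no element of order `9`;
`PSL_2(8)` has an element of order `9`.
-/

namespace Cfsg.Agent.Helper38

open Matrix

/-- A permutation `σ` with `σ ^ 9 = 1` such that `σ ^ 3` has no fixed point acts on a set of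
size divisible by `9`. -/
theorem nine_dvd_card_of_perm {X : Type*} [Finite X] (σ : Equiv.Perm X) (h9 : σ ^ 9 = 1)
    (h3 : ∀ x, (σ ^ 3) x ≠ x) : 9 ∣ Nat.card X := by
  classical
  rcases isEmpty_or_nonempty X with hX | ⟨⟨x0⟩⟩
  · simp
  have ho : orderOf σ = 9 := by
    have hd : orderOf σ ∣ 9 := orderOf_dvd_of_pow_eq_one h9
    have hmem : orderOf σ ∈ Nat.divisors 9 := by simp [hd]
    have hdiv : Nat.divisors 9 = {1, 3, 9} := by decide
    rw [hdiv] at hmem
    simp only [Finset.mem_insert, Finset.mem_singleton] at hmem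
    rcases hmem with h | h | h
    · exfalso
      apply h3 x0
      rw [orderOf_eq_one_iff] at h
      rw [h]; simp
    · exfalso
      apply h3 x0
      rw [← h, pow_orderOf_eq_one]; simp
    · exact h
  have hfin : IsOfFinOrder σ := isOfFinOrder_iff_pow_eq_one.2 ⟨9, by norm_num, h9⟩
  have hstab : ∀ b : X, MulAction.stabilizer (Subgroup.zpowers σ) b = ⊥ := by
    intro b
    rw [eq_bot_iff]
    rintro ⟨g, hg⟩ hgb
    rw [MulAction.mem_stabilizer_iff] at hgb
    have hgb' : g b = b := hgb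
    rw [Subgroup.mem_bot]
    apply Subtype.ext
    show g = 1
    rw [← hfin.mem_powers_iff_mem_zpowers, Submonoid.mem_powers_iff] at hg
    obtain ⟨k, rfl⟩ := hg
    rw [← pow_mod_orderOf, ho]
    rw [← pow_mod_orderOf, ho] at hgb'
    have hk : k % 9 < 9 := Nat.mod_lt _ (by norm_num)
    by_cases hk0 : k % 9 = 0
    · rw [hk0, pow_zero]
    exfalso
    have hp1 : Function.IsPeriodicPt σ (k % 9) b := by
      show (⇑σ)^[k % 9] b = b
      rw [Equiv.Perm.iterate_eq_pow]; exact hgb'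
    have hp2 : Function.IsPeriodicPt σ 9 b := by
      show (⇑σ)^[9] b = b
      rw [Equiv.Perm.iterate_eq_pow, h9]; rfl
    have hp3 := hp1.gcd hp2
    have hgd : Nat.gcd (k % 9) 9 ∣ 9 := Nat.gcd_dvd_right _ _
    have hgle : Nat.gcd (k % 9) 9 ≤ k % 9 := Nat.gcd_le_left _ (Nat.pos_of_ne_zero hk0)
    have hg3 : Nat.gcd (k % 9) 9 ∣ 3 := by
      have hmem : Nat.gcd (k % 9) 9 ∈ Nat.divisors 9 := by simp [hgd]
      have hdiv : Nat.divisors 9 = {1, 3, 9} := by decide
      rw [hdiv] at hmem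
      simp only [Finset.mem_insert, Finset.mem_singleton] at hmem
      rcases hmem with h | h | h
      · rw [h]; norm_num
      · rw [h]
      · omega
    have hp4 : Function.IsPeriodicPt σ 3 b := hp3.trans_dvd hg3
    apply h3 b
    have : (⇑σ)^[3] b = b := hp4
    rw [Equiv.Perm.iterate_eq_pow] at this
    exact this
  have e := MulAction.selfEquivOrbitsQuotientProd hstab
  rw [Nat.card_congr e, Nat.card_prod, Nat.card_zpowers, ho]
  exact Dvd.intro_left _ rfl

/-- The permutation of `n → R` given by an invertible matrix. -/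
def mulVecPerm {n : Type*} [Fintype n] [DecidableEq n] {R : Type*} [CommRing R] (A : GL n R) :
    Equiv.Perm (n → R) where
  toFun v := (A : Matrix n n R) *ᵥ v
  invFun v := ((A⁻¹ : GL n R) : Matrix n n R) *ᵥ v
  left_inv v := by
    show ((A⁻¹ : GL n R) : Matrix n n R) *ᵥ ((A : Matrix n n R) *ᵥ v) = v
    rw [Matrix.mulVec_mulVec, ← Units.val_mul, inv_mul_cancel, Units.val_one, Matrix.one_mulVec]
  right_inv v := by
    show (A : Matrix n n R) *ᵥ (((A⁻¹ : GL n R) : Matrix n n R) *ᵥ v) = v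
    rw [Matrix.mulVec_mulVec, ← Units.val_mul, mul_inv_cancel, Units.val_one, Matrix.one_mulVec]

theorem mulVecPerm_apply {n : Type*} [Fintype n] [DecidableEq n] {R : Type*} [CommRing R]
    (A : GL n R) (v : n → R) : mulVecPerm A v = (A : Matrix n n R) *ᵥ v := rfl

theorem mulVecPerm_pow {n : Type*} [Fintype n] [DecidableEq n] {R : Type*} [CommRing R]
    (A : GL n R) (k : ℕ) (v : n → R) :
    ((mulVecPerm A) ^ k) v = ((A : Matrix n n R) ^ k) *ᵥ v := by
  induction k generalizing v with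
  | zero => simp
  | succ k ih =>
    rw [pow_succ, Equiv.Perm.mul_apply, ih, mulVecPerm_apply, Matrix.mulVec_mulVec, ← pow_succ]

/-- `GL_5(2)` has no element of order `9`. -/
theorem gl52_pow_three_eq_one (A : GL (Fin 5) (ZMod 2)) (h9 : A ^ 9 = 1) : A ^ 3 = 1 := by
  classical
  have hM9 : (A : Matrix (Fin 5) (Fin 5) (ZMod 2)) ^ 9 = 1 := by
    rw [← Units.val_pow_eq_pow_val, h9, Units.val_one]
  set M : Matrix (Fin 5) (Fin 5) (ZMod 2) := (A : Matrix (Fin 5) (Fin 5) (ZMod 2)) with hM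
  set B : Matrix (Fin 5) (Fin 5) (ZMod 2) := M ^ 3 with hB
  let p : (Fin 5 → ZMod 2) → Prop := fun v => B *ᵥ v ≠ v
  have hp : ∀ v, p (mulVecPerm A v) ↔ p v := by
    intro v
    show B *ᵥ (M *ᵥ v) ≠ M *ᵥ v ↔ B *ᵥ v ≠ v
    have hcomm : B *ᵥ (M *ᵥ v) = M *ᵥ (B *ᵥ v) := by
      rw [Matrix.mulVec_mulVec, Matrix.mulVec_mulVec, hB, ← pow_succ, ← pow_succ']
    rw [hcomm]
    have hinj : Function.Injective (fun w : Fin 5 → ZMod 2 => M *ᵥ w) :=
      (mulVecPerm A).injective
    exact not_congr ⟨fun h => hinj h, fun h => by rw [h]⟩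
  let τ : Equiv.Perm {v // p v} := (mulVecPerm A).subtypePerm hp
  have hτ9 : τ ^ 9 = 1 := by
    apply Equiv.ext
    rintro ⟨v, hv⟩
    apply Subtype.ext
    show ((((mulVecPerm A).subtypePerm hp) ^ 9) ⟨v, hv⟩ : {v // p v}).1 = v
    rw [Equiv.Perm.subtypePerm_pow, Equiv.Perm.subtypePerm_apply]
    show ((mulVecPerm A) ^ 9) v = v
    rw [mulVecPerm_pow, hM9, Matrix.one_mulVec]
  have hτ3 : ∀ x, (τ ^ 3) x ≠ x := by
    rintro ⟨v, hv⟩ h
    have h1 := congrArg Subtype.val h
    have h2 : ((((mulVecPerm A).subtypePerm hp) ^ 3) ⟨v, hv⟩ : {v // p v}).1 = v := h1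
    rw [Equiv.Perm.subtypePerm_pow, Equiv.Perm.subtypePerm_apply] at h2
    have h3 : ((mulVecPerm A) ^ 3) v = v := h2
    rw [mulVecPerm_pow] at h3
    exact hv h3
  have h9dvd := nine_dvd_card_of_perm τ hτ9 hτ3
  -- the fixed space of `B`
  let W : AddSubgroup (Fin 5 → ZMod 2) :=
    { carrier := {v | B *ᵥ v = v}
      add_mem' := by
        intro a b ha hb
        show B *ᵥ (a + b) = a + b
        rw [Matrix.mulVec_add, ha, hb]
      zero_mem' := by
        show B *ᵥ 0 = 0
        rw [Matrix.mulVec_zero]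
      neg_mem' := by
        intro a ha
        show B *ᵥ (-a) = -a
        rw [Matrix.mulVec_neg, ha] }
  have hW : Nat.card W ∣ Nat.card (Fin 5 → ZMod 2) := AddSubgroup.card_addSubgroup_dvd_card W
  have hV : Nat.card (Fin 5 → ZMod 2) = 2 ^ 5 := by
    rw [Nat.card_eq_fintype_card, Fintype.card_fun, ZMod.card, Fintype.card_fin]
  have hsum : Nat.card {v // p v} + Nat.card W = Nat.card (Fin 5 → ZMod 2) := by
    have e : {v : Fin 5 → ZMod 2 // ¬ p v} ≃ W :=
      { toFun := fun v => ⟨v.1, not_not.1 v.2⟩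
        invFun := fun v => ⟨v.1, not_not.2 v.2⟩
        left_inv := fun v => rfl
        right_inv := fun v => rfl }
    have h1 := Fintype.card_subtype_compl p
    have h2 := Fintype.card_subtype_le p
    rw [← Nat.card_congr e]
    simp only [Nat.card_eq_fintype_card]
    omega
  rw [hV] at hW hsum
  obtain ⟨m, hm, hWm⟩ := (Nat.dvd_prime_pow Nat.prime_two).1 hW
  obtain ⟨c, hc⟩ := h9dvd
  have hm5 : m = 5 := by
    rw [hWm, hc] at hsum
    interval_cases m <;> omega
  have hX0 : Nat.card {v // p v} = 0 := by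
    rw [hWm, hm5] at hsum
    omega
  have hemp : IsEmpty {v // p v} := by
    rcases Finite.card_eq_zero_iff.1 hX0 with h
    exact h
  have hall : ∀ v, B *ᵥ v = v := by
    intro v
    by_contra h
    exact hemp.false ⟨v, h⟩
  have hB1 : B = 1 := by
    apply Matrix.toLin'.injective
    apply LinearMap.ext
    intro v
    rw [Matrix.toLin'_apply, hall, Matrix.toLin'_one, LinearMap.id_apply]
  apply Units.ext
  rw [Units.val_pow_eq_pow_val, Units.val_one]
  exact hB1

/-- The order of `GL_5(2)`. -/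
theorem card_GL5_two : Nat.card (GL (Fin 5) (ZMod 2)) = 9999360 := by
  rw [Matrix.card_GL_field]
  simp only [Fintype.card_fin, ZMod.card]
  rw [Fin.prod_univ_five]
  norm_num

/-- The field with `8` elements has characteristic `2` and a root of `t ^ 3 + t + 1`. -/
theorem exists_root_f8 {F : Type*} [Field F] [Fintype F] (hF : Fintype.card F = 8) :
    (2 : F) = 0 ∧ ∃ t : F, t ^ 3 + t + 1 = 0 := by
  classical
  haveI : CharP F 2 := Cfsg.Agent.Helper44.charP_of_card 2 3 (by rw [hF]; norm_num)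
  have h2 : (2 : F) = 0 := by
    have := CharP.cast_eq_zero F 2
    exact_mod_cast this
  refine ⟨h2, ?_⟩
  have hex : ∃ x : F, x ≠ 0 ∧ x ≠ 1 := by
    by_contra hcon
    push Not at hcon
    have hsub : (Finset.univ : Finset F) ⊆ {0, 1} := by
      intro x _
      by_cases hx : x = 0
      · simp [hx]
      · simp [hcon x hx]
    have hc := Finset.card_le_card hsub
    rw [Finset.card_univ, hF] at hc
    have : ({0, 1} : Finset F).card ≤ 2 := Finset.card_le_two
    omega
  obtain ⟨x, hx0, hx1⟩ := hex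
  have hx7 : x ^ 7 = 1 := by
    have := FiniteField.pow_card_sub_one_eq_one x hx0
    rw [hF] at this
    exact this
  have hprod : (x - 1) * ((x ^ 3 + x + 1) * (x ^ 3 + x ^ 2 + 1)) = 0 := by
    linear_combination hx7 + (x ^ 4 - x ^ 3) * h2
  rcases mul_eq_zero.1 hprod with h | h
  · exact absurd (sub_eq_zero.1 h) hx1
  rcases mul_eq_zero.1 h with h | h
  · exact ⟨x, h⟩
  · refine ⟨x⁻¹, ?_⟩
    have hx3 : x ^ 3 ≠ 0 := pow_ne_zero _ hx0
    have : x ^ 3 * (x⁻¹ ^ 3 + x⁻¹ + 1) = 0 := by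
      have e1 : x ^ 3 * x⁻¹ ^ 3 = 1 := by rw [← mul_pow, mul_inv_cancel₀ hx0, one_pow]
      have e2 : x ^ 3 * x⁻¹ = x ^ 2 := by
        rw [pow_succ, mul_assoc, mul_inv_cancel₀ hx0, mul_one]
      rw [mul_add, mul_add, e1, e2, mul_one]
      linear_combination h
    exact (mul_eq_zero.1 this).resolve_left hx3

/-- `PSL_2(8)` has an element of order `9`. -/
theorem psl28_order_nine {F : Type*} [Field F] [Fintype F] (hF : Fintype.card F = 8) :
    ∃ x : Matrix.ProjectiveSpecialLinearGroup (Fin 2) F, x ^ 9 = 1 ∧ x ^ 3 ≠ 1 := by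
  classical
  obtain ⟨h2, t, ht⟩ := exists_root_f8 hF
  have hdet : (!![0, 1; 1, t] : Matrix (Fin 2) (Fin 2) F).det = 1 := by
    rw [Matrix.det_fin_two_of]
    linear_combination (-1 : F) * h2
  let A : Matrix.SpecialLinearGroup (Fin 2) F := ⟨!![0, 1; 1, t], hdet⟩
  have hM3 : (!![0, 1; 1, t] : Matrix (Fin 2) (Fin 2) F) ^ 3 =
      !![t, 1 + t ^ 2; 1 + t ^ 2, t ^ 3 + 2 * t] := by
    rw [pow_succ, pow_succ, pow_one, Matrix.mul_fin_two, Matrix.mul_fin_two]
    ext i j
    fin_cases i <;> fin_cases j <;> simp <;> ring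
  have hN3 : (!![t, 1 + t ^ 2; 1 + t ^ 2, t ^ 3 + 2 * t] : Matrix (Fin 2) (Fin 2) F) ^ 3 = 1 := by
    rw [pow_succ, pow_succ, pow_one, Matrix.mul_fin_two, Matrix.mul_fin_two, Matrix.one_fin_two]
    ext i j
    fin_cases i <;> fin_cases j
    · simp only [Fin.zero_eta, Fin.isValue, Matrix.of_apply, Matrix.cons_val', Matrix.cons_val_zero,
        Matrix.cons_val_fin_one, Fin.mk_one, Matrix.cons_val_one]
      linear_combination (5 - t + 5 * t ^ 2 + t ^ 4) * ht + (-3 - 2 * t ^ 2) * h2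
    · simp only [Fin.zero_eta, Fin.isValue, Matrix.of_apply, Matrix.cons_val', Matrix.cons_val_zero,
        Matrix.cons_val_fin_one, Fin.mk_one, Matrix.cons_val_one]
      linear_combination (-5 + 9 * t - t ^ 2 + 6 * t ^ 3 + t ^ 5) * ht + (3 - 2 * t + t ^ 2) * h2
    · simp only [Fin.zero_eta, Fin.isValue, Matrix.of_apply, Matrix.cons_val', Matrix.cons_val_zero,
        Matrix.cons_val_fin_one, Fin.mk_one, Matrix.cons_val_one]
      linear_combination (-5 + 9 * t - t ^ 2 + 6 * t ^ 3 + t ^ 5) * ht + (3 - 2 * t + t ^ 2) * h2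
    · simp only [Fin.zero_eta, Fin.isValue, Matrix.of_apply, Matrix.cons_val', Matrix.cons_val_zero,
        Matrix.cons_val_fin_one, Fin.mk_one, Matrix.cons_val_one]
      linear_combination (7 - 6 * t + 14 * t ^ 2 - t ^ 3 + 7 * t ^ 4 + t ^ 6) * ht +
        (-4 + 2 * t - 4 * t ^ 2) * h2
  have hA3 : ((A ^ 3 : Matrix.SpecialLinearGroup (Fin 2) F) : Matrix (Fin 2) (Fin 2) F) =
      !![t, 1 + t ^ 2; 1 + t ^ 2, t ^ 3 + 2 * t] := by
    rw [Matrix.SpecialLinearGroup.coe_pow]
    exact hM3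
  have hA9 : A ^ 9 = 1 := by
    apply Subtype.ext
    rw [show (9 : ℕ) = 3 * 3 from rfl, pow_mul, Matrix.SpecialLinearGroup.coe_pow, hA3, hN3]
    rfl
  have hA3ne : A ^ 3 ≠ 1 := by
    intro h
    have h1 := congrArg (fun B : Matrix.SpecialLinearGroup (Fin 2) F =>
      (B : Matrix (Fin 2) (Fin 2) F) 0 0) h
    simp only [hA3] at h1
    have h3 : t = 1 := by simpa using h1
    rw [h3] at ht
    have : (1 : F) = 0 := by linear_combination ht - h2
    exact one_ne_zero this
  refine ⟨QuotientGroup.mk A, ?_, ?_⟩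
  · rw [← QuotientGroup.mk_pow, hA9]
    rfl
  · rw [← QuotientGroup.mk_pow]
    intro h
    have h' := (QuotientGroup.eq_one_iff _).1 h
    rw [Cfsg.Agent.Helper5.center_SL2_eq_bot h2, Subgroup.mem_bot] at h'
    exact hA3ne h'

/-- A section of a group without elements of order `9` has no element of order `9`. -/
theorem section_no_order_nine {G : Type*} [Group G] [Finite G]
    (hG : ∀ g : G, g ^ 9 = 1 → g ^ 3 = 1) (H : Subgroup G) (K : Subgroup ↥H) [K.Normal]
    (y : ↥H ⧸ K) (hy9 : y ^ 9 = 1) : y ^ 3 = 1 := by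
  by_contra hy3
  obtain ⟨h, rfl⟩ := QuotientGroup.mk_surjective y
  have ho : orderOf (QuotientGroup.mk h : ↥H ⧸ K) = 9 := by
    have hd : orderOf (QuotientGroup.mk h : ↥H ⧸ K) ∣ 9 := orderOf_dvd_of_pow_eq_one hy9
    have hmem : orderOf (QuotientGroup.mk h : ↥H ⧸ K) ∈ Nat.divisors 9 := by simp [hd]
    have hdiv : Nat.divisors 9 = {1, 3, 9} := by decide
    rw [hdiv] at hmem
    simp only [Finset.mem_insert, Finset.mem_singleton] at hmem
    rcases hmem with h1 | h1 | h1
    · exfalso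
      apply hy3
      rw [orderOf_eq_one_iff] at h1
      rw [h1, one_pow]
    · exfalso
      apply hy3
      rw [← h1, pow_orderOf_eq_one]
    · exact h1
  have hdvd : 9 ∣ orderOf h := by
    rw [← ho]
    apply orderOf_dvd_of_pow_eq_one
    rw [← QuotientGroup.mk_pow, pow_orderOf_eq_one]
    rfl
  obtain ⟨c, hc⟩ := hdvd
  have hpos : 0 < orderOf h := orderOf_pos h
  have hc0 : 0 < c := by
    rcases Nat.eq_zero_or_pos c with h0 | h0
    · rw [h0] at hc; omega
    · exact h0
  have h9 : ((h : G) ^ c) ^ 9 = 1 := by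
    rw [← pow_mul, mul_comm, ← hc, ← Subgroup.coe_pow, pow_orderOf_eq_one]
    rfl
  have h3 := hG _ h9
  have h3' : h ^ (c * 3) = 1 := by
    apply Subtype.ext
    rw [Subgroup.coe_pow, pow_mul, h3]
    rfl
  have := orderOf_dvd_of_pow_eq_one h3'
  have hle := Nat.le_of_dvd (by omega) this
  omega

end Cfsg.Agent.Helper38
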