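import Mathlib
import Cfsg.Prelude.Def_Characters
import Cfsg.Agent.Helper15.CharInner
import Cfsg.Agent.Helper38.InnerAux

/-!
# A sum of `k` nonzero characters of norm `k` consists of distinct irreducibles

`irr_of_sum_inner`: if `ρ i` (`i : ι`) are nonzero characters and
`⟨∑ ρ i, ∑ ρ i⟩ = |ι|`, then every `ρ i` is irreducible and `ρ` is injective.
-/

set_option autoImplicit false

namespace Cfsg.Agent.Helper38

open scoped ComplexConjugate

variable {G : Type*} [Group G] [Fintype G]

theorem irr_of_sum_inner {ι : Type*} [Fintype ι] (ρ : ι → G → ℂ)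
    (hρ : ∀ i, Cfsg.IsCharacter G (ρ i)) (hne : ∀ i, ρ i ≠ 0)
    (h : Cfsg.classInner (∑ i, ρ i) (∑ i, ρ i) = (Fintype.card ι : ℂ)) :
    (∀ i, Cfsg.IsIrrCharacter G (ρ i)) ∧ Function.Injective ρ := by
  classical
  have hm : ∀ i j, ∃ n : ℕ, Cfsg.classInner (ρ i) (ρ j) = (n : ℂ) :=
    fun i j => Cfsg.Agent.Helper15.inner_nat (hρ i) (hρ j)
  choose m hm using hm
  have h1 : ∑ i, ∑ j, m i j = Fintype.card ι := by
    have : ((∑ i, ∑ j, m i j : ℕ) : ℂ) = (Fintype.card ι : ℂ) := by
      rw [← h, Cfsg.Agent.Helper15.classInner_sum_left]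
      push_cast
      apply Finset.sum_congr rfl
      intro i _
      rw [Cfsg.Agent.Helper15.classInner_sum_right]
      apply Finset.sum_congr rfl
      intro j _
      rw [hm]
    exact_mod_cast this
  have hpos : ∀ i, 1 ≤ m i i := by
    intro i
    by_contra hcon
    have h0 : m i i = 0 := by omega
    have h5 := hm i i
    rw [h0, Nat.cast_zero] at h5
    exact hne i (classInner_self_eq_zero _ h5)
  have hdiag : ∀ i, m i i ≤ ∑ j, m i j :=
    fun i => Finset.single_le_sum (f := fun j => m i j) (fun _ _ => Nat.zero_le _)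
      (Finset.mem_univ i)
  have h2 : ∀ i, ∑ j, m i j = 1 := by
    have hle : ∀ i ∈ (Finset.univ : Finset ι), (fun _ => 1) i ≤ (fun i => ∑ j, m i j) i :=
      fun i _ => (hpos i).trans (hdiag i)
    have hsum : ∑ i : ι, (fun _ => 1) i = ∑ i, (fun i => ∑ j, m i j) i := by
      rw [h1]
      simp
    have h5 := (Finset.sum_eq_sum_iff_of_le hle).mp hsum
    intro i
    exact (h5 i (Finset.mem_univ i)).symm
  have h3 : ∀ i, m i i = 1 := fun i => le_antisymm ((hdiag i).trans (h2 i).le) (hpos i)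
  have h4 : ∀ i j, i ≠ j → m i j = 0 := by
    intro i j hij
    have h5 := h2 i
    rw [← Finset.add_sum_erase _ _ (Finset.mem_univ i), h3 i] at h5
    have h6 : ∑ x ∈ Finset.univ.erase i, m i x = 0 := by omega
    exact (Finset.sum_eq_zero_iff.mp h6) j (Finset.mem_erase.mpr ⟨hij.symm, Finset.mem_univ j⟩)
  refine ⟨fun i => Cfsg.Agent.Helper15.isIrr_of_inner_one (hρ i) (by rw [hm, h3]; simp), ?_⟩
  intro i j hij
  by_contra hne'
  have h5 := hm i j
  rw [h4 i j hne', ← hij, hm i i, h3 i] at h5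
  simp at h5

end Cfsg.Agent.Helper38
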