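import Mathlib
import Cfsg.Prelude.Def_Characters
import Cfsg.Agent.Helper3.Induced
import Cfsg.Agent.Helper59.Derange
import Cfsg.Agent.Helper79.Basic
import Cfsg.Agent.Helper38.SLTrans
import Cfsg.Agent.Helper38.SumIrr

/-!
# The permutation character of `SL_n(q)` on nonzero vectors (helper38)

For `P` the stabiliser of the line `F e₀` in `G = SL_m(F)` and `θ` a multiplicative character
of `F`, `lineChar θ = Ind_P^G (θ ∘ λ)` where `λ : P → Fˣ` is the eigenvalue on the line.

* `sum_lineChar`: `∑ θ, lineChar θ g = #{v ≠ 0 | g v = v}` (`2 ≤ |m|`).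
* `classInner_fixChar`: the norm of the permutation character is `|F|` (`3 ≤ |m|`).
* `exists_irr_family`: the permutation character is `1 +` a sum of `|F| - 1` distinct
  irreducible characters.
-/

set_option autoImplicit false
set_option linter.unusedSectionVars false

namespace Cfsg.Agent.Helper38

open Matrix
open scoped ComplexConjugate

section Basic

variable {F : Type*} [Field F] {m : Type*} [Fintype m] [DecidableEq m]

/-- The standard basis vector. -/
def stdVec (i₀ : m) : m → F := Pi.single i₀ 1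

theorem stdVec_ne_zero (i₀ : m) : (stdVec i₀ : m → F) ≠ 0 := by
  intro h
  have := congrFun h i₀
  simp [stdVec] at this

theorem mulVec_stdVec (A : Matrix m m F) (i₀ j : m) : (A *ᵥ stdVec i₀) j = A j i₀ := by
  rw [stdVec, Matrix.mulVec_single_one]
  rfl

theorem sl_inv_mulVec (g : Matrix.SpecialLinearGroup m F) (v : m → F) :
    (g⁻¹ : Matrix.SpecialLinearGroup m F).1 *ᵥ (g.1 *ᵥ v) = v := by
  rw [Matrix.mulVec_mulVec]
  have : (g⁻¹ : Matrix.SpecialLinearGroup m F).1 * g.1 = 1 := by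
    rw [← Matrix.SpecialLinearGroup.coe_mul, inv_mul_cancel, Matrix.SpecialLinearGroup.coe_one]
  rw [this, Matrix.one_mulVec]

theorem sl_mulVec_inv (g : Matrix.SpecialLinearGroup m F) (v : m → F) :
    g.1 *ᵥ ((g⁻¹ : Matrix.SpecialLinearGroup m F).1 *ᵥ v) = v := by
  rw [Matrix.mulVec_mulVec]
  have : g.1 * (g⁻¹ : Matrix.SpecialLinearGroup m F).1 = 1 := by
    rw [← Matrix.SpecialLinearGroup.coe_mul, mul_inv_cancel, Matrix.SpecialLinearGroup.coe_one]
  rw [this, Matrix.one_mulVec]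

theorem sl_mulVec_injective (g : Matrix.SpecialLinearGroup m F) :
    Function.Injective (fun v : m → F => g.1 *ᵥ v) := by
  intro v w h
  have h1 : g.1 *ᵥ v = g.1 *ᵥ w := h
  have h2 : (g⁻¹ : Matrix.SpecialLinearGroup m F).1 *ᵥ (g.1 *ᵥ v)
      = (g⁻¹ : Matrix.SpecialLinearGroup m F).1 *ᵥ (g.1 *ᵥ w) := by rw [h1]
  rwa [sl_inv_mulVec, sl_inv_mulVec] at h2

theorem sl_mulVec_ne_zero (g : Matrix.SpecialLinearGroup m F) {v : m → F} (hv : v ≠ 0) :
    g.1 *ᵥ v ≠ 0 := by
  intro h
  apply hv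
  apply sl_mulVec_injective g
  simpa using h

/-- The stabiliser in `SL_m(F)` of the line spanned by the standard vector `e_{i₀}`. -/
def lineStab (F : Type*) [Field F] {m : Type*} [Fintype m] [DecidableEq m] (i₀ : m) :
    Subgroup (Matrix.SpecialLinearGroup m F) where
  carrier := {g | ∃ a : F, g.1 *ᵥ stdVec i₀ = a • stdVec i₀}
  one_mem' := ⟨1, by simp⟩
  mul_mem' := by
    rintro g h ⟨a, ha⟩ ⟨b, hb⟩
    refine ⟨b * a, ?_⟩
    rw [Matrix.SpecialLinearGroup.coe_mul, ← Matrix.mulVec_mulVec, hb, Matrix.mulVec_smul, ha, smul_smul]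
  inv_mem' := by
    rintro g ⟨a, ha⟩
    have ha0 : a ≠ 0 := by
      rintro rfl
      rw [zero_smul] at ha
      exact sl_mulVec_ne_zero g (stdVec_ne_zero i₀) ha
    refine ⟨a⁻¹, ?_⟩
    have h1 := sl_inv_mulVec g (stdVec i₀ : m → F)
    rw [ha, Matrix.mulVec_smul] at h1
    calc (g⁻¹ : Matrix.SpecialLinearGroup m F).1 *ᵥ stdVec i₀
        = a⁻¹ • (a • ((g⁻¹ : Matrix.SpecialLinearGroup m F).1 *ᵥ stdVec i₀)) := by
          rw [smul_smul, inv_mul_cancel₀ ha0, one_smul]
      _ = a⁻¹ • stdVec i₀ := by rw [h1]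

theorem mem_lineStab {i₀ : m} {g : Matrix.SpecialLinearGroup m F} :
    g ∈ lineStab F i₀ ↔ ∃ a : F, g.1 *ᵥ stdVec i₀ = a • stdVec i₀ := Iff.rfl

theorem lineStab_spec {i₀ : m} {g : Matrix.SpecialLinearGroup m F} {a : F}
    (h : g.1 *ᵥ stdVec i₀ = a • stdVec i₀) : a = g.1 i₀ i₀ := by
  have := congrFun h i₀
  rw [mulVec_stdVec] at this
  simp [stdVec] at this
  exact this.symm

theorem lineStab_mulVec {i₀ : m} {g : Matrix.SpecialLinearGroup m F} (hg : g ∈ lineStab F i₀) :
    g.1 *ᵥ stdVec i₀ = g.1 i₀ i₀ • stdVec i₀ := by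
  obtain ⟨a, ha⟩ := hg
  rw [← lineStab_spec ha]
  exact ha

/-- The eigenvalue of an element of the line stabiliser on the line, as a monoid hom. -/
def lamHom (F : Type*) [Field F] {m : Type*} [Fintype m] [DecidableEq m] (i₀ : m) :
    lineStab F i₀ →* F where
  toFun g := g.1.1 i₀ i₀
  map_one' := by simp
  map_mul' g h := by
    have h1 := lineStab_mulVec h.2
    have h2 := lineStab_mulVec g.2
    have h3 : ((g.1 * h.1 : Matrix.SpecialLinearGroup m F).1 *ᵥ (stdVec i₀ : m → F)) i₀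
        = g.1.1 i₀ i₀ * h.1.1 i₀ i₀ := by
      rw [Matrix.SpecialLinearGroup.coe_mul, ← Matrix.mulVec_mulVec, h1, Matrix.mulVec_smul, h2,
        smul_smul]
      simp [stdVec, mul_comm]
    rw [mulVec_stdVec] at h3
    exact h3

theorem lamHom_apply (i₀ : m) (g : lineStab F i₀) : lamHom F i₀ g = g.1.1 i₀ i₀ := rfl

/-- The linear character `θ ∘ λ` of the line stabiliser. -/
noncomputable def lineLin (i₀ : m) (θ : MulChar F ℂ) : lineStab F i₀ →* ℂ :=
  θ.toMonoidHom.comp (lamHom F i₀)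

theorem lineLin_apply (i₀ : m) (θ : MulChar F ℂ) (g : lineStab F i₀) :
    lineLin i₀ θ g = θ (g.1.1 i₀ i₀) := rfl

theorem lineLin_isCharacter (i₀ : m) (θ : MulChar F ℂ) :
    Cfsg.IsCharacter (lineStab F i₀) (fun b => lineLin i₀ θ b) :=
  Cfsg.Agent.Helper79.isCharacter_of_irr
    (Cfsg.Agent.Helper79.isIrrCharacter_of_hom (lineLin i₀ θ).toHomUnits)

theorem conj_mulVec_iff (i₀ : m) (g x : Matrix.SpecialLinearGroup m F) (a : F) :
    (x⁻¹ * g * x : Matrix.SpecialLinearGroup m F).1 *ᵥ stdVec i₀ = a • stdVec i₀ ↔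
      g.1 *ᵥ (x.1 *ᵥ stdVec i₀) = a • (x.1 *ᵥ stdVec i₀) := by
  have h0 : (x⁻¹ * g * x : Matrix.SpecialLinearGroup m F).1 *ᵥ (stdVec i₀ : m → F)
      = (x⁻¹ : Matrix.SpecialLinearGroup m F).1 *ᵥ (g.1 *ᵥ (x.1 *ᵥ stdVec i₀)) := by
    rw [Matrix.SpecialLinearGroup.coe_mul, Matrix.SpecialLinearGroup.coe_mul, ← Matrix.mulVec_mulVec,
      ← Matrix.mulVec_mulVec]
  rw [h0]
  constructor
  · intro h
    have := congrArg (fun u => x.1 *ᵥ u) h
    simp only [sl_mulVec_inv, Matrix.mulVec_smul] at this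
    exact this
  · intro h
    rw [h, Matrix.mulVec_smul, sl_inv_mulVec]

/-- Extension by zero of the linear character on a conjugate, as a sum over eigenvalues. -/
theorem extendByZero_lineLin [Fintype F] (i₀ : m) (θ : MulChar F ℂ)
    (g x : Matrix.SpecialLinearGroup m F) [DecidablePred fun a : F =>
      g.1 *ᵥ (x.1 *ᵥ stdVec i₀) = a • (x.1 *ᵥ stdVec i₀)] :
    Cfsg.extendByZero (lineStab F i₀) (fun b => lineLin i₀ θ b) (x⁻¹ * g * x) =
      ∑ a : F, if g.1 *ᵥ (x.1 *ᵥ stdVec i₀) = a • (x.1 *ᵥ stdVec i₀) then θ a else 0 := by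
  classical
  have hx0 : x.1 *ᵥ (stdVec i₀ : m → F) ≠ 0 := sl_mulVec_ne_zero x (stdVec_ne_zero i₀)
  by_cases hmem : x⁻¹ * g * x ∈ lineStab F i₀
  · rw [Cfsg.Agent.Helper3.extendByZero_of_mem _ _ hmem, lineLin_apply]
    have h1 := (conj_mulVec_iff i₀ g x _).mp (lineStab_mulVec hmem)
    rw [Finset.sum_eq_single ((x⁻¹ * g * x : Matrix.SpecialLinearGroup m F).1 i₀ i₀)]
    · rw [if_pos h1]
    · intro b _ hb
      rw [if_neg]
      intro h2
      rw [h1] at h2
      have h3 : ((x⁻¹ * g * x : Matrix.SpecialLinearGroup m F).1 i₀ i₀ - b) •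
          (x.1 *ᵥ (stdVec i₀ : m → F)) = 0 := by
        rw [sub_smul, h2, sub_self]
      rcases smul_eq_zero.mp h3 with h4 | h4
      · exact hb (sub_eq_zero.mp h4).symm
      · exact hx0 h4
    · intro h
      exact absurd (Finset.mem_univ _) h
  · rw [Cfsg.Agent.Helper3.extendByZero_of_not_mem _ _ hmem]
    symm
    apply Finset.sum_eq_zero
    intro a _
    rw [if_neg]
    intro h
    exact hmem ⟨a, (conj_mulVec_iff i₀ g x a).mpr h⟩

end Basic

section Count

variable {F : Type*} [Field F] [Fintype F] [DecidableEq F] {m : Type*} [Fintype m] [DecidableEq m]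

/-- `SL_m(F)` is transitive on nonzero vectors when `|m| ≥ 2`. -/
theorem exists_sl_mulVec_eq (hm : 1 < Fintype.card m) {v w : m → F} (hv : v ≠ 0) (hw : w ≠ 0) :
    ∃ g : Matrix.SpecialLinearGroup m F, g.1 *ᵥ v = w := by
  obtain ⟨g, hg⟩ := exists_sl_map (ι := Unit) (fun _ => v) (fun _ => w)
    (LinearIndependent.of_subsingleton () hv) (LinearIndependent.of_subsingleton () hw)
    (by simpa using hm)
  exact ⟨g, hg ()⟩

/-- `SL_m(F)` is transitive on linearly independent pairs when `|m| ≥ 3`. -/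
theorem exists_sl_mulVec_pair (hm : 2 < Fintype.card m) {v w v' w' : m → F}
    (h : LinearIndependent F ![v, w]) (h' : LinearIndependent F ![v', w']) :
    ∃ g : Matrix.SpecialLinearGroup m F, g.1 *ᵥ v = v' ∧ g.1 *ᵥ w = w' := by
  obtain ⟨g, hg⟩ := exists_sl_map ![v, w] ![v', w'] h h' (by simpa using hm)
  exact ⟨g, hg 0, hg 1⟩

/-- Orbit counting: the number of `x ∈ SL_m(F)` with `Q (x e₀)` is `|Stab e₀| * #Q`. -/
theorem natCard_orbit_pred (hm : 1 < Fintype.card m) (i₀ : m) (Q : (m → F) → Prop)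
    (hQ : ∀ v, Q v → v ≠ 0) :
    Nat.card {x : Matrix.SpecialLinearGroup m F // Q (x.1 *ᵥ stdVec i₀)} =
      Nat.card {x : Matrix.SpecialLinearGroup m F // x.1 *ᵥ stdVec i₀ = (stdVec i₀ : m → F)} *
        Nat.card {v : m → F // Q v} := by
  have hy : ∀ v : m → F, ∃ y : Matrix.SpecialLinearGroup m F,
      v ≠ 0 → y.1 *ᵥ stdVec i₀ = v := by
    intro v
    by_cases hv : v = 0
    · exact ⟨1, fun h => absurd hv h⟩
    · obtain ⟨y, hy⟩ := exists_sl_mulVec_eq hm (stdVec_ne_zero i₀) hv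
      exact ⟨y, fun _ => hy⟩
  choose y hy using hy
  rw [mul_comm, ← Nat.card_prod]
  refine Nat.card_congr ?_
  exact
    { toFun := fun x => (⟨x.1.1 *ᵥ stdVec i₀, x.2⟩, ⟨(y (x.1.1 *ᵥ stdVec i₀))⁻¹ * x.1, by
          have h1 := hy _ (hQ _ x.2)
          rw [Matrix.SpecialLinearGroup.coe_mul, ← Matrix.mulVec_mulVec]
          calc ((y (x.1.1 *ᵥ stdVec i₀))⁻¹ : Matrix.SpecialLinearGroup m F).1 *ᵥ
                (x.1.1 *ᵥ stdVec i₀)
              = ((y (x.1.1 *ᵥ stdVec i₀))⁻¹ : Matrix.SpecialLinearGroup m F).1 *ᵥ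
                ((y (x.1.1 *ᵥ stdVec i₀)).1 *ᵥ stdVec i₀) := by rw [h1]
            _ = stdVec i₀ := sl_inv_mulVec _ _⟩)
      invFun := fun p => ⟨y p.1.1 * p.2.1, by
          rw [Matrix.SpecialLinearGroup.coe_mul, ← Matrix.mulVec_mulVec, p.2.2,
            hy _ (hQ _ p.1.2)]
          exact p.1.2⟩
      left_inv := fun x => by
          apply Subtype.ext
          simp
      right_inv := fun p => by
          have h1 : (y p.1.1 * p.2.1 : Matrix.SpecialLinearGroup m F).1 *ᵥ stdVec i₀ = p.1.1 := by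
            rw [Matrix.SpecialLinearGroup.coe_mul, ← Matrix.mulVec_mulVec, p.2.2,
              hy _ (hQ _ p.1.2)]
          refine Prod.ext (Subtype.ext h1) (Subtype.ext ?_)
          simp only
          rw [h1]
          group }

theorem natCard_stab_pos (i₀ : m) :
    0 < Nat.card {x : Matrix.SpecialLinearGroup m F //
      x.1 *ᵥ stdVec i₀ = (stdVec i₀ : m → F)} := by
  haveI : Nonempty {x : Matrix.SpecialLinearGroup m F //
      x.1 *ᵥ stdVec i₀ = (stdVec i₀ : m → F)} := ⟨⟨1, by simp⟩⟩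
  exact Nat.card_pos

theorem natCard_line_units (i₀ : m) :
    Nat.card {v : m → F // v ≠ 0 ∧ ∃ a : F, v = a • stdVec i₀} = Fintype.card F - 1 := by
  rw [← Fintype.card_units, ← Nat.card_eq_fintype_card]
  symm
  refine Nat.card_congr (Equiv.ofBijective
    (fun a : Fˣ => ⟨(a : F) • stdVec i₀, smul_ne_zero a.ne_zero (stdVec_ne_zero i₀), a, rfl⟩)
    ⟨?_, ?_⟩)
  · intro a b hab
    have h1 := congrFun (congrArg Subtype.val hab) i₀
    simp [stdVec] at h1
    exact Units.ext h1
  · rintro ⟨v, hv, a, rfl⟩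
    have ha : a ≠ 0 := by
      rintro rfl
      simp at hv
    exact ⟨Units.mk0 a ha, rfl⟩

theorem natCard_lineStab (hm : 1 < Fintype.card m) (i₀ : m) :
    Nat.card (lineStab F i₀) =
      Nat.card {x : Matrix.SpecialLinearGroup m F // x.1 *ᵥ stdVec i₀ = (stdVec i₀ : m → F)} *
        (Fintype.card F - 1) := by
  rw [← natCard_line_units i₀, ← natCard_orbit_pred hm i₀ _ (fun v hv => hv.1)]
  refine Nat.card_congr (Equiv.subtypeEquivRight ?_)
  intro x
  rw [mem_lineStab]
  exact ⟨fun h => ⟨sl_mulVec_ne_zero x (stdVec_ne_zero i₀), h⟩, fun h => h.2⟩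

theorem natCard_fix_conj (hm : 1 < Fintype.card m) (i₀ : m) (g : Matrix.SpecialLinearGroup m F) :
    Nat.card {x : Matrix.SpecialLinearGroup m F //
        g.1 *ᵥ (x.1 *ᵥ stdVec i₀) = x.1 *ᵥ stdVec i₀} =
      Nat.card {x : Matrix.SpecialLinearGroup m F // x.1 *ᵥ stdVec i₀ = (stdVec i₀ : m → F)} *
        Nat.card {v : m → F // v ≠ 0 ∧ g.1 *ᵥ v = v} := by
  rw [← natCard_orbit_pred hm i₀ _ (fun v hv => hv.1)]
  refine Nat.card_congr (Equiv.subtypeEquivRight ?_)
  intro x
  exact ⟨fun h => ⟨sl_mulVec_ne_zero x (stdVec_ne_zero i₀), h⟩, fun h => h.2⟩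

theorem card_mulChar [Fintype (MulChar F ℂ)] :
    Fintype.card (MulChar F ℂ) = Fintype.card F - 1 := by
  haveI : NeZero ((Monoid.exponent Fˣ : ℕ) : ℂ) :=
    ⟨by exact_mod_cast Monoid.exponent_ne_zero_of_finite⟩
  rw [← Nat.card_eq_fintype_card, MulChar.card_eq_card_units_of_hasEnoughRootsOfUnity,
    Nat.card_eq_fintype_card, Fintype.card_units]

theorem sum_mulChar [Fintype (MulChar F ℂ)] (a : F) :
    ∑ θ : MulChar F ℂ, θ a = if a = 1 then ((Fintype.card F - 1 : ℕ) : ℂ) else 0 := by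
  haveI : NeZero ((Monoid.exponent Fˣ : ℕ) : ℂ) :=
    ⟨by exact_mod_cast Monoid.exponent_ne_zero_of_finite⟩
  split_ifs with ha
  · subst ha
    simp [card_mulChar]
  · obtain ⟨χ, hχ⟩ := MulChar.exists_apply_ne_one_of_hasEnoughRootsOfUnity F ℂ ha
    refine eq_zero_of_mul_eq_self_left hχ ?_
    simp only [Finset.mul_sum, ← MulChar.mul_apply]
    exact Fintype.sum_bijective _ (Group.mulLeft_bijective χ) _ _ fun χ' ↦ rfl

/-- The character of `SL_m(F)` induced from the linear character `θ ∘ λ` of the line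
stabiliser. -/
noncomputable def lineChar (i₀ : m) (θ : MulChar F ℂ) : Matrix.SpecialLinearGroup m F → ℂ :=
  Cfsg.indFun (lineStab F i₀) (fun b => lineLin i₀ θ b)

theorem lineChar_isCharacter (i₀ : m) (θ : MulChar F ℂ) :
    Cfsg.IsCharacter (Matrix.SpecialLinearGroup m F) (lineChar i₀ θ) :=
  Cfsg.Agent.Helper3.isCharacter_indFun _ _ (lineLin_isCharacter i₀ θ)

theorem lineChar_apply (i₀ : m) (θ : MulChar F ℂ) (g : Matrix.SpecialLinearGroup m F) :
    lineChar i₀ θ g = (Nat.card (lineStab F i₀) : ℂ)⁻¹ *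
      ∑ x : Matrix.SpecialLinearGroup m F, ∑ a : F,
        if g.1 *ᵥ (x.1 *ᵥ stdVec i₀) = a • (x.1 *ᵥ stdVec i₀) then θ a else 0 := by
  unfold lineChar Cfsg.indFun
  congr 1
  apply Finset.sum_congr rfl
  intro x _
  exact extendByZero_lineLin i₀ θ g x

/-- The sum of the `lineChar θ` over all multiplicative characters is the permutation character
on nonzero vectors. -/
theorem sum_lineChar [Fintype (MulChar F ℂ)] (hm : 1 < Fintype.card m) (i₀ : m)
    (g : Matrix.SpecialLinearGroup m F) :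
    ∑ θ : MulChar F ℂ, lineChar i₀ θ g =
      (Nat.card {v : m → F // v ≠ 0 ∧ g.1 *ᵥ v = v} : ℂ) := by
  simp only [lineChar_apply]
  rw [← Finset.mul_sum, Finset.sum_comm]
  have h1 : ∀ x : Matrix.SpecialLinearGroup m F, ∑ θ : MulChar F ℂ, ∑ a : F,
      (if g.1 *ᵥ (x.1 *ᵥ stdVec i₀) = a • (x.1 *ᵥ stdVec i₀) then θ a else 0)
      = if g.1 *ᵥ (x.1 *ᵥ stdVec i₀) = x.1 *ᵥ stdVec i₀ then
          ((Fintype.card F - 1 : ℕ) : ℂ) else 0 := by
    intro x
    rw [Finset.sum_comm]
    have h2 : ∀ a : F, ∑ θ : MulChar F ℂ,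
        (if g.1 *ᵥ (x.1 *ᵥ stdVec i₀) = a • (x.1 *ᵥ stdVec i₀) then θ a else 0)
        = if a = 1 then (if g.1 *ᵥ (x.1 *ᵥ stdVec i₀) = x.1 *ᵥ stdVec i₀ then
          ((Fintype.card F - 1 : ℕ) : ℂ) else 0) else 0 := by
      intro a
      by_cases ha : a = 1
      · subst ha
        rw [if_pos rfl, one_smul]
        split_ifs with h
        · rw [sum_mulChar, if_pos rfl]
        · simp
      · rw [if_neg ha]
        split_ifs with h
        · rw [sum_mulChar, if_neg ha]
        · simp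
    simp only [h2]
    rw [Finset.sum_ite_eq' Finset.univ (1 : F), if_pos (Finset.mem_univ _)]
  simp only [h1]
  rw [Finset.sum_ite, Finset.sum_const_zero, add_zero, Finset.sum_const, nsmul_eq_mul,
    ← Fintype.card_subtype, ← Nat.card_eq_fintype_card, natCard_fix_conj hm i₀ g,
    natCard_lineStab hm i₀]
  have hN := natCard_stab_pos (F := F) i₀
  have hq : 0 < Fintype.card F - 1 := by
    have := Fintype.one_lt_card (α := F)
    omega
  have hN' : (Nat.card {x : Matrix.SpecialLinearGroup m F //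
      x.1 *ᵥ stdVec i₀ = (stdVec i₀ : m → F)} : ℂ) ≠ 0 := by exact_mod_cast hN.ne'
  have hq' : ((Fintype.card F - 1 : ℕ) : ℂ) ≠ 0 := by exact_mod_cast hq.ne'
  push_cast
  field_simp

end Count

section Norm

variable {F : Type*} [Field F] [Fintype F] [DecidableEq F] {m : Type*} [Fintype m] [DecidableEq m]

/-- The nonzero vectors of `F^m`. -/
abbrev NZVec (F : Type*) [Field F] (m : Type*) : Type _ := {v : m → F // v ≠ 0}

instance nzVecMulAction : MulAction (Matrix.SpecialLinearGroup m F) (NZVec F m) where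
  smul g v := ⟨g.1 *ᵥ v.1, sl_mulVec_ne_zero g v.2⟩
  one_smul v := Subtype.ext (by
    change (1 : Matrix.SpecialLinearGroup m F).1 *ᵥ v.1 = v.1
    rw [Matrix.SpecialLinearGroup.coe_one, Matrix.one_mulVec])
  mul_smul g h v := Subtype.ext (by
    change (g * h : Matrix.SpecialLinearGroup m F).1 *ᵥ v.1 = g.1 *ᵥ (h.1 *ᵥ v.1)
    rw [Matrix.SpecialLinearGroup.coe_mul, Matrix.mulVec_mulVec])

theorem nzVec_smul_val (g : Matrix.SpecialLinearGroup m F) (v : NZVec F m) :
    (g • v).1 = g.1 *ᵥ v.1 := rfl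

theorem natCard_fixedBy_pair (g : Matrix.SpecialLinearGroup m F) :
    Nat.card (MulAction.fixedBy (NZVec F m × NZVec F m) g) =
      Nat.card {v : m → F // v ≠ 0 ∧ g.1 *ᵥ v = v} *
        Nat.card {v : m → F // v ≠ 0 ∧ g.1 *ᵥ v = v} := by
  rw [← Nat.card_prod]
  refine Nat.card_congr ?_
  exact
    { toFun := fun p => (⟨p.1.1.1, p.1.1.2, congrArg Subtype.val (congrArg Prod.fst p.2)⟩,
        ⟨p.1.2.1, p.1.2.2, congrArg Subtype.val (congrArg Prod.snd p.2)⟩)
      invFun := fun q => ⟨(⟨q.1.1, q.1.2.1⟩, ⟨q.2.1, q.2.2.1⟩),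
        Prod.ext (Subtype.ext q.1.2.2) (Subtype.ext q.2.2.2)⟩
      left_inv := fun p => rfl
      right_inv := fun q => rfl }

/-- The ratio `c` with `w = c • v`, or `0` if `v, w` are independent: a complete invariant
of the orbits of `SL_m(F)` (`|m| ≥ 3`) on pairs of nonzero vectors. -/
noncomputable def ratio (p : NZVec F m × NZVec F m) : F :=
  open Classical in if h : ∃ c : F, p.2.1 = c • p.1.1 then h.choose else 0

theorem ratio_of_eq (p : NZVec F m × NZVec F m) (c : F) (h : p.2.1 = c • p.1.1) :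
    ratio p = c := by
  have hex : ∃ c : F, p.2.1 = c • p.1.1 := ⟨c, h⟩
  unfold ratio
  rw [dif_pos hex]
  have h1 := hex.choose_spec
  have h2 : (hex.choose - c) • p.1.1 = 0 := by rw [sub_smul, ← h1, ← h, sub_self]
  rcases smul_eq_zero.mp h2 with h3 | h3
  · exact sub_eq_zero.mp h3
  · exact absurd h3 p.1.2

theorem ratio_of_not (p : NZVec F m × NZVec F m) (h : ¬∃ c : F, p.2.1 = c • p.1.1) :
    ratio p = 0 := by
  unfold ratio
  rw [dif_neg h]

theorem ratio_ne_zero (p : NZVec F m × NZVec F m) (c : F) (h : p.2.1 = c • p.1.1) : c ≠ 0 := by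
  rintro rfl
  rw [zero_smul] at h
  exact p.2.2 h

theorem ratio_smul (g : Matrix.SpecialLinearGroup m F) (p : NZVec F m × NZVec F m) :
    ratio (g • p) = ratio p := by
  by_cases h : ∃ c : F, p.2.1 = c • p.1.1
  · obtain ⟨c, hc⟩ := h
    rw [ratio_of_eq p c hc]
    apply ratio_of_eq
    change g.1 *ᵥ p.2.1 = c • (g.1 *ᵥ p.1.1)
    rw [hc, Matrix.mulVec_smul]
  · rw [ratio_of_not p h]
    apply ratio_of_not
    rintro ⟨c, hc⟩
    apply h
    refine ⟨c, ?_⟩
    have hc' : g.1 *ᵥ p.2.1 = c • (g.1 *ᵥ p.1.1) := hc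
    rw [← Matrix.mulVec_smul] at hc'
    exact sl_mulVec_injective g hc'

theorem exists_smul_of_ratio_eq (hm : 2 < Fintype.card m) (p p' : NZVec F m × NZVec F m)
    (h : ratio p = ratio p') : ∃ g : Matrix.SpecialLinearGroup m F, g • p = p' := by
  by_cases h1 : ∃ c : F, p.2.1 = c • p.1.1
  · obtain ⟨c, hc⟩ := h1
    have hc0 := ratio_ne_zero p c hc
    rw [ratio_of_eq p c hc] at h
    have h2 : ∃ c' : F, p'.2.1 = c' • p'.1.1 := by
      by_contra hcon
      rw [ratio_of_not p' hcon] at h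
      exact hc0 h
    obtain ⟨c', hc'⟩ := h2
    rw [ratio_of_eq p' c' hc'] at h
    subst h
    obtain ⟨g, hg⟩ := exists_sl_mulVec_eq (by omega) p.1.2 p'.1.2
    refine ⟨g, Prod.ext (Subtype.ext hg) (Subtype.ext ?_)⟩
    change g.1 *ᵥ p.2.1 = p'.2.1
    rw [hc, Matrix.mulVec_smul, hg, hc']
  · have h2 : ¬∃ c' : F, p'.2.1 = c' • p'.1.1 := by
      rintro ⟨c', hc'⟩
      rw [ratio_of_not p h1, ratio_of_eq p' c' hc'] at h
      exact ratio_ne_zero p' c' hc' h.symm
    have hi : LinearIndependent F ![p.1.1, p.2.1] :=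
      (LinearIndependent.pair_iff' p.1.2).mpr (fun a ha => h1 ⟨a, ha.symm⟩)
    have hi' : LinearIndependent F ![p'.1.1, p'.2.1] :=
      (LinearIndependent.pair_iff' p'.1.2).mpr (fun a ha => h2 ⟨a, ha.symm⟩)
    obtain ⟨g, hg1, hg2⟩ := exists_sl_mulVec_pair hm hi hi'
    exact ⟨g, Prod.ext (Subtype.ext hg1) (Subtype.ext hg2)⟩

theorem ratio_surjective (hm : 1 < Fintype.card m) :
    Function.Surjective (ratio : NZVec F m × NZVec F m → F) := by
  intro c
  obtain ⟨i₀, i₁, hne⟩ := Fintype.exists_pair_of_one_lt_card hm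
  by_cases hc : c = 0
  · subst hc
    refine ⟨(⟨stdVec i₀, stdVec_ne_zero i₀⟩, ⟨stdVec i₁, stdVec_ne_zero i₁⟩), ratio_of_not _ ?_⟩
    rintro ⟨c, hc⟩
    have := congrFun hc i₁
    simp [stdVec, hne.symm] at this
  · exact ⟨(⟨stdVec i₀, stdVec_ne_zero i₀⟩, ⟨c • stdVec i₀, smul_ne_zero hc (stdVec_ne_zero i₀)⟩),
      ratio_of_eq _ c rfl⟩

theorem natCard_orbits_pair (hm : 2 < Fintype.card m) :
    Nat.card (MulAction.orbitRel.Quotient (Matrix.SpecialLinearGroup m F)
      (NZVec F m × NZVec F m)) = Fintype.card F := by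
  rw [← Nat.card_eq_fintype_card]
  refine Nat.card_congr (Equiv.ofBijective (Quotient.lift ratio ?_) ⟨?_, ?_⟩)
  · intro a b hab
    obtain ⟨g, rfl⟩ := MulAction.orbitRel_apply.mp hab
    exact ratio_smul g b
  · intro x y
    induction x using Quotient.inductionOn with
    | _ a =>
      induction y using Quotient.inductionOn with
      | _ b =>
        intro h
        apply Quotient.sound
        obtain ⟨g, hg⟩ := exists_smul_of_ratio_eq hm b a h.symm
        exact MulAction.orbitRel_apply.mpr ⟨g, hg⟩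
  · intro c
    obtain ⟨p, hp⟩ := ratio_surjective (F := F) (m := m) (by omega) c
    exact ⟨Quotient.mk _ p, hp⟩

/-- The permutation character of `SL_m(F)` on nonzero vectors. -/
noncomputable def fixChar (F : Type*) [Field F] [Fintype F] [DecidableEq F] (m : Type*)
    [Fintype m] [DecidableEq m] : Matrix.SpecialLinearGroup m F → ℂ :=
  fun g => (Nat.card {v : m → F // v ≠ 0 ∧ g.1 *ᵥ v = v} : ℂ)

/-- The permutation character on nonzero vectors has norm `|F|` (rank of the action). -/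
theorem classInner_fixChar (hm : 2 < Fintype.card m) :
    Cfsg.classInner (fixChar F m) (fixChar F m) = (Fintype.card F : ℂ) := by
  unfold Cfsg.classInner
  have h1 : ∀ g : Matrix.SpecialLinearGroup m F, fixChar F m g * conj (fixChar F m g) =
      ((Nat.card (MulAction.fixedBy (NZVec F m × NZVec F m) g) : ℕ) : ℂ) := by
    intro g
    rw [natCard_fixedBy_pair]
    unfold fixChar
    rw [Complex.conj_natCast]
    push_cast
    rfl
  simp only [h1]
  rw [← Nat.cast_sum, Cfsg.Agent.Helper59.burnside_nat, natCard_orbits_pair hm]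
  push_cast
  have hG : (Nat.card (Matrix.SpecialLinearGroup m F) : ℂ) ≠ 0 := by
    exact_mod_cast Nat.card_pos.ne'
  field_simp

end Norm

section Assembly

variable {F : Type*} [Field F] [Fintype F] [DecidableEq F] {m : Type*} [Fintype m] [DecidableEq m]

theorem classInner_sub_left {G : Type*} [Group G] [Fintype G] (a b c : G → ℂ) :
    Cfsg.classInner (a - b) c = Cfsg.classInner a c - Cfsg.classInner b c := by
  unfold Cfsg.classInner
  rw [← mul_sub, ← Finset.sum_sub_distrib]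
  congr 1
  apply Finset.sum_congr rfl
  intro g _
  rw [Pi.sub_apply, sub_mul]

/-- Removing an irreducible constituent from a character leaves a character. -/
theorem isCharacter_sub_irr {G : Type*} [Group G] [Fintype G] {χ ψ : G → ℂ}
    (hχ : Cfsg.IsCharacter G χ) (hψ : Cfsg.IsIrrCharacter G ψ)
    (h : Cfsg.classInner χ ψ ≠ 0) : Cfsg.IsCharacter G (χ - ψ) := by
  classical
  apply Cfsg.Agent.Helper3.isCharacter_of_classInner_nat
  · intro g k
    have h1 := Cfsg.Agent.Helper79.isCharacter_isClassFunction hχ g k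
    have h2 := Cfsg.Agent.Helper79.isCharacter_isClassFunction
      (Cfsg.Agent.Helper79.isCharacter_of_irr hψ) g k
    simp only [Pi.sub_apply, h1, h2]
  · intro χ'
    rw [classInner_sub_left]
    obtain ⟨n, hn⟩ := Cfsg.Agent.Helper15.inner_nat hχ (Cfsg.Agent.Helper15.isChar_of_irr χ'.2)
    by_cases he : ψ = χ'.1
    · have h1 := Cfsg.Agent.Helper15.irr_inner_self hψ
      rw [← he] at hn ⊢
      rw [hn] at h ⊢
      rw [h1]
      have hn0 : n ≠ 0 := by
        rintro rfl
        simp at h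
      refine ⟨n - 1, ?_⟩
      rw [Nat.cast_sub (by omega)]
      simp
    · rw [Cfsg.Agent.Helper15.irr_inner_ne hψ χ'.2 he, sub_zero]
      exact ⟨n, hn⟩

theorem lineChar_one (i₀ : m) (θ : MulChar F ℂ) :
    lineChar i₀ θ 1 = (Nat.card (Matrix.SpecialLinearGroup m F) : ℂ) /
      (Nat.card (lineStab F i₀) : ℂ) := by
  rw [lineChar_apply]
  have h1 : ∀ x : Matrix.SpecialLinearGroup m F, ∑ a : F,
      (if (1 : Matrix.SpecialLinearGroup m F).1 *ᵥ (x.1 *ᵥ stdVec i₀) = a • (x.1 *ᵥ stdVec i₀)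
        then θ a else 0) = 1 := by
    intro x
    rw [Finset.sum_eq_single (1 : F)]
    · simp
    · intro b _ hb
      rw [if_neg]
      intro h
      rw [Matrix.SpecialLinearGroup.coe_one, Matrix.one_mulVec] at h
      have h3 : (1 - b) • (x.1 *ᵥ (stdVec i₀ : m → F)) = 0 := by
        rw [sub_smul, one_smul, ← h, sub_self]
      rcases smul_eq_zero.mp h3 with h4 | h4
      · exact hb (sub_eq_zero.mp h4).symm
      · exact sl_mulVec_ne_zero x (stdVec_ne_zero i₀) h4
    · intro h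
      exact absurd (Finset.mem_univ _) h
  simp only [h1]
  rw [Finset.sum_const, Finset.card_univ, nsmul_eq_mul, mul_one,
    ← Nat.card_eq_fintype_card, div_eq_inv_mul]

theorem lineStab_ne_top (hm : 1 < Fintype.card m) (i₀ : m) : lineStab F i₀ ≠ ⊤ := by
  intro htop
  obtain ⟨i₁, hne⟩ : ∃ i₁, i₁ ≠ i₀ := Fintype.exists_ne_of_one_lt_card hm i₀
  obtain ⟨g, hg⟩ := exists_sl_mulVec_eq hm (stdVec_ne_zero i₀) (stdVec_ne_zero (F := F) i₁)
  have hmem : g ∈ lineStab F i₀ := by
    rw [htop]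
    trivial
  obtain ⟨a, ha⟩ := hmem
  rw [hg] at ha
  have := congrFun ha i₁
  simp [stdVec, hne] at this

theorem lineChar_one_ne_zero (i₀ : m) (θ : MulChar F ℂ) : lineChar i₀ θ 1 ≠ 0 := by
  rw [lineChar_one]
  have h1 : (Nat.card (Matrix.SpecialLinearGroup m F) : ℂ) ≠ 0 := by
    exact_mod_cast Nat.card_pos.ne'
  have h2 : (Nat.card (lineStab F i₀) : ℂ) ≠ 0 := by
    exact_mod_cast Nat.card_pos.ne'
  exact div_ne_zero h1 h2

theorem lineChar_one_ne_one (hm : 1 < Fintype.card m) (i₀ : m) (θ : MulChar F ℂ) :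
    lineChar i₀ θ 1 ≠ 1 := by
  rw [lineChar_one]
  have h2 : (Nat.card (lineStab F i₀) : ℂ) ≠ 0 := by
    exact_mod_cast Nat.card_pos.ne'
  intro h
  rw [div_eq_one_iff_eq h2] at h
  have h3 : Nat.card (lineStab F i₀) = Nat.card (Matrix.SpecialLinearGroup m F) := by
    exact_mod_cast h.symm
  exact lineStab_ne_top hm i₀ ((Subgroup.card_eq_iff_eq_top _).mp h3)

theorem classInner_lineChar_one (i₀ : m) :
    Cfsg.classInner (lineChar i₀ (1 : MulChar F ℂ)) (fun _ => (1 : ℂ)) = 1 := by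
  classical
  letI : Fintype (lineStab F i₀) := Fintype.ofFinite _
  unfold lineChar
  rw [Cfsg.Agent.Helper3.frobenius_reciprocity _ _ _ (fun g h => rfl)]
  unfold Cfsg.classInner
  have h1 : ∀ b : lineStab F i₀, lineLin i₀ (1 : MulChar F ℂ) b * conj (1 : ℂ) = 1 := by
    intro b
    have hb : b.1.1 i₀ i₀ ≠ 0 := by
      intro h0
      have h2 := lineStab_mulVec b.2
      rw [h0, zero_smul] at h2
      exact sl_mulVec_ne_zero b.1 (stdVec_ne_zero i₀) h2
    rw [lineLin_apply, MulChar.one_apply (isUnit_iff_ne_zero.mpr hb), map_one, mul_one]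
  simp only [h1]
  rw [Finset.sum_const, Finset.card_univ, nsmul_eq_mul, mul_one, ← Nat.card_eq_fintype_card]
  have h2 : (Nat.card (lineStab F i₀) : ℂ) ≠ 0 := by
    exact_mod_cast Nat.card_pos.ne'
  exact inv_mul_cancel₀ h2

/-- The permutation character of `SL_m(F)` (`|m| ≥ 3`) on nonzero vectors is the principal
character plus `|F| - 1` pairwise distinct irreducible characters. -/
theorem exists_irr_family (hm : 2 < Fintype.card m) :
    ∃ χ : Fin (Fintype.card F - 1) → (Matrix.SpecialLinearGroup m F → ℂ),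
      (∀ i, Cfsg.IsIrrCharacter (Matrix.SpecialLinearGroup m F) (χ i)) ∧ Function.Injective χ ∧
      ∀ g : Matrix.SpecialLinearGroup m F,
        (Nat.card {v : m → F // v ≠ 0 ∧ g.1 *ᵥ v = v} : ℂ) = 1 + ∑ i, χ i g := by
  classical
  letI : Fintype (MulChar F ℂ) := Fintype.ofFinite _
  obtain ⟨i₀⟩ : Nonempty m := Fintype.card_pos_iff.mp (by omega)
  let ρ : Option (MulChar F ℂ) → Matrix.SpecialLinearGroup m F → ℂ := fun o =>
    match o with
    | none => fun _ => 1
    | some θ => if θ = 1 then lineChar i₀ θ - (fun _ => 1) else lineChar i₀ θ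
  have hρn : ρ none = fun _ => 1 := rfl
  have hρ1 : ρ (some 1) = lineChar i₀ 1 - (fun _ => 1) := if_pos rfl
  have hρθ : ∀ θ : MulChar F ℂ, θ ≠ 1 → ρ (some θ) = lineChar i₀ θ := fun θ hθ => if_neg hθ
  have hone_irr : Cfsg.IsIrrCharacter (Matrix.SpecialLinearGroup m F) (fun _ => (1 : ℂ)) := by
    have := Cfsg.Agent.Helper79.isIrrCharacter_of_hom (1 : Matrix.SpecialLinearGroup m F →* ℂˣ)
    simpa using this
  have hρ : ∀ o, Cfsg.IsCharacter (Matrix.SpecialLinearGroup m F) (ρ o) := by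
    intro o
    cases o with
    | none => exact Cfsg.Agent.Helper79.isCharacter_one
    | some θ =>
      by_cases hθ : θ = 1
      · subst hθ
        rw [hρ1]
        apply isCharacter_sub_irr (lineChar_isCharacter i₀ 1) hone_irr
        rw [classInner_lineChar_one]
        exact one_ne_zero
      · rw [hρθ θ hθ]
        exact lineChar_isCharacter i₀ θ
  have hne : ∀ o, ρ o ≠ 0 := by
    intro o
    cases o with
    | none =>
      intro h
      have := congrFun h 1
      rw [hρn] at this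
      simp at this
    | some θ =>
      by_cases hθ : θ = 1
      · subst hθ
        intro h
        have := congrFun h 1
        rw [hρ1] at this
        simp only [Pi.sub_apply, Pi.zero_apply] at this
        exact lineChar_one_ne_one (by omega) i₀ 1 (sub_eq_zero.mp this)
      · intro h
        have := congrFun h 1
        rw [hρθ θ hθ] at this
        exact lineChar_one_ne_zero i₀ θ this
  have hsum : ∀ g, ρ none g + ∑ θ : MulChar F ℂ, ρ (some θ) g = fixChar F m g := by
    intro g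
    have h1 : ∀ θ : MulChar F ℂ, ρ (some θ) g = lineChar i₀ θ g - (if θ = 1 then 1 else 0) := by
      intro θ
      by_cases hθ : θ = 1
      · subst hθ
        rw [hρ1, if_pos rfl]
        rfl
      · rw [hρθ θ hθ, if_neg hθ, sub_zero]
    simp only [h1]
    rw [Finset.sum_sub_distrib, sum_lineChar (by omega) i₀ g,
      Finset.sum_ite_eq' Finset.univ (1 : MulChar F ℂ), if_pos (Finset.mem_univ _), hρn]
    unfold fixChar
    ring
  have hsum' : ∑ o, ρ o = fixChar F m := by
    funext g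
    rw [Finset.sum_apply, Fintype.sum_option]
    exact hsum g
  have hnorm : Cfsg.classInner (∑ o, ρ o) (∑ o, ρ o) =
      (Fintype.card (Option (MulChar F ℂ)) : ℂ) := by
    rw [hsum', classInner_fixChar hm, Fintype.card_option, card_mulChar]
    have := Fintype.one_lt_card (α := F)
    congr 1
    omega
  obtain ⟨hirr, hinj⟩ := irr_of_sum_inner ρ hρ hne hnorm
  let e : Fin (Fintype.card F - 1) ≃ MulChar F ℂ := (Fintype.equivFinOfCardEq card_mulChar).symm
  refine ⟨fun i => ρ (some (e i)), fun i => hirr (some (e i)), ?_, ?_⟩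
  · intro i j hij
    exact e.injective (Option.some_injective _ (hinj hij))
  · intro g
    have h2 := hsum g
    rw [hρn] at h2
    rw [Equiv.sum_comp e (fun θ => ρ (some θ) g)]
    exact h2.symm

end Assembly

end Cfsg.Agent.Helper38
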