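import Mathlib
import Cfsg.Agent.Helper13.TvCalc

/-!
# Regular unipotent elements of `SL_3(F)`: basic calculus (helper38)

`mU a b c` is the upper unitriangular matrix with entries `a`, `b` above the diagonal and `c` in
the corner.  `ru3_G1`, `ru3_G2` produce the elementary matrices `T_{10}`, `T_{21}` from `T_{20}`
and a regular unipotent upper triangular element; `ru3_top_of_long` says that a subgroup
containing the two opposite long root subgroups `T_{02}`, `T_{20}` and one regular unipotent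
upper triangular matrix is all of `SL_3(F)`.
-/

set_option autoImplicit false
set_option linter.unusedSimpArgs false
set_option linter.unusedSectionVars false
set_option linter.unusedVariables false
set_option linter.unreachableTactic false
set_option linter.unusedTactic false
set_option linter.unnecessarySeqFocus false

namespace Cfsg.Agent.Helper38

open Matrix Cfsg.Agent.Helper13

section ru3base
variable {F : Type*} [Field F]

/-- the upper unitriangular matrix `[[1,a,c],[0,1,b],[0,0,1]]`. -/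
def mU (a b c : F) : Matrix (Fin 3) (Fin 3) F := !![1, a, c; 0, 1, b; 0, 0, 1]

theorem ru3_tv02 (t : F) : Matrix.transvection (0 : Fin 3) 2 t = !![1, 0, t; 0, 1, 0; 0, 0, 1] := by
  ext i j
  fin_cases i <;> fin_cases j <;> simp [Matrix.transvection, Matrix.single_apply]

theorem ru3_tv20 (t : F) : Matrix.transvection (2 : Fin 3) 0 t = !![1, 0, 0; 0, 1, 0; t, 0, 1] := by
  ext i j
  fin_cases i <;> fin_cases j <;> simp [Matrix.transvection, Matrix.single_apply]

theorem ru3_tv10 (t : F) : Matrix.transvection (1 : Fin 3) 0 t = !![1, 0, 0; t, 1, 0; 0, 0, 1] := by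
  ext i j
  fin_cases i <;> fin_cases j <;> simp [Matrix.transvection, Matrix.single_apply]

theorem ru3_tv21 (t : F) : Matrix.transvection (2 : Fin 3) 1 t = !![1, 0, 0; 0, 1, 0; 0, t, 1] := by
  ext i j
  fin_cases i <;> fin_cases j <;> simp [Matrix.transvection, Matrix.single_apply]

theorem ru3_mU_det (a b c : F) : (mU a b c).det = 1 := by
  unfold mU
  rw [Matrix.det_fin_three]
  simp

/-- the conjugate of `T_{20}(s)` by `mU a b 0`. -/
def tauA (a b s : F) : Matrix (Fin 3) (Fin 3) F :=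
  !![1, 0, 0; s * b, 1 - s * a * b, s * a * b * b; s, -(s * a), 1 + s * a * b]

/-- the conjugate of `T_{20}(s)` by `mU a b (a b)`. -/
def tauB (a b s : F) : Matrix (Fin 3) (Fin 3) F :=
  !![1 + s * a * b, -(s * a * a * b), 0; s * b, 1 - s * a * b, 0; s, -(s * a), 1]

theorem ru3_tauA_conj (a b s : F) :
    mU a b 0 * Matrix.transvection (2 : Fin 3) 0 s = tauA a b s * mU a b 0 := by
  rw [ru3_tv20]
  ext i j
  fin_cases i <;> fin_cases j <;>
    simp [Matrix.mul_apply, Fin.sum_univ_three, mU, tauA] <;> ring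

theorem ru3_tauB_conj (a b s : F) :
    mU a b (a * b) * Matrix.transvection (2 : Fin 3) 0 s = tauB a b s * mU a b (a * b) := by
  rw [ru3_tv20]
  ext i j
  fin_cases i <;> fin_cases j <;>
    simp [Matrix.mul_apply, Fin.sum_univ_three, mU, tauB] <;> ring

theorem ru3_tauA_det (a b s : F) : (tauA a b s).det = 1 := by
  unfold tauA
  rw [Matrix.det_fin_three]
  simp
  ring

theorem ru3_tauB_det (a b s : F) : (tauB a b s).det = 1 := by
  unfold tauB
  rw [Matrix.det_fin_three]
  simp
  ring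

theorem ru3_commA (a b s t : F) :
    Matrix.transvection (2 : Fin 3) 0 t * tauA a b s =
      Matrix.transvection (1 : Fin 3) 0 (-(a * b * b * s * t)) *
        Matrix.transvection (2 : Fin 3) 0 (-(a * b * s * t)) * tauA a b s *
        Matrix.transvection (2 : Fin 3) 0 t := by
  rw [ru3_tv20, ru3_tv20, ru3_tv10]
  ext i j
  fin_cases i <;> fin_cases j <;>
    simp [Matrix.mul_apply, Fin.sum_univ_three, tauA] <;> ring

theorem ru3_commB (a b s t : F) :
    tauB a b s * Matrix.transvection (2 : Fin 3) 0 t =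
      Matrix.transvection (2 : Fin 3) 1 (a * a * b * s * t) *
        Matrix.transvection (2 : Fin 3) 0 (-(a * b * s * t)) *
        Matrix.transvection (2 : Fin 3) 0 t * tauB a b s := by
  rw [ru3_tv20, ru3_tv20, ru3_tv21]
  ext i j
  fin_cases i <;> fin_cases j <;>
    simp [Matrix.mul_apply, Fin.sum_univ_three, tauB] <;> ring

theorem ru3_ne20 : (2 : Fin 3) ≠ 0 := by decide
theorem ru3_ne02 : (0 : Fin 3) ≠ 2 := by decide
theorem ru3_ne10 : (1 : Fin 3) ≠ 0 := by decide
theorem ru3_ne01 : (0 : Fin 3) ≠ 1 := by decide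
theorem ru3_ne21 : (2 : Fin 3) ≠ 1 := by decide
theorem ru3_ne12 : (1 : Fin 3) ≠ 2 := by decide

variable {H : Subgroup (Matrix.SpecialLinearGroup (Fin 3) F)}

/-- from `mU a b 0` and three elements `T_{20}` we get an element `T_{10}`. -/
theorem ru3_G1 {a b s t : F} (u : Matrix.SpecialLinearGroup (Fin 3) F) (hu : u ∈ H)
    (hu1 : u.1 = mU a b 0) (hs : TvAt H (2 : Fin 3) 0 s) (ht : TvAt H (2 : Fin 3) 0 t)
    (hst : TvAt H (2 : Fin 3) 0 (a * b * s * t)) :
    TvAt H (1 : Fin 3) 0 (-(a * b * b * s * t)) := by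
  obtain ⟨τ, hτ⟩ : ∃ τ : Matrix.SpecialLinearGroup (Fin 3) F, τ.1 = tauA a b s :=
    ⟨⟨_, ru3_tauA_det a b s⟩, rfl⟩
  have hτH : τ ∈ H := by
    have e : u * Matrix.SpecialLinearGroup.transvection ru3_ne20 s * u⁻¹ = τ := by
      apply sl_conj_eq_of
      show u.1 * Matrix.transvection (2 : Fin 3) 0 s = τ.1 * u.1
      rw [hu1, hτ]
      exact ru3_tauA_conj a b s
    rw [← e]
    exact mul_mem (mul_mem hu (hs.mem ru3_ne20)) (inv_mem hu)
  apply tvAt_of_mem' ru3_ne10
  have e : Matrix.SpecialLinearGroup.transvection ru3_ne20 t * τ =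
      Matrix.SpecialLinearGroup.transvection ru3_ne10 (-(a * b * b * s * t)) *
        Matrix.SpecialLinearGroup.transvection ru3_ne20 (-(a * b * s * t)) * τ *
        Matrix.SpecialLinearGroup.transvection ru3_ne20 t := by
    apply Subtype.ext
    show Matrix.transvection (2 : Fin 3) 0 t * τ.1 =
      Matrix.transvection (1 : Fin 3) 0 (-(a * b * b * s * t)) *
        Matrix.transvection (2 : Fin 3) 0 (-(a * b * s * t)) * τ.1 *
        Matrix.transvection (2 : Fin 3) 0 t
    rw [hτ]
    exact ru3_commA a b s t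
  have e2 : Matrix.SpecialLinearGroup.transvection ru3_ne10 (-(a * b * b * s * t)) =
      Matrix.SpecialLinearGroup.transvection ru3_ne20 t * τ *
        (Matrix.SpecialLinearGroup.transvection ru3_ne20 t)⁻¹ * τ⁻¹ *
        (Matrix.SpecialLinearGroup.transvection ru3_ne20 (-(a * b * s * t)))⁻¹ := by
    rw [e]
    group
  rw [e2]
  exact mul_mem (mul_mem (mul_mem (mul_mem (ht.mem ru3_ne20) hτH) (inv_mem (ht.mem ru3_ne20)))
    (inv_mem hτH)) (inv_mem ((hst.neg ru3_ne20).mem ru3_ne20))

/-- from `mU a b (a b)` and three elements `T_{20}` we get an element `T_{21}`. -/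
theorem ru3_G2 {a b s t : F} (u : Matrix.SpecialLinearGroup (Fin 3) F) (hu : u ∈ H)
    (hu1 : u.1 = mU a b (a * b)) (hs : TvAt H (2 : Fin 3) 0 s) (ht : TvAt H (2 : Fin 3) 0 t)
    (hst : TvAt H (2 : Fin 3) 0 (a * b * s * t)) :
    TvAt H (2 : Fin 3) 1 (a * a * b * s * t) := by
  obtain ⟨τ, hτ⟩ : ∃ τ : Matrix.SpecialLinearGroup (Fin 3) F, τ.1 = tauB a b s :=
    ⟨⟨_, ru3_tauB_det a b s⟩, rfl⟩
  have hτH : τ ∈ H := by
    have e : u * Matrix.SpecialLinearGroup.transvection ru3_ne20 s * u⁻¹ = τ := by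
      apply sl_conj_eq_of
      show u.1 * Matrix.transvection (2 : Fin 3) 0 s = τ.1 * u.1
      rw [hu1, hτ]
      exact ru3_tauB_conj a b s
    rw [← e]
    exact mul_mem (mul_mem hu (hs.mem ru3_ne20)) (inv_mem hu)
  apply tvAt_of_mem' ru3_ne21
  have e : τ * Matrix.SpecialLinearGroup.transvection ru3_ne20 t =
      Matrix.SpecialLinearGroup.transvection ru3_ne21 (a * a * b * s * t) *
        Matrix.SpecialLinearGroup.transvection ru3_ne20 (-(a * b * s * t)) *
        Matrix.SpecialLinearGroup.transvection ru3_ne20 t * τ := by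
    apply Subtype.ext
    show τ.1 * Matrix.transvection (2 : Fin 3) 0 t =
      Matrix.transvection (2 : Fin 3) 1 (a * a * b * s * t) *
        Matrix.transvection (2 : Fin 3) 0 (-(a * b * s * t)) *
        Matrix.transvection (2 : Fin 3) 0 t * τ.1
    rw [hτ]
    exact ru3_commB a b s t
  have e2 : Matrix.SpecialLinearGroup.transvection ru3_ne21 (a * a * b * s * t) =
      τ * Matrix.SpecialLinearGroup.transvection ru3_ne20 t * τ⁻¹ *
        (Matrix.SpecialLinearGroup.transvection ru3_ne20 t)⁻¹ *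
        (Matrix.SpecialLinearGroup.transvection ru3_ne20 (-(a * b * s * t)))⁻¹ := by
    rw [e]
    group
  rw [e2]
  exact mul_mem (mul_mem (mul_mem (mul_mem hτH (ht.mem ru3_ne20)) (inv_mem hτH))
    (inv_mem (ht.mem ru3_ne20))) (inv_mem ((hst.neg ru3_ne20).mem ru3_ne20))

theorem ru3_mU_mul_tv02 (a b c t : F) :
    mU a b c * Matrix.transvection (0 : Fin 3) 2 t = mU a b (c + t) := by
  rw [ru3_tv02]
  ext i j
  fin_cases i <;> fin_cases j <;>
    simp [Matrix.mul_apply, Fin.sum_univ_three, mU] <;> ring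

/-- a subgroup of `SL_3(F)` containing an element `mU a b c` and suitable elementary matrices
`T_{ij}` for all six positions is everything: reduction to six full positions. -/
theorem ru3_top_of_six (h02 : TvFull H (0 : Fin 3) 2) (h20 : TvFull H (2 : Fin 3) 0)
    (h10 : TvFull H (1 : Fin 3) 0) (h21 : TvFull H (2 : Fin 3) 1) : H = ⊤ := by
  have h01 : TvFull H (0 : Fin 3) 1 := TvFull.comp ru3_ne02 ru3_ne21 ru3_ne01 h02 h21
  have h12 : TvFull H (1 : Fin 3) 2 := TvFull.comp ru3_ne10 ru3_ne02 ru3_ne12 h10 h02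
  apply sl_top_of_tvFull
  intro i j hij
  fin_cases i <;> fin_cases j <;> first | exact absurd rfl hij | assumption

/-- a subgroup of `SL_3(F)` containing the two opposite long root subgroups and a regular
unipotent upper triangular matrix is everything. -/
theorem ru3_top_of_long {a b c : F} (ha : a ≠ 0) (hb : b ≠ 0)
    (u : Matrix.SpecialLinearGroup (Fin 3) F) (hu : u ∈ H) (hu1 : u.1 = mU a b c)
    (h02 : TvFull H (0 : Fin 3) 2) (h20 : TvFull H (2 : Fin 3) 0) : H = ⊤ := by
  obtain ⟨u0, hu0⟩ : ∃ u0 : Matrix.SpecialLinearGroup (Fin 3) F,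
      u0 = u * Matrix.SpecialLinearGroup.transvection ru3_ne02 (-c) := ⟨_, rfl⟩
  have hu0H : u0 ∈ H := by rw [hu0]; exact mul_mem hu ((h02 _).mem ru3_ne02)
  have hu01 : u0.1 = mU a b 0 := by
    rw [hu0]
    show u.1 * Matrix.transvection (0 : Fin 3) 2 (-c) = _
    rw [hu1, ru3_mU_mul_tv02, add_neg_cancel]
  obtain ⟨u1, hu1'⟩ : ∃ u1 : Matrix.SpecialLinearGroup (Fin 3) F,
      u1 = u * Matrix.SpecialLinearGroup.transvection ru3_ne02 (a * b - c) := ⟨_, rfl⟩
  have hu1H : u1 ∈ H := by rw [hu1']; exact mul_mem hu ((h02 _).mem ru3_ne02)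
  have hu11 : u1.1 = mU a b (a * b) := by
    rw [hu1']
    show u.1 * Matrix.transvection (0 : Fin 3) 2 (a * b - c) = _
    rw [hu1, ru3_mU_mul_tv02]
    congr 1
    ring
  have h10 : TvFull H (1 : Fin 3) 0 := by
    intro t
    have := ru3_G1 (s := 1) (t := -t / (a * b * b)) u0 hu0H hu01 (h20 _) (h20 _) (h20 _)
    have e : -(a * b * b * 1 * (-t / (a * b * b))) = t := by field_simp
    rwa [e] at this
  have h21 : TvFull H (2 : Fin 3) 1 := by
    intro t
    have := ru3_G2 (s := 1) (t := t / (a * a * b)) u1 hu1H hu11 (h20 _) (h20 _) (h20 _)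
    have e : a * a * b * 1 * (t / (a * a * b)) = t := by field_simp
    rwa [e] at this
  exact ru3_top_of_six h02 h20 h10 h21

/-- `mU a b c` with `a b ≠ 0` is regular unipotent. -/
theorem ru3_mU_regular {a b : F} (c : F) (ha : a ≠ 0) (hb : b ≠ 0) :
    IsNilpotent (mU a b c - 1) ∧ (mU a b c - 1) ^ (3 - 1) ≠ 0 := by
  have e1 : mU a b c - 1 = !![0, a, c; 0, 0, b; 0, 0, 0] := by
    ext i j
    fin_cases i <;> fin_cases j <;> simp [mU]
  have e2 : (!![0, a, c; 0, 0, b; 0, 0, 0] : Matrix (Fin 3) (Fin 3) F) ^ 2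
      = !![0, 0, a * b; 0, 0, 0; 0, 0, 0] := by
    rw [pow_two]
    ext i j
    fin_cases i <;> fin_cases j <;> simp [Matrix.mul_apply, Fin.sum_univ_three]
  have e3 : (!![0, a, c; 0, 0, b; 0, 0, 0] : Matrix (Fin 3) (Fin 3) F) ^ 3 = 0 := by
    rw [pow_succ, e2]
    ext i j
    fin_cases i <;> fin_cases j <;> simp [Matrix.mul_apply, Fin.sum_univ_three]
  rw [e1]
  refine ⟨⟨3, e3⟩, ?_⟩
  show (!![0, a, c; 0, 0, b; 0, 0, 0] : Matrix (Fin 3) (Fin 3) F) ^ 2 ≠ 0
  rw [e2]
  intro h
  have := congrFun (congrFun h 0) 2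
  simp at this
  exact this.elim ha hb

/-- the additive group of parameters `t` with `T_{ij}(t) ∈ H`. -/
def tvAdd (H : Subgroup (Matrix.SpecialLinearGroup (Fin 3) F)) {i j : Fin 3} (hij : i ≠ j) :
    AddSubgroup F where
  carrier := {t | TvAt H i j t}
  add_mem' := fun ha hb => TvAt.add hij ha hb
  zero_mem' := TvAt.zero H i j
  neg_mem' := fun ha => TvAt.neg hij ha

theorem mem_tvAdd {i j : Fin 3} (hij : i ≠ j) (t : F) : t ∈ tvAdd H hij ↔ TvAt H i j t :=
  Iff.rfl

/-- over a prime field, one non-trivial elementary matrix gives the full root subgroup. -/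
theorem ru3_full_of_prime [Fintype F] (hp : (Fintype.card F).Prime) {i j : Fin 3} (hij : i ≠ j)
    {t0 : F} (ht0 : t0 ≠ 0) (h : TvAt H i j t0) : TvFull H i j := by
  intro t
  have : Fact (Fintype.card F).Prime := ⟨hp⟩
  have h1 : AddSubgroup.zmultiples t0 = ⊤ :=
    zmultiples_eq_top_of_prime_card (by rw [Nat.card_eq_fintype_card]) ht0
  have h2 : AddSubgroup.zmultiples t0 ≤ tvAdd H hij := by
    rw [AddSubgroup.zmultiples_le]
    exact h
  have : t ∈ AddSubgroup.zmultiples t0 := by rw [h1]; trivial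
  exact h2 this

end ru3base

end Cfsg.Agent.Helper38
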