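import Mathlib
import Cfsg.Agent.Helper38.RU3Base

/-!
# A one-parameter family of pairs of conjugate regular unipotent elements of `SL_3(F)` (helper38)

For `l ≠ 0, 1` the matrix `f1n l` is an antidiagonal monomial matrix of determinant one and
`f1n l * mU 1 1 (f1c l)` is conjugate in `SL_3(F)` (by `f1g l`) to `mU 1 1 (f1c l)`.  A subgroup `H`
containing `mU 1 1 (f1c l)` and `f1n l` contains the torus element `(f1n l)²`, hence the elementary
matrices `T_{02}(ρ^j - ρ^{-j})` with `ρ = -l⁻³` (`fam1_tv`), and it is all of `SL_3(F)` as soon as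
it contains the whole root subgroup `T_{02}` (`fam1_top`).
-/

set_option autoImplicit false
set_option linter.unusedSimpArgs false
set_option linter.unusedSectionVars false
set_option linter.unusedVariables false
set_option linter.unreachableTactic false
set_option linter.unusedTactic false
set_option linter.unnecessarySeqFocus false

namespace Cfsg.Agent.Helper38

open Matrix Cfsg.Agent.Helper13

section fam1
variable {F : Type*} [Field F]

/-- the corner entry of the regular unipotent element. -/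
def f1c (l : F) : F := (l - 3) * l ^ 2 / (l - 1) ^ 3

/-- lower left entry of the monomial matrix. -/
def f1a (l : F) : F := -(l - 1) ^ 3 / l ^ 2

/-- upper right entry of the monomial matrix. -/
def f1b (l : F) : F := l / (l - 1) ^ 3

/-- the antidiagonal monomial matrix. -/
def f1n (l : F) : Matrix (Fin 3) (Fin 3) F := !![0, 0, f1b l; 0, l, 0; f1a l, 0, 0]

/-- the conjugating matrix. -/
def f1g (l : F) : Matrix (Fin 3) (Fin 3) F :=
  !![1 / (l - 1), -l / (l - 1) ^ 2 - (l - 3) * l ^ 2 / (l - 1) ^ 4, l / (l - 1) ^ 2;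
     -(l - 1), (l - 3) * l ^ 2 / (l - 1) ^ 2, 0;
     (l - 1) ^ 2 / l, -(l - 1) / l - (l - 3) * l / (l - 1), 0]

/-- the diagonal matrix `diag(x, y, x)`. -/
def dmat (x y : F) : Matrix (Fin 3) (Fin 3) F := !![x, 0, 0; 0, y, 0; 0, 0, x]

theorem f1n_det {l : F} (hl0 : l ≠ 0) (hl1 : l - 1 ≠ 0) : (f1n l).det = 1 := by
  unfold f1n f1a f1b
  rw [Matrix.det_fin_three]
  simp
  field_simp

theorem f1g_det {l : F} (hl0 : l ≠ 0) (hl1 : l - 1 ≠ 0) : (f1g l).det = 1 := by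
  unfold f1g
  rw [Matrix.det_fin_three]
  simp
  field_simp
  ring

theorem f1_conj {l : F} (hl0 : l ≠ 0) (hl1 : l - 1 ≠ 0) :
    f1g l * mU 1 1 (f1c l) = f1n l * mU 1 1 (f1c l) * f1g l := by
  ext i j
  fin_cases i <;> fin_cases j <;>
    simp [Matrix.mul_apply, Fin.sum_univ_three, mU, f1g, f1n, f1c, f1a, f1b] <;>
    field_simp <;> ring

theorem f1n_sq {l : F} (hl0 : l ≠ 0) (hl1 : l - 1 ≠ 0) :
    f1n l * f1n l = dmat (-l⁻¹) (l ^ 2) := by
  ext i j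
  fin_cases i <;> fin_cases j <;>
    simp [Matrix.mul_apply, Fin.sum_univ_three, dmat, f1n, f1a, f1b] <;>
    field_simp

theorem dmat_conj {x y : F} (hx : x ≠ 0) (hy : y ≠ 0) (a b c : F) :
    dmat x y * mU a b c = mU (a * (x / y)) (b * (y / x)) c * dmat x y := by
  ext i j
  fin_cases i <;> fin_cases j <;>
    simp [Matrix.mul_apply, Fin.sum_univ_three, dmat, mU] <;>
    field_simp

theorem mU_comm (x y c : F) :
    mU x y c * mU 1 1 c = Matrix.transvection (0 : Fin 3) 2 (x - y) * (mU 1 1 c * mU x y c) := by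
  rw [ru3_tv02]
  ext i j
  fin_cases i <;> fin_cases j <;>
    simp [Matrix.mul_apply, Fin.sum_univ_three, mU] <;> ring

theorem mU_neg_mul (c : F) :
    mU (-1) (-1) c * mU 1 1 c = Matrix.transvection (0 : Fin 3) 2 (2 * c - 1) := by
  rw [ru3_tv02]
  ext i j
  fin_cases i <;> fin_cases j <;>
    simp [Matrix.mul_apply, Fin.sum_univ_three, mU] <;> ring

theorem f1n_tv {l : F} (hl0 : l ≠ 0) (hl1 : l - 1 ≠ 0) (t : F) :
    f1n l * Matrix.transvection (0 : Fin 3) 2 t =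
      Matrix.transvection (2 : Fin 3) 0 (t * (f1a l / f1b l)) * f1n l := by
  rw [ru3_tv02, ru3_tv20]
  ext i j
  fin_cases i <;> fin_cases j <;>
    simp [Matrix.mul_apply, Fin.sum_univ_three, f1n, f1a, f1b] <;>
    field_simp

variable {H : Subgroup (Matrix.SpecialLinearGroup (Fin 3) F)}

/-- the torus conjugates of the regular unipotent element. -/
theorem fam1_conj {l : F} (hl0 : l ≠ 0) (hl1 : l - 1 ≠ 0)
    (u nn : Matrix.SpecialLinearGroup (Fin 3) F) (hu : u ∈ H) (hn : nn ∈ H)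
    (hu1 : u.1 = mU 1 1 (f1c l)) (hn1 : nn.1 = f1n l) (j : ℕ) :
    ∃ w ∈ H, w.1 = mU ((-(l ^ 3)⁻¹) ^ j) ((-(l ^ 3)) ^ j) (f1c l) := by
  induction j with
  | zero => exact ⟨u, hu, by rw [hu1, pow_zero, pow_zero]⟩
  | succ j ih =>
    obtain ⟨w, hw, hw1⟩ := ih
    have hx : (-l⁻¹ : F) ≠ 0 := neg_ne_zero.2 (inv_ne_zero hl0)
    have hy : (l ^ 2 : F) ≠ 0 := pow_ne_zero _ hl0
    have e1 : (-l⁻¹ / l ^ 2 : F) = -(l ^ 3)⁻¹ := by field_simp
    have e2 : (l ^ 2 / -l⁻¹ : F) = -(l ^ 3) := by field_simp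
    have hnn : (nn * nn).1 = dmat (-l⁻¹) (l ^ 2) := by
      rw [Matrix.SpecialLinearGroup.coe_mul, hn1, f1n_sq hl0 hl1]
    have key : dmat (-l⁻¹) (l ^ 2) * mU ((-(l ^ 3)⁻¹) ^ j) ((-(l ^ 3)) ^ j) (f1c l) =
        mU ((-(l ^ 3)⁻¹) ^ (j + 1)) ((-(l ^ 3)) ^ (j + 1)) (f1c l) * dmat (-l⁻¹) (l ^ 2) := by
      rw [dmat_conj hx hy, e1, e2, ← pow_succ, ← pow_succ]
    let w' : Matrix.SpecialLinearGroup (Fin 3) F :=
      ⟨mU ((-(l ^ 3)⁻¹) ^ (j + 1)) ((-(l ^ 3)) ^ (j + 1)) (f1c l), ru3_mU_det _ _ _⟩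
    have hw' : w'.1 = mU ((-(l ^ 3)⁻¹) ^ (j + 1)) ((-(l ^ 3)) ^ (j + 1)) (f1c l) := rfl
    have e : (nn * nn) * w * (nn * nn)⁻¹ = w' := by
      apply sl_conj_eq_of
      rw [hnn, hw1, hw']
      exact key
    refine ⟨w', ?_, hw'⟩
    rw [← e]
    exact mul_mem (mul_mem (mul_mem hn hn) hw) (inv_mem (mul_mem hn hn))

/-- the elementary matrices `T_{02}(ρ^j - ρ^{-j})`, `ρ = -l⁻³`. -/
theorem fam1_tv {l : F} (hl0 : l ≠ 0) (hl1 : l - 1 ≠ 0)
    (u nn : Matrix.SpecialLinearGroup (Fin 3) F) (hu : u ∈ H) (hn : nn ∈ H)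
    (hu1 : u.1 = mU 1 1 (f1c l)) (hn1 : nn.1 = f1n l) (j : ℕ) :
    TvAt H (0 : Fin 3) 2 ((-(l ^ 3)⁻¹) ^ j - (-(l ^ 3)) ^ j) := by
  obtain ⟨w, hw, hw1⟩ := fam1_conj hl0 hl1 u nn hu hn hu1 hn1 j
  apply tvAt_of_mem' ru3_ne02
  have e : w * u = Matrix.SpecialLinearGroup.transvection ru3_ne02
      ((-(l ^ 3)⁻¹) ^ j - (-(l ^ 3)) ^ j) * (u * w) := by
    apply Subtype.ext
    show w.1 * u.1 = Matrix.transvection (0 : Fin 3) 2 ((-(l ^ 3)⁻¹) ^ j - (-(l ^ 3)) ^ j)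
      * (u.1 * w.1)
    rw [hw1, hu1]
    exact mU_comm _ _ _
  have e2 : Matrix.SpecialLinearGroup.transvection ru3_ne02
      ((-(l ^ 3)⁻¹) ^ j - (-(l ^ 3)) ^ j) = w * u * (u * w)⁻¹ := by
    rw [e, mul_inv_cancel_right]
  rw [e2]
  exact mul_mem (mul_mem hw hu) (inv_mem (mul_mem hu hw))

/-- if `l³ = 1` the torus element is `diag(-1, 1, -1)` up to a scalar and we get
`T_{02}(2c - 1)`. -/
theorem fam1_tv_neg {l : F} (hl0 : l ≠ 0) (hl1 : l - 1 ≠ 0)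
    (u nn : Matrix.SpecialLinearGroup (Fin 3) F) (hu : u ∈ H) (hn : nn ∈ H)
    (hu1 : u.1 = mU 1 1 (f1c l)) (hn1 : nn.1 = f1n l) (h3 : l ^ 3 = 1) :
    TvAt H (0 : Fin 3) 2 (2 * f1c l - 1) := by
  obtain ⟨w, hw, hw1⟩ := fam1_conj hl0 hl1 u nn hu hn hu1 hn1 1
  rw [h3, inv_one, pow_one] at hw1
  apply tvAt_of_mem' ru3_ne02
  have e : w * u = Matrix.SpecialLinearGroup.transvection ru3_ne02 (2 * f1c l - 1) := by
    apply Subtype.ext
    show w.1 * u.1 = Matrix.transvection (0 : Fin 3) 2 (2 * f1c l - 1)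
    rw [hw1, hu1]
    exact mU_neg_mul _
  rw [← e]
  exact mul_mem hw hu

/-- a subgroup containing the pair and the whole root subgroup `T_{02}` is everything. -/
theorem fam1_top {l : F} (hl0 : l ≠ 0) (hl1 : l - 1 ≠ 0)
    (u nn : Matrix.SpecialLinearGroup (Fin 3) F) (hu : u ∈ H) (hn : nn ∈ H)
    (hu1 : u.1 = mU 1 1 (f1c l)) (hn1 : nn.1 = f1n l)
    (h02 : TvFull H (0 : Fin 3) 2) : H = ⊤ := by
  have hk : (f1a l / f1b l : F) ≠ 0 := by
    unfold f1a f1b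
    have h1 : (l - 1) ^ 3 ≠ 0 := pow_ne_zero _ hl1
    have h2 : l ^ 2 ≠ 0 := pow_ne_zero _ hl0
    exact div_ne_zero (div_ne_zero (neg_ne_zero.2 h1) h2) (div_ne_zero hl0 h1)
  have h20 : TvFull H (2 : Fin 3) 0 := by
    intro t
    apply tvAt_of_mem' ru3_ne20
    have e : nn * Matrix.SpecialLinearGroup.transvection ru3_ne02 (t / (f1a l / f1b l)) * nn⁻¹
        = Matrix.SpecialLinearGroup.transvection ru3_ne20 t := by
      apply sl_conj_eq_of
      show nn.1 * Matrix.transvection (0 : Fin 3) 2 (t / (f1a l / f1b l))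
        = Matrix.transvection (2 : Fin 3) 0 t * nn.1
      rw [hn1, f1n_tv hl0 hl1, div_mul_cancel₀ _ hk]
    rw [← e]
    exact mul_mem (mul_mem hn ((h02 _).mem ru3_ne02)) (inv_mem hn)
  exact ru3_top_of_long one_ne_zero one_ne_zero u hu hu1 h02 h20

/-- the pair of conjugate elements: existence inside `SL_3(F)`. -/
theorem fam1_exists {l : F} (hl0 : l ≠ 0) (hl1 : l - 1 ≠ 0) :
    ∃ u g nn : Matrix.SpecialLinearGroup (Fin 3) F,
      u.1 = mU 1 1 (f1c l) ∧ nn.1 = f1n l ∧ g * u * g⁻¹ = nn * u := by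
  obtain ⟨u, hu⟩ : ∃ u : Matrix.SpecialLinearGroup (Fin 3) F, u.1 = mU 1 1 (f1c l) :=
    ⟨⟨_, ru3_mU_det _ _ _⟩, rfl⟩
  obtain ⟨g, hg⟩ : ∃ g : Matrix.SpecialLinearGroup (Fin 3) F, g.1 = f1g l :=
    ⟨⟨_, f1g_det hl0 hl1⟩, rfl⟩
  obtain ⟨nn, hn⟩ : ∃ nn : Matrix.SpecialLinearGroup (Fin 3) F, nn.1 = f1n l :=
    ⟨⟨_, f1n_det hl0 hl1⟩, rfl⟩
  refine ⟨u, g, nn, hu, hn, ?_⟩
  apply sl_conj_eq_of
  show g.1 * u.1 = (nn.1 * u.1) * g.1
  rw [hg, hu, hn]
  exact f1_conj hl0 hl1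

/-- the generation statement for the family, given fullness of `T_{02}`. -/
theorem fam1_closure {l : F} (hl0 : l ≠ 0) (hl1 : l - 1 ≠ 0)
    (u g nn : Matrix.SpecialLinearGroup (Fin 3) F)
    (hu1 : u.1 = mU 1 1 (f1c l)) (hn1 : nn.1 = f1n l) (hg : g * u * g⁻¹ = nn * u)
    (hfull : ∀ H : Subgroup (Matrix.SpecialLinearGroup (Fin 3) F), u ∈ H → nn ∈ H →
      TvFull H (0 : Fin 3) 2) :
    Subgroup.closure ({u, g * u * g⁻¹} : Set (Matrix.SpecialLinearGroup (Fin 3) F)) = ⊤ := by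
  have hu : u ∈ Subgroup.closure ({u, g * u * g⁻¹} : Set (Matrix.SpecialLinearGroup (Fin 3) F)) :=
    Subgroup.subset_closure (by simp)
  have hv : g * u * g⁻¹ ∈
      Subgroup.closure ({u, g * u * g⁻¹} : Set (Matrix.SpecialLinearGroup (Fin 3) F)) :=
    Subgroup.subset_closure (by simp)
  have hn : nn ∈ Subgroup.closure ({u, g * u * g⁻¹} : Set (Matrix.SpecialLinearGroup (Fin 3) F)) := by
    have : nn = g * u * g⁻¹ * u⁻¹ := by rw [hg, mul_inv_cancel_right]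
    rw [this]
    exact mul_mem hv (inv_mem hu)
  exact fam1_top hl0 hl1 u nn hu hn hu1 hn1 (hfull _ hu hn)

end fam1

end Cfsg.Agent.Helper38
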