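import Mathlib
import Cfsg.Agent.Helper38.RU3Fam

/-!
# Two conjugate regular unipotent elements generating `SL_3(F)`: the four cases (helper38)

* `ru3_case_char2`: characteristic two (an explicit pair depending on a generator of `Fˣ`);
* `ru3_case_three`: the field with three elements (`J` and its transpose, two explicit words);
* `ru3_case_prime`: prime fields of characteristic at least five (the family of `RU3Fam`, `l = 2`);
* `ru3_case_nonprime`: odd non-prime fields (the family of `RU3Fam` with `l` a generator of `Fˣ`;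
  the torus element generates the field).
-/

set_option autoImplicit false
set_option linter.unusedSimpArgs false
set_option linter.unusedSectionVars false
set_option linter.unusedVariables false
set_option linter.unreachableTactic false
set_option linter.unusedTactic false
set_option linter.unnecessarySeqFocus false

namespace Cfsg.Agent.Helper38

open Matrix Cfsg.Agent.Helper13

section subfield
variable {F : Type*} [Field F] [Fintype F]

/-- multiplication by the elements of the subfield generated by `τ` preserves an additive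
subgroup stable under multiplication by `τ`. -/
theorem ru3_field_closed (B : AddSubgroup F) (τ : F) (hτ : ∀ b ∈ B, τ * b ∈ B) :
    ∀ e ∈ Subfield.closure ({τ} : Set F), ∀ b ∈ B, e * b ∈ B := by
  intro e he
  induction he using Subfield.closure_induction with
  | mem x hx =>
    rw [Set.mem_singleton_iff] at hx
    rw [hx]
    exact hτ
  | one => intro b hb; rwa [one_mul]
  | add x y hx hy hx' hy' => intro b hb; rw [add_mul]; exact B.add_mem (hx' b hb) (hy' b hb)
  | neg x hx hx' => intro b hb; rw [neg_mul]; exact B.neg_mem (hx' b hb)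
  | inv x hx hx' =>
    intro b hb
    by_cases h0 : x = 0
    · rw [h0, _root_.inv_zero, zero_mul]; exact B.zero_mem
    · have hpow : ∀ k : ℕ, ∀ b ∈ B, x ^ k * b ∈ B := by
        intro k
        induction k with
        | zero => intro b hb; rwa [pow_zero, one_mul]
        | succ k ih => intro b hb; rw [pow_succ, mul_assoc]; exact ih _ (hx' b hb)
      have hinv : x⁻¹ = x ^ (Fintype.card F - 2) := by
        apply inv_eq_of_mul_eq_one_right
        rw [← pow_succ']
        have h1 : Fintype.card F - 2 + 1 = Fintype.card F - 1 := by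
          have := Fintype.one_lt_card (α := F); omega
        rw [h1]; exact FiniteField.pow_card_sub_one_eq_one x h0
      rw [hinv]; exact hpow _ b hb
  | mul x y hx hy hx' hy' => intro b hb; rw [mul_assoc]; exact hx' _ (hy' b hb)

/-- a subfield of a finite field containing `τ` is everything unless `τ ^ Q = τ` for a
power `Q > 1` of the characteristic with `Q² ≤ |F|`. -/
theorem ru3_subfield_top (p : ℕ) [CharP F p] (E : Subfield F) (τ : F) (hτ : τ ∈ E)
    (h : ∀ n : ℕ, 1 < p ^ n → p ^ n * p ^ n ≤ Fintype.card F → τ ^ (p ^ n) ≠ τ) : E = ⊤ := by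
  classical
  let instE : Fintype E := Fintype.ofFinite E
  obtain ⟨n, hp, hQ⟩ := FiniteField.card E p
  have hpow : τ ^ Fintype.card E = τ := by
    have := FiniteField.pow_card (⟨τ, hτ⟩ : E)
    exact congrArg Subtype.val this
  have hcard : Fintype.card F = Fintype.card E ^ Module.finrank E F := Module.card_eq_pow_finrank
  have h1 : 1 < Fintype.card E := Fintype.one_lt_card
  by_cases hk : 2 ≤ Module.finrank E F
  · exfalso
    refine h n (by rw [← hQ]; exact h1) ?_ (by rw [← hQ]; exact hpow)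
    rw [← hQ, hcard, ← pow_two]
    exact Nat.pow_le_pow_right (by omega) hk
  · have hle : Fintype.card F ≤ Fintype.card E := by
      rw [hcard]
      calc Fintype.card E ^ Module.finrank E F ≤ Fintype.card E ^ 1 :=
            Nat.pow_le_pow_right (by omega) (by omega)
        _ = Fintype.card E := pow_one _
    have hinj : Function.Injective (Subtype.val : E → F) := Subtype.val_injective
    have hsurj : Function.Surjective (Subtype.val : E → F) :=
      ((Fintype.bijective_iff_injective_and_card _).2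
        ⟨hinj, le_antisymm (Fintype.card_le_of_injective _ hinj) hle⟩).2
    rw [eq_top_iff]
    intro x _
    obtain ⟨e, rfl⟩ := hsurj x
    exact e.2

/-- the torus parameter `-(l³)⁻¹ - l³` is not fixed by a proper power of Frobenius. -/
theorem ru3_tau_gen (p : ℕ) [CharP F p] (h2 : (2 : F) ≠ 0) {l : F} (hl0 : l ≠ 0)
    (hord : ∀ k : ℕ, l ^ k = 1 → (Fintype.card F - 1) ∣ k) (hq9 : 9 ≤ Fintype.card F)
    (n : ℕ) (hQ1 : 1 < p ^ n) (hQ2 : p ^ n * p ^ n ≤ Fintype.card F) :
    (-(l ^ 3)⁻¹ + -(l ^ 3)) ^ (p ^ n) ≠ -(l ^ 3)⁻¹ + -(l ^ 3) := by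
  intro hτ
  obtain ⟨n', hp, -⟩ := FiniteField.card F p
  have : Fact p.Prime := ⟨hp⟩
  have hpodd : p ≠ 2 := by
    rintro rfl
    exact h2 (by exact_mod_cast CharP.cast_eq_zero F 2)
  have hQodd : Odd (p ^ n) := (hp.odd_of_ne_two hpodd).pow
  have hn0 : n ≠ 0 := by
    rintro rfl
    simp at hQ1
  have hsum : (-(l ^ 3)⁻¹ + -(l ^ 3)) ^ (p ^ n) = (-(l ^ 3)⁻¹) ^ (p ^ n) + (-(l ^ 3)) ^ (p ^ n) :=
    add_pow_char_pow _ _ p n
  obtain ⟨Q, hQdef⟩ : ∃ Q : ℕ, Q = p ^ n := ⟨_, rfl⟩
  rw [← hQdef] at hτ hQ1 hQ2 hQodd hsum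
  obtain ⟨m, hm⟩ : ∃ m : F, m = l ^ 3 := ⟨_, rfl⟩
  rw [← hm] at hτ hsum
  have hm0 : m ≠ 0 := by rw [hm]; exact pow_ne_zero _ hl0
  have hX : (-m) ^ Q = -(m ^ Q) := hQodd.neg_pow m
  have hY : (-m⁻¹) ^ Q = -(m ^ Q)⁻¹ := by rw [hQodd.neg_pow, inv_pow]
  have hmQ0 : m ^ Q ≠ 0 := pow_ne_zero _ hm0
  have hQ3 : 3 ≤ Q := by
    obtain ⟨k, hk⟩ := hQodd
    omega
  have key : (m ^ Q - m) * (m ^ Q * m - 1) = 0 := by
    rw [hsum, hX, hY] at hτ
    have h1 : (m ^ Q)⁻¹ * m ^ Q = 1 := inv_mul_cancel₀ hmQ0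
    have h2 : m⁻¹ * m = 1 := inv_mul_cancel₀ hm0
    linear_combination (-(m ^ Q) * m) * hτ + (-m) * h1 + (m ^ Q) * h2
  rcases mul_eq_zero.1 key with hA | hB
  · have e : l ^ (3 * (Q - 1)) = 1 := by
      have e1 : l ^ (3 * (Q - 1)) * l ^ 3 = 1 * l ^ 3 := by
        rw [← pow_add, one_mul]
        have : 3 * (Q - 1) + 3 = 3 * Q := by omega
        rw [this, pow_mul, ← hm]
        exact sub_eq_zero.1 hA
      rw [← hm] at e1
      exact mul_right_cancel₀ hm0 e1
    have hd := Nat.le_of_dvd (by omega) (hord _ e)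
    have hd' : Fintype.card F + 2 ≤ 3 * Q := by omega
    have h3Q : 3 * Q ≤ Q * Q := Nat.mul_le_mul_right Q hQ3
    linarith
  · have e : l ^ (3 * (Q + 1)) = 1 := by
      have : 3 * (Q + 1) = 3 * Q + 3 := by ring
      rw [this, pow_add, pow_mul, ← hm]
      exact sub_eq_zero.1 hB
    have hdvd := hord _ e
    have hd := Nat.le_of_dvd (by omega) hdvd
    have hd' : Fintype.card F ≤ 3 * Q + 4 := by omega
    have hQ4 : Q ≤ 4 := by
      by_contra h5
      push Not at h5
      have h5Q : 5 * Q ≤ Q * Q := Nat.mul_le_mul_right Q h5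
      linarith
    have hQeq : Q = 3 := by
      obtain ⟨k, hk⟩ := hQodd
      omega
    have hp3 : p = 3 := by
      have : p ∣ 3 := by rw [← hQeq, hQdef]; exact dvd_pow_self p hn0
      exact (Nat.prime_dvd_prime_iff_eq hp Nat.prime_three).1 this
    have h3q : 3 ∣ Fintype.card F := by
      have := (CharP.cast_eq_zero_iff F p (Fintype.card F)).1 (FiniteField.cast_card_eq_zero F)
      rwa [hp3] at this
    rw [hQeq] at hdvd
    obtain ⟨c, hc⟩ := hdvd
    have hc2 : c < 2 := by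
      by_contra hc2
      push Not at hc2
      have h16 : 8 * 2 ≤ (Fintype.card F - 1) * c := Nat.mul_le_mul (by omega) hc2
      omega
    interval_cases c <;> omega

end subfield

section fieldcases
variable {F : Type*} [Field F] [Fintype F]

/-- odd non-prime fields. -/
theorem ru3_case_nonprime (hq : ¬ (Fintype.card F).Prime) (h2 : (2 : F) ≠ 0) :
    ∃ u g : Matrix.SpecialLinearGroup (Fin 3) F,
      IsNilpotent ((u : Matrix (Fin 3) (Fin 3) F) - 1) ∧
      ((u : Matrix (Fin 3) (Fin 3) F) - 1) ^ (3 - 1) ≠ 0 ∧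
      Subgroup.closure ({u, g * u * g⁻¹} : Set (Matrix.SpecialLinearGroup (Fin 3) F)) = ⊤ := by
  classical
  obtain ⟨p, hchar⟩ := CharP.exists F
  obtain ⟨n, hp, hqn⟩ := FiniteField.card F p
  have hp2 : p ≠ 2 := by
    rintro rfl
    exact h2 (by exact_mod_cast CharP.cast_eq_zero F 2)
  have hp3 : 3 ≤ p := by have := hp.two_le; omega
  have hn2 : 2 ≤ (n : ℕ) := by
    by_contra hlt
    have h1 : (n : ℕ) = 1 := by have := n.pos; omega
    rw [h1, pow_one] at hqn
    exact hq (hqn ▸ hp)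
  have hq9 : 9 ≤ Fintype.card F := by
    rw [hqn]
    calc 9 = 3 ^ 2 := by norm_num
      _ ≤ 3 ^ (n : ℕ) := Nat.pow_le_pow_right (by norm_num) hn2
      _ ≤ p ^ (n : ℕ) := Nat.pow_le_pow_left hp3 _
  obtain ⟨γ, hγ⟩ := IsCyclic.exists_generator (α := Fˣ)
  have hγord : orderOf γ = Fintype.card F - 1 := by
    rw [orderOf_eq_card_of_forall_mem_zpowers hγ, Nat.card_eq_fintype_card, Fintype.card_units]
  obtain ⟨l, hl⟩ : ∃ l : F, l = (γ : F) := ⟨_, rfl⟩
  have hl0 : l ≠ 0 := by rw [hl]; exact γ.ne_zero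
  have hord : ∀ k : ℕ, l ^ k = 1 → (Fintype.card F - 1) ∣ k := by
    intro k hk
    rw [← hγord]
    apply orderOf_dvd_of_pow_eq_one
    apply Units.ext
    rw [Units.val_pow_eq_pow_val, ← hl, hk, Units.val_one]
  have hl1 : l - 1 ≠ 0 := by
    intro h
    have h1 : l ^ 1 = 1 := by rw [pow_one]; exact sub_eq_zero.1 h
    have := Nat.le_of_dvd (by norm_num) (hord 1 h1)
    omega
  obtain ⟨u, g, nn, hu1, hn1, hg⟩ := fam1_exists hl0 hl1
  refine ⟨u, g, by rw [hu1]; exact (ru3_mU_regular _ one_ne_zero one_ne_zero).1,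
    by rw [hu1]; exact (ru3_mU_regular _ one_ne_zero one_ne_zero).2,
    fam1_closure hl0 hl1 u g nn hu1 hn1 hg ?_⟩
  intro H hu hn
  have hη : ∀ j : ℕ, TvAt H (0 : Fin 3) 2 ((-(l ^ 3)⁻¹) ^ j - (-(l ^ 3)) ^ j) :=
    fam1_tv hl0 hl1 u nn hu hn hu1 hn1
  have hgen : ∀ k : ℕ, 1 < p ^ k → p ^ k * p ^ k ≤ Fintype.card F →
      (-(l ^ 3)⁻¹ + -(l ^ 3)) ^ (p ^ k) ≠ -(l ^ 3)⁻¹ + -(l ^ 3) :=
    fun k hk1 hk2 => ru3_tau_gen p h2 hl0 hord hq9 k hk1 hk2
  obtain ⟨m, hm⟩ : ∃ m : F, m = l ^ 3 := ⟨_, rfl⟩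
  rw [← hm] at hη hgen
  have hm0 : m ≠ 0 := by rw [hm]; exact pow_ne_zero _ hl0
  have hρσ : (-m⁻¹) * (-m) = 1 := by field_simp
  obtain ⟨B, hBdef⟩ : ∃ B : AddSubgroup F,
      B = AddSubgroup.closure (Set.range fun j : ℕ => (-m⁻¹) ^ j - (-m) ^ j) := ⟨_, rfl⟩
  have hB : B ≤ tvAdd H ru3_ne02 := by
    rw [hBdef, AddSubgroup.closure_le]
    rintro _ ⟨j, rfl⟩
    exact hη j
  have hηB : ∀ j : ℕ, (-m⁻¹) ^ j - (-m) ^ j ∈ B := fun j => by
    rw [hBdef]
    exact AddSubgroup.subset_closure ⟨j, rfl⟩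
  have hτB : ∀ b ∈ B, (-m⁻¹ + -m) * b ∈ B := by
    intro b hb
    rw [hBdef] at hb
    induction hb using AddSubgroup.closure_induction with
    | mem x hx =>
      obtain ⟨j, rfl⟩ := hx
      cases j with
      | zero =>
        have e : (-m⁻¹ + -m) * ((-m⁻¹) ^ 0 - (-m) ^ 0) = 0 := by ring
        rw [e]
        exact B.zero_mem
      | succ k =>
        have e : (-m⁻¹ + -m) * ((-m⁻¹) ^ (k + 1) - (-m) ^ (k + 1)) =
            ((-m⁻¹) ^ (k + 2) - (-m) ^ (k + 2)) + ((-m⁻¹) ^ k - (-m) ^ k) := by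
          linear_combination ((-m⁻¹) ^ k - (-m) ^ k) * hρσ
        rw [e]
        exact B.add_mem (hηB _) (hηB _)
    | zero => rw [mul_zero]; exact B.zero_mem
    | add x y hx hy hx' hy' => rw [mul_add]; exact B.add_mem hx' hy'
    | neg x hx hx' => rw [mul_neg]; exact B.neg_mem hx'
  have hE : ∀ e ∈ Subfield.closure ({-m⁻¹ + -m} : Set F), ∀ b ∈ B, e * b ∈ B :=
    ru3_field_closed B _ hτB
  have hEtop : Subfield.closure ({-m⁻¹ + -m} : Set F) = ⊤ :=
    ru3_subfield_top p _ (-m⁻¹ + -m) (Subfield.subset_closure rfl) hgen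
  have hη1 : (-m⁻¹) ^ 1 - (-m) ^ 1 ≠ 0 := by
    intro h
    rw [pow_one, pow_one] at h
    have hinv : m⁻¹ = m := by linear_combination -h
    have hmm : m * m = 1 := by
      have := mul_inv_cancel₀ hm0
      rwa [hinv] at this
    have h6 : l ^ 6 = 1 := by
      rw [hm] at hmm
      rw [← hmm]
      ring
    have := Nat.le_of_dvd (by norm_num) (hord 6 h6)
    omega
  intro t
  have ht : t = (t / ((-m⁻¹) ^ 1 - (-m) ^ 1)) * ((-m⁻¹) ^ 1 - (-m) ^ 1) := by
    rw [div_mul_cancel₀ _ hη1]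
  rw [ht]
  apply hB
  exact hE _ (by rw [hEtop]; exact Subfield.mem_top _) _ (hηB 1)

/-- prime fields of characteristic at least five. -/
theorem ru3_case_prime (hp : (Fintype.card F).Prime) (h2 : (2 : F) ≠ 0) (h3 : (3 : F) ≠ 0) :
    ∃ u g : Matrix.SpecialLinearGroup (Fin 3) F,
      IsNilpotent ((u : Matrix (Fin 3) (Fin 3) F) - 1) ∧
      ((u : Matrix (Fin 3) (Fin 3) F) - 1) ^ (3 - 1) ≠ 0 ∧
      Subgroup.closure ({u, g * u * g⁻¹} : Set (Matrix.SpecialLinearGroup (Fin 3) F)) = ⊤ := by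
  have hl1 : (2 : F) - 1 ≠ 0 := by
    have : (2 : F) - 1 = 1 := by norm_num
    rw [this]
    exact one_ne_zero
  obtain ⟨u, g, nn, hu1, hn1, hg⟩ := fam1_exists h2 hl1
  refine ⟨u, g, by rw [hu1]; exact (ru3_mU_regular _ one_ne_zero one_ne_zero).1,
    by rw [hu1]; exact (ru3_mU_regular _ one_ne_zero one_ne_zero).2,
    fam1_closure h2 hl1 u g nn hu1 hn1 hg ?_⟩
  intro H hu hn
  have h8 : (2 : F) ^ 3 ≠ 0 := pow_ne_zero _ h2
  by_cases h7 : (7 : F) = 0
  · have h81 : (2 : F) ^ 3 = 1 := by linear_combination h7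
    have h := fam1_tv_neg h2 hl1 u nn hu hn hu1 hn1 h81
    have hc : 2 * f1c (2 : F) - 1 = -(3 * 3) := by
      unfold f1c
      have : ((2 : F) - 1) ^ 3 = 1 := by norm_num
      rw [this]
      norm_num
    rw [hc] at h
    exact ru3_full_of_prime hp ru3_ne02 (neg_ne_zero.2 (mul_ne_zero h3 h3)) h
  · have h := fam1_tv h2 hl1 u nn hu hn hu1 hn1 1
    have hc : (-((2 : F) ^ 3)⁻¹) ^ 1 - (-((2 : F) ^ 3)) ^ 1 = 7 * 3 * 3 / 2 ^ 3 := by
      field_simp
      ring
    rw [hc] at h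
    exact ru3_full_of_prime hp ru3_ne02
      (div_ne_zero (mul_ne_zero (mul_ne_zero h7 h3) h3) h8) h

end fieldcases

end Cfsg.Agent.Helper38
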