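import Mathlib
import Cfsg.Agent.Helper38.RU3Fam

/-!
# Two conjugate regular unipotent elements generating `SL_3(F)`: small characteristic (helper38)

* `ru3_case_char2`: characteristic two (an explicit pair depending on a generator of `Fˣ`);
* `ru3_case_three`: the field with three elements (`J` and its transpose, two explicit words).
-/

set_option autoImplicit false
set_option linter.unusedSimpArgs false
set_option linter.unusedSectionVars false
set_option linter.unusedVariables false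
set_option linter.unreachableTactic false
set_option linter.unusedTactic false
set_option linter.unnecessarySeqFocus false

namespace Cfsg.Agent.Helper38

open Matrix Cfsg.Agent.Helper13

section char2
variable {F : Type*} [Field F]

/-- the second generator in characteristic two. -/
def c2v (r : F) : Matrix (Fin 3) (Fin 3) F := !![1, 0, 0; 1, 1, 0; r, 1, 1]

/-- the conjugating matrix in characteristic two. -/
def c2g (r : F) : Matrix (Fin 3) (Fin 3) F := !![0, 0, 1; 0, 1, 0; 1, r, 0]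

/-- the antidiagonal permutation matrix. -/
def c2pi : Matrix (Fin 3) (Fin 3) F := !![0, 0, 1; 0, 1, 0; 1, 0, 0]

/-- the transpose of the Jordan block. -/
def c2Jt : Matrix (Fin 3) (Fin 3) F := !![1, 0, 0; 1, 1, 0; 0, 1, 1]

theorem c2g_det (h2 : (2 : F) = 0) (r : F) : (c2g r).det = 1 := by
  unfold c2g
  rw [Matrix.det_fin_three]
  simp
  linear_combination -h2

theorem c2v_det (r : F) : (c2v r).det = 1 := by
  unfold c2v
  rw [Matrix.det_fin_three]
  simp

theorem c2Jt_det : (c2Jt : Matrix (Fin 3) (Fin 3) F).det = 1 := by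
  unfold c2Jt
  rw [Matrix.det_fin_three]
  simp

theorem c2_conj (r : F) : c2g r * mU 1 1 0 = c2v r * c2g r := by
  ext i j
  fin_cases i <;> fin_cases j <;>
    simp [Matrix.mul_apply, Fin.sum_univ_three, mU, c2g, c2v] <;> ring1

theorem c2_usq (h2 : (2 : F) = 0) :
    mU (1 : F) 1 0 * mU 1 1 0 = Matrix.transvection (0 : Fin 3) 2 1 := by
  rw [ru3_tv02]
  ext i j
  fin_cases i <;> fin_cases j <;>
    simp [Matrix.mul_apply, Fin.sum_univ_three, mU] <;>
    first | ring1 | linear_combination h2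

theorem c2_vsq (h2 : (2 : F) = 0) (r : F) :
    c2v r * c2v r = Matrix.transvection (2 : Fin 3) 0 1 := by
  rw [ru3_tv20]
  ext i j
  fin_cases i <;> fin_cases j <;>
    simp [Matrix.mul_apply, Fin.sum_univ_three, c2v] <;>
    first | ring1 | linear_combination h2 | linear_combination r * h2

theorem c2_pi (h2 : (2 : F) = 0) :
    Matrix.transvection (0 : Fin 3) 2 (1 : F) * Matrix.transvection (2 : Fin 3) 0 1 *
      Matrix.transvection (0 : Fin 3) 2 1 = c2pi := by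
  rw [ru3_tv02, ru3_tv20]
  ext i j
  fin_cases i <;> fin_cases j <;>
    simp [Matrix.mul_apply, Fin.sum_univ_three, c2pi] <;>
    first | ring1 | linear_combination h2

theorem c2_pi_conj : (c2pi : Matrix (Fin 3) (Fin 3) F) * mU 1 1 0 = c2Jt * c2pi := by
  ext i j
  fin_cases i <;> fin_cases j <;>
    simp [Matrix.mul_apply, Fin.sum_univ_three, mU, c2pi, c2Jt]

theorem c2_v_eq (r : F) : c2v r = c2Jt * Matrix.transvection (2 : Fin 3) 0 r := by
  rw [ru3_tv20]
  ext i j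
  fin_cases i <;> fin_cases j <;>
    simp [Matrix.mul_apply, Fin.sum_univ_three, c2v, c2Jt]

theorem c2_pi_tv (t : F) :
    (c2pi : Matrix (Fin 3) (Fin 3) F) * Matrix.transvection (2 : Fin 3) 0 t =
      Matrix.transvection (0 : Fin 3) 2 t * c2pi := by
  rw [ru3_tv20, ru3_tv02]
  ext i j
  fin_cases i <;> fin_cases j <;>
    simp [Matrix.mul_apply, Fin.sum_univ_three, c2pi]

/-- characteristic two. -/
theorem ru3_case_char2 [Fintype F] (h2 : (2 : F) = 0) :
    ∃ u g : Matrix.SpecialLinearGroup (Fin 3) F,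
      IsNilpotent ((u : Matrix (Fin 3) (Fin 3) F) - 1) ∧
      ((u : Matrix (Fin 3) (Fin 3) F) - 1) ^ (3 - 1) ≠ 0 ∧
      Subgroup.closure ({u, g * u * g⁻¹} : Set (Matrix.SpecialLinearGroup (Fin 3) F)) = ⊤ := by
  obtain ⟨r, hr0, hgen⟩ := ff_exists_gen (F := F)
  obtain ⟨u, hu1⟩ : ∃ u : Matrix.SpecialLinearGroup (Fin 3) F, u.1 = mU 1 1 0 :=
    ⟨⟨mU 1 1 0, ru3_mU_det _ _ _⟩, rfl⟩
  obtain ⟨g, hg1⟩ : ∃ g : Matrix.SpecialLinearGroup (Fin 3) F, g.1 = c2g r :=
    ⟨⟨c2g r, c2g_det h2 r⟩, rfl⟩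
  obtain ⟨v, hv1⟩ : ∃ v : Matrix.SpecialLinearGroup (Fin 3) F, v.1 = c2v r :=
    ⟨⟨c2v r, c2v_det r⟩, rfl⟩
  obtain ⟨jt, hjt1⟩ : ∃ jt : Matrix.SpecialLinearGroup (Fin 3) F, jt.1 = c2Jt :=
    ⟨⟨c2Jt, c2Jt_det⟩, rfl⟩
  have hg : g * u * g⁻¹ = v := sl_conj_eq_of g u v (by rw [hg1, hu1, hv1]; exact c2_conj r)
  refine ⟨u, g, by rw [hu1]; exact (ru3_mU_regular _ one_ne_zero one_ne_zero).1,
    by rw [hu1]; exact (ru3_mU_regular _ one_ne_zero one_ne_zero).2, ?_⟩
  rw [hg]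
  obtain ⟨H, hH⟩ : ∃ H : Subgroup (Matrix.SpecialLinearGroup (Fin 3) F),
      H = Subgroup.closure ({u, v} : Set (Matrix.SpecialLinearGroup (Fin 3) F)) := ⟨_, rfl⟩
  rw [← hH]
  have hu : u ∈ H := by rw [hH]; exact Subgroup.subset_closure (by simp)
  have hv : v ∈ H := by rw [hH]; exact Subgroup.subset_closure (by simp)
  have h02_1 : TvAt H (0 : Fin 3) 2 1 :=
    tvAt_of_mem (u * u) (by
      rw [Matrix.SpecialLinearGroup.coe_mul, hu1]; exact c2_usq h2) (mul_mem hu hu)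
  have h20_1 : TvAt H (2 : Fin 3) 0 1 :=
    tvAt_of_mem (v * v) (by
      rw [Matrix.SpecialLinearGroup.coe_mul, hv1]; exact c2_vsq h2 r) (mul_mem hv hv)
  obtain ⟨π, hπ⟩ : ∃ π : Matrix.SpecialLinearGroup (Fin 3) F,
      π = Matrix.SpecialLinearGroup.transvection ru3_ne02 1 *
        Matrix.SpecialLinearGroup.transvection ru3_ne20 1 *
        Matrix.SpecialLinearGroup.transvection ru3_ne02 1 := ⟨_, rfl⟩
  have hπH : π ∈ H := by
    rw [hπ]
    exact mul_mem (mul_mem (h02_1.mem ru3_ne02) (h20_1.mem ru3_ne20)) (h02_1.mem ru3_ne02)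
  have hπ1 : π.1 = c2pi := by
    rw [hπ]
    exact c2_pi h2
  have hjt : π * u * π⁻¹ = jt :=
    sl_conj_eq_of π u jt (by rw [hπ1, hu1, hjt1]; exact c2_pi_conj)
  have hjtH : jt ∈ H := by
    rw [← hjt]
    exact mul_mem (mul_mem hπH hu) (inv_mem hπH)
  have h20_r : TvAt H (2 : Fin 3) 0 r := by
    apply tvAt_of_mem' ru3_ne20
    have e : v = jt * Matrix.SpecialLinearGroup.transvection ru3_ne20 r := by
      apply Subtype.ext
      rw [Matrix.SpecialLinearGroup.coe_mul, hv1, hjt1]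
      exact c2_v_eq r
    have e2 : Matrix.SpecialLinearGroup.transvection ru3_ne20 r = jt⁻¹ * v := by
      rw [e, inv_mul_cancel_left]
    rw [e2]
    exact mul_mem (inv_mem hjtH) hv
  obtain ⟨u1, hu1def⟩ : ∃ u1 : Matrix.SpecialLinearGroup (Fin 3) F,
      u1 = u * Matrix.SpecialLinearGroup.transvection ru3_ne02 1 := ⟨_, rfl⟩
  have hu1H : u1 ∈ H := by
    rw [hu1def]
    exact mul_mem hu (h02_1.mem ru3_ne02)
  have hu11 : u1.1 = mU 1 1 (1 * 1) := by
    rw [hu1def, Matrix.SpecialLinearGroup.coe_mul, hu1]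
    show mU 1 1 0 * Matrix.transvection (0 : Fin 3) 2 (1 : F) = mU 1 1 (1 * 1)
    rw [ru3_mU_mul_tv02, zero_add, mul_one]
  have G1 : ∀ t : F, TvAt H (2 : Fin 3) 0 t → TvAt H (1 : Fin 3) 0 (-t) := by
    intro t ht
    have h := ru3_G1 (a := 1) (b := 1) (s := 1) (t := t) u hu hu1 h20_1 ht
      (by rw [one_mul, one_mul, one_mul]; exact ht)
    rw [one_mul, one_mul, one_mul, one_mul] at h
    exact h
  have G2 : ∀ t : F, TvAt H (2 : Fin 3) 0 t → TvAt H (2 : Fin 3) 1 t := by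
    intro t ht
    have h := ru3_G2 (a := 1) (b := 1) (s := 1) (t := t) u1 hu1H hu11 h20_1 ht
      (by rw [one_mul, one_mul, one_mul]; exact ht)
    rw [one_mul, one_mul, one_mul, one_mul] at h
    exact h
  have hpow : ∀ j : ℕ, TvAt H (2 : Fin 3) 0 (r ^ j) := by
    intro j
    induction j with
    | zero => rw [pow_zero]; exact h20_1
    | succ j ih =>
      have a := G1 _ ih
      have b := G2 _ h20_r
      have c := TvAt.comp ru3_ne21 ru3_ne10 ru3_ne20 b a
      have d := TvAt.neg ru3_ne20 c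
      have e : -(r * -(r ^ j)) = r ^ (j + 1) := by ring
      rwa [e] at d
  have h20 : TvFull H (2 : Fin 3) 0 := by
    intro t
    by_cases ht : t = 0
    · rw [ht]; exact TvAt.zero H 2 0
    · obtain ⟨j, rfl⟩ := hgen t ht
      exact hpow j
  have h10 : TvFull H (1 : Fin 3) 0 := by
    intro t
    have := G1 (-t) (h20 (-t))
    rwa [neg_neg] at this
  have h21 : TvFull H (2 : Fin 3) 1 := fun t => G2 t (h20 t)
  have h02 : TvFull H (0 : Fin 3) 2 := by
    intro t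
    apply tvAt_of_mem' ru3_ne02
    have e : π * Matrix.SpecialLinearGroup.transvection ru3_ne20 t * π⁻¹ =
        Matrix.SpecialLinearGroup.transvection ru3_ne02 t :=
      sl_conj_eq_of _ _ _ (by rw [hπ1]; exact c2_pi_tv t)
    rw [← e]
    exact mul_mem (mul_mem hπH ((h20 t).mem ru3_ne20)) (inv_mem hπH)
  exact ru3_top_of_six h02 h20 h10 h21

end char2

section three
variable {F : Type*} [Field F]

/-- the transpose of the Jordan block. -/
def c3B : Matrix (Fin 3) (Fin 3) F := !![1, 0, 0; 1, 1, 0; 0, 1, 1]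

/-- its inverse. -/
def c3Bi : Matrix (Fin 3) (Fin 3) F := !![1, 0, 0; -1, 1, 0; 1, -1, 1]

/-- the conjugating matrix. -/
def c3g : Matrix (Fin 3) (Fin 3) F := !![0, 0, -1; 0, -1, 0; -1, 0, 0]

theorem c3g_det : (c3g : Matrix (Fin 3) (Fin 3) F).det = 1 := by
  unfold c3g
  rw [Matrix.det_fin_three]
  simp

theorem c3B_det : (c3B : Matrix (Fin 3) (Fin 3) F).det = 1 := by
  unfold c3B
  rw [Matrix.det_fin_three]
  simp

theorem c3Bi_det : (c3Bi : Matrix (Fin 3) (Fin 3) F).det = 1 := by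
  unfold c3Bi
  rw [Matrix.det_fin_three]
  simp

theorem c3_conj : (c3g : Matrix (Fin 3) (Fin 3) F) * mU 1 1 0 = c3B * c3g := by
  ext i j
  fin_cases i <;> fin_cases j <;>
    simp [Matrix.mul_apply, Fin.sum_univ_three, mU, c3g, c3B]

theorem c3_Ai_mul : mU (-1 : F) (-1) 1 * mU 1 1 0 = 1 := by
  ext i j
  fin_cases i <;> fin_cases j <;>
    simp [Matrix.mul_apply, Fin.sum_univ_three, mU]

theorem c3_Bi_mul : (c3Bi : Matrix (Fin 3) (Fin 3) F) * c3B = 1 := by
  ext i j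
  fin_cases i <;> fin_cases j <;>
    simp [Matrix.mul_apply, Fin.sum_univ_three, c3Bi, c3B]

theorem c3_word02 (h3 : (3 : F) = 0) :
    (!![1, -1, 1; 0, 1, -1; 0, 0, 1] : Matrix (Fin 3) (Fin 3) F) * !![1, 0, 0; -1, 1, 0; 1, -1, 1] * !![1, -1, 1; 0, 1, -1; 0, 0, 1] * !![1, 0, 0; -1, 1, 0; 1, -1, 1] * !![1, -1, 1; 0, 1, -1; 0, 0, 1] * !![1, 0, 0; 1, 1, 0; 0, 1, 1] * !![1, 1, 0; 0, 1, 1; 0, 0, 1] * !![1, 0, 0; 1, 1, 0; 0, 1, 1] * !![1, 1, 0; 0, 1, 1; 0, 0, 1] * !![1, 0, 0; 1, 1, 0; 0, 1, 1] * !![1, -1, 1; 0, 1, -1; 0, 0, 1] * !![1, 0, 0; -1, 1, 0; 1, -1, 1] * !![1, -1, 1; 0, 1, -1; 0, 0, 1] * !![1, 0, 0; -1, 1, 0; 1, -1, 1] =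
      Matrix.transvection (0 : Fin 3) 2 (1 : F) := by
  have s0 : (!![1, -1, 1; 0, 1, -1; 0, 0, 1] : Matrix (Fin 3) (Fin 3) F) * !![1, 0, 0; -1, 1, 0; 1, -1, 1] = !![3, -2, 1; -2, 2, -1; 1, -1, 1] := by
    ext i j
    fin_cases i <;> fin_cases j <;>
      simp [Matrix.mul_apply, Fin.sum_univ_three] <;> norm_num
  have s1 : (!![3, -2, 1; -2, 2, -1; 1, -1, 1] : Matrix (Fin 3) (Fin 3) F) * !![1, -1, 1; 0, 1, -1; 0, 0, 1] = !![3, -5, 6; -2, 4, -5; 1, -2, 3] := by
    ext i j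
    fin_cases i <;> fin_cases j <;>
      simp [Matrix.mul_apply, Fin.sum_univ_three] <;> norm_num
  have s2 : (!![3, -5, 6; -2, 4, -5; 1, -2, 3] : Matrix (Fin 3) (Fin 3) F) * !![1, 0, 0; -1, 1, 0; 1, -1, 1] = !![14, -11, 6; -11, 9, -5; 6, -5, 3] := by
    ext i j
    fin_cases i <;> fin_cases j <;>
      simp [Matrix.mul_apply, Fin.sum_univ_three] <;> norm_num
  have s3 : (!![14, -11, 6; -11, 9, -5; 6, -5, 3] : Matrix (Fin 3) (Fin 3) F) * !![1, -1, 1; 0, 1, -1; 0, 0, 1] = !![14, -25, 31; -11, 20, -25; 6, -11, 14] := by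
    ext i j
    fin_cases i <;> fin_cases j <;>
      simp [Matrix.mul_apply, Fin.sum_univ_three] <;> norm_num
  have s4 : (!![14, -25, 31; -11, 20, -25; 6, -11, 14] : Matrix (Fin 3) (Fin 3) F) * !![1, 0, 0; 1, 1, 0; 0, 1, 1] = !![-11, 6, 31; 9, -5, -25; -5, 3, 14] := by
    ext i j
    fin_cases i <;> fin_cases j <;>
      simp [Matrix.mul_apply, Fin.sum_univ_three] <;> norm_num
  have s5 : (!![-11, 6, 31; 9, -5, -25; -5, 3, 14] : Matrix (Fin 3) (Fin 3) F) * !![1, 1, 0; 0, 1, 1; 0, 0, 1] = !![-11, -5, 37; 9, 4, -30; -5, -2, 17] := by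
    ext i j
    fin_cases i <;> fin_cases j <;>
      simp [Matrix.mul_apply, Fin.sum_univ_three] <;> norm_num
  have s6 : (!![-11, -5, 37; 9, 4, -30; -5, -2, 17] : Matrix (Fin 3) (Fin 3) F) * !![1, 0, 0; 1, 1, 0; 0, 1, 1] = !![-16, 32, 37; 13, -26, -30; -7, 15, 17] := by
    ext i j
    fin_cases i <;> fin_cases j <;>
      simp [Matrix.mul_apply, Fin.sum_univ_three] <;> norm_num
  have s7 : (!![-16, 32, 37; 13, -26, -30; -7, 15, 17] : Matrix (Fin 3) (Fin 3) F) * !![1, 1, 0; 0, 1, 1; 0, 0, 1] = !![-16, 16, 69; 13, -13, -56; -7, 8, 32] := by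
    ext i j
    fin_cases i <;> fin_cases j <;>
      simp [Matrix.mul_apply, Fin.sum_univ_three] <;> norm_num
  have s8 : (!![-16, 16, 69; 13, -13, -56; -7, 8, 32] : Matrix (Fin 3) (Fin 3) F) * !![1, 0, 0; 1, 1, 0; 0, 1, 1] = !![0, 85, 69; 0, -69, -56; 1, 40, 32] := by
    ext i j
    fin_cases i <;> fin_cases j <;>
      simp [Matrix.mul_apply, Fin.sum_univ_three] <;> norm_num
  have s9 : (!![0, 85, 69; 0, -69, -56; 1, 40, 32] : Matrix (Fin 3) (Fin 3) F) * !![1, -1, 1; 0, 1, -1; 0, 0, 1] = !![0, 85, -16; 0, -69, 13; 1, 39, -7] := by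
    ext i j
    fin_cases i <;> fin_cases j <;>
      simp [Matrix.mul_apply, Fin.sum_univ_three] <;> norm_num
  have s10 : (!![0, 85, -16; 0, -69, 13; 1, 39, -7] : Matrix (Fin 3) (Fin 3) F) * !![1, 0, 0; -1, 1, 0; 1, -1, 1] = !![-101, 101, -16; 82, -82, 13; -45, 46, -7] := by
    ext i j
    fin_cases i <;> fin_cases j <;>
      simp [Matrix.mul_apply, Fin.sum_univ_three] <;> norm_num
  have s11 : (!![-101, 101, -16; 82, -82, 13; -45, 46, -7] : Matrix (Fin 3) (Fin 3) F) * !![1, -1, 1; 0, 1, -1; 0, 0, 1] = !![-101, 202, -218; 82, -164, 177; -45, 91, -98] := by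
    ext i j
    fin_cases i <;> fin_cases j <;>
      simp [Matrix.mul_apply, Fin.sum_univ_three] <;> norm_num
  have s12 : (!![-101, 202, -218; 82, -164, 177; -45, 91, -98] : Matrix (Fin 3) (Fin 3) F) * !![1, 0, 0; -1, 1, 0; 1, -1, 1] = !![-521, 420, -218; 423, -341, 177; -234, 189, -98] := by
    ext i j
    fin_cases i <;> fin_cases j <;>
      simp [Matrix.mul_apply, Fin.sum_univ_three] <;> norm_num
  rw [s0, s1, s2, s3, s4, s5, s6, s7, s8, s9, s10, s11, s12]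
  rw [ru3_tv02]
  ext i j
  fin_cases i <;> fin_cases j <;> simp <;>
    first | linear_combination (-174 : F) * h3 | linear_combination (174 : F) * h3 | linear_combination (140 : F) * h3 | linear_combination (-140 : F) * h3 | linear_combination (-73 : F) * h3 | linear_combination (73 : F) * h3 | linear_combination (141 : F) * h3 | linear_combination (-141 : F) * h3 | linear_combination (-114 : F) * h3 | linear_combination (114 : F) * h3 | linear_combination (59 : F) * h3 | linear_combination (-59 : F) * h3 | linear_combination (-78 : F) * h3 | linear_combination (78 : F) * h3 | linear_combination (63 : F) * h3 | linear_combination (-63 : F) * h3 | linear_combination (-33 : F) * h3 | linear_combination (33 : F) * h3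

theorem c3_word20 (h3 : (3 : F) = 0) :
    (!![1, -1, 1; 0, 1, -1; 0, 0, 1] : Matrix (Fin 3) (Fin 3) F) * !![1, 0, 0; -1, 1, 0; 1, -1, 1] * !![1, -1, 1; 0, 1, -1; 0, 0, 1] * !![1, 0, 0; -1, 1, 0; 1, -1, 1] * !![1, 1, 0; 0, 1, 1; 0, 0, 1] * !![1, 0, 0; 1, 1, 0; 0, 1, 1] * !![1, 1, 0; 0, 1, 1; 0, 0, 1] * !![1, 0, 0; 1, 1, 0; 0, 1, 1] * !![1, 1, 0; 0, 1, 1; 0, 0, 1] * !![1, 0, 0; -1, 1, 0; 1, -1, 1] * !![1, -1, 1; 0, 1, -1; 0, 0, 1] * !![1, 0, 0; -1, 1, 0; 1, -1, 1] * !![1, -1, 1; 0, 1, -1; 0, 0, 1] * !![1, 0, 0; -1, 1, 0; 1, -1, 1] =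
      Matrix.transvection (2 : Fin 3) 0 (1 : F) := by
  have s0 : (!![1, -1, 1; 0, 1, -1; 0, 0, 1] : Matrix (Fin 3) (Fin 3) F) * !![1, 0, 0; -1, 1, 0; 1, -1, 1] = !![3, -2, 1; -2, 2, -1; 1, -1, 1] := by
    ext i j
    fin_cases i <;> fin_cases j <;>
      simp [Matrix.mul_apply, Fin.sum_univ_three] <;> norm_num
  have s1 : (!![3, -2, 1; -2, 2, -1; 1, -1, 1] : Matrix (Fin 3) (Fin 3) F) * !![1, -1, 1; 0, 1, -1; 0, 0, 1] = !![3, -5, 6; -2, 4, -5; 1, -2, 3] := by
    ext i j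
    fin_cases i <;> fin_cases j <;>
      simp [Matrix.mul_apply, Fin.sum_univ_three] <;> norm_num
  have s2 : (!![3, -5, 6; -2, 4, -5; 1, -2, 3] : Matrix (Fin 3) (Fin 3) F) * !![1, 0, 0; -1, 1, 0; 1, -1, 1] = !![14, -11, 6; -11, 9, -5; 6, -5, 3] := by
    ext i j
    fin_cases i <;> fin_cases j <;>
      simp [Matrix.mul_apply, Fin.sum_univ_three] <;> norm_num
  have s3 : (!![14, -11, 6; -11, 9, -5; 6, -5, 3] : Matrix (Fin 3) (Fin 3) F) * !![1, 1, 0; 0, 1, 1; 0, 0, 1] = !![14, 3, -5; -11, -2, 4; 6, 1, -2] := by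
    ext i j
    fin_cases i <;> fin_cases j <;>
      simp [Matrix.mul_apply, Fin.sum_univ_three] <;> norm_num
  have s4 : (!![14, 3, -5; -11, -2, 4; 6, 1, -2] : Matrix (Fin 3) (Fin 3) F) * !![1, 0, 0; 1, 1, 0; 0, 1, 1] = !![17, -2, -5; -13, 2, 4; 7, -1, -2] := by
    ext i j
    fin_cases i <;> fin_cases j <;>
      simp [Matrix.mul_apply, Fin.sum_univ_three] <;> norm_num
  have s5 : (!![17, -2, -5; -13, 2, 4; 7, -1, -2] : Matrix (Fin 3) (Fin 3) F) * !![1, 1, 0; 0, 1, 1; 0, 0, 1] = !![17, 15, -7; -13, -11, 6; 7, 6, -3] := by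
    ext i j
    fin_cases i <;> fin_cases j <;>
      simp [Matrix.mul_apply, Fin.sum_univ_three] <;> norm_num
  have s6 : (!![17, 15, -7; -13, -11, 6; 7, 6, -3] : Matrix (Fin 3) (Fin 3) F) * !![1, 0, 0; 1, 1, 0; 0, 1, 1] = !![32, 8, -7; -24, -5, 6; 13, 3, -3] := by
    ext i j
    fin_cases i <;> fin_cases j <;>
      simp [Matrix.mul_apply, Fin.sum_univ_three] <;> norm_num
  have s7 : (!![32, 8, -7; -24, -5, 6; 13, 3, -3] : Matrix (Fin 3) (Fin 3) F) * !![1, 1, 0; 0, 1, 1; 0, 0, 1] = !![32, 40, 1; -24, -29, 1; 13, 16, 0] := by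
    ext i j
    fin_cases i <;> fin_cases j <;>
      simp [Matrix.mul_apply, Fin.sum_univ_three] <;> norm_num
  have s8 : (!![32, 40, 1; -24, -29, 1; 13, 16, 0] : Matrix (Fin 3) (Fin 3) F) * !![1, 0, 0; -1, 1, 0; 1, -1, 1] = !![-7, 39, 1; 6, -30, 1; -3, 16, 0] := by
    ext i j
    fin_cases i <;> fin_cases j <;>
      simp [Matrix.mul_apply, Fin.sum_univ_three] <;> norm_num
  have s9 : (!![-7, 39, 1; 6, -30, 1; -3, 16, 0] : Matrix (Fin 3) (Fin 3) F) * !![1, -1, 1; 0, 1, -1; 0, 0, 1] = !![-7, 46, -45; 6, -36, 37; -3, 19, -19] := by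
    ext i j
    fin_cases i <;> fin_cases j <;>
      simp [Matrix.mul_apply, Fin.sum_univ_three] <;> norm_num
  have s10 : (!![-7, 46, -45; 6, -36, 37; -3, 19, -19] : Matrix (Fin 3) (Fin 3) F) * !![1, 0, 0; -1, 1, 0; 1, -1, 1] = !![-98, 91, -45; 79, -73, 37; -41, 38, -19] := by
    ext i j
    fin_cases i <;> fin_cases j <;>
      simp [Matrix.mul_apply, Fin.sum_univ_three] <;> norm_num
  have s11 : (!![-98, 91, -45; 79, -73, 37; -41, 38, -19] : Matrix (Fin 3) (Fin 3) F) * !![1, -1, 1; 0, 1, -1; 0, 0, 1] = !![-98, 189, -234; 79, -152, 189; -41, 79, -98] := by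
    ext i j
    fin_cases i <;> fin_cases j <;>
      simp [Matrix.mul_apply, Fin.sum_univ_three] <;> norm_num
  have s12 : (!![-98, 189, -234; 79, -152, 189; -41, 79, -98] : Matrix (Fin 3) (Fin 3) F) * !![1, 0, 0; -1, 1, 0; 1, -1, 1] = !![-521, 423, -234; 420, -341, 189; -218, 177, -98] := by
    ext i j
    fin_cases i <;> fin_cases j <;>
      simp [Matrix.mul_apply, Fin.sum_univ_three] <;> norm_num
  rw [s0, s1, s2, s3, s4, s5, s6, s7, s8, s9, s10, s11, s12]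
  rw [ru3_tv20]
  ext i j
  fin_cases i <;> fin_cases j <;> simp <;>
    first | linear_combination (-174 : F) * h3 | linear_combination (174 : F) * h3 | linear_combination (141 : F) * h3 | linear_combination (-141 : F) * h3 | linear_combination (-78 : F) * h3 | linear_combination (78 : F) * h3 | linear_combination (140 : F) * h3 | linear_combination (-140 : F) * h3 | linear_combination (-114 : F) * h3 | linear_combination (114 : F) * h3 | linear_combination (63 : F) * h3 | linear_combination (-63 : F) * h3 | linear_combination (-73 : F) * h3 | linear_combination (73 : F) * h3 | linear_combination (59 : F) * h3 | linear_combination (-59 : F) * h3 | linear_combination (-33 : F) * h3 | linear_combination (33 : F) * h3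


/-- the field with three elements. -/
theorem ru3_case_three [Fintype F] (hp : (Fintype.card F).Prime) (h3 : (3 : F) = 0) :
    ∃ u g : Matrix.SpecialLinearGroup (Fin 3) F,
      IsNilpotent ((u : Matrix (Fin 3) (Fin 3) F) - 1) ∧
      ((u : Matrix (Fin 3) (Fin 3) F) - 1) ^ (3 - 1) ≠ 0 ∧
      Subgroup.closure ({u, g * u * g⁻¹} : Set (Matrix.SpecialLinearGroup (Fin 3) F)) = ⊤ := by
  obtain ⟨u, hu1⟩ : ∃ u : Matrix.SpecialLinearGroup (Fin 3) F, u.1 = mU 1 1 0 :=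
    ⟨⟨mU 1 1 0, ru3_mU_det _ _ _⟩, rfl⟩
  obtain ⟨ui, hui1⟩ : ∃ ui : Matrix.SpecialLinearGroup (Fin 3) F, ui.1 = mU (-1) (-1) 1 :=
    ⟨⟨mU (-1) (-1) 1, ru3_mU_det _ _ _⟩, rfl⟩
  obtain ⟨g, hg1⟩ : ∃ g : Matrix.SpecialLinearGroup (Fin 3) F, g.1 = c3g :=
    ⟨⟨c3g, c3g_det⟩, rfl⟩
  obtain ⟨v, hv1⟩ : ∃ v : Matrix.SpecialLinearGroup (Fin 3) F, v.1 = c3B :=
    ⟨⟨c3B, c3B_det⟩, rfl⟩
  obtain ⟨vi, hvi1⟩ : ∃ vi : Matrix.SpecialLinearGroup (Fin 3) F, vi.1 = c3Bi :=
    ⟨⟨c3Bi, c3Bi_det⟩, rfl⟩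
  have hg : g * u * g⁻¹ = v := sl_conj_eq_of g u v (by rw [hg1, hu1, hv1]; exact c3_conj)
  have hui : ui = u⁻¹ := by
    apply eq_inv_of_mul_eq_one_left
    apply Subtype.ext
    rw [Matrix.SpecialLinearGroup.coe_mul, hui1, hu1]
    exact c3_Ai_mul
  have hvi : vi = v⁻¹ := by
    apply eq_inv_of_mul_eq_one_left
    apply Subtype.ext
    rw [Matrix.SpecialLinearGroup.coe_mul, hvi1, hv1]
    exact c3_Bi_mul
  refine ⟨u, g, by rw [hu1]; exact (ru3_mU_regular _ one_ne_zero one_ne_zero).1,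
    by rw [hu1]; exact (ru3_mU_regular _ one_ne_zero one_ne_zero).2, ?_⟩
  rw [hg]
  obtain ⟨H, hH⟩ : ∃ H : Subgroup (Matrix.SpecialLinearGroup (Fin 3) F),
      H = Subgroup.closure ({u, v} : Set (Matrix.SpecialLinearGroup (Fin 3) F)) := ⟨_, rfl⟩
  rw [← hH]
  have hu : u ∈ H := by rw [hH]; exact Subgroup.subset_closure (by simp)
  have hv : v ∈ H := by rw [hH]; exact Subgroup.subset_closure (by simp)
  have huiH : ui ∈ H := by rw [hui]; exact inv_mem hu
  have hviH : vi ∈ H := by rw [hvi]; exact inv_mem hv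
  have h02_1 : TvAt H (0 : Fin 3) 2 1 := by
    apply tvAt_of_mem (ui * vi * ui * vi * ui * v * u * v * u * v * ui * vi * ui * vi)
    · simp only [Matrix.SpecialLinearGroup.coe_mul, hu1, hv1, hui1, hvi1, mU, c3B, c3Bi]
      exact c3_word02 h3
    · repeat' apply mul_mem
      all_goals assumption
  have h20_1 : TvAt H (2 : Fin 3) 0 1 := by
    apply tvAt_of_mem (ui * vi * ui * vi * u * v * u * v * u * vi * ui * vi * ui * vi)
    · simp only [Matrix.SpecialLinearGroup.coe_mul, hu1, hv1, hui1, hvi1, mU, c3B, c3Bi]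
      exact c3_word20 h3
    · repeat' apply mul_mem
      all_goals assumption
  exact ru3_top_of_long one_ne_zero one_ne_zero u hu hu1
    (ru3_full_of_prime hp ru3_ne02 one_ne_zero h02_1)
    (ru3_full_of_prime hp ru3_ne20 one_ne_zero h20_1)

end three

end Cfsg.Agent.Helper38
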