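import Mathlib

/-!
# `SL₂(5)` inside `Sp₄(3)`: the fixed space of an element of order 3

Field facts for the fields with 3 and 5 elements, an inverting element of order 4 for an element
of order 3 of `SL₂(5)`, and the linear algebra used for statement S3213.
-/

set_option autoImplicit false

namespace Cfsg.Agent.Helper38

open Matrix

section Fields

variable {K : Type*} [Field K] [Fintype K]

theorem five_eq_zero_of_card (hK : Fintype.card K = 5) : (5 : K) = 0 := by
  have h := FiniteField.cast_card_eq_zero K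
  rw [hK] at h
  exact_mod_cast h

theorem three_eq_zero_of_card (hK : Fintype.card K = 3) : (3 : K) = 0 := by
  have h := FiniteField.cast_card_eq_zero K
  rw [hK] at h
  exact_mod_cast h

theorem pow_four_eq_one_of_card (hK : Fintype.card K = 5) (c : K) (hc : c ≠ 0) : c ^ 4 = 1 := by
  have h := FiniteField.pow_card_sub_one_eq_one c hc
  rw [hK] at h
  exact h

theorem sq_eq_one_of_card (hK : Fintype.card K = 3) (c : K) (hc : c ≠ 0) : c ^ 2 = 1 := by
  have h := FiniteField.pow_card_sub_one_eq_one c hc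
  rw [hK] at h
  exact h

/-- No primitive cube root of unity in the field with 5 elements. -/
theorem no_cube_root_five (hK : Fintype.card K = 5) (c : K) : c ^ 2 + c + 1 ≠ 0 := by
  intro h
  have h5 := five_eq_zero_of_card hK
  have hc0 : c ≠ 0 := by
    rintro rfl
    simp at h
  have h4 := pow_four_eq_one_of_card hK c hc0
  have h3 : c ^ 3 = 1 := by linear_combination (c - 1) * h
  have hc1 : c = 1 := by
    have : c ^ 4 = c ^ 3 * c := by ring
    rw [h3, one_mul] at this
    rw [← this, h4]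
  rw [hc1] at h
  have h3' : (3 : K) = 0 := by linear_combination h
  have h2 : (2 : K) = 0 := by linear_combination h5 - h3'
  have h1 : (1 : K) = 0 := by linear_combination h3' - h2
  exact one_ne_zero h1

/-- The norm form `α² - αβ + β²` represents every non-zero element of the field with 5
elements. -/
theorem norm_surj_five (hK : Fintype.card K = 5) (e : K) (he : e ≠ 0) :
    ∃ α β : K, (α ^ 2 - α * β + β ^ 2) * e = 1 := by
  have h5 := five_eq_zero_of_card hK
  have h4 := pow_four_eq_one_of_card hK e he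
  have hfac : (e ^ 2 - 1) * (e ^ 2 + 1) = 0 := by linear_combination h4
  rcases mul_eq_zero.1 hfac with h | h
  · have hfac2 : (e - 1) * (e + 1) = 0 := by linear_combination h
    rcases mul_eq_zero.1 hfac2 with h1 | h1
    · exact ⟨1, 0, by linear_combination h1⟩
    · exact ⟨2, 0, by linear_combination 4 * h1 - h5⟩
  · exact ⟨1, e, by linear_combination (e - 1) * h⟩

/-- `-1` is not a square in the field with 3 elements. -/
theorem no_sqrt_neg_one_three (hK : Fintype.card K = 3) (c : K) : c ^ 2 ≠ -1 := by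
  intro h
  have h3 := three_eq_zero_of_card hK
  have hc0 : c ≠ 0 := by
    rintro rfl
    simp at h
  have h2 := sq_eq_one_of_card hK c hc0
  have h2' : (2 : K) = 0 := by linear_combination h - h2
  have h1 : (1 : K) = 0 := by linear_combination h3 - h2'
  exact one_ne_zero h1

end Fields

section SL2

variable {K : Type*} [Field K] [Fintype K]

/-- An element of `SL₂` from a matrix of determinant one. -/
def mkSL2 (M : Matrix (Fin 2) (Fin 2) K) (h : M.det = 1) :
    Matrix.SpecialLinearGroup (Fin 2) K := ⟨M, h⟩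

omit [Fintype K] in
theorem mkSL2_val (M : Matrix (Fin 2) (Fin 2) K) (h : M.det = 1) :
    ((mkSL2 M h : Matrix.SpecialLinearGroup (Fin 2) K) : Matrix (Fin 2) (Fin 2) K) = M := rfl

/-- In `SL₂(5)` every element of order 3 is inverted by an element whose square is `-1`. -/
theorem exists_inverting_five (hK : Fintype.card K = 5)
    (x : Matrix.SpecialLinearGroup (Fin 2) K) (hx : orderOf x = 3) :
    ∃ y : Matrix.SpecialLinearGroup (Fin 2) K, y * x * y⁻¹ = x⁻¹ ∧
      (y : Matrix (Fin 2) (Fin 2) K) * (y : Matrix (Fin 2) (Fin 2) K) = -1 := by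
  have h5 := five_eq_zero_of_card hK
  have hx3 : x ^ 3 = 1 := by
    rw [← hx]
    exact pow_orderOf_eq_one _
  have hx1 : x ≠ 1 := by
    intro h
    rw [h, orderOf_one] at hx
    omega
  have hX3 : (x : Matrix (Fin 2) (Fin 2) K) * (x : Matrix (Fin 2) (Fin 2) K) *
      (x : Matrix (Fin 2) (Fin 2) K) = 1 := by
    have h := congrArg (fun g : Matrix.SpecialLinearGroup (Fin 2) K =>
      (g : Matrix (Fin 2) (Fin 2) K)) hx3
    simp only [Matrix.SpecialLinearGroup.coe_pow, Matrix.SpecialLinearGroup.coe_one] at h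
    rw [← h]
    simp [pow_succ]
  have hX1 : (x : Matrix (Fin 2) (Fin 2) K) ≠ 1 := by
    intro h
    apply hx1
    apply Subtype.ext
    rw [h]
    rfl
  have hX : (x : Matrix (Fin 2) (Fin 2) K).det = 1 := x.det_coe
  obtain ⟨a, b, c, d, hXeq⟩ : ∃ a b c d : K, (x : Matrix (Fin 2) (Fin 2) K) = !![a, b; c, d] :=
    ⟨_, _, _, _, Matrix.eta_fin_two _⟩
  rw [hXeq] at hX3 hX1 hX
  have hdet : a * d - b * c = 1 := by
    rw [Matrix.det_fin_two_of] at hX
    exact hX
  have e11 := congrFun (congrFun hX3 0) 0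
  have e12 := congrFun (congrFun hX3 0) 1
  have e21 := congrFun (congrFun hX3 1) 0
  have e22 := congrFun (congrFun hX3 1) 1
  simp [Matrix.mul_apply, Fin.sum_univ_two] at e11 e12 e21 e22
  -- trace `t = a + d`
  have h1 : ((a + d) ^ 2 - 1) * a - (a + d) = 1 := by
    linear_combination e11 + (a + (a + d)) * hdet
  have h2 : ((a + d) ^ 2 - 1) * b = 0 := by
    linear_combination e12 + b * hdet
  have h3 : ((a + d) ^ 2 - 1) * c = 0 := by
    linear_combination e21 + c * hdet
  have h4 : ((a + d) ^ 2 - 1) * d - (a + d) = 1 := by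
    linear_combination e22 + (d + (a + d)) * hdet
  have ht : a + d = -1 := by
    have hfac : (a + d + 1) ^ 2 * (a + d - 2) = 0 := by
      linear_combination h1 + h4
    rcases mul_eq_zero.1 hfac with h | h
    · have := pow_eq_zero_iff (two_ne_zero) |>.1 h
      linear_combination this
    · exfalso
      have ht2 : a + d = 2 := by linear_combination h
      have h3ne : ((a + d) ^ 2 - 1 : K) ≠ 0 := by
        rw [ht2]
        intro h0
        have h3' : (3 : K) = 0 := by linear_combination h0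
        have h2' : (2 : K) = 0 := by linear_combination h5 - h3'
        have h1' : (1 : K) = 0 := by linear_combination h3' - h2'
        exact one_ne_zero h1'
      have hb : b = 0 := by
        rcases mul_eq_zero.1 h2 with h | h
        · exact absurd h h3ne
        · exact h
      have hc : c = 0 := by
        rcases mul_eq_zero.1 h3 with h | h
        · exact absurd h h3ne
        · exact h
      have ha : a = 1 := by
        rw [ht2] at h1
        have : (3 : K) * (a - 1) = 0 := by linear_combination h1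
        rcases mul_eq_zero.1 this with h | h
        · exfalso
          have h2' : (2 : K) = 0 := by linear_combination h5 - h
          have h1' : (1 : K) = 0 := by linear_combination h - h2'
          exact one_ne_zero h1'
        · linear_combination h
      have hd : d = 1 := by linear_combination ht2 - ha
      apply hX1
      rw [ha, hb, hc, hd]
      exact Matrix.one_fin_two.symm
  have hb : b ≠ 0 := by
    intro hb
    apply no_cube_root_five hK a
    rw [hb] at hdet
    linear_combination (-1 : K) * hdet + a * ht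
  have hc : c ≠ 0 := by
    intro hc
    apply no_cube_root_five hK a
    rw [hc] at hdet
    linear_combination (-1 : K) * hdet + a * ht
  obtain ⟨α, β, hαβ⟩ := norm_surj_five hK (b * c) (mul_ne_zero hb hc)
  have hydet : (!![β * b * c, -α * b - β * a * b; α * c + β * d * c, -β * b * c] :
      Matrix (Fin 2) (Fin 2) K).det = 1 := by
    rw [Matrix.det_fin_two_of]
    linear_combination hαβ + (β ^ 2 * b * c) * hdet + (α * β * b * c) * ht
  refine ⟨mkSL2 !![β * b * c, -α * b - β * a * b; α * c + β * d * c, -β * b * c] hydet, ?_, ?_⟩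
  · rw [mul_inv_eq_iff_eq_mul]
    apply Subtype.ext
    rw [Matrix.SpecialLinearGroup.coe_mul, Matrix.SpecialLinearGroup.coe_mul,
      Matrix.SpecialLinearGroup.coe_inv, hXeq, mkSL2_val]
    simp only [Matrix.adjugate_fin_two_of, Matrix.mul_fin_two]
    ext i j
    fin_cases i <;> fin_cases j <;> simp <;> ring
  · rw [mkSL2_val]
    simp only [Matrix.mul_fin_two]
    rw [Matrix.det_fin_two_of] at hydet
    ext i j
    fin_cases i <;> fin_cases j <;> simp
    · linear_combination (-1 : K) * hydet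
    · ring
    · ring
    · linear_combination (-1 : K) * hydet

/-- `SL₂(5)` has an element of order 5. -/
theorem exists_order_five (hK : Fintype.card K = 5) :
    ∃ g : Matrix.SpecialLinearGroup (Fin 2) K, g ≠ 1 ∧ g ^ 5 = 1 := by
  have h5 := five_eq_zero_of_card hK
  have hdet : (!![1, 1; 0, 1] : Matrix (Fin 2) (Fin 2) K).det = 1 := by
    rw [Matrix.det_fin_two_of]
    ring
  refine ⟨mkSL2 _ hdet, ?_, ?_⟩
  · intro h
    have h2 := congrArg (fun g : Matrix.SpecialLinearGroup (Fin 2) K =>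
      (g : Matrix (Fin 2) (Fin 2) K) 0 1) h
    simp [mkSL2_val] at h2
  · apply Subtype.ext
    rw [Matrix.SpecialLinearGroup.coe_pow, mkSL2_val, Matrix.SpecialLinearGroup.coe_one]
    have hpow : ∀ n : ℕ, (!![1, 1; 0, 1] : Matrix (Fin 2) (Fin 2) K) ^ n = !![1, (n : K); 0, 1] := by
      intro n
      induction n with
      | zero => simp [Matrix.one_fin_two]
      | succ n ih =>
        rw [pow_succ, ih, Matrix.mul_fin_two]
        simp [add_comm]
    rw [hpow 5]
    push_cast
    rw [h5]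
    exact Matrix.one_fin_two.symm

end SL2

section LinAlg

variable {F : Type*} [Field F] [Fintype F] {ι : Type*} [Fintype ι] [DecidableEq ι]

/-- The fixed space of a matrix. -/
def fixSp (M : Matrix ι ι F) : Submodule F (ι → F) :=
  LinearMap.ker (Matrix.toLin' M - LinearMap.id)

omit [Fintype F] in
theorem mem_fixSp {M : Matrix ι ι F} {v : ι → F} : v ∈ fixSp M ↔ M *ᵥ v = v := by
  rw [fixSp, LinearMap.mem_ker, LinearMap.sub_apply, Matrix.toLin'_apply, LinearMap.id_apply,
    sub_eq_zero]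

omit [Fintype F] in
theorem fixSp_eq_top_iff {M : Matrix ι ι F} : fixSp M = ⊤ ↔ M = 1 := by
  constructor
  · intro h
    apply Matrix.mulVec_injective
    funext v
    rw [Matrix.one_mulVec]
    exact mem_fixSp.1 (h ▸ Submodule.mem_top)
  · rintro rfl
    rw [eq_top_iff]
    intro v _
    rw [mem_fixSp, Matrix.one_mulVec]

/-- Orbit counting for a matrix of order dividing 5 on an invariant subspace. -/
theorem card_fixed_modEq (G : Matrix ι ι F) (hG : G ^ 5 = 1) (W : Submodule F (ι → F))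
    (hW : ∀ v ∈ W, G *ᵥ v ∈ W) :
    Fintype.card F ^ Module.finrank F W ≡
      Fintype.card F ^ Module.finrank F ↥(W ⊓ fixSp G) [MOD 5] := by
  classical
  have : Fact (Nat.Prime 5) := ⟨by norm_num⟩
  let f : Function.End W := fun v => ⟨G *ᵥ (v : ι → F), hW v.1 v.2⟩
  have key : ∀ n : ℕ, ∀ v : W, (((f ^ n) v : W) : ι → F) = (G ^ n) *ᵥ (v : ι → F) := by
    intro n
    induction n with
    | zero =>
      intro v
      rw [pow_zero, pow_zero, Matrix.one_mulVec]
      rfl
    | succ n ih =>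
      intro v
      rw [pow_succ', pow_succ']
      show G *ᵥ (((f ^ n) v : W) : ι → F) = _
      rw [ih, Matrix.mulVec_mulVec]
  have hf : f ^ 5 ^ 1 = 1 := by
    rw [pow_one]
    funext v
    apply Subtype.ext
    rw [key, hG, Matrix.one_mulVec]
    rfl
  have h := Equiv.Perm.card_fixedPoints_modEq (p := 5) (n := 1) hf
  have e : ↥(Function.fixedPoints f) ≃ ↥(W ⊓ fixSp G) :=
    { toFun := fun v => ⟨(v.1 : ι → F), ⟨v.1.2, mem_fixSp.2 (congrArg Subtype.val v.2)⟩⟩
      invFun := fun v => ⟨⟨v.1, v.2.1⟩, Subtype.ext (mem_fixSp.1 v.2.2)⟩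
      left_inv := fun v => rfl
      right_inv := fun v => rfl }
  rw [← Nat.card_eq_fintype_card, ← Nat.card_eq_fintype_card, Nat.card_congr e] at h
  rw [Nat.card_eq_fintype_card (α := W), Nat.card_eq_fintype_card (α := ↥(W ⊓ fixSp G)),
    Module.card_eq_pow_finrank (K := F) (V := ↥W),
    Module.card_eq_pow_finrank (K := F) (V := ↥(W ⊓ fixSp G))] at h
  exact h

theorem pow_three_mod_five {e : ℕ} (he : e ≤ 4) (h : 3 ^ e ≡ 1 [MOD 5]) : e = 0 ∨ e = 4 := by
  interval_cases e
  · exact Or.inl rfl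
  · exact absurd h (by decide)
  · exact absurd h (by decide)
  · exact absurd h (by decide)
  · exact Or.inr rfl

omit [Fintype F] in
theorem finrank_V4 : Module.finrank F (Fin 2 ⊕ Fin 2 → F) = 4 := by
  simp

theorem fixSp_eq_bot_of_pow_five (hF : Fintype.card F = 3)
    (G : Matrix (Fin 2 ⊕ Fin 2) (Fin 2 ⊕ Fin 2) F) (hG : G ^ 5 = 1) (hG1 : G ≠ 1) :
    fixSp G = ⊥ := by
  have h := card_fixed_modEq G hG ⊤ (fun v _ => Submodule.mem_top)
  rw [hF, finrank_top, finrank_V4, top_inf_eq] at h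
  have hle : Module.finrank F (fixSp G) ≤ 4 := by
    have := Submodule.finrank_le (fixSp G)
    rwa [finrank_V4] at this
  rcases pow_three_mod_five hle (h.symm.trans (by decide)) with h0 | h4
  · exact Submodule.finrank_eq_zero.1 h0
  · exfalso
    apply hG1
    rw [← fixSp_eq_top_iff]
    exact Submodule.eq_top_of_finrank_eq (h4.trans finrank_V4.symm)

/-- An involution commuting with an element of order 5 of `GL₄(3)` is `-1`. -/
theorem eq_neg_one_of_commute (hF : Fintype.card F = 3)
    (G T : Matrix (Fin 2 ⊕ Fin 2) (Fin 2 ⊕ Fin 2) F) (hG : G ^ 5 = 1) (hG1 : G ≠ 1)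
    (hT : T * T = 1) (hT1 : T ≠ 1) (hc : T * G = G * T) : T = -1 := by
  have hGb := fixSp_eq_bot_of_pow_five hF G hG hG1
  have hinv : ∀ v ∈ fixSp T, G *ᵥ v ∈ fixSp T := by
    intro v hv
    rw [mem_fixSp] at hv ⊢
    rw [Matrix.mulVec_mulVec, hc, ← Matrix.mulVec_mulVec, hv]
  have h := card_fixed_modEq G hG (fixSp T) hinv
  have hbot : fixSp T ⊓ fixSp G = ⊥ := by rw [hGb, inf_bot_eq]
  rw [hF, hbot, finrank_bot, pow_zero] at h
  have hle : Module.finrank F (fixSp T) ≤ 4 := by
    have := Submodule.finrank_le (fixSp T)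
    rwa [finrank_V4] at this
  rcases pow_three_mod_five hle h with h0 | h4
  · have hTb : fixSp T = ⊥ := Submodule.finrank_eq_zero.1 h0
    apply Matrix.mulVec_injective
    funext v
    have hv : T *ᵥ v + v ∈ fixSp T := by
      rw [mem_fixSp, Matrix.mulVec_add, Matrix.mulVec_mulVec, hT, Matrix.one_mulVec, add_comm]
    rw [hTb, Submodule.mem_bot] at hv
    rw [Matrix.neg_mulVec, Matrix.one_mulVec]
    exact eq_neg_of_add_eq_zero_left hv
  · exfalso
    apply hT1
    rw [← fixSp_eq_top_iff]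
    exact Submodule.eq_top_of_finrank_eq (h4.trans finrank_V4.symm)

/-- A subspace invariant under a matrix `Y` with `Y² = -1` over the field with 3 elements has
even dimension. -/
theorem even_finrank_of_sq_neg_one (hF : Fintype.card F = 3) (Y : Matrix ι ι F)
    (hY : Y * Y = -1) (W : Submodule F (ι → F)) (hW : ∀ v ∈ W, Y *ᵥ v ∈ W) :
    Even (Module.finrank F W) := by
  let g : W →ₗ[F] W := (Matrix.toLin' Y).restrict (fun v hv => by
    rw [Matrix.toLin'_apply]
    exact hW v hv)
  have hgg : g ∘ₗ g = (-1 : F) • LinearMap.id := by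
    apply LinearMap.ext
    intro v
    apply Subtype.ext
    show Matrix.toLin' Y (Matrix.toLin' Y (v : ι → F)) = ((-1 : F) • v : W)
    rw [Matrix.toLin'_apply, Matrix.toLin'_apply, Matrix.mulVec_mulVec, hY, Matrix.neg_mulVec,
      Matrix.one_mulVec]
    simp
  have hdet : LinearMap.det g * LinearMap.det g = (-1 : F) ^ Module.finrank F W := by
    rw [← LinearMap.det_comp, hgg, LinearMap.det_smul, LinearMap.det_id, mul_one]
  by_contra hodd
  rw [Nat.not_even_iff_odd] at hodd
  rw [hodd.neg_one_pow] at hdet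
  exact no_sqrt_neg_one_three hF (LinearMap.det g) (by rw [pow_two]; exact hdet)

/-- A matrix of order dividing 3 over the field with 3 elements has a non-zero fixed vector in
every non-zero invariant subspace. -/
theorem exists_fixed_of_cube (hF : Fintype.card F = 3) (M : Matrix ι ι F)
    (hM : M * M * M = 1) (U : Submodule F (ι → F)) (hU : ∀ v ∈ U, M *ᵥ v ∈ U) (hne : U ≠ ⊥) :
    ∃ u ∈ U, u ≠ 0 ∧ M *ᵥ u = u := by
  have h3 := three_eq_zero_of_card hF
  obtain ⟨u₀, hu₀, hu₀ne⟩ := (Submodule.ne_bot_iff U).1 hne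
  have hN3 : ∀ v : ι → F, M *ᵥ (M *ᵥ (M *ᵥ v - v) - (M *ᵥ v - v)) -
      (M *ᵥ (M *ᵥ v - v) - (M *ᵥ v - v)) = 0 := by
    intro v
    have e : M *ᵥ (M *ᵥ (M *ᵥ v)) = v := by
      rw [Matrix.mulVec_mulVec, Matrix.mulVec_mulVec, hM, Matrix.one_mulVec]
    simp only [Matrix.mulVec_sub, e]
    have e2 : v - M *ᵥ (M *ᵥ v) - (M *ᵥ (M *ᵥ v) - M *ᵥ v) -
        (M *ᵥ (M *ᵥ v) - M *ᵥ v - (M *ᵥ v - v)) = (3 : F) • (M *ᵥ v - M *ᵥ (M *ᵥ v)) := by
      module
    rw [e2, h3, zero_smul]
  have hu₁U : M *ᵥ u₀ - u₀ ∈ U := U.sub_mem (hU _ hu₀) hu₀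
  have hu₂U : M *ᵥ (M *ᵥ u₀ - u₀) - (M *ᵥ u₀ - u₀) ∈ U := U.sub_mem (hU _ hu₁U) hu₁U
  by_cases h2 : M *ᵥ (M *ᵥ u₀ - u₀) - (M *ᵥ u₀ - u₀) = 0
  · by_cases h1 : M *ᵥ u₀ - u₀ = 0
    · exact ⟨u₀, hu₀, hu₀ne, sub_eq_zero.1 h1⟩
    · exact ⟨_, hu₁U, h1, sub_eq_zero.1 h2⟩
  · exact ⟨_, hu₂U, h2, sub_eq_zero.1 (hN3 u₀)⟩

theorem fixSp_finrank_two (hF : Fintype.card F = 3)
    (M Y : Matrix (Fin 2 ⊕ Fin 2) (Fin 2 ⊕ Fin 2) F) (hM3 : M * M * M = 1) (hM1 : M ≠ 1)
    (hY : Y * Y = -1) (hMY : M * Y * M = Y) : Module.finrank F (fixSp M) = 2 := by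
  have hinv : ∀ v ∈ fixSp M, Y *ᵥ v ∈ fixSp M := by
    intro v hv
    rw [mem_fixSp] at hv ⊢
    calc M *ᵥ (Y *ᵥ v) = M *ᵥ (Y *ᵥ (M *ᵥ v)) := by rw [hv]
      _ = (M * Y * M) *ᵥ v := by rw [Matrix.mulVec_mulVec, Matrix.mulVec_mulVec]
      _ = Y *ᵥ v := by rw [hMY]
  have heven := even_finrank_of_sq_neg_one hF Y hY (fixSp M) hinv
  have hle : Module.finrank F (fixSp M) ≤ 4 := by
    have := Submodule.finrank_le (fixSp M)
    rwa [finrank_V4] at this
  have hne0 : Module.finrank F (fixSp M) ≠ 0 := by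
    intro h0
    have hb : fixSp M = ⊥ := Submodule.finrank_eq_zero.1 h0
    have htop : (⊤ : Submodule F (Fin 2 ⊕ Fin 2 → F)) ≠ ⊥ := by
      intro h
      have h4 : Module.finrank F (⊤ : Submodule F (Fin 2 ⊕ Fin 2 → F)) = 4 := by
        rw [finrank_top, finrank_V4]
      rw [h, finrank_bot] at h4
      omega
    obtain ⟨u, -, hu0, hu⟩ := exists_fixed_of_cube hF M hM3 ⊤ (fun _ _ => Submodule.mem_top) htop
    have : u ∈ fixSp M := mem_fixSp.2 hu
    rw [hb, Submodule.mem_bot] at this
    exact hu0 this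
  have hne4 : Module.finrank F (fixSp M) ≠ 4 := by
    intro h4
    apply hM1
    rw [← fixSp_eq_top_iff]
    exact Submodule.eq_top_of_finrank_eq (h4.trans finrank_V4.symm)
  obtain ⟨k, hk⟩ := heven
  omega

end LinAlg

section Symp

variable {F : Type*} [Field F] {l : Type*} [Fintype l] [DecidableEq l]

theorem sympf_skew (u v : l ⊕ l → F) :
    u ⬝ᵥ (Matrix.J l F *ᵥ v) = -(v ⬝ᵥ (Matrix.J l F *ᵥ u)) := by
  rw [Matrix.dotProduct_mulVec, ← Matrix.mulVec_transpose, Matrix.J_transpose, Matrix.neg_mulVec,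
    neg_dotProduct, dotProduct_comm]

theorem sympf_invariant {A : Matrix (l ⊕ l) (l ⊕ l) F} (hA : A ∈ Matrix.symplecticGroup l F)
    (u v : l ⊕ l → F) :
    (A *ᵥ u) ⬝ᵥ (Matrix.J l F *ᵥ (A *ᵥ v)) = u ⬝ᵥ (Matrix.J l F *ᵥ v) := by
  have h := SymplecticGroup.mem_iff'.1 hA
  calc (A *ᵥ u) ⬝ᵥ (Matrix.J l F *ᵥ (A *ᵥ v))
      = u ⬝ᵥ (Aᵀ *ᵥ (Matrix.J l F *ᵥ (A *ᵥ v))) := by
        rw [dotProduct_comm, Matrix.dotProduct_mulVec, ← Matrix.mulVec_transpose, dotProduct_comm]
    _ = u ⬝ᵥ ((Aᵀ * Matrix.J l F * A) *ᵥ v) := by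
        rw [Matrix.mulVec_mulVec, Matrix.mulVec_mulVec]
    _ = _ := by rw [h]

end Symp

section Main

variable {F : Type*} [Field F] [Fintype F]

theorem fixSp_isotropic (hF : Fintype.card F = 3)
    (M : Matrix (Fin 2 ⊕ Fin 2) (Fin 2 ⊕ Fin 2) F) (hMs : M ∈ Matrix.symplecticGroup (Fin 2) F)
    (hM3 : M * M * M = 1) (h2 : Module.finrank F (fixSp M) = 2)
    (v w : Fin 2 ⊕ Fin 2 → F) (hv : M *ᵥ v = v) (hw : M *ᵥ w = w) :
    v ⬝ᵥ (Matrix.J (Fin 2) F *ᵥ w) = 0 := by
  by_contra hc
  have h3 := three_eq_zero_of_card hF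
  have h2ne : (2 : F) ≠ 0 := by
    intro h
    have h1 : (1 : F) = 0 := by linear_combination h3 - h
    exact one_ne_zero h1
  have halt : ∀ u : Fin 2 ⊕ Fin 2 → F, u ⬝ᵥ (Matrix.J (Fin 2) F *ᵥ u) = 0 := by
    intro u
    have h := sympf_skew (F := F) u u
    have h' : (2 : F) * (u ⬝ᵥ (Matrix.J (Fin 2) F *ᵥ u)) = 0 := by linear_combination h
    rcases mul_eq_zero.1 h' with h0 | h0
    · exact absurd h0 h2ne
    · exact h0
  let A : Matrix (Fin 2) (Fin 2 ⊕ Fin 2) F :=
    Matrix.of ![Matrix.J (Fin 2) F *ᵥ v, Matrix.J (Fin 2) F *ᵥ w]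
  have hA : ∀ u : Fin 2 ⊕ Fin 2 → F, A *ᵥ u = 0 ↔
      (u ⬝ᵥ (Matrix.J (Fin 2) F *ᵥ v) = 0 ∧ u ⬝ᵥ (Matrix.J (Fin 2) F *ᵥ w) = 0) := by
    intro u
    constructor
    · intro h
      have h0 := congrFun h 0
      have h1 := congrFun h 1
      constructor
      · rw [dotProduct_comm]
        exact h0
      · rw [dotProduct_comm]
        exact h1
    · rintro ⟨h0, h1⟩
      funext i
      fin_cases i
      · rw [dotProduct_comm] at h0
        exact h0
      · rw [dotProduct_comm] at h1
        exact h1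
  have hUinv : ∀ u ∈ LinearMap.ker (Matrix.toLin' A), M *ᵥ u ∈ LinearMap.ker (Matrix.toLin' A) := by
    intro u hu
    rw [LinearMap.mem_ker, Matrix.toLin'_apply, hA] at hu ⊢
    constructor
    · have := sympf_invariant hMs u v
      rw [hv] at this
      rw [this]
      exact hu.1
    · have := sympf_invariant hMs u w
      rw [hw] at this
      rw [this]
      exact hu.2
  have hUne : LinearMap.ker (Matrix.toLin' A) ≠ ⊥ := by
    intro h
    have hrk := LinearMap.finrank_range_add_finrank_ker (Matrix.toLin' A)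
    rw [h, finrank_bot, add_zero, finrank_V4] at hrk
    have hle := Submodule.finrank_le (LinearMap.range (Matrix.toLin' A))
    rw [hrk] at hle
    simp at hle
  obtain ⟨u, huU, hu0, hu⟩ := exists_fixed_of_cube hF M hM3 _ hUinv hUne
  rw [LinearMap.mem_ker, Matrix.toLin'_apply, hA] at huU
  have hli : LinearIndependent F (![⟨v, mem_fixSp.2 hv⟩, ⟨w, mem_fixSp.2 hw⟩,
      ⟨u, mem_fixSp.2 hu⟩] : Fin 3 → fixSp M) := by
    rw [Fintype.linearIndependent_iff]
    intro g hg
    have hg' := congrArg (fun z : fixSp M => (z : Fin 2 ⊕ Fin 2 → F)) hg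
    simp only [Fin.sum_univ_three, Matrix.cons_val_zero, Matrix.cons_val_one, Matrix.cons_val_two,
      Matrix.head_cons, Matrix.tail_cons, Submodule.coe_add, Submodule.coe_smul,
      Submodule.coe_zero] at hg'
    have e1 := congrArg (fun z : Fin 2 ⊕ Fin 2 → F => z ⬝ᵥ (Matrix.J (Fin 2) F *ᵥ w)) hg'
    simp only [add_dotProduct, smul_dotProduct, halt w, huU.2, smul_eq_mul, mul_zero, add_zero,
      zero_dotProduct] at e1
    have hg0 : g 0 = 0 := by
      rcases mul_eq_zero.1 e1 with h | h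
      · exact h
      · exact absurd h hc
    have e2 := congrArg (fun z : Fin 2 ⊕ Fin 2 → F => z ⬝ᵥ (Matrix.J (Fin 2) F *ᵥ v)) hg'
    simp only [add_dotProduct, smul_dotProduct, halt v, huU.1, smul_eq_mul, mul_zero, add_zero,
      zero_dotProduct, zero_add] at e2
    have hg1 : g 1 = 0 := by
      rcases mul_eq_zero.1 e2 with h | h
      · exact h
      · exfalso
        apply hc
        rw [sympf_skew, h, neg_zero]
    rw [hg0, hg1, zero_smul, zero_smul, zero_add, zero_add] at hg'
    have hg2 : g 2 = 0 := by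
      rcases smul_eq_zero.1 hg' with h | h
      · exact h
      · exact absurd h hu0
    intro i
    fin_cases i
    · exact hg0
    · exact hg1
    · exact hg2
  have hcard := hli.fintype_card_le_finrank
  rw [h2, Fintype.card_fin] at hcard
  omega

end Main

end Cfsg.Agent.Helper38
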