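import Mathlib
import Cfsg.Prelude.Def_Classical
import Cfsg.Agent.Helper38.SU3Graph

/-!
# Distance distribution in the commuting involution graph of `SU_3(q)` (helper38)

`invA/invB/invC t x`: `x` is an involution at distance `1`, `2`, `3` from the involution `t`;
`invD t`: every involution is within distance `3` of `t`.  All are invariant under group
automorphisms (`invA_map`, ...), and for `t = su3T0` the counts are
`q (q-1)`, `q (q-2) (q^2-1)`, `(q+1) (q^2-1)`.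
-/

set_option autoImplicit false
set_option linter.unusedSectionVars false

namespace Cfsg.Agent.Helper38

open Matrix
open Cfsg.Agent.Helper44 (hfg hfg_add_left hfg_smul_left hfg_add_right hfg_smul_right
  hfg_zero_left hfg_zero_right hfg_symm hfg_single_left hfg_single_right hfg_eq_hermForm)

section Transfer

variable {G : Type*} [Group G]

/-- involutions `≠ t` commuting with `t` -/
def invA (t x : G) : Prop := x ≠ 1 ∧ x * x = 1 ∧ x ≠ t ∧ Commute t x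

/-- involutions at distance two from `t` -/
def invB (t x : G) : Prop :=
  x ≠ 1 ∧ x * x = 1 ∧ ¬ Commute t x ∧ ∃ y : G, y ≠ 1 ∧ y * y = 1 ∧ Commute t y ∧ Commute y x

/-- involutions at distance at least three from `t` -/
def invC (t x : G) : Prop :=
  x ≠ 1 ∧ x * x = 1 ∧ ¬ Commute t x ∧
    ∀ y : G, y ≠ 1 → y * y = 1 → ¬ (Commute t y ∧ Commute y x)

/-- every involution is within distance three of `t` -/
def invD (t : G) : Prop :=
  ∀ x : G, x ≠ 1 → x * x = 1 →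
    ∃ y z : G, y ≠ 1 ∧ y * y = 1 ∧ z ≠ 1 ∧ z * z = 1 ∧ Commute t y ∧ Commute y z ∧ Commute z x

theorem mulEquiv_commute_iff (φ : G ≃* G) (a b : G) : Commute (φ a) (φ b) ↔ Commute a b := by
  unfold Commute SemiconjBy
  rw [← map_mul, ← map_mul, φ.injective.eq_iff]

theorem mulEquiv_ne_one_iff (φ : G ≃* G) (a : G) : φ a ≠ 1 ↔ a ≠ 1 := by
  rw [Ne, Ne, φ.map_eq_one_iff]

theorem mulEquiv_sq_iff (φ : G ≃* G) (a : G) : φ a * φ a = 1 ↔ a * a = 1 := by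
  rw [← map_mul, φ.map_eq_one_iff]

theorem invA_map (φ : G ≃* G) (t x : G) : invA (φ t) (φ x) ↔ invA t x := by
  unfold invA
  rw [mulEquiv_ne_one_iff, mulEquiv_sq_iff, mulEquiv_commute_iff, φ.injective.ne_iff]

theorem invB_map (φ : G ≃* G) (t x : G) : invB (φ t) (φ x) ↔ invB t x := by
  unfold invB
  rw [mulEquiv_ne_one_iff, mulEquiv_sq_iff, mulEquiv_commute_iff, φ.surjective.exists]
  simp only [mulEquiv_ne_one_iff, mulEquiv_sq_iff, mulEquiv_commute_iff]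

theorem invC_map (φ : G ≃* G) (t x : G) : invC (φ t) (φ x) ↔ invC t x := by
  unfold invC
  rw [mulEquiv_ne_one_iff, mulEquiv_sq_iff, mulEquiv_commute_iff, φ.surjective.forall]
  simp only [mulEquiv_ne_one_iff, mulEquiv_sq_iff, mulEquiv_commute_iff]

theorem invD_map (φ : G ≃* G) (t : G) (h : invD t) : invD (φ t) := by
  intro x hx1 hx2
  obtain ⟨x', rfl⟩ := φ.surjective x
  rw [mulEquiv_ne_one_iff] at hx1
  rw [mulEquiv_sq_iff] at hx2
  obtain ⟨y, z, hy1, hy2, hz1, hz2, h1, h3, h4⟩ := h x' hx1 hx2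
  exact ⟨φ y, φ z, (mulEquiv_ne_one_iff φ y).mpr hy1, (mulEquiv_sq_iff φ y).mpr hy2,
    (mulEquiv_ne_one_iff φ z).mpr hz1, (mulEquiv_sq_iff φ z).mpr hz2,
    (mulEquiv_commute_iff φ t y).mpr h1, (mulEquiv_commute_iff φ y z).mpr h3,
    (mulEquiv_commute_iff φ z x').mpr h4⟩

theorem natCard_inv_map (P : G → G → Prop)
    (hP : ∀ (φ : G ≃* G) (t x : G), P (φ t) (φ x) ↔ P t x) (φ : G ≃* G) (t : G) :
    Nat.card {x // P (φ t) x} = Nat.card {x // P t x} :=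
  (Nat.card_congr (φ.toEquiv.subtypeEquiv (fun x => (hP φ t x).symm))).symm

end Transfer

section T0

variable {F : Type*} [Field F] [Fintype F] {q : ℕ}

theorem su3_t0_card_A (hF : Fintype.card F = q ^ 2) (h2 : (2 : F) ≠ 0) {τ : F →+* F}
    (hτ : ∀ x, τ x = x ^ q) :
    Nat.card {x : ↥(Cfsg.SU 3 F q) // invA (su3T0 hτ) x} = q * (q - 1) := by
  have hq := su3_q_two_le hF
  have hiff : ∀ (x : ↥(Cfsg.SU 3 F q)) (b : Fin 3 → F), x ≠ 1 → x * x = 1 → hfg τ b b = 1 →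
      IsAxis τ (suMat x) b → (invA (su3T0 hτ) x ↔ (hfg τ b b = 1 ∧ b 0 = 0)) := by
    intro x b hx1 hx2 hb hxb
    constructor
    · rintro ⟨-, -, hne, hc⟩
      refine ⟨hb, ?_⟩
      rcases (su3_commute_t0_iff hF h2 hτ hxb).mp hc with h | h
      · exact h
      · exact absurd h.symm hne
    · rintro ⟨-, hb0⟩
      refine ⟨hx1, hx2, ?_, (su3_commute_t0_iff hF h2 hτ hxb).mpr (Or.inl hb0)⟩
      intro hxt
      obtain ⟨h1, h3⟩ := (su3_eq_t0_iff h2 hτ hxb).mp hxt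
      apply hxb.ne_zero
      ext i
      fin_cases i
      · exact hb0
      · exact h1
      · exact h3
  have h := su3_natCard_axes hF h2 hτ (fun x => invA (su3T0 hτ) x)
    (fun b => hfg τ b b = 1 ∧ b 0 = 0) (fun x hx => ⟨hx.1, hx.2.1⟩) (fun b hb => hb.1) hiff
  rw [su3_natCard_norm_one_zero hF hτ] at h
  have harith : q * (q ^ 2 - 1) = (q + 1) * (q * (q - 1)) := by
    have hone : 1 ≤ q ^ 2 := Nat.one_le_pow _ _ (by omega)
    have hq1 : 1 ≤ q := by omega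
    zify [hone, hq1]
    ring
  exact Nat.eq_of_mul_eq_mul_left (by omega : 0 < q + 1) (h.symm.trans harith)

theorem su3_t0_iff_C (hF : Fintype.card F = q ^ 2) (h2 : (2 : F) ≠ 0) {τ : F →+* F}
    (hτ : ∀ x, τ x = x ^ q) (x : ↥(Cfsg.SU 3 F q)) (b : Fin 3 → F) (hx1 : x ≠ 1)
    (hx2 : x * x = 1) (hb : hfg τ b b = 1) (hxb : IsAxis τ (suMat x) b) :
    invC (su3T0 hτ) x ↔ (hfg τ b b = 1 ∧ b 0 * τ (b 0) = 1 ∧ ¬ (b 1 = 0 ∧ b 2 = 0)) := by
  have hτ2 := su3_tau_tau hF hτ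
  have h0 : IsAxis τ (suMat (su3T0 hτ)) (Pi.single 0 1) := by
    rw [suMat_su3T0]
    exact isAxis_diag0
  have he0 : hfg τ (Pi.single 0 1 : Fin 3 → F) (Pi.single 0 1) = 1 := by
    rw [hfg_single_right]
    simp
  constructor
  · rintro ⟨-, -, hnc, hall⟩
    have hxt : x ≠ su3T0 hτ :=
      fun h => hnc ((su3_commute_t0_iff hF h2 hτ hxb).mpr (Or.inr h.symm))
    refine ⟨hb, ?_, fun h => hxt ((su3_eq_t0_iff h2 hτ hxb).mpr h)⟩
    by_contra hN
    have hN' : hfg τ (Pi.single 0 1) b * τ (hfg τ (Pi.single 0 1) b) ≠ 1 := by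
      rw [hfg_single_left, hτ2, mul_comm]
      exact hN
    obtain ⟨z, d, hz1, hz2, hzd, hd0, hdb⟩ :=
      su3_exists_common hF h2 hτ (Pi.single 0 1) b he0 hb hN'
    apply hall z hz1 hz2
    constructor
    · rw [su3_commute_iff hF h2 hτ h0 hzd]
      left
      rw [← hfg_symm τ hτ2, hd0, map_zero]
    · rw [su3_commute_iff hF h2 hτ hzd hxb]
      left
      exact hdb
  · rintro ⟨-, hN, hnz⟩
    have hb0 : b 0 ≠ 0 := by
      rintro h
      rw [h, zero_mul] at hN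
      exact zero_ne_one hN
    have hxt : x ≠ su3T0 hτ := fun h => hnz ((su3_eq_t0_iff h2 hτ hxb).mp h)
    have hnc : ¬ Commute (su3T0 hτ) x := by
      intro hc
      rcases (su3_commute_t0_iff hF h2 hτ hxb).mp hc with h | h
      · exact hb0 h
      · exact hxt h.symm
    refine ⟨hx1, hx2, hnc, ?_⟩
    rintro y hy1 hy2 ⟨hcy, hyx⟩
    obtain ⟨c, hc, hyc⟩ := su3_exists_axis hF h2 hτ y hy1 hy2
    have hyt : su3T0 hτ ≠ y := by
      rintro h
      rw [← h] at hyx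
      exact hnc hyx
    have hyx' : y ≠ x := by
      rintro h
      rw [h] at hcy
      exact hnc hcy
    have hc0 : c 0 = 0 := by
      rcases (su3_commute_t0_iff hF h2 hτ hyc).mp hcy with h | h
      · exact h
      · exact absurd h hyt
    have hcb : hfg τ c b = 0 := by
      rcases (su3_commute_iff hF h2 hτ hyc hxb).mp hyx with h | h
      · exact h
      · exact absurd h hyx'
    rw [hfg_three, hc0, zero_mul, zero_add] at hcb
    have ec := hc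
    rw [hfg_three, hc0, zero_mul, zero_add] at ec
    have eb := hb
    rw [hfg_three, hN] at eb
    have eb' : b 1 * τ (b 1) + b 2 * τ (b 2) = 0 := by linear_combination eb
    have e1' : τ (c 1) * b 1 + τ (c 2) * b 2 = 0 := by
      have h5 := congrArg τ hcb
      simpa [map_add, map_mul, hτ2] using h5
    have hb1 : b 1 * τ (b 1) = 0 := by
      linear_combination (-(b 1 * τ (b 1))) * ec + (c 2 * τ (c 2)) * eb' +
        (τ (c 1) * b 1) * hcb - (c 2 * τ (b 2)) * e1'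
    have hb1' : b 1 = 0 := by
      rcases mul_eq_zero.mp hb1 with h | h
      · exact h
      · exact (map_eq_zero τ).mp h
    have hb2 : b 2 * τ (b 2) = 0 := by
      rw [hb1', zero_mul, zero_add] at eb'
      exact eb'
    have hb2' : b 2 = 0 := by
      rcases mul_eq_zero.mp hb2 with h | h
      · exact h
      · exact (map_eq_zero τ).mp h
    exact hnz ⟨hb1', hb2'⟩

theorem su3_t0_card_C (hF : Fintype.card F = q ^ 2) (h2 : (2 : F) ≠ 0) {τ : F →+* F}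
    (hτ : ∀ x, τ x = x ^ q) :
    Nat.card {x : ↥(Cfsg.SU 3 F q) // invC (su3T0 hτ) x} = (q + 1) * (q ^ 2 - 1) := by
  have h := su3_natCard_axes hF h2 hτ (fun x => invC (su3T0 hτ) x)
    (fun b => hfg τ b b = 1 ∧ b 0 * τ (b 0) = 1 ∧ ¬ (b 1 = 0 ∧ b 2 = 0))
    (fun x hx => ⟨hx.1, hx.2.1⟩) (fun b hb => hb.1)
    (fun x b hx1 hx2 hb hxb => su3_t0_iff_C hF h2 hτ x b hx1 hx2 hb hxb)
  rw [su3_natCard_norm_one_iso hF hτ] at h
  exact Nat.eq_of_mul_eq_mul_left (by omega : 0 < q + 1) (h.symm.trans (by ring))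

theorem su3_t0_card_B (hF : Fintype.card F = q ^ 2) (h2 : (2 : F) ≠ 0) (hq3 : 3 ≤ q)
    {τ : F →+* F} (hτ : ∀ x, τ x = x ^ q) :
    Nat.card {x : ↥(Cfsg.SU 3 F q) // invB (su3T0 hτ) x} = q * (q - 2) * (q ^ 2 - 1) := by
  classical
  have hI := su3_card_invol (q := q) hF h2
  have hA := su3_t0_card_A hF h2 hτ
  have hC := su3_t0_card_C hF h2 hτ
  have s1 := natCard_and_not (fun x : ↥(Cfsg.SU 3 F q) => x ≠ 1 ∧ x * x = 1)
    (fun x => (x ≠ 1 ∧ x * x = 1) ∧ Commute (su3T0 hτ) x) (fun x hx => hx.1)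
  have s2 := natCard_and_not
    (fun x : ↥(Cfsg.SU 3 F q) => (x ≠ 1 ∧ x * x = 1) ∧ Commute (su3T0 hτ) x)
    (fun x => x = su3T0 hτ) (fun x hx => by
      subst hx
      exact ⟨⟨su3T0_ne_one h2 hτ, su3T0_mul_self hτ⟩, Commute.refl _⟩)
  have s3 := natCard_and_not
    (fun x : ↥(Cfsg.SU 3 F q) => (x ≠ 1 ∧ x * x = 1) ∧ ¬ Commute (su3T0 hτ) x)
    (fun x => invB (su3T0 hτ) x) (fun x hx => ⟨⟨hx.1, hx.2.1⟩, hx.2.2.1⟩)
  have e1 : Nat.card {x : ↥(Cfsg.SU 3 F q) // (x ≠ 1 ∧ x * x = 1) ∧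
      ¬ ((x ≠ 1 ∧ x * x = 1) ∧ Commute (su3T0 hτ) x)}
      = Nat.card {x : ↥(Cfsg.SU 3 F q) // (x ≠ 1 ∧ x * x = 1) ∧ ¬ Commute (su3T0 hτ) x} :=
    Nat.card_congr (Equiv.subtypeEquivRight (fun x => by tauto))
  have e2 : Nat.card {x : ↥(Cfsg.SU 3 F q) // ((x ≠ 1 ∧ x * x = 1) ∧ Commute (su3T0 hτ) x) ∧
      ¬ x = su3T0 hτ} = Nat.card {x : ↥(Cfsg.SU 3 F q) // invA (su3T0 hτ) x} :=
    Nat.card_congr (Equiv.subtypeEquivRight (fun x => by unfold invA; tauto))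
  have e3 : Nat.card {x : ↥(Cfsg.SU 3 F q) // x = su3T0 hτ} = 1 :=
    Nat.card_eq_one_iff_exists.mpr ⟨⟨su3T0 hτ, rfl⟩, fun ⟨y, hy⟩ => Subtype.ext hy⟩
  have e4 : Nat.card {x : ↥(Cfsg.SU 3 F q) // ((x ≠ 1 ∧ x * x = 1) ∧ ¬ Commute (su3T0 hτ) x) ∧
      ¬ invB (su3T0 hτ) x} = Nat.card {x : ↥(Cfsg.SU 3 F q) // invC (su3T0 hτ) x} := by
    refine Nat.card_congr (Equiv.subtypeEquivRight (fun x => ?_))
    constructor
    · rintro ⟨⟨⟨h1, h3⟩, h4⟩, h5⟩
      exact ⟨h1, h3, h4, fun y hy1 hy2 hcc => h5 ⟨h1, h3, h4, y, hy1, hy2, hcc.1, hcc.2⟩⟩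
    · rintro ⟨h1, h3, h4, h5⟩
      refine ⟨⟨⟨h1, h3⟩, h4⟩, ?_⟩
      rintro ⟨-, -, -, y, hy1, hy2, hc1, hc2⟩
      exact h5 y hy1 hy2 ⟨hc1, hc2⟩
  rw [e1] at s1
  rw [e2, e3, hA] at s2
  rw [e4, hC] at s3
  rw [hI, ← s2, ← s3] at s1
  have hone : 1 ≤ q ^ 2 := Nat.one_le_pow _ _ (by omega)
  have hqq : q ≤ q ^ 2 := by nlinarith
  have harith : (q + 1) * (q ^ 2 - 1) + q * (q - 2) * (q ^ 2 - 1) + (q * (q - 1) + 1)
      = q ^ 2 * (q ^ 2 - q + 1) := by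
    have hq1 : 1 ≤ q := by omega
    have hq2 : 2 ≤ q := by omega
    zify [hone, hqq, hq1, hq2]
    ring
  omega

theorem su3_t0_diam (hF : Fintype.card F = q ^ 2) (h2 : (2 : F) ≠ 0) {τ : F →+* F}
    (hτ : ∀ x, τ x = x ^ q) : invD (su3T0 hτ) := by
  intro x hx1 hx2
  have hτ2 := su3_tau_tau hF hτ
  have ht1 := su3T0_ne_one h2 hτ
  have ht2 := su3T0_mul_self hτ
  by_cases hc : Commute (su3T0 hτ) x
  · exact ⟨su3T0 hτ, su3T0 hτ, ht1, ht2, ht1, ht2, Commute.refl _, Commute.refl _, hc⟩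
  by_cases hex : ∃ y : ↥(Cfsg.SU 3 F q), y ≠ 1 ∧ y * y = 1 ∧ Commute (su3T0 hτ) y ∧ Commute y x
  · obtain ⟨y, hy1, hy2, hty, hyx⟩ := hex
    exact ⟨y, x, hy1, hy2, hx1, hx2, hty, hyx, Commute.refl _⟩
  obtain ⟨b, hb, hxb⟩ := su3_exists_axis hF h2 hτ x hx1 hx2
  have hC := (su3_t0_iff_C hF h2 hτ x b hx1 hx2 hb hxb).mp
    ⟨hx1, hx2, hc, fun y hy1 hy2 hcc => hex ⟨y, hy1, hy2, hcc.1, hcc.2⟩⟩
  obtain ⟨-, hN, hnz⟩ := hC
  have eb := hb
  rw [hfg_three, hN] at eb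
  have eb' : b 1 * τ (b 1) + b 2 * τ (b 2) = 0 := by linear_combination eb
  have hchoice : ∃ i : Fin 3, i ≠ 0 ∧ b i * τ (b i) ≠ 1 := by
    by_cases h1 : b 1 * τ (b 1) = 1
    · refine ⟨2, by decide, ?_⟩
      intro h3
      rw [h1, h3] at eb'
      apply h2
      linear_combination eb'
    · exact ⟨1, by decide, h1⟩
  obtain ⟨i, hi0, hi⟩ := hchoice
  have hcc : hfg τ (Pi.single i 1 : Fin 3 → F) (Pi.single i 1) = 1 := by
    rw [hfg_single_right]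
    simp
  obtain ⟨g, hg⟩ := su3_exists_invol hF hτ (Pi.single i 1) hcc
  obtain ⟨hy1, hy2⟩ := su3_conj_t0_invol h2 hτ g
  have hty : Commute (su3T0 hτ) (g * su3T0 hτ * g⁻¹) := by
    rw [su3_commute_t0_iff hF h2 hτ hg]
    left
    exact Pi.single_eq_of_ne hi0.symm 1
  have hN' : hfg τ (Pi.single i 1) b * τ (hfg τ (Pi.single i 1) b) ≠ 1 := by
    rw [hfg_single_left, hτ2, mul_comm]
    exact hi
  obtain ⟨z, d, hz1, hz2, hzd, hdc, hdb⟩ :=
    su3_exists_common hF h2 hτ (Pi.single i 1) b hcc hb hN'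
  refine ⟨g * su3T0 hτ * g⁻¹, z, hy1, hy2, hz1, hz2, hty, ?_, ?_⟩
  · rw [su3_commute_iff hF h2 hτ hg hzd]
    left
    rw [← hfg_symm τ hτ2, hdc, map_zero]
  · rw [su3_commute_iff hF h2 hτ hzd hxb]
    left
    exact hdb

/-- The distance distribution from an arbitrary involution of `SU_3(q)`, `q` odd. -/
theorem su3_dist (hF : Fintype.card F = q ^ 2) (hq : Odd q) (t : ↥(Cfsg.SU 3 F q))
    (ht1 : t ≠ 1) (ht2 : t * t = 1) :
    Nat.card {x : ↥(Cfsg.SU 3 F q) // invA t x} = q * (q - 1) ∧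
    Nat.card {x : ↥(Cfsg.SU 3 F q) // invB t x} = q * (q - 2) * (q ^ 2 - 1) ∧
    Nat.card {x : ↥(Cfsg.SU 3 F q) // invC t x} = (q + 1) * (q ^ 2 - 1) ∧ invD t := by
  have h2 := su3_two_ne_zero hF hq
  have hq3 : 3 ≤ q := by
    have := su3_q_two_le hF
    obtain ⟨k, rfl⟩ := hq
    omega
  obtain ⟨τ, hτ⟩ := Cfsg.Agent.Helper44.exists_conj hF
  obtain ⟨g, hg⟩ := su3_exists_conj_t0 hF h2 hτ t ht1 ht2
  have ht : t = MulAut.conj g (su3T0 hτ) := by rw [MulAut.conj_apply, hg]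
  rw [ht]
  refine ⟨?_, ?_, ?_, ?_⟩
  · rw [natCard_inv_map invA invA_map]
    exact su3_t0_card_A hF h2 hτ
  · rw [natCard_inv_map invB invB_map]
    exact su3_t0_card_B hF h2 hq3 hτ
  · rw [natCard_inv_map invC invC_map]
    exact su3_t0_card_C hF h2 hτ
  · exact invD_map _ _ (su3_t0_diam hF h2 hτ)

end T0

end Cfsg.Agent.Helper38
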